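import Mathlib
import Cfsg.Prelude.Def_GeometricClasses
import Cfsg.Agent.Lib.Helper97.Transv

/-!
# Field subalgebras of matrix algebras and their normalisers

Helper library (helper97) for S5887: for a field subalgebra `K` of `Matrix (Fin n) (Fin n) F`
(`Cfsg.Geo.IsFieldSubalgebra r K`) over a finite field `F`, the elements fixed by a power of the
Frobenius form a field subalgebra `frobSub K Q …`, whose normaliser contains the normaliser of `K`.

* `ff_exists_frob`: in a finite field of order `q ^ (a * b)` (`1 < a`, `1 < b`) there is an element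
  not fixed by `x ↦ x ^ (q ^ a)`, and an element fixed by it which is not fixed by `x ↦ x ^ q`.
* `exists_nilp_commuting`: a square-zero matrix commuting with the image of a field.
* `exists_sl_not_normalizer`: a transvection does not normalise a field subalgebra containing a
  non-scalar matrix (`3 ≤ n`).
* `exists_sl_normalizer_not`: for field subalgebras `K₀ < K` with `2 * dim K ≤ n` there is an
  element of determinant `1` normalising (centralising) `K₀` but not normalising `K`.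
-/

set_option autoImplicit false

namespace Cfsg.Agent.Lib.Helper97

open Matrix

/-- In a finite field with `q ^ (a * b)` elements, `1 < a`, `1 < b`: some element is moved by
`x ↦ x ^ (q ^ a)`, and some element fixed by `x ↦ x ^ (q ^ a)` is moved by `x ↦ x ^ q`. -/
theorem ff_exists_frob {L : Type*} [Field L] [Finite L] (q a b : ℕ) (hq : 1 < q) (ha : 1 < a)
    (hb : 1 < b) (hcard : Nat.card L = q ^ (a * b)) :
    (∃ g : L, g ^ (q ^ a) ≠ g) ∧ ∃ x : L, x ^ (q ^ a) = x ∧ x ^ q ≠ x := by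
  obtain ⟨g, hg⟩ := IsCyclic.exists_generator (α := Lˣ)
  have hord : orderOf g = q ^ (a * b) - 1 := by
    rw [orderOf_eq_card_of_forall_mem_zpowers hg, Nat.card_units, hcard]
  have hqa : 1 < q ^ a := Nat.one_lt_pow (by omega) hq
  have hqab : q ^ a < q ^ (a * b) := Nat.pow_lt_pow_right hq (by nlinarith)
  constructor
  · refine ⟨(g : L), fun h => ?_⟩
    have h1 : g ^ (q ^ a - 1) = 1 := by
      apply Units.ext
      rw [Units.val_pow_eq_pow_val, Units.val_one]
      have hg0 : (g : L) ≠ 0 := g.ne_zero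
      have h2 : (g : L) ^ (q ^ a - 1) * g = 1 * g := by
        rw [← pow_succ, Nat.sub_add_cancel hqa.le, h, one_mul]
      exact mul_right_cancel₀ hg0 h2
    have h2 := orderOf_dvd_of_pow_eq_one h1
    rw [hord] at h2
    have h3 := Nat.le_of_dvd (by omega) h2
    omega
  · obtain ⟨m, hm⟩ : q ^ a - 1 ∣ q ^ (a * b) - 1 :=
      Nat.pow_sub_one_dvd_pow_sub_one q (Dvd.intro b rfl)
    have hmpos : 0 < m := by
      rcases Nat.eq_zero_or_pos m with rfl | h
      · rw [mul_zero] at hm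
        omega
      · exact h
    refine ⟨((g ^ m : Lˣ) : L), ?_, fun h => ?_⟩
    · have h1 : (g ^ m) ^ (q ^ a - 1) = 1 := by
        rw [← pow_mul, mul_comm, ← hm, ← hord]
        exact pow_orderOf_eq_one g
      have h2 : ((g ^ m : Lˣ) : L) ^ (q ^ a - 1) = 1 := by
        rw [← Units.val_pow_eq_pow_val, h1, Units.val_one]
      calc ((g ^ m : Lˣ) : L) ^ (q ^ a)
          = ((g ^ m : Lˣ) : L) ^ (q ^ a - 1) * ((g ^ m : Lˣ) : L) := by
            rw [← pow_succ, Nat.sub_add_cancel hqa.le]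
        _ = ((g ^ m : Lˣ) : L) := by rw [h2, one_mul]
    · have h1 : (g ^ m) ^ (q - 1) = 1 := by
        apply Units.ext
        rw [Units.val_pow_eq_pow_val, Units.val_one]
        have hne : ((g ^ m : Lˣ) : L) ≠ 0 := Units.ne_zero _
        have h2 : ((g ^ m : Lˣ) : L) ^ (q - 1) * ((g ^ m : Lˣ) : L) = 1 * ((g ^ m : Lˣ) : L) := by
          rw [← pow_succ, Nat.sub_add_cancel hq.le, h, one_mul]
        exact mul_right_cancel₀ hne h2
      rw [← pow_mul] at h1
      have h2 := orderOf_dvd_of_pow_eq_one h1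
      rw [hord, hm, mul_comm] at h2
      have h3 : q ^ a - 1 ∣ q - 1 := Nat.dvd_of_mul_dvd_mul_left hmpos h2
      have h4 := Nat.le_of_dvd (by omega) h3
      have h5 : q ^ 1 < q ^ a := Nat.pow_lt_pow_right hq ha
      rw [pow_one] at h5
      omega

variable {F : Type*} [Field F] {n : ℕ}

/-- A square-zero matrix commuting with the image of a field `L` in the matrix algebra, with
range inside `L v`. -/
theorem exists_nilp_commuting {L : Type*} [Field L]
    (φ : L →+* Matrix (Fin n) (Fin n) F)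
    (hsc : ∀ c : F, ∃ l : L, φ l = c • (1 : Matrix (Fin n) (Fin n) F))
    (v v₂ : Fin n → F) (hv : v ≠ 0) (hv₂ : ∀ l : L, φ l *ᵥ v ≠ v₂) :
    ∃ N : Matrix (Fin n) (Fin n) F, N ≠ 0 ∧ N * N = 0 ∧ (∀ l : L, N * φ l = φ l * N) ∧
      ∀ w, ∃ l : L, N *ᵥ w = φ l *ᵥ v := by
  let _ : Module L (Fin n → F) :=
    Module.compHom (Fin n → F)
      ((Matrix.toLinAlgEquiv' : Matrix (Fin n) (Fin n) F ≃ₐ[F] _).toRingEquiv.toRingHom.comp φ)
  have hsmul : ∀ (l : L) (w : Fin n → F), l • w = φ l *ᵥ w := fun l w => rfl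
  have hnot : v₂ ∉ Submodule.span L {v} := by
    rw [Submodule.mem_span_singleton]
    rintro ⟨l, hl⟩
    exact hv₂ l (by rw [← hsmul]; exact hl)
  obtain ⟨ψ, hψ1, hψ2⟩ := Submodule.exists_le_ker_of_notMem hnot
  have hψv : ψ v = 0 := LinearMap.mem_ker.mp (hψ2 (Submodule.mem_span_singleton_self v))
  -- the `F`-linear map `w ↦ ψ w • v`
  let N' : (Fin n → F) →ₗ[F] (Fin n → F) :=
    { toFun := fun w => φ (ψ w) *ᵥ v
      map_add' := fun w w' => by
        rw [map_add, map_add, Matrix.add_mulVec]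
      map_smul' := fun c w => by
        obtain ⟨l, hl⟩ := hsc c
        have h1 : c • w = l • w := by
          rw [hsmul, hl, Matrix.smul_mulVec, Matrix.one_mulVec]
        rw [h1, map_smul, smul_eq_mul, map_mul, hl, RingHom.id_apply, ← Matrix.mulVec_mulVec,
          Matrix.smul_mulVec, Matrix.one_mulVec] }
  have hN' : ∀ w, N' w = φ (ψ w) *ᵥ v := fun w => rfl
  have hN : ∀ w, LinearMap.toMatrix' N' *ᵥ w = φ (ψ w) *ᵥ v := by
    intro w
    rw [← Matrix.toLin'_apply, Matrix.toLin'_toMatrix', hN']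
  refine ⟨LinearMap.toMatrix' N', ?_, ?_, ?_, fun w => ⟨ψ w, hN w⟩⟩
  · intro h0
    have h1 := hN v₂
    rw [h0, Matrix.zero_mulVec, ← hsmul] at h1
    exact smul_ne_zero hψ1 hv h1.symm
  · apply Matrix.mulVec_injective
    funext w
    rw [← Matrix.mulVec_mulVec, hN, hN, ← hsmul (ψ w) v, map_smul, smul_eq_mul, hψv, mul_zero,
      map_zero, Matrix.zero_mulVec, Matrix.zero_mulVec]
  · intro l
    apply Matrix.mulVec_injective
    funext w
    rw [← Matrix.mulVec_mulVec, ← Matrix.mulVec_mulVec, hN, hN, ← hsmul l w, map_smul, smul_eq_mul,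
      map_mul, Matrix.mulVec_mulVec]

/-- In a field subalgebra, a matrix killing a non-zero vector is zero. -/
theorem fs_eq_zero {r : ℕ} {K : Subalgebra F (Matrix (Fin n) (Fin n) F)}
    (hK : Cfsg.Geo.IsFieldSubalgebra r K) {D : Matrix (Fin n) (Fin n) F} (hD : D ∈ K)
    {w : Fin n → F} (hw : w ≠ 0) (h : D *ᵥ w = 0) : D = 0 := by
  by_contra hD0
  obtain ⟨E, hE, hDE⟩ := hK.inv D hD hD0
  have hED : E * D = 1 := by rw [hK.comm E hE D hD]; exact hDE
  apply hw
  calc w = (E * D) *ᵥ w := by rw [hED, Matrix.one_mulVec]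
    _ = 0 := by rw [← Matrix.mulVec_mulVec, h, Matrix.mulVec_zero]

/-- A field subalgebra is a field. -/
theorem fs_isField [Nonempty (Fin n)] {r : ℕ} {K : Subalgebra F (Matrix (Fin n) (Fin n) F)}
    (hK : Cfsg.Geo.IsFieldSubalgebra r K) : IsField ↥K where
  exists_pair_ne := ⟨0, 1, fun h => zero_ne_one (α := Matrix (Fin n) (Fin n) F)
    (congrArg Subtype.val h)⟩
  mul_comm a b := Subtype.ext (hK.comm a a.2 b b.2)
  mul_inv_cancel {a} ha := by
    obtain ⟨y, hy, hay⟩ := hK.inv a a.2 (fun h => ha (Subtype.ext h))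
    exact ⟨⟨y, hy⟩, Subtype.ext hay⟩

/-- The `F`-linear map `k ↦ k v` on a subalgebra of the matrix algebra. -/
def actLin (K : Subalgebra F (Matrix (Fin n) (Fin n) F)) (v : Fin n → F) :
    ↥K →ₗ[F] (Fin n → F) where
  toFun k := (k : Matrix (Fin n) (Fin n) F) *ᵥ v
  map_add' a b := by
    show ((a + b : ↥K) : Matrix (Fin n) (Fin n) F) *ᵥ v = _
    rw [Subalgebra.coe_add, Matrix.add_mulVec]
  map_smul' c a := by
    show ((c • a : ↥K) : Matrix (Fin n) (Fin n) F) *ᵥ v = _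
    rw [Subalgebra.coe_smul, Matrix.smul_mulVec, RingHom.id_apply]

lemma actLin_apply (K : Subalgebra F (Matrix (Fin n) (Fin n) F)) (v : Fin n → F) (k : ↥K) :
    actLin K v k = (k : Matrix (Fin n) (Fin n) F) *ᵥ v := rfl

/-- The elements of a commutative subalgebra fixed by `x ↦ x ^ Q`, when this map is additive and
fixes the scalars. -/
def frobSub (K : Subalgebra F (Matrix (Fin n) (Fin n) F)) (Q : ℕ)
    (hcomm : ∀ x ∈ K, ∀ y ∈ K, x * y = y * x)
    (hadd : ∀ x ∈ K, ∀ y ∈ K, (x + y) ^ Q = x ^ Q + y ^ Q)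
    (hsc : ∀ c : F, (algebraMap F (Matrix (Fin n) (Fin n) F) c) ^ Q = algebraMap F _ c) :
    Subalgebra F (Matrix (Fin n) (Fin n) F) where
  carrier := {k | k ∈ K ∧ k ^ Q = k}
  mul_mem' := by
    rintro x y ⟨hx, hxQ⟩ ⟨hy, hyQ⟩
    refine ⟨K.mul_mem hx hy, ?_⟩
    have hc : Commute x y := hcomm x hx y hy
    rw [hc.mul_pow, hxQ, hyQ]
  add_mem' := by
    rintro x y ⟨hx, hxQ⟩ ⟨hy, hyQ⟩
    refine ⟨K.add_mem hx hy, ?_⟩
    rw [hadd x hx y hy, hxQ, hyQ]
  algebraMap_mem' c := ⟨K.algebraMap_mem c, hsc c⟩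

lemma mem_frobSub {K : Subalgebra F (Matrix (Fin n) (Fin n) F)} {Q : ℕ}
    {hcomm : ∀ x ∈ K, ∀ y ∈ K, x * y = y * x}
    {hadd : ∀ x ∈ K, ∀ y ∈ K, (x + y) ^ Q = x ^ Q + y ^ Q}
    {hsc : ∀ c : F, (algebraMap F (Matrix (Fin n) (Fin n) F) c) ^ Q = algebraMap F _ c}
    {k : Matrix (Fin n) (Fin n) F} :
    k ∈ frobSub K Q hcomm hadd hsc ↔ k ∈ K ∧ k ^ Q = k := Iff.rfl

lemma frobSub_le {K : Subalgebra F (Matrix (Fin n) (Fin n) F)} {Q : ℕ}
    {hcomm : ∀ x ∈ K, ∀ y ∈ K, x * y = y * x}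
    {hadd : ∀ x ∈ K, ∀ y ∈ K, (x + y) ^ Q = x ^ Q + y ^ Q}
    {hsc : ∀ c : F, (algebraMap F (Matrix (Fin n) (Fin n) F) c) ^ Q = algebraMap F _ c} :
    frobSub K Q hcomm hadd hsc ≤ K := fun _ hk => hk.1

/-- The Frobenius-fixed subalgebra of a field subalgebra is a field subalgebra. -/
theorem frobSub_fs {r : ℕ} {K : Subalgebra F (Matrix (Fin n) (Fin n) F)}
    (hK : Cfsg.Geo.IsFieldSubalgebra r K) {Q : ℕ}
    {hcomm : ∀ x ∈ K, ∀ y ∈ K, x * y = y * x}
    {hadd : ∀ x ∈ K, ∀ y ∈ K, (x + y) ^ Q = x ^ Q + y ^ Q}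
    {hsc : ∀ c : F, (algebraMap F (Matrix (Fin n) (Fin n) F) c) ^ Q = algebraMap F _ c} :
    Cfsg.Geo.IsFieldSubalgebra (Module.finrank F (frobSub K Q hcomm hadd hsc))
      (frobSub K Q hcomm hadd hsc) where
  comm x hx y hy := hK.comm x hx.1 y hy.1
  inv x hx hx0 := by
    obtain ⟨y, hy, hxy⟩ := hK.inv x hx.1 hx0
    refine ⟨y, ⟨hy, ?_⟩, hxy⟩
    have hyx : y * x = 1 := by rw [hK.comm y hy x hx.1]; exact hxy
    have hc : Commute x y := hK.comm x hx.1 y hy
    have h1 : x * y ^ Q = 1 := by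
      have h2 : (x * y) ^ Q = 1 := by rw [hxy, one_pow]
      rw [hc.mul_pow, hx.2] at h2
      exact h2
    calc y ^ Q = (y * x) * y ^ Q := by rw [hyx, one_mul]
      _ = y := by rw [mul_assoc, h1, mul_one]
  finrank_eq := rfl

/-- The normaliser of a subalgebra normalises its Frobenius-fixed subalgebra. -/
theorem normalizer_le_frobSub {K : Subalgebra F (Matrix (Fin n) (Fin n) F)} {Q : ℕ}
    {hcomm : ∀ x ∈ K, ∀ y ∈ K, x * y = y * x}
    {hadd : ∀ x ∈ K, ∀ y ∈ K, (x + y) ^ Q = x ^ Q + y ^ Q}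
    {hsc : ∀ c : F, (algebraMap F (Matrix (Fin n) (Fin n) F) c) ^ Q = algebraMap F _ c} :
    Cfsg.Geo.subalgebraNormalizer K ≤
      Cfsg.Geo.subalgebraNormalizer (frobSub K Q hcomm hadd hsc) := by
  intro g hg k
  have hconj : ((g : Matrix (Fin n) (Fin n) F) * k * ((g⁻¹ : GL (Fin n) F) : Matrix (Fin n) (Fin n) F)) ^ Q
      = (g : Matrix (Fin n) (Fin n) F) * k ^ Q * ((g⁻¹ : GL (Fin n) F) : Matrix (Fin n) (Fin n) F) :=
    Units.conj_pow g k Q
  constructor
  · rintro ⟨hk, hkQ⟩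
    exact ⟨(hg k).mp hk, by rw [hconj, hkQ]⟩
  · rintro ⟨hk, hkQ⟩
    refine ⟨(hg k).mpr hk, ?_⟩
    rw [hconj] at hkQ
    have h1 : ((g⁻¹ : GL (Fin n) F) : Matrix (Fin n) (Fin n) F) *
          ((g : Matrix (Fin n) (Fin n) F) * k ^ Q *
            ((g⁻¹ : GL (Fin n) F) : Matrix (Fin n) (Fin n) F)) * (g : Matrix (Fin n) (Fin n) F) =
        ((g⁻¹ : GL (Fin n) F) : Matrix (Fin n) (Fin n) F) *
          ((g : Matrix (Fin n) (Fin n) F) * k *
            ((g⁻¹ : GL (Fin n) F) : Matrix (Fin n) (Fin n) F)) * (g : Matrix (Fin n) (Fin n) F) := by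
      rw [hkQ]
    have e : ∀ M : Matrix (Fin n) (Fin n) F,
        ((g⁻¹ : GL (Fin n) F) : Matrix (Fin n) (Fin n) F) *
          ((g : Matrix (Fin n) (Fin n) F) * M * ((g⁻¹ : GL (Fin n) F) : Matrix (Fin n) (Fin n) F)) *
          (g : Matrix (Fin n) (Fin n) F) = M := by
      intro M
      calc _ = (((g⁻¹ : GL (Fin n) F) : Matrix (Fin n) (Fin n) F) * (g : Matrix (Fin n) (Fin n) F)) * M *
            (((g⁻¹ : GL (Fin n) F) : Matrix (Fin n) (Fin n) F) * (g : Matrix (Fin n) (Fin n) F)) := by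
            simp only [mul_assoc]
        _ = M := by rw [Units.inv_mul, one_mul, mul_one]
    rw [e, e] at h1
    exact h1

/-- A transvection does not normalise a field subalgebra containing a non-scalar matrix. -/
theorem exists_sl_not_normalizer {d : ℕ} {K₀ : Subalgebra F (Matrix (Fin n) (Fin n) F)}
    (hK₀ : Cfsg.Geo.IsFieldSubalgebra d K₀) (hn : 3 ≤ n) {k₀ : Matrix (Fin n) (Fin n) F}
    (hk₀ : k₀ ∈ K₀) (hns : ∀ c : F, k₀ ≠ c • (1 : Matrix (Fin n) (Fin n) F)) :
    ∃ y : GL (Fin n) F, y ∈ Cfsg.Geo.specialLinear (Fin n) F ∧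
      y ∉ Cfsg.Geo.subalgebraNormalizer K₀ := by
  set i : Fin n := ⟨0, by omega⟩ with hi
  set j : Fin n := ⟨1, by omega⟩ with hj
  have hij : i ≠ j := by
    rw [hi, hj]
    intro h
    exact absurd (congrArg Fin.val h) (by norm_num)
  set v : Fin n → F := Pi.single i 1 with hv
  set φ : Fin n → F := Pi.single j 1 with hφ
  have hdot : ∀ w : Fin n → F, φ ⬝ᵥ w = w j := fun w => by rw [hφ, single_one_dotProduct]
  have hφv : φ ⬝ᵥ v = 0 := by
    rw [hdot, hv, Pi.single_apply, if_neg (Ne.symm hij)]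
  refine ⟨tvG v φ hφv, tvG_mem_specialLinear _ _ _, fun hy => ?_⟩
  have hk' := (hy k₀).mp hk₀
  rw [tvG_val] at hk'
  set yi : Matrix (Fin n) (Fin n) F := (((tvG v φ hφv)⁻¹ : GL (Fin n) F) : Matrix (Fin n) (Fin n) F)
    with hyi
  have hyi1 : yi * tv v φ = 1 := by
    have h1 := Units.inv_mul (tvG v φ hφv)
    rw [tvG_val] at h1
    exact h1
  set D : Matrix (Fin n) (Fin n) F := tv v φ * k₀ * yi - k₀ with hD
  have hDK : D ∈ K₀ := K₀.sub_mem hk' hk₀
  have hDy : D * tv v φ = tv v φ * k₀ - k₀ * tv v φ := by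
    rw [hD, sub_mul, mul_assoc, hyi1, mul_one]
  have hvec : ∀ w : Fin n → F,
      (D * tv v φ) *ᵥ w = (k₀ *ᵥ w) j • v - w j • (k₀ *ᵥ v) := by
    intro w
    rw [hDy, Matrix.sub_mulVec, ← Matrix.mulVec_mulVec, ← Matrix.mulVec_mulVec, tv_mulVec,
      tv_mulVec, Matrix.mulVec_add, Matrix.mulVec_smul, hdot, hdot]
    abel
  -- a non-zero vector `w` with `w j = 0` and `(k₀ w) j = 0`
  obtain ⟨w, hw0, hw1, hw2⟩ : ∃ w : Fin n → F, w ≠ 0 ∧ w j = 0 ∧ (k₀ *ᵥ w) j = 0 := by
    let G : (Fin n → F) →ₗ[F] F × F :=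
      LinearMap.prod (LinearMap.proj j) ((LinearMap.proj j).comp (Matrix.mulVecLin k₀))
    have hG : LinearMap.ker G ≠ ⊥ := by
      apply LinearMap.ker_ne_bot_of_finrank_lt
      rw [Module.finrank_prod, Module.finrank_self, Module.finrank_fin_fun]
      omega
    obtain ⟨w, hwG, hw0⟩ := Submodule.exists_mem_ne_zero_of_ne_bot hG
    have h1 : G w = 0 := LinearMap.mem_ker.mp hwG
    have h2 : (w j, (k₀ *ᵥ w) j) = ((0 : F), (0 : F)) := h1
    exact ⟨w, hw0, (Prod.ext_iff.mp h2).1, (Prod.ext_iff.mp h2).2⟩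
  have hDw : D *ᵥ w = 0 := by
    have h1 := hvec w
    rw [hw1, hw2, zero_smul, zero_smul, sub_zero, ← Matrix.mulVec_mulVec, tv_mulVec, hdot, hw1,
      zero_smul, add_zero] at h1
    exact h1
  have hD0 := fs_eq_zero hK₀ hDK hw0 hDw
  have h2 := hvec (Pi.single j 1)
  rw [hD0, zero_mul, Matrix.zero_mulVec, Pi.single_eq_same, one_smul] at h2
  set c : F := (k₀ *ᵥ Pi.single j 1) j with hc
  have hkv : (k₀ - c • (1 : Matrix (Fin n) (Fin n) F)) *ᵥ v = 0 := by
    rw [Matrix.sub_mulVec, Matrix.smul_mulVec, Matrix.one_mulVec]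
    have h3 : k₀ *ᵥ v = c • v := by
      have h4 := sub_eq_zero.mp h2.symm
      exact h4.symm
    rw [h3, sub_self]
  have hv0 : v ≠ 0 := by
    intro h
    have h1 := congrFun h i
    rw [hv, Pi.single_eq_same] at h1
    exact one_ne_zero h1
  have h5 := fs_eq_zero hK₀ (K₀.sub_mem hk₀ (K₀.smul_mem K₀.one_mem c)) hv0 hkv
  exact hns c (sub_eq_zero.mp h5)

/-- For field subalgebras `K₀ ≤ K` of dimensions `d < r` with `2 * r ≤ n`, some element of
determinant `1` centralises `K₀` and does not normalise `K`. -/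
theorem exists_sl_normalizer_not {r d : ℕ} {K K₀ : Subalgebra F (Matrix (Fin n) (Fin n) F)}
    (hK : Cfsg.Geo.IsFieldSubalgebra r K) (hK₀ : Cfsg.Geo.IsFieldSubalgebra d K₀)
    (hd : d < r) (hn : 2 * r ≤ n) (p : ℕ) [Fact p.Prime] [CharP F p] :
    ∃ x : GL (Fin n) F, x ∈ Cfsg.Geo.specialLinear (Fin n) F ∧
      x ∈ Cfsg.Geo.subalgebraNormalizer K₀ ∧ x ∉ Cfsg.Geo.subalgebraNormalizer K := by
  have : Nonempty (Fin n) := ⟨⟨0, by omega⟩⟩
  obtain ⟨v, hv⟩ : ∃ v : Fin n → F, v ≠ 0 := by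
    refine ⟨Pi.single ⟨0, by omega⟩ 1, fun h => ?_⟩
    have h1 := congrFun h ⟨0, by omega⟩
    rw [Pi.single_eq_same] at h1
    exact one_ne_zero h1
  have hR : Module.finrank F (LinearMap.range (actLin K₀ v)) ≤ d := by
    have h1 := LinearMap.finrank_range_le (actLin K₀ v)
    rw [hK₀.finrank_eq] at h1
    exact h1
  obtain ⟨v₂, hv₂⟩ : ∃ v₂, v₂ ∉ LinearMap.range (actLin K₀ v) := by
    by_contra hcon
    push Not at hcon
    have h1 : LinearMap.range (actLin K₀ v) = ⊤ := Submodule.eq_top_iff'.mpr hcon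
    rw [h1, finrank_top, Module.finrank_fin_fun] at hR
    omega
  let _ : Field ↥K₀ := (fs_isField hK₀).toField
  obtain ⟨N, hN0, hNN, hNc, hNr⟩ := exists_nilp_commuting (L := ↥K₀)
    (K₀.val : ↥K₀ →+* Matrix (Fin n) (Fin n) F)
    (fun c => ⟨⟨algebraMap F _ c, K₀.algebraMap_mem c⟩, Algebra.algebraMap_eq_smul_one c⟩)
    v v₂ hv (fun l h => hv₂ ⟨l, h⟩)
  have hNc' : ∀ k ∈ K₀, N * k = k * N := fun k hk => hNc ⟨k, hk⟩
  have hNr' : ∀ w, ∃ k ∈ K₀, N *ᵥ w = k *ᵥ v := fun w => by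
    obtain ⟨l, hl⟩ := hNr w
    exact ⟨l.1, l.2, hl⟩
  have hmemR : ∀ w, N *ᵥ w ∈ LinearMap.range (actLin K₀ v) := fun w => by
    obtain ⟨k, hk, e⟩ := hNr' w
    exact ⟨⟨k, hk⟩, e.symm⟩
  have hx1 : (1 + N) * (1 - N) = 1 := by
    have h1 : (1 + N) * (1 - N) = 1 - N * N := by noncomm_ring
    rw [h1, hNN, sub_zero]
  have hx2 : (1 - N) * (1 + N) = 1 := by
    have h1 : (1 - N) * (1 + N) = 1 - N * N := by noncomm_ring
    rw [h1, hNN, sub_zero]
  refine ⟨⟨1 + N, 1 - N, hx1, hx2⟩, ?_, ?_, ?_⟩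
  · rw [mem_specialLinear_iff]
    show (1 + N).det = 1
    have hNp : N ^ p = 0 := by
      have h2 : 2 ≤ p := (Fact.out : p.Prime).two_le
      obtain ⟨m, rfl⟩ := Nat.exists_eq_add_of_le h2
      rw [pow_add, pow_two, hNN, zero_mul]
    have hp : (1 + N) ^ p = 1 := by
      rw [add_pow_char_of_commute p (Commute.one_left N), one_pow, hNp, add_zero]
    have hdet : (1 + N).det ^ p = 1 := by rw [← Matrix.det_pow, hp, Matrix.det_one]
    apply frobenius_inj F p
    rw [frobenius_def, frobenius_def, hdet, one_pow]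
  · intro k
    show k ∈ K₀ ↔ (1 + N) * k * (1 - N) ∈ K₀
    have key : ∀ k ∈ K₀, (1 + N) * k * (1 - N) = k := by
      intro k hk
      have h1 := hNc' k hk
      calc (1 + N) * k * (1 - N) = k * ((1 + N) * (1 - N)) + (N * k - k * N) * (1 - N) := by
            noncomm_ring
        _ = k := by rw [hx1, h1, sub_self, zero_mul, add_zero, mul_one]
    have key' : ∀ k ∈ K₀, (1 - N) * k * (1 + N) = k := by
      intro k hk
      have h1 := hNc' k hk
      calc (1 - N) * k * (1 + N) = k * ((1 - N) * (1 + N)) - (N * k - k * N) * (1 + N) := by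
            noncomm_ring
        _ = k := by rw [hx2, h1, sub_self, zero_mul, sub_zero, mul_one]
    constructor
    · intro hk
      rw [key k hk]
      exact hk
    · intro hk
      have h1 := key' _ hk
      have e : (1 - N) * ((1 + N) * k * (1 - N)) * (1 + N) = k := by
        calc (1 - N) * ((1 + N) * k * (1 - N)) * (1 + N)
            = ((1 - N) * (1 + N)) * k * ((1 - N) * (1 + N)) := by simp only [mul_assoc]
          _ = k := by rw [hx2, one_mul, mul_one]
      have hkk : (1 + N) * k * (1 - N) = k := h1.symm.trans e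
      rwa [hkk] at hk
  · intro hx
    have hx' : ∀ k : Matrix (Fin n) (Fin n) F, k ∈ K ↔ (1 + N) * k * (1 - N) ∈ K := hx
    -- `N` commutes with `K`
    have hcomK : ∀ k ∈ K, N * k = k * N := by
      intro k hk
      have hk' : (1 + N) * k * (1 - N) ∈ K := (hx' k).mp hk
      set D : Matrix (Fin n) (Fin n) F := (1 + N) * k * (1 - N) - k with hD
      have hDK : D ∈ K := K.sub_mem hk' hk
      have hDx : D * (1 + N) = N * k - k * N := by
        rw [hD, sub_mul, mul_assoc, hx2, mul_one]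
        noncomm_ring
      obtain ⟨w, hw0, hw1, hw2⟩ : ∃ w : Fin n → F, w ≠ 0 ∧ N *ᵥ w = 0 ∧ N *ᵥ (k *ᵥ w) = 0 := by
        let G : (Fin n → F) →ₗ[F]
            (LinearMap.range (actLin K₀ v)) × (LinearMap.range (actLin K₀ v)) :=
          LinearMap.prod (LinearMap.codRestrict _ (Matrix.mulVecLin N) hmemR)
            (LinearMap.codRestrict _ ((Matrix.mulVecLin N).comp (Matrix.mulVecLin k))
              (fun w => hmemR _))
        have hG : LinearMap.ker G ≠ ⊥ := by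
          apply LinearMap.ker_ne_bot_of_finrank_lt
          rw [Module.finrank_prod, Module.finrank_fin_fun]
          omega
        obtain ⟨w, hwG, hw0⟩ := Submodule.exists_mem_ne_zero_of_ne_bot hG
        have h1 : G w = 0 := LinearMap.mem_ker.mp hwG
        have h2 := congrArg (fun z => ((z.1 : LinearMap.range (actLin K₀ v)) : Fin n → F)) h1
        have h3 := congrArg (fun z => ((z.2 : LinearMap.range (actLin K₀ v)) : Fin n → F)) h1
        exact ⟨w, hw0, h2, h3⟩
      have hDw : D *ᵥ w = 0 := by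
        have h1 : (D * (1 + N)) *ᵥ w = 0 := by
          rw [hDx, Matrix.sub_mulVec, ← Matrix.mulVec_mulVec, ← Matrix.mulVec_mulVec, hw2, hw1,
            Matrix.mulVec_zero, sub_zero]
        rwa [← Matrix.mulVec_mulVec, Matrix.add_mulVec, Matrix.one_mulVec, hw1, add_zero] at h1
      have hD0 : D = 0 := fs_eq_zero hK hDK hw0 hDw
      have h1 : D * (1 + N) = 0 := by rw [hD0, zero_mul]
      rw [hDx] at h1
      exact sub_eq_zero.mp h1
    obtain ⟨w₀, hw₀⟩ : ∃ w₀, N *ᵥ w₀ ≠ 0 := by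
      by_contra hcon
      push Not at hcon
      apply hN0
      apply Matrix.mulVec_injective
      funext w
      rw [hcon, Matrix.zero_mulVec]
    have hinj : Function.Injective (actLin K (N *ᵥ w₀)) := by
      rw [← LinearMap.ker_eq_bot, LinearMap.ker_eq_bot']
      intro k hk0
      exact Subtype.ext (fs_eq_zero hK k.2 hw₀ hk0)
    have h1 : Module.finrank F (LinearMap.range (actLin K (N *ᵥ w₀))) = r := by
      rw [LinearMap.finrank_range_of_inj hinj, hK.finrank_eq]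
    have h2 : LinearMap.range (actLin K (N *ᵥ w₀)) ≤ LinearMap.range (actLin K₀ v) := by
      rintro _ ⟨k, rfl⟩
      obtain ⟨k', hk', hk'e⟩ := hNr' ((k : Matrix (Fin n) (Fin n) F) *ᵥ w₀)
      refine ⟨⟨k', hk'⟩, ?_⟩
      rw [actLin_apply, actLin_apply]
      show k' *ᵥ v = (k : Matrix (Fin n) (Fin n) F) *ᵥ (N *ᵥ w₀)
      rw [← hk'e, Matrix.mulVec_mulVec, Matrix.mulVec_mulVec, hcomK k k.2]
    have h3 := Submodule.finrank_mono h2
    omega

end Cfsg.Agent.Lib.Helper97
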