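import Mathlib
import Cfsg.Prelude.Def_GeometricClasses
import Cfsg.Agent.Lib.Helper97.Transv

/-!
# Transvections lying in a subgroup `M` of `GL`

Helper library (helper97): the predicate `TM M u ψ` (the transvection `1 + u ψᵀ` lies in `M`) and
its closure properties (sum of functionals, negation, conjugation by elements of `M`).
-/

set_option autoImplicit false

namespace Cfsg.Agent.Lib.Helper97

open Matrix

variable {ι : Type} [Fintype ι] [DecidableEq ι] {F : Type*} [Field F]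

/-- `TM M u ψ`: `ψ` vanishes at `u` and the transvection `1 + u ψᵀ` lies in `M`. -/
def TM (M : Subgroup (GL ι F)) (u ψ : ι → F) : Prop :=
  ψ ⬝ᵥ u = 0 ∧ ∀ t : GL ι F, (t : Matrix ι ι F) = tv u ψ → t ∈ M

lemma TM.mem {M : Subgroup (GL ι F)} {u ψ : ι → F} (h : TM M u ψ) : tvG u ψ h.1 ∈ M :=
  h.2 _ rfl

lemma TM_of_mem {M : Subgroup (GL ι F)} {u ψ : ι → F} (h0 : ψ ⬝ᵥ u = 0)
    (h : tvG u ψ h0 ∈ M) : TM M u ψ := by
  refine ⟨h0, fun t ht => ?_⟩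
  have h1 : t = tvG u ψ h0 := Units.ext ht
  rw [h1]
  exact h

lemma tv_mul_tv_same (u ψ₁ ψ₂ : ι → F) (h : ψ₁ ⬝ᵥ u = 0) :
    tv u ψ₁ * tv u ψ₂ = tv u (ψ₁ + ψ₂) := by
  rw [tv, tv, tv, Matrix.mul_add, Matrix.mul_one, Matrix.add_mul, Matrix.one_mul,
    Matrix.vecMulVec_mul_vecMulVec, h, zero_smul, Matrix.vecMulVec_zero, add_zero,
    Matrix.vecMulVec_add, add_assoc]

omit [Fintype ι] in
lemma tv_zero_right (u : ι → F) : tv u (0 : ι → F) = 1 := by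
  rw [tv, Matrix.vecMulVec_zero, add_zero]

lemma TM_add {M : Subgroup (GL ι F)} {u ψ₁ ψ₂ : ι → F} (h₁ : TM M u ψ₁) (h₂ : TM M u ψ₂) :
    TM M u (ψ₁ + ψ₂) := by
  have h0 : (ψ₁ + ψ₂) ⬝ᵥ u = 0 := by rw [add_dotProduct, h₁.1, h₂.1, add_zero]
  refine ⟨h0, fun t ht => ?_⟩
  have h3 : t = tvG u ψ₁ h₁.1 * tvG u ψ₂ h₂.1 := by
    apply Units.ext
    rw [ht, Units.val_mul, tvG_val, tvG_val, tv_mul_tv_same _ _ _ h₁.1]
  rw [h3]
  exact M.mul_mem h₁.mem h₂.mem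

lemma TM_neg {M : Subgroup (GL ι F)} {u ψ : ι → F} (h : TM M u ψ) : TM M u (-ψ) := by
  have h0 : (-ψ) ⬝ᵥ u = 0 := by rw [neg_dotProduct, h.1, neg_zero]
  refine ⟨h0, fun t ht => ?_⟩
  have h3 : t = (tvG u ψ h.1)⁻¹ := by
    rw [eq_inv_iff_mul_eq_one]
    apply Units.ext
    rw [Units.val_mul, ht, tvG_val, tv_mul_tv_same _ _ _ h0, neg_add_cancel, Units.val_one,
      tv_zero_right]
  rw [h3]
  exact M.inv_mem h.mem

lemma TM_sub {M : Subgroup (GL ι F)} {u ψ₁ ψ₂ : ι → F} (h₁ : TM M u ψ₁) (h₂ : TM M u ψ₂) :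
    TM M u (ψ₁ - ψ₂) := by
  rw [sub_eq_add_neg]
  exact TM_add h₁ (TM_neg h₂)

/-- Conjugating the transvection `1 + u ψᵀ` by `g⁻¹`, for `g ∈ M`. -/
lemma TM_conj {M : Subgroup (GL ι F)} {u ψ : ι → F} (h : TM M u ψ) {g : GL ι F} (hg : g ∈ M) :
    TM M (((g⁻¹ : GL ι F) : Matrix ι ι F) *ᵥ u) (ψ ᵥ* (g : Matrix ι ι F)) := by
  have h0 : (ψ ᵥ* (g : Matrix ι ι F)) ⬝ᵥ (((g⁻¹ : GL ι F) : Matrix ι ι F) *ᵥ u) = 0 := by
    rw [← Matrix.dotProduct_mulVec, Matrix.mulVec_mulVec, ← Units.val_mul, mul_inv_cancel,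
      Units.val_one, Matrix.one_mulVec]
    exact h.1
  refine ⟨h0, fun t ht => ?_⟩
  have h2 : ((g * t * g⁻¹ : GL ι F) : Matrix ι ι F) = tv u ψ := by
    rw [Units.val_mul, Units.val_mul, ht, tv, tv, Matrix.mul_add, Matrix.add_mul, Matrix.mul_one,
      ← Units.val_mul, mul_inv_cancel, Units.val_one, Matrix.mul_vecMulVec, Matrix.vecMulVec_mul,
      Matrix.mulVec_mulVec, ← Units.val_mul, mul_inv_cancel, Units.val_one, Matrix.one_mulVec,
      Matrix.vecMul_vecMul, ← Units.val_mul, mul_inv_cancel, Units.val_one, Matrix.vecMul_one]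
  have h3 := h.2 _ h2
  have h4 : t = g⁻¹ * (g * t * g⁻¹) * g := by group
  rw [h4]
  exact M.mul_mem (M.mul_mem (M.inv_mem hg) h3) hg

/-- If every functional vanishing at `u` gives a transvection in `M`, then `u ∈ centres M`. -/
lemma mem_centres_of_TM {M : Subgroup (GL ι F)} {u : ι → F}
    (h : ∀ ψ : ι → F, ψ ⬝ᵥ u = 0 → TM M u ψ) : u ∈ centres M :=
  fun φ hφ t ht => (h φ hφ).2 t ht

end Cfsg.Agent.Lib.Helper97
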