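import Mathlib
import Cfsg.Prelude.Def_GeometricClasses
import Cfsg.Agent.Lib.Helper97.Transv
import Cfsg.Agent.Lib.Helper97.TransvM
import Cfsg.Agent.Lib.Helper97.FieldSub

/-!
# Linear algebra over a field subalgebra of a matrix algebra

Helper library (helper97) for S5886.  `K` is a subalgebra of `Matrix (Fin n) (Fin n) F` which is a
field (`Cfsg.Geo.IsFieldSubalgebra r K`).  We set up `K`-linear functionals (`KFun`), the
`K`-transvections `ktG`, the `K`-homologies `torG`, and the group `klG K` of `K`-linear maps of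
determinant one.
-/

set_option autoImplicit false

namespace Cfsg.Agent.Lib.Helper97

open Matrix

variable {F : Type*} [Field F] {n : ℕ}

/-- A `K`-linear functional on `F^n` (with values in `K`). -/
structure KFun (K : Subalgebra F (Matrix (Fin n) (Fin n) F)) where
  toLin : (Fin n → F) →ₗ[F] ↥K
  klin : ∀ (k : ↥K) (v : Fin n → F),
    toLin ((k : Matrix (Fin n) (Fin n) F) *ᵥ v) = k * toLin v

namespace KFun

variable {K : Subalgebra F (Matrix (Fin n) (Fin n) F)}

instance : CoeFun (KFun K) (fun _ => (Fin n → F) → ↥K) := ⟨fun π => π.toLin⟩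

lemma map_add (π : KFun K) (v w : Fin n → F) : π (v + w) = π v + π w := π.toLin.map_add v w

lemma map_sub (π : KFun K) (v w : Fin n → F) : π (v - w) = π v - π w := π.toLin.map_sub v w

lemma map_zero (π : KFun K) : π 0 = 0 := π.toLin.map_zero

lemma map_neg (π : KFun K) (v : Fin n → F) : π (-v) = -π v := π.toLin.map_neg v

lemma map_smul (π : KFun K) (c : F) (v : Fin n → F) : π (c • v) = c • π v := π.toLin.map_smul c v

lemma map_k (π : KFun K) (k : ↥K) (v : Fin n → F) :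
    π ((k : Matrix (Fin n) (Fin n) F) *ᵥ v) = k * π v := π.klin k v

/-- The zero functional. -/
def zero : KFun K := ⟨0, fun k v => by simp⟩

/-- Sum of functionals. -/
def add (π ρ : KFun K) : KFun K :=
  ⟨π.toLin + ρ.toLin, fun k v => by
    rw [LinearMap.add_apply, LinearMap.add_apply, π.klin, ρ.klin, mul_add]⟩

/-- Difference of functionals. -/
def sub (π ρ : KFun K) : KFun K :=
  ⟨π.toLin - ρ.toLin, fun k v => by
    rw [LinearMap.sub_apply, LinearMap.sub_apply, π.klin, ρ.klin, mul_sub]⟩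

/-- Scalar multiple of a functional by an element of the (commutative) subalgebra. -/
def smul (hc : ∀ x ∈ K, ∀ y ∈ K, x * y = y * x) (c : ↥K) (π : KFun K) : KFun K :=
  ⟨(LinearMap.mulLeft F c).comp π.toLin, fun k v => by
    rw [LinearMap.comp_apply, LinearMap.comp_apply, π.klin, LinearMap.mulLeft_apply,
      LinearMap.mulLeft_apply, ← mul_assoc, ← mul_assoc]
    congr 1
    exact Subtype.ext (hc c c.2 k k.2)⟩

@[simp] lemma add_apply (π ρ : KFun K) (v : Fin n → F) : (π.add ρ) v = π v + ρ v := rfl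

@[simp] lemma sub_apply (π ρ : KFun K) (v : Fin n → F) : (π.sub ρ) v = π v - ρ v := rfl

@[simp] lemma smul_apply (hc : ∀ x ∈ K, ∀ y ∈ K, x * y = y * x) (c : ↥K) (π : KFun K)
    (v : Fin n → F) : (π.smul hc c) v = c * π v := rfl

@[simp] lemma zero_apply (v : Fin n → F) : (zero : KFun K) v = 0 := rfl

end KFun

variable {K : Subalgebra F (Matrix (Fin n) (Fin n) F)}

/-- The matrix of `v ↦ π(v) u`. -/
def kT (u : Fin n → F) (π : KFun K) : Matrix (Fin n) (Fin n) F :=
  LinearMap.toMatrix' ((actLin K u).comp π.toLin)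

lemma kT_mulVec (u : Fin n → F) (π : KFun K) (v : Fin n → F) :
    kT u π *ᵥ v = ((π v : ↥K) : Matrix (Fin n) (Fin n) F) *ᵥ u := by
  rw [kT, ← Matrix.toLin'_apply, Matrix.toLin'_toMatrix']
  rfl

lemma kT_comm (u : Fin n → F) (π : KFun K) (k : Matrix (Fin n) (Fin n) F) (hk : k ∈ K) :
    kT u π * k = k * kT u π := by
  apply Matrix.mulVec_injective
  funext v
  rw [← Matrix.mulVec_mulVec, ← Matrix.mulVec_mulVec, kT_mulVec, kT_mulVec]
  have h := π.map_k ⟨k, hk⟩ v
  rw [show ((⟨k, hk⟩ : ↥K) : Matrix (Fin n) (Fin n) F) = k from rfl] at h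
  rw [h, Subalgebra.coe_mul, ← Matrix.mulVec_mulVec]

lemma kT_sq (u : Fin n → F) (π : KFun K) (h0 : π u = 0) : kT u π * kT u π = 0 := by
  apply Matrix.mulVec_injective
  funext v
  rw [← Matrix.mulVec_mulVec, kT_mulVec, kT_mulVec, π.map_k, h0, mul_zero, Matrix.zero_mulVec]
  simp

/-- The unipotent element `1 + E` for a square-zero matrix `E`. -/
def quG (E : Matrix (Fin n) (Fin n) F) (hE : E * E = 0) : GL (Fin n) F :=
  ⟨1 + E, 1 - E, by
    have h : (1 + E) * (1 - E) = 1 - E * E := by noncomm_ring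
    rw [h, hE, sub_zero], by
    have h : (1 - E) * (1 + E) = 1 - E * E := by noncomm_ring
    rw [h, hE, sub_zero]⟩

lemma quG_val (E : Matrix (Fin n) (Fin n) F) (hE : E * E = 0) :
    ((quG E hE : GL (Fin n) F) : Matrix (Fin n) (Fin n) F) = 1 + E := rfl

lemma quG_inv_val (E : Matrix (Fin n) (Fin n) F) (hE : E * E = 0) :
    (((quG E hE)⁻¹ : GL (Fin n) F) : Matrix (Fin n) (Fin n) F) = 1 - E := rfl

/-- A unipotent element `1 + E` with `E * E = 0` over a finite field has determinant one. -/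
lemma det_one_add_sq_zero [Fintype F] (E : Matrix (Fin n) (Fin n) F) (hE : E * E = 0) :
    (1 + E).det = 1 := by
  rcases Nat.eq_zero_or_pos n with rfl | hn
  · exact Matrix.det_isEmpty
  have : Nonempty (Fin n) := ⟨⟨0, hn⟩⟩
  obtain ⟨p, hp⟩ := CharP.exists F
  have : Fact p.Prime := ⟨CharP.char_is_prime F p⟩
  have hcp : CharP (Matrix (Fin n) (Fin n) F) p := inferInstance
  have h1 : (1 + E) ^ p = 1 := by
    rw [add_pow_char_of_commute p (Commute.one_left E), one_pow]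
    have h2 : E ^ p = 0 := by
      have hp2 : 2 ≤ p := (Fact.out : p.Prime).two_le
      obtain ⟨m, rfl⟩ : ∃ m, p = 2 + m := ⟨p - 2, by omega⟩
      rw [pow_add, pow_two, hE, zero_mul]
    rw [h2, add_zero]
  have h3 : (1 + E).det ^ p = 1 := by rw [← Matrix.det_pow, h1, Matrix.det_one]
  have h4 : ((1 + E).det - 1) ^ p = 0 := by rw [sub_pow_char, h3, one_pow, sub_self]
  exact sub_eq_zero.mp (pow_eq_zero_iff (Fact.out : p.Prime).ne_zero |>.mp h4)

/-- The `K`-linear maps of determinant one. -/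
def klG (K : Subalgebra F (Matrix (Fin n) (Fin n) F)) : Subgroup (GL (Fin n) F) where
  carrier := {g | (∀ k ∈ K, (g : Matrix (Fin n) (Fin n) F) * k = k * g) ∧
    (g : Matrix (Fin n) (Fin n) F).det = 1}
  mul_mem' := by
    rintro a b ⟨ha, ha1⟩ ⟨hb, hb1⟩
    refine ⟨fun k hk => ?_, ?_⟩
    · rw [Units.val_mul, mul_assoc, hb k hk, ← mul_assoc, ha k hk, mul_assoc]
    · rw [Units.val_mul, Matrix.det_mul, ha1, hb1, mul_one]
  one_mem' := ⟨fun k _ => by rw [Units.val_one, one_mul, mul_one], by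
    rw [Units.val_one, Matrix.det_one]⟩
  inv_mem' := by
    rintro a ⟨ha, ha1⟩
    have h1 : ((a⁻¹ : GL (Fin n) F) : Matrix (Fin n) (Fin n) F) * a = 1 := by
      rw [← Units.val_mul, inv_mul_cancel, Units.val_one]
    have h2 : (a : Matrix (Fin n) (Fin n) F) * ((a⁻¹ : GL (Fin n) F) : Matrix (Fin n) (Fin n) F)
        = 1 := by
      rw [← Units.val_mul, mul_inv_cancel, Units.val_one]
    refine ⟨fun k hk => ?_, ?_⟩
    · calc ((a⁻¹ : GL (Fin n) F) : Matrix (Fin n) (Fin n) F) * k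
          = ((a⁻¹ : GL (Fin n) F) : Matrix (Fin n) (Fin n) F) * k *
            ((a : Matrix (Fin n) (Fin n) F) * ((a⁻¹ : GL (Fin n) F) : Matrix (Fin n) (Fin n) F)) := by
            rw [h2, mul_one]
        _ = ((a⁻¹ : GL (Fin n) F) : Matrix (Fin n) (Fin n) F) * ((a : Matrix (Fin n) (Fin n) F) * k)
            * ((a⁻¹ : GL (Fin n) F) : Matrix (Fin n) (Fin n) F) := by
            rw [ha k hk]; simp only [mul_assoc]
        _ = k * ((a⁻¹ : GL (Fin n) F) : Matrix (Fin n) (Fin n) F) := by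
            rw [← mul_assoc, h1, one_mul]
    · have h3 := congrArg Matrix.det h1
      rw [Matrix.det_mul, ha1, mul_one, Matrix.det_one] at h3
      exact h3

lemma mem_klG {g : GL (Fin n) F} : g ∈ klG K ↔
    (∀ k ∈ K, (g : Matrix (Fin n) (Fin n) F) * k = k * g) ∧
      (g : Matrix (Fin n) (Fin n) F).det = 1 := Iff.rfl

lemma klG_mulVec {g : GL (Fin n) F} (hg : g ∈ klG K) (k : ↥K) (v : Fin n → F) :
    (g : Matrix (Fin n) (Fin n) F) *ᵥ ((k : Matrix (Fin n) (Fin n) F) *ᵥ v) =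
      (k : Matrix (Fin n) (Fin n) F) *ᵥ ((g : Matrix (Fin n) (Fin n) F) *ᵥ v) := by
  rw [Matrix.mulVec_mulVec, Matrix.mulVec_mulVec, hg.1 k k.2]

lemma klG_le : klG K ≤ Cfsg.Geo.subalgebraNormalizer K ⊓ Cfsg.Geo.specialLinear (Fin n) F := by
  intro g hg
  refine Subgroup.mem_inf.mpr ⟨?_, (mem_specialLinear_iff g).mpr hg.2⟩
  have h2 : (g : Matrix (Fin n) (Fin n) F) * ((g⁻¹ : GL (Fin n) F) : Matrix (Fin n) (Fin n) F)
      = 1 := by
    rw [← Units.val_mul, mul_inv_cancel, Units.val_one]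
  have h1 : ((g⁻¹ : GL (Fin n) F) : Matrix (Fin n) (Fin n) F) * g = 1 := by
    rw [← Units.val_mul, inv_mul_cancel, Units.val_one]
  intro k
  constructor
  · intro hk
    rw [hg.1 k hk, mul_assoc, h2, mul_one]
    exact hk
  · intro hk
    have h3 := (klG K).inv_mem hg
    have h4 := h3.1 _ hk
    have h5 : k = ((g⁻¹ : GL (Fin n) F) : Matrix (Fin n) (Fin n) F) *
        ((g : Matrix (Fin n) (Fin n) F) * k * ((g⁻¹ : GL (Fin n) F) : Matrix (Fin n) (Fin n) F))
        * g := by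
      rw [← mul_assoc, ← mul_assoc, h1, one_mul, mul_assoc, h1, mul_one]
    rw [h5, h4, mul_assoc, h1, mul_one]
    exact hk

/-- The `K`-transvection `v ↦ v + π(v) u`, for `π(u) = 0`. -/
def ktG (u : Fin n → F) (π : KFun K) (h0 : π u = 0) : GL (Fin n) F :=
  quG (kT u π) (kT_sq u π h0)

lemma ktG_mulVec (u : Fin n → F) (π : KFun K) (h0 : π u = 0) (v : Fin n → F) :
    ((ktG u π h0 : GL (Fin n) F) : Matrix (Fin n) (Fin n) F) *ᵥ v =
      v + ((π v : ↥K) : Matrix (Fin n) (Fin n) F) *ᵥ u := by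
  rw [ktG, quG_val, Matrix.add_mulVec, Matrix.one_mulVec, kT_mulVec]

lemma ktG_inv_mulVec (u : Fin n → F) (π : KFun K) (h0 : π u = 0) (v : Fin n → F) :
    (((ktG u π h0)⁻¹ : GL (Fin n) F) : Matrix (Fin n) (Fin n) F) *ᵥ v =
      v - ((π v : ↥K) : Matrix (Fin n) (Fin n) F) *ᵥ u := by
  rw [ktG, quG_inv_val, Matrix.sub_mulVec, Matrix.one_mulVec, kT_mulVec]

lemma ktG_mem [Fintype F] (u : Fin n → F) (π : KFun K) (h0 : π u = 0) : ktG u π h0 ∈ klG K := by
  refine ⟨fun k hk => ?_, ?_⟩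
  · rw [ktG, quG_val, add_mul, mul_add, one_mul, mul_one, kT_comm u π k hk]
  · rw [ktG, quG_val]
    exact det_one_add_sq_zero _ (kT_sq u π h0)

/-! ### Existence of functionals -/

/-- Over a field `L` mapping to the matrix algebra: a "functional" vanishing at `u`, `w` and taking
the value `1` at a vector `y` outside `L u + L w`. -/
theorem exists_dual_of_field {L : Type*} [Field L] (φ : L →+* Matrix (Fin n) (Fin n) F)
    (u w y : Fin n → F) (hy : ∀ a b : L, φ a *ᵥ u + φ b *ᵥ w ≠ y) :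
    ∃ ψ : (Fin n → F) → L, (∀ v v', ψ (v + v') = ψ v + ψ v') ∧
      (∀ (l : L) v, ψ (φ l *ᵥ v) = l * ψ v) ∧ ψ u = 0 ∧ ψ w = 0 ∧ ψ y = 1 := by
  let _ : Module L (Fin n → F) :=
    Module.compHom (Fin n → F)
      ((Matrix.toLinAlgEquiv' : Matrix (Fin n) (Fin n) F ≃ₐ[F] _).toRingEquiv.toRingHom.comp φ)
  have hsmul : ∀ (l : L) (w : Fin n → F), l • w = φ l *ᵥ w := fun l w => rfl
  have hnot : y ∉ Submodule.span L {u, w} := by
    rw [Submodule.mem_span_pair]
    rintro ⟨a, b, hab⟩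
    exact hy a b (by rw [← hsmul, ← hsmul]; exact hab)
  obtain ⟨ψ, hψ1, hψ2⟩ := Submodule.exists_le_ker_of_notMem hnot
  have hψu : ψ u = 0 := LinearMap.mem_ker.mp (hψ2 (Submodule.subset_span (by simp)))
  have hψw : ψ w = 0 := LinearMap.mem_ker.mp (hψ2 (Submodule.subset_span (by simp)))
  refine ⟨fun v => (ψ y)⁻¹ * ψ v, fun v v' => ?_, fun l v => ?_, ?_, ?_, ?_⟩
  · show (ψ y)⁻¹ * ψ (v + v') = (ψ y)⁻¹ * ψ v + (ψ y)⁻¹ * ψ v'
    rw [map_add, mul_add]
  · show (ψ y)⁻¹ * ψ (φ l *ᵥ v) = l * ((ψ y)⁻¹ * ψ v)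
    rw [← hsmul, map_smul, smul_eq_mul, mul_left_comm]
  · show (ψ y)⁻¹ * ψ u = 0
    rw [hψu, mul_zero]
  · show (ψ y)⁻¹ * ψ w = 0
    rw [hψw, mul_zero]
  · show (ψ y)⁻¹ * ψ y = 1
    exact inv_mul_cancel₀ hψ1

/-- A `K`-functional vanishing at `u`, `w` with value `1` at `y ∉ K u + K w`. -/
theorem exists_kfun {r : ℕ} (hK : Cfsg.Geo.IsFieldSubalgebra r K) [Nonempty (Fin n)]
    (u w y : Fin n → F)
    (hy : ∀ a b : ↥K, (a : Matrix (Fin n) (Fin n) F) *ᵥ u +
      (b : Matrix (Fin n) (Fin n) F) *ᵥ w ≠ y) :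
    ∃ π : KFun K, π u = 0 ∧ π w = 0 ∧ π y = 1 := by
  let _ : Field ↥K := (fs_isField hK).toField
  obtain ⟨ψ, hadd, hk, hu, hw, hy1⟩ := exists_dual_of_field (L := ↥K)
    (K.val : ↥K →+* Matrix (Fin n) (Fin n) F) u w y hy
  refine ⟨⟨{ toFun := ψ, map_add' := hadd, map_smul' := fun c v => ?_ }, fun k v => hk k v⟩,
    hu, hw, hy1⟩
  have h1 : c • v = ((algebraMap F ↥K c : ↥K) : Matrix (Fin n) (Fin n) F) *ᵥ v := by
    rw [Subalgebra.coe_algebraMap, Algebra.algebraMap_eq_smul_one, Matrix.smul_mulVec,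
      Matrix.one_mulVec]
  have h2 := hk (algebraMap F ↥K c) v
  rw [h1, RingHom.id_apply, Algebra.smul_def]
  exact h2

/-- A `K`-functional with value `1` at a non-zero vector. -/
theorem exists_kfun_one {r : ℕ} (hK : Cfsg.Geo.IsFieldSubalgebra r K) [Nonempty (Fin n)]
    (u : Fin n → F) (hu : u ≠ 0) : ∃ π : KFun K, π u = 1 := by
  obtain ⟨π, -, -, h⟩ := exists_kfun hK 0 0 u (fun a b h => hu (by
    rw [Matrix.mulVec_zero, Matrix.mulVec_zero, add_zero] at h
    exact h.symm))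
  exact ⟨π, h⟩

/-- A `K`-functional vanishing at `u` with value `1` at `v ∉ K u`. -/
theorem exists_kfun_pair {r : ℕ} (hK : Cfsg.Geo.IsFieldSubalgebra r K) [Nonempty (Fin n)]
    (u v : Fin n → F) (hv : ∀ k : ↥K, (k : Matrix (Fin n) (Fin n) F) *ᵥ u ≠ v) :
    ∃ π : KFun K, π u = 0 ∧ π v = 1 := by
  obtain ⟨π, h1, -, h⟩ := exists_kfun hK u 0 v (fun a b h => hv a (by
    rw [Matrix.mulVec_zero, add_zero] at h
    exact h))
  exact ⟨π, h1, h⟩

/-- A vector outside the `K`-line through `u`. -/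
theorem exists_notMem_line {r : ℕ} (hK : Cfsg.Geo.IsFieldSubalgebra r K) (hn : r < n)
    (u : Fin n → F) : ∃ y : Fin n → F, ∀ k : ↥K, (k : Matrix (Fin n) (Fin n) F) *ᵥ u ≠ y := by
  by_contra hcon
  push Not at hcon
  have h1 : LinearMap.range (actLin K u) = ⊤ :=
    Submodule.eq_top_iff'.mpr (fun y => by obtain ⟨k, hk⟩ := hcon y; exact ⟨k, hk⟩)
  have hR := LinearMap.finrank_range_le (actLin K u)
  rw [h1, finrank_top, Module.finrank_fin_fun, hK.finrank_eq] at hR
  omega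

/-- A vector outside the `K`-plane through `u`, `w`. -/
theorem exists_notMem_plane {r : ℕ} (hK : Cfsg.Geo.IsFieldSubalgebra r K) (hn : 2 * r < n)
    (u w : Fin n → F) : ∃ y : Fin n → F, ∀ a b : ↥K, (a : Matrix (Fin n) (Fin n) F) *ᵥ u +
      (b : Matrix (Fin n) (Fin n) F) *ᵥ w ≠ y := by
  by_contra hcon
  push Not at hcon
  have h1 : LinearMap.range ((actLin K u).coprod (actLin K w)) = ⊤ :=
    Submodule.eq_top_iff'.mpr (fun y => by
      obtain ⟨a, b, hab⟩ := hcon y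
      exact ⟨(a, b), by rw [LinearMap.coprod_apply]; exact hab⟩)
  have hR := LinearMap.finrank_range_le ((actLin K u).coprod (actLin K w))
  rw [h1, finrank_top, Module.finrank_fin_fun, Module.finrank_prod, hK.finrank_eq] at hR
  omega

/-! ### Transitivity and `K`-lines -/

/-- Commuting with `K` puts an invertible matrix in the normaliser of `K`. -/
lemma mem_normalizer_of_comm {g : GL (Fin n) F}
    (hg : ∀ k ∈ K, (g : Matrix (Fin n) (Fin n) F) * k = k * g) :
    g ∈ Cfsg.Geo.subalgebraNormalizer K := by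
  have h2 : (g : Matrix (Fin n) (Fin n) F) * ((g⁻¹ : GL (Fin n) F) : Matrix (Fin n) (Fin n) F)
      = 1 := by
    rw [← Units.val_mul, mul_inv_cancel, Units.val_one]
  have h1 : ((g⁻¹ : GL (Fin n) F) : Matrix (Fin n) (Fin n) F) * g = 1 := by
    rw [← Units.val_mul, inv_mul_cancel, Units.val_one]
  intro k
  constructor
  · intro hk
    rw [hg k hk, mul_assoc, h2, mul_one]
    exact hk
  · intro hk
    have h4 := hg _ hk
    have h6 : (g : Matrix (Fin n) (Fin n) F) * k *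
        ((g⁻¹ : GL (Fin n) F) : Matrix (Fin n) (Fin n) F) = k := by
      calc (g : Matrix (Fin n) (Fin n) F) * k * ((g⁻¹ : GL (Fin n) F) : Matrix (Fin n) (Fin n) F)
          = ((g⁻¹ : GL (Fin n) F) : Matrix (Fin n) (Fin n) F) * ((g : Matrix (Fin n) (Fin n) F) *
              ((g : Matrix (Fin n) (Fin n) F) * k *
                ((g⁻¹ : GL (Fin n) F) : Matrix (Fin n) (Fin n) F))) := by
            rw [← mul_assoc, h1, one_mul]
        _ = ((g⁻¹ : GL (Fin n) F) : Matrix (Fin n) (Fin n) F) * ((g : Matrix (Fin n) (Fin n) F) * k *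
                ((g⁻¹ : GL (Fin n) F) : Matrix (Fin n) (Fin n) F) * (g : Matrix (Fin n) (Fin n) F)) := by
            rw [h4]
        _ = k := by
            rw [mul_assoc ((g : Matrix (Fin n) (Fin n) F) * k), h1, mul_one, ← mul_assoc, h1, one_mul]
    rw [← h6]
    exact hk

private lemma exists_klG_map_aux [Fintype F] {r : ℕ} (hK : Cfsg.Geo.IsFieldSubalgebra r K)
    [Nonempty (Fin n)] (u w : Fin n → F) (hu : u ≠ 0)
    (hw : ∀ k : ↥K, (k : Matrix (Fin n) (Fin n) F) *ᵥ u ≠ w) :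
    ∃ g : GL (Fin n) F, g ∈ klG K ∧ (g : Matrix (Fin n) (Fin n) F) *ᵥ u = w := by
  have hpair : ∀ k : ↥K, (k : Matrix (Fin n) (Fin n) F) *ᵥ (w - u) ≠ u := by
    intro k hk
    have hk0 : (k : Matrix (Fin n) (Fin n) F) ≠ 0 := by
      intro h
      rw [h, Matrix.zero_mulVec] at hk
      exact hu hk.symm
    obtain ⟨k', hk', hkk'⟩ := hK.inv k k.2 hk0
    have hk'k : k' * (k : Matrix (Fin n) (Fin n) F) = 1 := by
      rw [hK.comm k' hk' k k.2]; exact hkk'
    apply hw (⟨k', hk'⟩ * (1 + k))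
    show (k' * (1 + (k : Matrix (Fin n) (Fin n) F))) *ᵥ u = w
    have h1 : (k : Matrix (Fin n) (Fin n) F) *ᵥ w = u + (k : Matrix (Fin n) (Fin n) F) *ᵥ u := by
      rw [Matrix.mulVec_sub] at hk
      exact sub_eq_iff_eq_add.mp hk
    calc (k' * (1 + (k : Matrix (Fin n) (Fin n) F))) *ᵥ u
        = k' *ᵥ (u + (k : Matrix (Fin n) (Fin n) F) *ᵥ u) := by
          rw [← Matrix.mulVec_mulVec, Matrix.add_mulVec, Matrix.one_mulVec]
      _ = k' *ᵥ ((k : Matrix (Fin n) (Fin n) F) *ᵥ w) := by rw [h1]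
      _ = w := by rw [Matrix.mulVec_mulVec, hk'k, Matrix.one_mulVec]
  obtain ⟨π, h0, h1⟩ := exists_kfun_pair hK (w - u) u hpair
  refine ⟨ktG (w - u) π h0, ktG_mem _ _ _, ?_⟩
  rw [ktG_mulVec, h1, OneMemClass.coe_one, Matrix.one_mulVec]
  abel

/-- The group `klG K` is transitive on non-zero vectors (when `r < n`). -/
theorem exists_klG_map [Fintype F] {r : ℕ} (hK : Cfsg.Geo.IsFieldSubalgebra r K) (hn : r < n)
    (u w : Fin n → F) (hu : u ≠ 0) (hw : w ≠ 0) :
    ∃ g : GL (Fin n) F, g ∈ klG K ∧ (g : Matrix (Fin n) (Fin n) F) *ᵥ u = w := by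
  have : Nonempty (Fin n) := ⟨⟨0, by omega⟩⟩
  by_cases h : ∃ k : ↥K, (k : Matrix (Fin n) (Fin n) F) *ᵥ u = w
  · obtain ⟨k, hk⟩ := h
    obtain ⟨y, hy⟩ := exists_notMem_line hK hn u
    have hy0 : y ≠ 0 := by
      rintro rfl
      exact hy 0 (by rw [ZeroMemClass.coe_zero, Matrix.zero_mulVec])
    obtain ⟨g₁, hg₁, hg₁u⟩ := exists_klG_map_aux hK u y hu hy
    have hyw : ∀ k' : ↥K, (k' : Matrix (Fin n) (Fin n) F) *ᵥ y ≠ w := by
      intro k' hk'
      have hk'0 : (k' : Matrix (Fin n) (Fin n) F) ≠ 0 := by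
        intro h
        rw [h, Matrix.zero_mulVec] at hk'
        exact hw hk'.symm
      obtain ⟨k'', hk'', hkk⟩ := hK.inv k' k'.2 hk'0
      have hk''k : k'' * (k' : Matrix (Fin n) (Fin n) F) = 1 := by
        rw [hK.comm k'' hk'' k' k'.2]; exact hkk
      apply hy (⟨k'', hk''⟩ * k)
      show (k'' * (k : Matrix (Fin n) (Fin n) F)) *ᵥ u = y
      rw [← Matrix.mulVec_mulVec, hk, ← hk', Matrix.mulVec_mulVec, hk''k, Matrix.one_mulVec]
    obtain ⟨g₂, hg₂, hg₂y⟩ := exists_klG_map_aux hK y w hy0 hyw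
    refine ⟨g₂ * g₁, (klG K).mul_mem hg₂ hg₁, ?_⟩
    rw [Units.val_mul, ← Matrix.mulVec_mulVec, hg₁u, hg₂y]
  · push Not at h
    exact exists_klG_map_aux hK u w hu h

/-- A matrix mapping every vector into its own `K`-line lies in `K` (when `r < n`). -/
theorem mem_of_forall_line {r : ℕ} (hK : Cfsg.Geo.IsFieldSubalgebra r K) (hn : r < n)
    (A : Matrix (Fin n) (Fin n) F)
    (hA : ∀ w : Fin n → F, ∃ k : ↥K, A *ᵥ w = (k : Matrix (Fin n) (Fin n) F) *ᵥ w) : A ∈ K := by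
  have key : ∀ (w w' : Fin n → F) (k k' : ↥K), w ≠ 0 →
      (∀ c : ↥K, (c : Matrix (Fin n) (Fin n) F) *ᵥ w ≠ w') →
      A *ᵥ w = (k : Matrix (Fin n) (Fin n) F) *ᵥ w →
      A *ᵥ w' = (k' : Matrix (Fin n) (Fin n) F) *ᵥ w' →
      (k : Matrix (Fin n) (Fin n) F) = k' := by
    intro w w' k k' hw hw' hk hk'
    obtain ⟨k'', hk''⟩ := hA (w + w')
    rw [Matrix.mulVec_add, hk, hk', Matrix.mulVec_add] at hk''
    have h1 : ((k : Matrix (Fin n) (Fin n) F) - (k'' : Matrix (Fin n) (Fin n) F)) *ᵥ w =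
        ((k'' : Matrix (Fin n) (Fin n) F) - (k' : Matrix (Fin n) (Fin n) F)) *ᵥ w' := by
      rw [Matrix.sub_mulVec, Matrix.sub_mulVec]
      have h2 := hk''
      rw [← sub_eq_zero] at h2 ⊢
      rw [← h2]; abel
    have h3 : (k'' : Matrix (Fin n) (Fin n) F) - (k' : Matrix (Fin n) (Fin n) F) = 0 := by
      by_contra h3
      obtain ⟨d, hd, hdd⟩ := hK.inv _ (K.sub_mem k''.2 k'.2) h3
      have hdd' : d * ((k'' : Matrix (Fin n) (Fin n) F) - (k' : Matrix (Fin n) (Fin n) F)) = 1 := by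
        rw [hK.comm d hd _ (K.sub_mem k''.2 k'.2)]; exact hdd
      apply hw' (⟨d, hd⟩ * (k - k''))
      show (d * ((k : Matrix (Fin n) (Fin n) F) - (k'' : Matrix (Fin n) (Fin n) F))) *ᵥ w = w'
      rw [← Matrix.mulVec_mulVec, h1, Matrix.mulVec_mulVec, hdd', Matrix.one_mulVec]
    rw [h3, Matrix.zero_mulVec] at h1
    have h4 := fs_eq_zero hK (K.sub_mem k.2 k''.2) hw h1
    rw [sub_eq_zero] at h3 h4
    rw [h4, h3]
  obtain ⟨w₀, hw₀⟩ := exists_notMem_line hK hn (0 : Fin n → F)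
  have hw₀0 : w₀ ≠ 0 := by
    rintro rfl
    exact hw₀ 0 (by rw [Matrix.mulVec_zero])
  obtain ⟨k₀, hk₀⟩ := hA w₀
  have hall : ∀ w : Fin n → F, A *ᵥ w = (k₀ : Matrix (Fin n) (Fin n) F) *ᵥ w := by
    intro w
    obtain ⟨k, hk⟩ := hA w
    by_cases hw : ∀ c : ↥K, (c : Matrix (Fin n) (Fin n) F) *ᵥ w₀ ≠ w
    · rw [key w₀ w k₀ k hw₀0 hw hk₀ hk]
      exact hk
    · push Not at hw
      obtain ⟨c, hc⟩ := hw
      rcases eq_or_ne w 0 with rfl | hw0
      · rw [Matrix.mulVec_zero, Matrix.mulVec_zero]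
      obtain ⟨y, hy⟩ := exists_notMem_line hK hn w₀
      obtain ⟨ky, hky⟩ := hA y
      have e1 := key w₀ y k₀ ky hw₀0 hy hk₀ hky
      have hc0 : (c : Matrix (Fin n) (Fin n) F) ≠ 0 := by
        intro h
        rw [h, Matrix.zero_mulVec] at hc
        exact hw0 hc.symm
      have hy' : ∀ c' : ↥K, (c' : Matrix (Fin n) (Fin n) F) *ᵥ w ≠ y := by
        intro c' hc'
        apply hy (c' * c)
        rw [Subalgebra.coe_mul, ← Matrix.mulVec_mulVec, hc, hc']
      have e2 := key w y k ky hw0 hy' hk hky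
      rw [e1, ← e2]
      exact hk
  have : A = (k₀ : Matrix (Fin n) (Fin n) F) := by
    apply Matrix.mulVec_injective
    funext w
    exact hall w
  rw [this]
  exact k₀.2

/-! ### Tori -/

private lemma tor_aux {R : Type*} [Ring R] (k k' p : R) :
    (k' - 1) * p + (k - 1) * (p + (k' - 1) * p) = (k * k' - 1) * p := by
  noncomm_ring

/-- The matrix of `v ↦ v + ((k - 1) π(v)) u`. -/
def torM (hc : ∀ x ∈ K, ∀ y ∈ K, x * y = y * x) (u : Fin n → F) (π : KFun K) (k : ↥K) :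
    Matrix (Fin n) (Fin n) F :=
  1 + kT u (π.smul hc (k - 1))

lemma torM_mulVec (hc : ∀ x ∈ K, ∀ y ∈ K, x * y = y * x) (u : Fin n → F) (π : KFun K) (k : ↥K)
    (v : Fin n → F) :
    torM hc u π k *ᵥ v = v + (((k - 1) * π v : ↥K) : Matrix (Fin n) (Fin n) F) *ᵥ u := by
  rw [torM, Matrix.add_mulVec, Matrix.one_mulVec, kT_mulVec]
  rfl

lemma torM_one (hc : ∀ x ∈ K, ∀ y ∈ K, x * y = y * x) (u : Fin n → F) (π : KFun K) :
    torM hc u π 1 = 1 := by
  apply Matrix.mulVec_injective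
  funext v
  rw [torM_mulVec, sub_self, zero_mul, ZeroMemClass.coe_zero, Matrix.zero_mulVec, add_zero,
    Matrix.one_mulVec]

lemma torM_mul (hc : ∀ x ∈ K, ∀ y ∈ K, x * y = y * x) (u : Fin n → F) (π : KFun K)
    (hπ : π u = 1) (k k' : ↥K) : torM hc u π k * torM hc u π k' = torM hc u π (k * k') := by
  apply Matrix.mulVec_injective
  funext v
  rw [← Matrix.mulVec_mulVec, torM_mulVec, torM_mulVec, torM_mulVec, π.map_add, π.map_k, hπ,
    mul_one, add_assoc, ← Matrix.add_mulVec, ← Subalgebra.coe_add]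
  rw [tor_aux k k' (π v)]

lemma torM_comm (hc : ∀ x ∈ K, ∀ y ∈ K, x * y = y * x) (u : Fin n → F) (π : KFun K) (k : ↥K)
    (x : Matrix (Fin n) (Fin n) F) (hx : x ∈ K) : torM hc u π k * x = x * torM hc u π k := by
  rw [torM, add_mul, mul_add, one_mul, mul_one, kT_comm _ _ x hx]

/-- The torus element `v ↦ v + ((k - 1) π(v)) u` of `GL`, for invertible `k` and `π(u) = 1`. -/
def torG (hc : ∀ x ∈ K, ∀ y ∈ K, x * y = y * x) (u : Fin n → F) (π : KFun K) (hπ : π u = 1)
    (k k' : ↥K) (hkk : k * k' = 1) : GL (Fin n) F :=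
  ⟨torM hc u π k, torM hc u π k', by rw [torM_mul hc u π hπ, hkk, torM_one], by
    have h : k' * k = 1 := by
      rw [← hkk]
      exact Subtype.ext (hc _ k'.2 _ k.2)
    rw [torM_mul hc u π hπ, h, torM_one]⟩

lemma torG_val (hc : ∀ x ∈ K, ∀ y ∈ K, x * y = y * x) (u : Fin n → F) (π : KFun K)
    (hπ : π u = 1) (k k' : ↥K) (hkk : k * k' = 1) :
    ((torG hc u π hπ k k' hkk : GL (Fin n) F) : Matrix (Fin n) (Fin n) F) = torM hc u π k := rfl

lemma torM_pow (hc : ∀ x ∈ K, ∀ y ∈ K, x * y = y * x) (u : Fin n → F) (π : KFun K)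
    (hπ : π u = 1) (k : ↥K) (j : ℕ) : torM hc u π k ^ j = torM hc u π (k ^ j) := by
  induction j with
  | zero => rw [pow_zero, pow_zero, torM_one]
  | succ j ih => rw [pow_succ, pow_succ, ih, torM_mul hc u π hπ]

/-- A torus element in `klG K` acting as `k ^ (q - 1)` along `u`. -/
theorem exists_tor [Fintype F] {r : ℕ} (hK : Cfsg.Geo.IsFieldSubalgebra r K) (u : Fin n → F)
    (π : KFun K) (hπ : π u = 1) (k : ↥K) (hk : k ≠ 0) :
    ∃ g : GL (Fin n) F, g ∈ klG K ∧ ∀ v : Fin n → F,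
      (g : Matrix (Fin n) (Fin n) F) *ᵥ v =
        v + (((k ^ (Fintype.card F - 1) - 1) * π v : ↥K) : Matrix (Fin n) (Fin n) F) *ᵥ u := by
  obtain ⟨k', hk', hkk'⟩ := hK.inv k k.2 (fun h => hk (Subtype.ext h))
  have hkk : k * (⟨k', hk'⟩ : ↥K) = 1 := Subtype.ext hkk'
  set g₀ := torG hK.comm u π hπ k ⟨k', hk'⟩ hkk with hg₀
  have hval : ((g₀ ^ (Fintype.card F - 1) : GL (Fin n) F) : Matrix (Fin n) (Fin n) F) =
      torM hK.comm u π (k ^ (Fintype.card F - 1)) := by
    rw [Units.val_pow_eq_pow_val, hg₀, torG_val, torM_pow hK.comm u π hπ]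
  refine ⟨g₀ ^ (Fintype.card F - 1), ⟨fun x hx => ?_, ?_⟩, fun v => ?_⟩
  · rw [hval]
    exact torM_comm hK.comm u π _ x hx
  · rw [Units.val_pow_eq_pow_val, Matrix.det_pow]
    have hdet : (g₀ : Matrix (Fin n) (Fin n) F).det ≠ 0 := by
      have h1 : (g₀ : Matrix (Fin n) (Fin n) F).det *
          ((g₀⁻¹ : GL (Fin n) F) : Matrix (Fin n) (Fin n) F).det = 1 := by
        rw [← Matrix.det_mul, ← Units.val_mul, mul_inv_cancel, Units.val_one, Matrix.det_one]
      intro h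
      rw [h, zero_mul] at h1
      exact zero_ne_one h1
    exact FiniteField.pow_card_sub_one_eq_one _ hdet
  · rw [hval, torM_mulVec]

/-! ### Field facts for a field subalgebra -/

/-- In a finite field where `x ↦ x ^ q` is additive and is not the identity, a subring containing
all `(q - 1)`-th powers of non-zero elements is everything. -/
theorem subring_eq_top_of_pow {L : Type*} [Field L] [Finite L] (q : ℕ) (hq : 1 < q)
    (hcard : q < Nat.card L) (hadd : ∀ x y : L, (x + y) ^ q = x ^ q + y ^ q)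
    (S : Subring L) (hS : ∀ k : L, k ≠ 0 → k ^ (q - 1) ∈ S) : S = ⊤ := by
  have hinv : ∀ x ∈ S, x⁻¹ ∈ S := by
    intro x hx
    rcases eq_or_ne x 0 with rfl | hx0
    · rw [_root_.inv_zero]; exact S.zero_mem
    · have : Fintype L := Fintype.ofFinite L
      have h1 : x ^ (Fintype.card L - 1) = 1 := FiniteField.pow_card_sub_one_eq_one x hx0
      have h2 : 2 ≤ Fintype.card L := Fintype.one_lt_card
      have h3 : x⁻¹ = x ^ (Fintype.card L - 2) := by
        apply inv_eq_of_mul_eq_one_right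
        rw [← pow_succ', show Fintype.card L - 2 + 1 = Fintype.card L - 1 by omega, h1]
      rw [h3]
      exact S.pow_mem hx _
  have key : ∀ k : L, k ^ q ≠ k → k ∈ S := by
    intro k hk
    have hk0 : k ≠ 0 := by
      rintro rfl
      exact hk (zero_pow (by omega))
    have hk1 : k + 1 ≠ 0 := by
      intro h
      have h2 := hadd k 1
      rw [h, zero_pow (by omega), one_pow] at h2
      apply hk
      linear_combination (-1 : L) * h2 - h
    have e0 : k ^ (q - 1) * k = k ^ q := by rw [← pow_succ, Nat.sub_add_cancel hq.le]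
    have e1 : (k + 1) ^ (q - 1) * (k + 1) = k ^ q + 1 := by
      rw [← pow_succ, Nat.sub_add_cancel hq.le, hadd, one_pow]
    have e2 : k * ((k + 1) ^ (q - 1) - k ^ (q - 1)) = 1 - (k + 1) ^ (q - 1) := by
      linear_combination e1 - e0
    have hne : (k + 1) ^ (q - 1) - k ^ (q - 1) ≠ 0 := by
      intro h
      rw [h, mul_zero] at e2
      have ha1 : (k + 1) ^ (q - 1) = 1 := by linear_combination e2
      have ha0 : k ^ (q - 1) = 1 := by linear_combination ha1 - h
      apply hk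
      rw [← e0, ha0, one_mul]
    have e3 : k = (1 - (k + 1) ^ (q - 1)) * ((k + 1) ^ (q - 1) - k ^ (q - 1))⁻¹ := by
      rw [← e2, mul_assoc, mul_inv_cancel₀ hne, mul_one]
    rw [e3]
    exact S.mul_mem (S.sub_mem S.one_mem (hS _ hk1))
      (hinv _ (S.sub_mem (hS _ hk1) (hS _ hk0)))
  obtain ⟨k₁, hk₁⟩ : ∃ k₁ : L, k₁ ^ q ≠ k₁ := by
    obtain ⟨g, hg⟩ := IsCyclic.exists_generator (α := Lˣ)
    have hord : orderOf g = Nat.card L - 1 := by
      rw [orderOf_eq_card_of_forall_mem_zpowers hg, Nat.card_units]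
    refine ⟨(g : L), fun h => ?_⟩
    have h1 : g ^ (q - 1) = 1 := by
      apply Units.ext
      rw [Units.val_pow_eq_pow_val, Units.val_one]
      have h2 : (g : L) ^ (q - 1) * g = 1 * g := by
        rw [← pow_succ, Nat.sub_add_cancel hq.le, h, one_mul]
      exact mul_right_cancel₀ g.ne_zero h2
    have h2 := orderOf_dvd_of_pow_eq_one h1
    rw [hord] at h2
    have h3 := Nat.le_of_dvd (by omega) h2
    omega
  rw [eq_top_iff]
  intro k _
  by_cases hk : k ^ q = k
  · have h2 : (k + k₁) ^ q ≠ k + k₁ := by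
      rw [hadd, hk]
      intro h
      exact hk₁ (add_left_cancel h)
    have h3 := S.sub_mem (key _ h2) (key _ hk₁)
    rw [add_sub_cancel_right] at h3
    exact h3
  · exact key k hk

section fsfacts

variable [Fintype F] {r : ℕ}

/-- The Frobenius `x ↦ x ^ q` is additive on a field subalgebra. -/
theorem fs_frob_add [Nonempty (Fin n)] (hK : Cfsg.Geo.IsFieldSubalgebra r K) (x y : ↥K) :
    (x + y) ^ Fintype.card F = x ^ Fintype.card F + y ^ Fintype.card F := by
  obtain ⟨p, hp⟩ := CharP.exists F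
  have : Fact p.Prime := ⟨CharP.char_is_prime F p⟩
  obtain ⟨f, hpf, hqf⟩ := FiniteField.card F p
  apply Subtype.ext
  rw [Subalgebra.coe_pow, Subalgebra.coe_add, Subalgebra.coe_add, Subalgebra.coe_pow,
    Subalgebra.coe_pow, hqf]
  exact add_pow_char_pow_of_commute p _ (hK.comm x x.2 y y.2)

/-- The scalars are fixed by the Frobenius `x ↦ x ^ q`. -/
theorem fs_frob_algebraMap (c : F) :
    (algebraMap F ↥K c) ^ Fintype.card F = algebraMap F ↥K c := by
  rw [← map_pow, FiniteField.pow_card]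

theorem fs_card (hK : Cfsg.Geo.IsFieldSubalgebra r K) : Nat.card ↥K = Fintype.card F ^ r := by
  rw [Module.natCard_eq_pow_finrank (K := F) (V := ↥K), hK.finrank_eq, Nat.card_eq_fintype_card]

/-- Lemma Gen for a field subalgebra: a subring containing all `(q - 1)`-th powers is everything. -/
theorem fs_subring_eq_top [Nonempty (Fin n)] (hK : Cfsg.Geo.IsFieldSubalgebra r K) (hr : 1 < r)
    (S : Subring ↥K) (hS : ∀ k : ↥K, k ≠ 0 → k ^ (Fintype.card F - 1) ∈ S) : S = ⊤ := by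
  let _ : Field ↥K := (fs_isField hK).toField
  have hfin : Finite ↥K := inferInstance
  have hq1 : 1 < Fintype.card F := Fintype.one_lt_card
  have hcard : Fintype.card F < Nat.card ↥K := by
    rw [fs_card hK]
    calc Fintype.card F = Fintype.card F ^ 1 := (pow_one _).symm
      _ < Fintype.card F ^ r := Nat.pow_lt_pow_right hq1 hr
  exact subring_eq_top_of_pow (L := ↥K) (Fintype.card F) hq1 hcard (fs_frob_add hK) S hS

/-- An additive subgroup of a field subalgebra which is stable under multiplication by all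
`(q - 1)`-th powers is stable under multiplication by everything. -/
theorem fs_addSubgroup_mul [Nonempty (Fin n)] (hK : Cfsg.Geo.IsFieldSubalgebra r K) (hr : 1 < r)
    (A : AddSubgroup ↥K)
    (hA : ∀ k : ↥K, k ≠ 0 → ∀ c ∈ A, k ^ (Fintype.card F - 1) * c ∈ A) (s c : ↥K) (hc : c ∈ A) :
    s * c ∈ A := by
  let S : Subring ↥K :=
    { carrier := {s | ∀ c ∈ A, s * c ∈ A}
      mul_mem' := fun {a b} ha hb c hc => by rw [mul_assoc]; exact ha _ (hb c hc)
      one_mem' := fun c hc => by rw [one_mul]; exact hc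
      add_mem' := fun {a b} ha hb c hc => by rw [add_mul]; exact A.add_mem (ha c hc) (hb c hc)
      zero_mem' := fun c _ => by rw [zero_mul]; exact A.zero_mem
      neg_mem' := fun {a} ha c hc => by
        have e : -a * c = -(a * c) := neg_mul a c
        rw [e]; exact A.neg_mem (ha c hc) }
  have hS : S = ⊤ := fs_subring_eq_top hK hr S (fun k hk c hc => hA k hk c hc)
  have hs : s ∈ S := by rw [hS]; exact Subring.mem_top s
  exact hs c hc

end fsfacts

/-! ### `F`-functionals from `K`-functionals -/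

/-- The vector representing the `F`-functional `v ↦ lam (π v)`. -/
def kf (lam : ↥K →ₗ[F] F) (π : KFun K) : Fin n → F :=
  fun i => lam (π (fun j => if i = j then 1 else 0))

lemma kf_dot (lam : ↥K →ₗ[F] F) (π : KFun K) (v : Fin n → F) : kf lam π ⬝ᵥ v = lam (π v) := by
  have h := LinearMap.pi_apply_eq_sum_univ (lam ∘ₗ π.toLin) v
  rw [LinearMap.comp_apply] at h
  rw [show π v = π.toLin v from rfl, h, dotProduct]
  apply Finset.sum_congr rfl
  intro i _
  rw [smul_eq_mul, mul_comm]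
  rfl

/-- Every `F`-functional is of the form `β ∘ π` for a `K`-functional `π`, for any fixed non-zero
`F`-functional `β` on `K`. -/
theorem exists_kfun_repr {r : ℕ} (hK : Cfsg.Geo.IsFieldSubalgebra r K)
    (β : ↥K →ₗ[F] F) (hβ : β ≠ 0) (ψ : Fin n → F) :
    ∃ π : KFun K, ∀ v : Fin n → F, β (π v) = ψ ⬝ᵥ v := by
  have hcomm : ∀ a b : ↥K, a * b = b * a := fun a b => Subtype.ext (hK.comm a a.2 b b.2)
  let B : ↥K →ₗ[F] (↥K →ₗ[F] F) := (LinearMap.mul F ↥K).compr₂ β
  have hB : ∀ c k : ↥K, B c k = β (c * k) := fun c k => rfl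
  have hinj : Function.Injective B := by
    rw [← LinearMap.ker_eq_bot, LinearMap.ker_eq_bot']
    intro c hc
    by_contra hc0
    obtain ⟨c', hc', hcc'⟩ := hK.inv c c.2 (fun h => hc0 (Subtype.ext h))
    apply hβ
    ext k
    have h1 := LinearMap.congr_fun hc (⟨c', hc'⟩ * k)
    rw [hB, ← mul_assoc] at h1
    have e : c * (⟨c', hc'⟩ : ↥K) = 1 := Subtype.ext hcc'
    rw [e, one_mul] at h1
    exact h1
  have hfin : Module.finrank F ↥K = Module.finrank F (↥K →ₗ[F] F) :=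
    (Subspace.dual_finrank_eq).symm
  have hsurj : Function.Surjective B :=
    (LinearMap.injective_iff_surjective_of_finrank_eq_finrank hfin).mp hinj
  let e : ↥K ≃ₗ[F] (↥K →ₗ[F] F) := LinearEquiv.ofBijective B ⟨hinj, hsurj⟩
  have he : ∀ c k : ↥K, e c k = β (c * k) := fun c k => rfl
  let Ψ : (Fin n → F) →ₗ[F] (↥K →ₗ[F] F) :=
    LinearMap.mk₂ F (fun v k => ψ ⬝ᵥ ((k : Matrix (Fin n) (Fin n) F) *ᵥ v))
      (fun v v' k => by rw [Matrix.mulVec_add, dotProduct_add])
      (fun c v k => by rw [Matrix.mulVec_smul, dotProduct_smul])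
      (fun v k k' => by rw [Subalgebra.coe_add, Matrix.add_mulVec, dotProduct_add])
      (fun c v k => by rw [Subalgebra.coe_smul, Matrix.smul_mulVec, dotProduct_smul])
  have hΨ : ∀ (v : Fin n → F) (k : ↥K), Ψ v k = ψ ⬝ᵥ ((k : Matrix (Fin n) (Fin n) F) *ᵥ v) :=
    fun v k => rfl
  have hπ : ∀ (v : Fin n → F) (k : ↥K),
      β (e.symm (Ψ v) * k) = ψ ⬝ᵥ ((k : Matrix (Fin n) (Fin n) F) *ᵥ v) := by
    intro v k
    rw [← he, LinearEquiv.apply_symm_apply, hΨ]
  refine ⟨⟨e.symm.toLinearMap ∘ₗ Ψ, fun k₁ v => ?_⟩, fun v => ?_⟩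
  · show e.symm (Ψ ((k₁ : Matrix (Fin n) (Fin n) F) *ᵥ v)) = k₁ * e.symm (Ψ v)
    apply e.injective
    rw [LinearEquiv.apply_symm_apply]
    ext k
    rw [he, hΨ, Matrix.mulVec_mulVec, ← Subalgebra.coe_mul, ← hπ v (k * k₁)]
    congr 1
    rw [hcomm k₁ (e.symm (Ψ v)), mul_assoc, hcomm k₁ k]
  · have h := hπ v 1
    rw [mul_one, OneMemClass.coe_one, Matrix.one_mulVec] at h
    exact h

/-! ### Degree two -/

/-- In a field subalgebra of degree two, every element is `a + b ω` for any non-scalar `ω`. -/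
theorem fs_two_decomp (hK : Cfsg.Geo.IsFieldSubalgebra 2 K) (ω : ↥K)
    (hω : ∀ c : F, ω ≠ c • (1 : ↥K)) (k : ↥K) : ∃ a b : F, k = a • (1 : ↥K) + b • ω := by
  let f : F × F →ₗ[F] ↥K :=
    (LinearMap.toSpanSingleton F ↥K 1).coprod (LinearMap.toSpanSingleton F ↥K ω)
  have hf : ∀ p : F × F, f p = p.1 • (1 : ↥K) + p.2 • ω := fun p => rfl
  have hinj : Function.Injective f := by
    rw [← LinearMap.ker_eq_bot, LinearMap.ker_eq_bot']
    rintro ⟨a, b⟩ h
    rw [hf] at h
    have hb : b = 0 := by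
      by_contra hb
      apply hω (-(b⁻¹ * a))
      have h1 : b • ω = -(a • (1 : ↥K)) := eq_neg_of_add_eq_zero_right h
      calc ω = b⁻¹ • (b • ω) := by rw [smul_smul, inv_mul_cancel₀ hb, one_smul]
        _ = -(b⁻¹ * a) • (1 : ↥K) := by rw [h1, smul_neg, smul_smul, neg_smul]
    subst hb
    rw [zero_smul, add_zero] at h
    have ha : a = 0 := by
      by_contra ha
      have h1 : (1 : ↥K) = 0 := by
        calc (1 : ↥K) = a⁻¹ • (a • (1 : ↥K)) := by rw [smul_smul, inv_mul_cancel₀ ha, one_smul]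
          _ = 0 := by rw [h, smul_zero]
      have hsub : Subsingleton ↥K :=
        ⟨fun x y => by rw [← mul_one x, ← mul_one y, h1, mul_zero, mul_zero]⟩
      have h2 := hK.finrank_eq
      rw [Module.finrank_zero_of_subsingleton] at h2
      omega
    rw [ha]
    rfl
  have hfin : Module.finrank F (F × F) = Module.finrank F ↥K := by
    rw [Module.finrank_prod, Module.finrank_self, hK.finrank_eq]
  obtain ⟨⟨a, b⟩, hab⟩ :=
    (LinearMap.injective_iff_surjective_of_finrank_eq_finrank hfin).mp hinj k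
  exact ⟨a, b, by rw [← hab, hf]⟩

/-- Vector form of `fs_two_decomp`. -/
theorem fs_two_decomp_mulVec (hK : Cfsg.Geo.IsFieldSubalgebra 2 K) (ω : ↥K)
    (hω : ∀ c : F, ω ≠ c • (1 : ↥K)) (k : ↥K) :
    ∃ a b : F, ∀ v : Fin n → F, (k : Matrix (Fin n) (Fin n) F) *ᵥ v =
      a • v + b • ((ω : Matrix (Fin n) (Fin n) F) *ᵥ v) := by
  obtain ⟨a, b, hab⟩ := fs_two_decomp hK ω hω k
  refine ⟨a, b, fun v => ?_⟩
  rw [hab, Subalgebra.coe_add, Subalgebra.coe_smul, Subalgebra.coe_smul, OneMemClass.coe_one,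
    Matrix.add_mulVec, Matrix.smul_mulVec, Matrix.smul_mulVec, Matrix.one_mulVec]

/-! ### Interface predicates for the `K`-line through `u` -/

/-- The matrix `z` maps the `K`-line `K u` into itself. -/
def StabL (K : Subalgebra F (Matrix (Fin n) (Fin n) F)) (u : Fin n → F)
    (z : Matrix (Fin n) (Fin n) F) : Prop :=
  ∀ c : ↥K, ∃ c' : ↥K, z *ᵥ ((c : Matrix (Fin n) (Fin n) F) *ᵥ u) =
    (c' : Matrix (Fin n) (Fin n) F) *ᵥ u

/-- The matrix `z` normalises the action of `K` on the `K`-line `K u`: for every `k ∈ K` there is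
`k' ∈ K` with `z (k w) = k' (z w)` for all `w ∈ K u`. -/
def NormL (K : Subalgebra F (Matrix (Fin n) (Fin n) F)) (u : Fin n → F)
    (z : Matrix (Fin n) (Fin n) F) : Prop :=
  ∀ k : ↥K, ∃ k' : ↥K, ∀ c : ↥K,
    z *ᵥ ((k : Matrix (Fin n) (Fin n) F) *ᵥ ((c : Matrix (Fin n) (Fin n) F) *ᵥ u)) =
      (k' : Matrix (Fin n) (Fin n) F) *ᵥ (z *ᵥ ((c : Matrix (Fin n) (Fin n) F) *ᵥ u))

end Cfsg.Agent.Lib.Helper97
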