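import Cfsg.Agent.Lib.Helper36.E8Facts
import Cfsg.Agent.Lib.Helper24.UProdAll
import Cfsg.Agent.Lib.Helper25.ChevGr

/-!
# S5751, piece UB5 (helper97 for helper36): an element of `U` in `E₈(2)` all of whose entries in
the rows `h_i` and the columns `e_s` vanish is `1`.
-/

set_option autoImplicit false
set_option maxRecDepth 100000

namespace Cfsg.Agent.Lib.Helper36.E8C

open Cfsg.Lie Cfsg.Agent.Lib.Helper24 Cfsg.Agent.Lib.Helper25

/-- the coefficient vector of the height: the sum of the rows of the inverse Cartan matrix -/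
def ub5_cH : List ℤ := [46, 68, 91, 135, 110, 84, 57, 29]

theorem ub5_facts : ∀ r < 240, chevE8.neg r < 240 ∧ chevE8.neg (chevE8.neg r) = r ∧
    (chevE8.IsPosRoot r → 1 ≤ wc ub5_cH r) := by
  decide +kernel

theorem ub5_addGraded : AddGraded chevE8 (wc ub5_cH) :=
  addGraded_coW [ub5_cH] chevE8 hE8' 0

/-- the entries of `x_r(t)` in the rows `h_i` and the columns `e_s` -/
theorem ub5_x_inl_inr {F : Type*} [Field F] (D : ChevalleyDatum) (r : ℕ) (hr : r < D.nroots)
    (t : F) (i : Fin D.rank) (s : Fin D.nroots) :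
    D.x F r t (Sum.inl i) (Sum.inr s) =
      if s.val = r then 0 else if s.val = D.neg r then ((corootC D r i.val : ℤ) : F) * t
      else 0 := by
  rw [x_eq_xMat D r hr]
  unfold ChevalleyDatum.xMat
  rw [Matrix.of_apply]
  dsimp only
  by_cases h1 : s = ⟨r, hr⟩
  · have h1' : s.val = r := by rw [h1]
    rw [if_pos h1, if_pos h1']
  · have h1' : s.val ≠ r := fun h => h1 (Fin.ext h)
    rw [if_neg h1, if_neg h1']
    by_cases h2 : s.val = D.neg r
    · rw [if_pos h2]
      have h2' : s.val = D.negIdx.getD r 0 := h2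
      rw [if_pos h2']
      rfl
    · rw [if_neg h2]
      have h2' : ¬ s.val = D.negIdx.getD r 0 := h2
      rw [if_neg h2']

theorem ub5_upT_x (m : ℤ) (hm : 1 ≤ m) (r : ℕ) (t : K2) (hr : chevE8.IsPosRoot r)
    (h : t = 0 ∨ m ≤ wc ub5_cH r) :
    UpT (lvl chevE8 (wc ub5_cH)) (m - 1) (chevE8.x K2 r t) := by
  rcases h with h | h
  · rw [h, Cfsg.Agent.Lib.Helper24.x_zero]
    exact upT_one _ _
  · exact x_upT chevE8 hE8 (wc ub5_cH) ub5_addGraded r hr (m - 1) (by omega) (by omega) t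

theorem ub5_wordMat_cons (p : ℕ × K2) (W : List (ℕ × K2)) :
    chevE8.wordMat K2 (p :: W) = chevE8.x K2 p.1 p.2 * chevE8.wordMat K2 W := by
  unfold ChevalleyDatum.wordMat
  rw [List.map_cons, List.prod_cons]

theorem ub5_wordMat_zero (W : List (ℕ × K2)) (hW : ∀ p ∈ W, p.2 = 0) :
    chevE8.wordMat K2 W = 1 := by
  induction W with
  | nil => rfl
  | cons p W ih =>
    rw [ub5_wordMat_cons, ih (fun q hq => hW q (List.mem_cons_of_mem _ hq)),
      hW p List.mem_cons_self, Cfsg.Agent.Lib.Helper24.x_zero, one_mul]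

theorem ub5_upT_word (m : ℤ) (hm : 1 ≤ m) (W : List (ℕ × K2))
    (hW : ∀ p ∈ W, chevE8.IsPosRoot p.1 ∧ (p.2 = 0 ∨ m ≤ wc ub5_cH p.1)) :
    UpT (lvl chevE8 (wc ub5_cH)) (m - 1) (chevE8.wordMat K2 W) := by
  induction W with
  | nil => exact upT_one _ _
  | cons p W ih =>
    rw [ub5_wordMat_cons]
    exact UpT.mul (by omega)
      (ub5_upT_x m hm p.1 p.2 (hW p List.mem_cons_self).1 (hW p List.mem_cons_self).2)
      (ih (fun q hq => hW q (List.mem_cons_of_mem _ hq)))

/-- the entries of a word at the positions of level difference exactly `m` -/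
theorem ub5_word_entry (m : ℤ) (hm : 1 ≤ m) (W : List (ℕ × K2))
    (hW : ∀ p ∈ W, chevE8.IsPosRoot p.1 ∧ (p.2 = 0 ∨ m ≤ wc ub5_cH p.1))
    (a b : chevE8.Idx)
    (hab : lvl chevE8 (wc ub5_cH) a = lvl chevE8 (wc ub5_cH) b + m) :
    chevE8.wordMat K2 W a b = (W.map fun p => chevE8.x K2 p.1 p.2 a b).sum := by
  have hne : a ≠ b := by
    intro e
    rw [e] at hab
    omega
  induction W with
  | nil =>
    show (1 : Matrix chevE8.Idx chevE8.Idx K2) a b = 0
    exact Matrix.one_apply_ne hne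
  | cons p W ih =>
    have hX := ub5_upT_x m hm p.1 p.2 (hW p List.mem_cons_self).1 (hW p List.mem_cons_self).2
    have hP := ub5_upT_word m hm W (fun q hq => hW q (List.mem_cons_of_mem _ hq))
    rw [ub5_wordMat_cons, Matrix.mul_apply, List.map_cons, List.sum_cons,
      ← ih (fun q hq => hW q (List.mem_cons_of_mem _ hq))]
    rw [Finset.sum_eq_add a b hne]
    · rw [hX.1 a, hP.1 b, one_mul, mul_one, add_comm]
    · intro c _ hc
      by_contra hcon
      have h1 : chevE8.x K2 p.1 p.2 a c ≠ 0 := left_ne_zero_of_mul hcon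
      have h2 : chevE8.wordMat K2 W c b ≠ 0 := right_ne_zero_of_mul hcon
      rcases hX.2 a c h1 with e | e
      · exact hc.1 e.symm
      · rcases hP.2 c b h2 with e' | e'
        · exact hc.2 e'
        · omega
    · intro h
      exact absurd (Finset.mem_univ a) h
    · intro h
      exact absurd (Finset.mem_univ b) h

theorem ub5_sum_single (l : List ℕ) (hl : l.Nodup) (r0 : ℕ) (h0 : r0 ∈ l) (f : ℕ → K2)
    (hf : ∀ r ∈ l, r ≠ r0 → f r = 0) : (l.map f).sum = f r0 := by
  induction l with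
  | nil => exact absurd h0 List.not_mem_nil
  | cons a l ih =>
    rw [List.nodup_cons] at hl
    rw [List.map_cons, List.sum_cons]
    by_cases ha : a = r0
    · subst ha
      have h1 : (l.map f).sum = 0 := by
        apply List.sum_eq_zero
        intro x hx
        rw [List.mem_map] at hx
        obtain ⟨r, hr, rfl⟩ := hx
        exact hf r (List.mem_cons_of_mem _ hr) (fun e => hl.1 (e ▸ hr))
      rw [h1, add_zero]
    · have h0' : r0 ∈ l := by
        rcases List.mem_cons.mp h0 with e | e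
        · exact absurd e.symm ha
        · exact e
      rw [hf a List.mem_cons_self ha, zero_add]
      exact ih hl.2 h0' (fun r hr => hf r (List.mem_cons_of_mem _ hr))

theorem ub5_posRoots_nodup : chevE8.posRoots.Nodup := by
  unfold ChevalleyDatum.posRoots
  exact List.Nodup.filter _ List.nodup_range

theorem ub5_mem_posRoots (r : ℕ) : r ∈ chevE8.posRoots ↔ chevE8.IsPosRoot r := by
  unfold ChevalleyDatum.posRoots
  rw [List.mem_filter, decide_eq_true_eq, List.mem_range]
  constructor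
  · intro h
    exact h.2
  · intro h
    exact ⟨h.1, h⟩

set_option maxHeartbeats 400000 in
/-- an element of `U` all of whose entries in the rows `h_i` and columns `e_s` vanish is `1` -/
theorem eq_one_of_unipotent (g : GL chevE8.Idx K2) (hg : g ∈ chevE8.posUnipotent K2)
    (hz : ∀ (i : Fin chevE8.rank) (s : Fin chevE8.nroots),
      (g : Matrix chevE8.Idx chevE8.Idx K2) (Sum.inl i) (Sum.inr s) = 0) : g = 1 := by
  obtain ⟨t, ⟨ht0, hgt⟩, -⟩ := (unique_product_all (F := K2) chevE8 hE8').1 g hg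
  have hall : ∀ r, t r = 0 := by
    by_contra hcon
    push Not at hcon
    obtain ⟨r1, hr1⟩ := hcon
    have hpos : ∀ r, t r ≠ 0 → chevE8.IsPosRoot r := by
      intro r hr
      by_contra hnp
      exact hr (ht0 r hnp)
    have hne : ((Finset.range 240).filter fun r => t r ≠ 0).Nonempty :=
      ⟨r1, Finset.mem_filter.mpr ⟨Finset.mem_range.mpr (hpos r1 hr1).1, hr1⟩⟩
    obtain ⟨r0, hr0mem, hr0min⟩ := Finset.exists_min_image _ (fun r => wc ub5_cH r) hne
    rw [Finset.mem_filter, Finset.mem_range] at hr0mem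
    obtain ⟨hr0lt, hr0t⟩ := hr0mem
    have hr0pos := hpos r0 hr0t
    obtain ⟨hn, hnn, hht⟩ := ub5_facts r0 hr0lt
    have hm : 1 ≤ wc ub5_cH r0 := hht hr0pos
    obtain ⟨i, hi, hodd⟩ := coroot_odd r0 hr0lt
    -- the letters of the word
    have hW : ∀ p ∈ chevE8.posRoots.map (fun r => (r, t r)),
        chevE8.IsPosRoot p.1 ∧ (p.2 = 0 ∨ wc ub5_cH r0 ≤ wc ub5_cH p.1) := by
      intro p hp
      rw [List.mem_map] at hp
      obtain ⟨r, hr, rfl⟩ := hp
      have hrpos := (ub5_mem_posRoots r).mp hr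
      refine ⟨hrpos, ?_⟩
      by_cases htr : t r = 0
      · exact Or.inl htr
      · exact Or.inr (hr0min r (Finset.mem_filter.mpr ⟨Finset.mem_range.mpr hrpos.1, htr⟩))
    have hlvl : lvl chevE8 (wc ub5_cH) (Sum.inl ⟨i, hi⟩) =
        lvl chevE8 (wc ub5_cH) (Sum.inr ⟨chevE8.neg r0, hn⟩) + wc ub5_cH r0 := by
      show (0 : ℤ) = wc ub5_cH (chevE8.neg r0) + wc ub5_cH r0
      rw [ub5_addGraded.neg r0 hr0lt]
      ring
    have hentry := ub5_word_entry (wc ub5_cH r0) hm _ hW (Sum.inl ⟨i, hi⟩)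
      (Sum.inr ⟨chevE8.neg r0, hn⟩) hlvl
    rw [← hgt, hz ⟨i, hi⟩ ⟨chevE8.neg r0, hn⟩, List.map_map] at hentry
    have hsum := ub5_sum_single chevE8.posRoots ub5_posRoots_nodup r0
      ((ub5_mem_posRoots r0).mpr hr0pos)
      (fun r => chevE8.x K2 r (t r) (Sum.inl ⟨i, hi⟩) (Sum.inr ⟨chevE8.neg r0, hn⟩)) (by
        intro r hr hrne
        have hrpos := (ub5_mem_posRoots r).mp hr
        show chevE8.x K2 r (t r) (Sum.inl ⟨i, hi⟩) (Sum.inr ⟨chevE8.neg r0, hn⟩) = 0
        rw [ub5_x_inl_inr chevE8 r hrpos.1]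
        have h1 : chevE8.neg r0 ≠ chevE8.neg r := by
          intro e
          apply hrne
          rw [← (ub5_facts r hrpos.1).2.1, ← e, hnn]
        have h1' : ¬ ((⟨chevE8.neg r0, hn⟩ : Fin chevE8.nroots).val = chevE8.neg r) := h1
        rw [if_neg h1']
        split_ifs <;> rfl)
    have hsum' : (List.map ((fun p : ℕ × K2 => chevE8.x K2 p.1 p.2 (Sum.inl ⟨i, hi⟩)
        (Sum.inr ⟨chevE8.neg r0, hn⟩)) ∘ fun r => (r, t r)) chevE8.posRoots).sum =
        chevE8.x K2 r0 (t r0) (Sum.inl ⟨i, hi⟩) (Sum.inr ⟨chevE8.neg r0, hn⟩) := hsum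
    rw [hsum', ub5_x_inl_inr chevE8 r0 hr0lt] at hentry
    have hne0 : chevE8.neg r0 ≠ r0 := by
      intro e
      have h1 := ub5_addGraded.neg r0 hr0lt
      rw [e] at h1
      omega
    have hne0' : ¬ ((⟨chevE8.neg r0, hn⟩ : Fin chevE8.nroots).val = r0) := hne0
    have heq' : (⟨chevE8.neg r0, hn⟩ : Fin chevE8.nroots).val = chevE8.neg r0 := rfl
    rw [if_neg hne0', if_pos heq'] at hentry
    have ht1 : t r0 = 1 := by
      have : ∀ x : K2, x ≠ 0 → x = 1 := by decide
      exact this _ hr0t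
    have hc1 : ((corootC chevE8 r0 i : ℤ) : K2) = 1 := by
      have h2 : corootC chevE8 r0 i % ((2 : ℕ) : ℤ) = 1 := hodd
      rw [← ZMod.intCast_mod, h2]
      rfl
    rw [ht1, hc1, mul_one] at hentry
    exact zero_ne_one hentry
  have h1 : (g : Matrix chevE8.Idx chevE8.Idx K2) = 1 := by
    rw [hgt]
    apply ub5_wordMat_zero
    intro p hp
    rw [List.mem_map] at hp
    obtain ⟨r, -, rfl⟩ := hp
    exact hall r
  exact Units.ext (h1.trans Units.val_one.symm)

end Cfsg.Agent.Lib.Helper36.E8C
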