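import Cfsg.Agent.Lib.Helper41.TW5
import Cfsg.Agent.Lib.Helper41.TW6
import Cfsg.Agent.Lib.Helper41.PSub

/-!
# Wielandt bounds (S3682/S3688/S3693), piece WB-F1 (helper97)
-/

set_option autoImplicit false

namespace Cfsg.Agent.Lib.Helper97.WBP

open Cfsg Cfsg.Agent.Lib.Helper66 Cfsg.Agent.Lib.Helper41 Cfsg.Agent.Lib.Helper41.TW

theorem rp_A1_eq_bot {G : Type*} [Group G] [Finite G] {X Y A1 B1 A2 B2 : Subgroup G}
    (S : Setting X Y A1 B1 A2 B2) {p : ℕ} (hp : p.Prime)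
    (H : rp p (X ⊓ Y) ≤ A1) : rp p A1 = ⊥ := by
  by_contra hne
  have : Fact p.Prime := ⟨hp⟩
  -- (1)
  have hRA : rp p A1 ≤ A1 := rp_le p A1
  have hRX : rp p A1 ≤ X := hRA.trans S.A1_le_X
  have hNR : Subgroup.normalizer ((rp p A1 : Subgroup G) : Set G) ≤ X :=
    S.primX (rp p A1) hRX (S.X_norm_rp_A1 p) hne
  -- (2)
  have h2 : rp p Y ⊓ X ≤ rp p A1 := by
    have hP : IsPGroup p ↥(rp p Y ⊓ X : Subgroup G) := (rp_isPGroup p Y).to_le inf_le_left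
    have hle : rp p Y ⊓ X ≤ X ⊓ Y := fun g hg => ⟨hg.2, rp_le p Y hg.1⟩
    have hn : X ⊓ Y ≤ Subgroup.normalizer ((rp p Y ⊓ X : Subgroup G) : Set G) :=
      inf_le_normalizer_inf (inf_le_right.trans (le_normalizer_rp p Y))
        (inf_le_left.trans Subgroup.le_normalizer)
    have h3 : rp p Y ⊓ X ≤ rp p (X ⊓ Y) := le_rp hle hn hP
    have h4 : rp p Y ⊓ X ≤ A1 := h3.trans H
    have hA1 : A1 ≤ X ⊓ Y := le_inf S.A1_le_X S.A1_le_Y
    exact le_rp h4 (hA1.trans hn) hP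
  -- (3)
  have hRnorm : rp p A1 ≤ Subgroup.normalizer ((rp p Y : Subgroup G) : Set G) :=
    (hRA.trans S.A1_le_Y).trans (le_normalizer_rp p Y)
  have hW : IsPGroup p ↥(rp p A1 ⊔ rp p Y : Subgroup G) :=
    IsPGroup.to_sup_of_normal_right' (rp_isPGroup p A1) (rp_isPGroup p Y) hRnorm
  -- (4)
  have h4 : rp p Y ≤ rp p A1 := by
    by_contra hnot
    obtain ⟨v, hv, hvR⟩ := SetLike.not_le_iff_exists.mp hnot
    obtain ⟨u, huW, huR, huN⟩ := exists_normalizer_not_mem (rp p A1 ⊔ rp p Y) (rp p A1) hW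
      ⟨v, Subgroup.mem_sup_right hv, hvR⟩ le_sup_left
    obtain ⟨r, hr, s, hs, rfl⟩ := exists_mul_of_mem_sup_left (rp p A1) (rp p Y) hRnorm huW
    have huX : r * s ∈ X := hNR huN
    have hsX : s ∈ X := by
      have e : s = r⁻¹ * (r * s) := by group
      rw [e]; exact X.mul_mem (X.inv_mem (hRX hr)) huX
    exact huR (Subgroup.mul_mem _ hr (h2 ⟨hs, hsX⟩))
  -- (5)
  have h5 : rp p Y ≤ rp p X := h4.trans (S.rp_A1_le_rp_X p)
  have h6 : rp p Y = rp p X := Subgroup.eq_of_le_of_card_ge h5 (S.cardP p).le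
  have h7 : rp p X = ⊥ :=
    S.not_both (rp_le p X) (le_normalizer_rp p X) (h6 ▸ le_normalizer_rp p Y)
  apply hne
  rw [eq_bot_iff, ← h7]
  exact S.rp_A1_le_rp_X p

end Cfsg.Agent.Lib.Helper97.WBP
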