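import Mathlib
import Cfsg.Prelude.Def_GeometricClasses
import Cfsg.Agent.Lib.Helper18.Darboux
import Cfsg.Agent.S2166
import Cfsg.Agent.Lib.Helper97.SpOver2

/-!
# Symplectic overgroups: stabilisers of orthogonal decompositions

Helper library (helper97): for a family `D` of pairwise orthogonal non-degenerate subspaces
spanning the space (`Blocks f D`), overgroups of the isometries in `decompositionStabilizer D`
that contain an isometry outside it have every vector as a transvection centre.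
-/

set_option autoImplicit false

namespace Cfsg.Agent.Lib.Helper97

open Matrix

variable {ι : Type} [Fintype ι] [DecidableEq ι] {F : Type*} [Field F]
variable {f : (ι → F) → (ι → F) → F}

lemma mem_decompositionStabilizer_iff {t : ℕ} (D : Fin t → Submodule F (ι → F)) (g : GL ι F) :
    g ∈ Cfsg.Geo.decompositionStabilizer D ↔ ∃ σ : Equiv.Perm (Fin t),
      ∀ i, (D i).map (Matrix.toLin' (g : Matrix ι ι F)) = D (σ i) := Iff.rfl

lemma toLin'_gl_injective (g : GL ι F) :
    Function.Injective (Matrix.toLin' (g : Matrix ι ι F)) := by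
  intro x y hxy
  rw [Matrix.toLin'_apply, Matrix.toLin'_apply] at hxy
  exact gl_mulVec_injective g hxy

lemma map_eq_of_le_of_finrank (g : GL ι F) (P Q : Submodule F (ι → F))
    (h : ∀ x ∈ P, (g : Matrix ι ι F) *ᵥ x ∈ Q)
    (hfin : Module.finrank F P = Module.finrank F Q) :
    P.map (Matrix.toLin' (g : Matrix ι ι F)) = Q := by
  apply Submodule.eq_of_le_of_finrank_eq
  · rintro _ ⟨x, hx, rfl⟩
    rw [Matrix.toLin'_apply]
    exact h x hx
  · rw [← hfin]
    exact (LinearEquiv.finrank_eq (Submodule.equivMapOfInjective _ (toLin'_gl_injective g) P)).symm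

omit [Fintype ι] [DecidableEq ι] in
lemma exists_perm_two {α : Type*} [DecidableEq α] {a₀ b₀ a b : α} (h0 : a₀ ≠ b₀) (hab : a ≠ b) :
    ∃ π : Equiv.Perm α, π a₀ = a ∧ π b₀ = b := by
  have hc : Equiv.swap a₀ a b₀ ≠ a := by
    intro h
    have h1 : Equiv.swap a₀ a b₀ = Equiv.swap a₀ a a₀ := by rw [h, Equiv.swap_apply_left]
    exact h0 ((Equiv.swap a₀ a).injective h1).symm
  refine ⟨Equiv.swap (Equiv.swap a₀ a b₀) b * Equiv.swap a₀ a, ?_, ?_⟩
  · rw [Equiv.Perm.mul_apply, Equiv.swap_apply_left, Equiv.swap_apply_of_ne_of_ne (Ne.symm hc) hab]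
  · rw [Equiv.Perm.mul_apply, Equiv.swap_apply_left]

/-- Pairwise orthogonal non-degenerate subspaces spanning the space. -/
structure Blocks (f : (ι → F) → (ι → F) → F) {t : ℕ} (D : Fin t → Submodule F (ι → F)) :
    Prop where
  nd : ∀ i, NdOn f (D i)
  orth : ∀ i j, i ≠ j → ∀ u ∈ D i, ∀ v ∈ D j, f u v = 0
  top : iSup D = ⊤

/-- `x` is not orthogonal to the block `D a`. -/
def Hit (f : (ι → F) → (ι → F) → F) {t : ℕ} (D : Fin t → Submodule F (ι → F)) (x : ι → F)
    (a : Fin t) : Prop := ∃ d ∈ D a, f d x ≠ 0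

section symp

variable (hf : Cfsg.Geo.IsSymplecticForm f)
include hf

omit [Fintype ι] [DecidableEq ι] in
lemma room_of_scalar {B : Submodule F (ι → F)} (c : F) (hc0 : c ≠ 0) (hc1 : c ≠ 1) :
    ∀ x ∈ B, x ≠ 0 → ∃ z ∈ B, z ≠ 0 ∧ z ≠ x ∧ f z x = 0 := by
  intro x hx hx0
  refine ⟨c • x, B.smul_mem c hx, smul_ne_zero hc0 hx0, ?_, ?_⟩
  · intro h
    have h1 : (c - 1) • x = 0 := by rw [sub_smul, one_smul, h, sub_self]
    rcases smul_eq_zero.mp h1 with h2 | h2
    · exact hc1 (sub_eq_zero.mp h2)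
    · exact hx0 h2
  · rw [hf.bilinear.smul_left, hf.alternating, mul_zero]

omit [DecidableEq ι] in
/-- A non-degenerate subspace has a Darboux basis, so even dimension. -/
lemma exists_darboux_of_NdOn {A : Submodule F (ι → F)} (ndA : NdOn f A) :
    ∃ (κ : ℕ) (e f' : Fin κ → ι → F),
      Cfsg.Agent.Lib.Helper18.IsDarboux (bil hf.bilinear) A κ e f' ∧
      Module.finrank F A = 2 * κ := by
  have hB : LinearMap.BilinForm.IsAlt (bil hf.bilinear) := fun x => hf.alternating x
  obtain ⟨κ, e, f', h⟩ := Cfsg.Agent.Lib.Helper18.exists_darboux (bil hf.bilinear) hB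
    (Module.finrank F A) A rfl (by
      intro u hu huv
      by_contra hu0
      obtain ⟨x, hx, hxu⟩ := ndA u hu hu0
      apply hxu
      have h1 : f u x = 0 := huv x hx
      rw [hf.skew, h1, neg_zero])
  exact ⟨κ, e, f', h, h.finrank_eq hB⟩

variable {t : ℕ} {D : Fin t → Submodule F (ι → F)} (hD : Blocks f D)
include hD

omit [Fintype ι] [DecidableEq ι] in
lemma Blocks.eq_zero {x : ι → F} (h : ∀ a, ∀ d ∈ D a, f d x = 0) : x = 0 := by
  by_contra hx
  obtain ⟨y, hy⟩ := (hf.nondegenerate x hx).1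
  have hle : iSup D ≤ LinearMap.ker ((bil hf.bilinear).flip x) := by
    apply iSup_le
    intro a d hd
    rw [LinearMap.mem_ker, LinearMap.flip_apply]
    exact h a d hd
  have hy' : y ∈ LinearMap.ker ((bil hf.bilinear).flip x) :=
    hle (by rw [hD.top]; exact Submodule.mem_top)
  rw [LinearMap.mem_ker, LinearMap.flip_apply] at hy'
  exact hy hy'

omit [DecidableEq ι] in
lemma Blocks.mem_of_hit {x : ι → F} {j : Fin t} (h : ∀ b, b ≠ j → ¬ Hit f D x b) :
    x ∈ D j := by
  obtain ⟨a, ha, b, hb, rfl⟩ := exists_decomp hf (hD.nd j) x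
  have hb0 : b = 0 := by
    apply hD.eq_zero hf
    intro c d hd
    by_cases hc : c = j
    · subst hc
      exact (mem_perp hf).mp hb d hd
    · have h1 := h c hc
      have h2 : f d (a + b) = 0 := by
        by_contra h3
        exact h1 ⟨d, hd, h3⟩
      rw [hf.bilinear.add_right, hD.orth c j hc d hd a ha, zero_add] at h2
      exact h2
  rw [hb0, add_zero]
  exact ha

/-- An isometry outside the stabiliser of the decomposition maps some vector of some block to a
vector hitting two blocks. -/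
theorem Blocks.exists_two_hit {k : ℕ} (hk : 0 < k) (hfin : ∀ i, Module.finrank F (D i) = k)
    (g : GL ι F)
    (hgf : ∀ x y, f ((g : Matrix ι ι F) *ᵥ x) ((g : Matrix ι ι F) *ᵥ y) = f x y)
    (hg : g ∉ Cfsg.Geo.decompositionStabilizer D) :
    ∃ i, ∃ v ∈ D i, ∃ a b, a ≠ b ∧ Hit f D ((g : Matrix ι ι F) *ᵥ v) a ∧
      Hit f D ((g : Matrix ι ι F) *ᵥ v) b := by
  by_contra hcon
  push Not at hcon
  apply hg
  have h1 : ∀ i, ∀ v ∈ D i, v ≠ 0 → ∃ j, (g : Matrix ι ι F) *ᵥ v ∈ D j := by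
    intro i v hv hv0
    have hgv0 : (g : Matrix ι ι F) *ᵥ v ≠ 0 := fun h0 =>
      hv0 (gl_mulVec_injective g (by rw [h0, Matrix.mulVec_zero]))
    have hex : ∃ j, Hit f D ((g : Matrix ι ι F) *ᵥ v) j := by
      by_contra hno
      push Not at hno
      apply hgv0
      apply hD.eq_zero hf
      intro a d hd
      by_contra h3
      exact hno a ⟨d, hd, h3⟩
    obtain ⟨j, hj⟩ := hex
    exact ⟨j, hD.mem_of_hit hf (fun b hb hbhit => hcon i v hv j b (Ne.symm hb) hj hbhit)⟩
  have hne : ∀ i, ∃ x ∈ D i, x ≠ 0 := by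
    intro i
    apply Submodule.exists_mem_ne_zero_of_ne_bot
    intro hbot
    have h2 := hfin i
    rw [hbot, finrank_bot] at h2
    omega
  choose x₀ hx₀ hx₀0 using hne
  choose σ hσ using fun i => h1 i (x₀ i) (hx₀ i) (hx₀0 i)
  have h2 : ∀ i, ∀ y ∈ D i, (g : Matrix ι ι F) *ᵥ y ∈ D (σ i) := by
    intro i
    have key : ∀ y ∈ D i, f (x₀ i) y ≠ 0 → (g : Matrix ι ι F) *ᵥ y ∈ D (σ i) := by
      intro y hy hne'
      have hy0 : y ≠ 0 := by
        rintro rfl
        exact hne' (form_zero_right hf.bilinear _)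
      obtain ⟨j, hj⟩ := h1 i y hy hy0
      by_cases hjs : j = σ i
      · rw [← hjs]
        exact hj
      · exfalso
        apply hne'
        rw [← hgf]
        exact hD.orth (σ i) j (Ne.symm hjs) _ (hσ i) _ hj
    intro y hy
    by_cases hxy : f (x₀ i) y = 0
    · obtain ⟨y₀, hy₀, hy₀x⟩ := hD.nd i (x₀ i) (hx₀ i) (hx₀0 i)
      have hxy₀ : f (x₀ i) y₀ ≠ 0 := by
        rw [hf.skew]
        exact neg_ne_zero.mpr hy₀x
      have e1 := key (y + y₀) ((D i).add_mem hy hy₀)
        (by rw [hf.bilinear.add_right, hxy, zero_add]; exact hxy₀)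
      have e2 := key y₀ hy₀ hxy₀
      rw [Matrix.mulVec_add] at e1
      have e : (g : Matrix ι ι F) *ᵥ y =
          (g : Matrix ι ι F) *ᵥ y + (g : Matrix ι ι F) *ᵥ y₀ - (g : Matrix ι ι F) *ᵥ y₀ := by
        abel
      rw [e]
      exact (D (σ i)).sub_mem e1 e2
    · exact key y hy hxy
  have h3 : ∀ i, (D i).map (Matrix.toLin' (g : Matrix ι ι F)) = D (σ i) := fun i =>
    map_eq_of_le_of_finrank g _ _ (h2 i) (by rw [hfin, hfin])
  have hσinj : Function.Injective σ := by
    intro i i' hii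
    by_contra hne'
    have e : (D i).map (Matrix.toLin' (g : Matrix ι ι F)) =
        (D i').map (Matrix.toLin' (g : Matrix ι ι F)) := by rw [h3, h3, hii]
    have e' : D i = D i' := Submodule.map_injective_of_injective (toLin'_gl_injective g) e
    obtain ⟨y, hy, hyx⟩ := hD.nd i (x₀ i) (hx₀ i) (hx₀0 i)
    apply hyx
    exact hD.orth i i' hne' y hy (x₀ i) (e' ▸ hx₀ i)
  exact ⟨Equiv.ofBijective σ (Finite.injective_iff_bijective.mp hσinj), h3⟩

/-- A centre hitting two blocks puts the sum of these blocks into the set of centres. -/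
theorem Blocks.edge_of_hit {M : Subgroup (GL ι F)} (hS : ∀ i, ∀ d ∈ D i, InS f M d)
    {a b : Fin t} (hab : a ≠ b)
    (room : ∀ x ∈ D b, x ≠ 0 → ∃ z ∈ D b, z ≠ 0 ∧ z ≠ x ∧ f z x = 0)
    {w : ι → F} (hw : InS f M w) (ha : Hit f D w a) (hb : Hit f D w b) :
    ∀ x₁ ∈ D a, ∀ x₂ ∈ D b, InS f M (x₁ + x₂) := by
  obtain ⟨wa, hwa, ra, hra, e1⟩ := exists_decomp hf (hD.nd a) w
  obtain ⟨wb, hwb, rb, hrb, e2⟩ := exists_decomp hf (hD.nd b) w
  have hwa0 : wa ≠ 0 := by
    intro h0
    obtain ⟨d, hd, hdw⟩ := ha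
    apply hdw
    rw [e1, h0, zero_add]
    exact (mem_perp hf).mp hra d hd
  have hwb0 : wb ≠ 0 := by
    intro h0
    obtain ⟨d, hd, hdw⟩ := hb
    apply hdw
    rw [e2, h0, zero_add]
    exact (mem_perp hf).mp hrb d hd
  have hrA : ∀ d ∈ D a, f (w - wa - wb) d = 0 := by
    intro d hd
    have e : w - wa - wb = ra - wb := by
      have e3 : w - wa = ra := by rw [e1]; abel
      rw [e3]
    rw [e, form_sub_left hf.bilinear, (mem_perp' hf).mp hra d hd,
      hD.orth b a (Ne.symm hab) wb hwb d hd, sub_zero]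
  have hrB : ∀ d ∈ D b, f (w - wa - wb) d = 0 := by
    intro d hd
    have e : w - wa - wb = rb - wa := by
      have e3 : w - wb = rb := by rw [e2]; abel
      rw [← e3]
      abel
    rw [e, form_sub_left hf.bilinear, (mem_perp' hf).mp hrb d hd,
      hD.orth a b hab wa hwa d hd, sub_zero]
  have hw' : InS f M (wa + wb + (w - wa - wb)) := by
    have e : wa + wb + (w - wa - wb) = w := by abel
    rw [e]
    exact hw
  exact edge_lemma hf (hD.orth a b hab) (hD.nd a) (hD.nd b) (hS a) (hS b) room hwa hwa0 hwb hwb0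
    hrA hrB hw'

/-- If all sums of two blocks consist of centres then every vector is a centre. -/
theorem Blocks.all_of_complete {M : Subgroup (GL ι F)} (hS : ∀ i, ∀ d ∈ D i, InS f M d)
    (hcomp : ∀ a b, a ≠ b → ∀ x₁ ∈ D a, ∀ x₂ ∈ D b, InS f M (x₁ + x₂)) :
    ∀ x, InS f M x := by
  classical
  have hzero : ∀ x : ι → F, (∀ a, ¬ Hit f D x a) → x = 0 := by
    intro x hx
    apply hD.eq_zero hf
    intro a d hd
    by_contra h3
    exact hx a ⟨d, hd, h3⟩
  have key : ∀ n : ℕ, ∀ x : ι → F,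
      (Finset.univ.filter (fun a => Hit f D x a)).card ≤ n → InS f M x := by
    intro n
    induction n with
    | zero =>
      intro x hx
      have h0 : x = 0 := by
        apply hzero
        intro a ha
        have h1 : a ∈ Finset.univ.filter (fun a => Hit f D x a) :=
          Finset.mem_filter.mpr ⟨Finset.mem_univ _, ha⟩
        have hpos := Finset.card_pos.mpr ⟨a, h1⟩
        omega
      rw [h0]
      exact InS_zero hf M
    | succ n ih =>
      intro x hx
      by_cases hemp : ∀ a, ¬ Hit f D x a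
      · rw [hzero x hemp]
        exact InS_zero hf M
      · push Not at hemp
        obtain ⟨i₁, hi₁⟩ := hemp
        obtain ⟨b, hb, a, ha, rfl⟩ := exists_decomp hf (hD.nd i₁) x
        have hsub : ∀ c, Hit f D a c → c ≠ i₁ ∧ Hit f D (b + a) c := by
          rintro c ⟨d, hd, hda⟩
          have hc : c ≠ i₁ := by
            rintro rfl
            exact hda ((mem_perp hf).mp ha d hd)
          refine ⟨hc, d, hd, ?_⟩
          rw [hf.bilinear.add_right, hD.orth c i₁ hc d hd b hb, zero_add]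
          exact hda
        have hcard : ∀ y : ι → F, (∀ c, Hit f D y c → Hit f D a c) → InS f M y := by
          intro y hy
          apply ih
          have hss : Finset.univ.filter (fun c => Hit f D y c) ⊆
              (Finset.univ.filter (fun c => Hit f D (b + a) c)).erase i₁ := by
            intro c hc
            rw [Finset.mem_filter] at hc
            obtain ⟨h1, h2⟩ := hsub c (hy c hc.2)
            exact Finset.mem_erase.mpr ⟨h1, Finset.mem_filter.mpr ⟨Finset.mem_univ _, h2⟩⟩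
          have h1 := Finset.card_le_card hss
          have h2 : i₁ ∈ Finset.univ.filter (fun c => Hit f D (b + a) c) :=
            Finset.mem_filter.mpr ⟨Finset.mem_univ _, hi₁⟩
          rw [Finset.card_erase_of_mem h2] at h1
          omega
        have hInSa : InS f M a := hcard a (fun c hc => hc)
        by_cases hemp2 : ∀ c, ¬ Hit f D a c
        · rw [hzero a hemp2, add_zero]
          exact hS i₁ b hb
        · push Not at hemp2
          obtain ⟨i₀, d, hd, hda⟩ := hemp2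
          have hi₀ : i₀ ≠ i₁ := (hsub i₀ ⟨d, hd, hda⟩).1
          have h1 : InS f M (a + d) := by
            apply hcard
            rintro c ⟨d', hd', hne⟩
            by_cases hc : c = i₀
            · subst hc
              exact ⟨d, hd, hda⟩
            · refine ⟨d', hd', ?_⟩
              rw [hf.bilinear.add_right, hD.orth c i₀ hc d' hd' d hd, add_zero] at hne
              exact hne
          have h2 : InS f M (b - d) := by
            have h := hcomp i₁ i₀ (Ne.symm hi₀) b hb (-d) ((D i₀).neg_mem hd)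
            rwa [← sub_eq_add_neg] at h
          have h3 : f (a + b) d ≠ 0 := by
            rw [hf.bilinear.add_left, hD.orth i₁ i₀ (Ne.symm hi₀) b hb d hd, add_zero, hf.skew]
            exact neg_ne_zero.mpr hda
          have h4 := InS_decomp hf hInSa (hS i₁ b hb) h1 h2 h3
          have e : a + b = b + a := add_comm a b
          rwa [e] at h4
  intro x
  exact key _ x le_rfl

/-- Isometries permuting the blocks in any prescribed way. -/
theorem Blocks.exists_perm {k : ℕ} (hfin : ∀ i, Module.finrank F (D i) = k)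
    (π : Equiv.Perm (Fin t)) :
    ∃ h : GL ι F, (∀ x y, f ((h : Matrix ι ι F) *ᵥ x) ((h : Matrix ι ι F) *ᵥ y) = f x y) ∧
      ∀ i, ∀ x ∈ D i, (h : Matrix ι ι F) *ᵥ x ∈ D (π i) := by
  classical
  have hB : LinearMap.BilinForm.IsAlt (bil hf.bilinear) := fun x => hf.alternating x
  have hdar : ∀ i, ∃ (e f' : Fin (k / 2) → ι → F),
      Cfsg.Agent.Lib.Helper18.IsDarboux (bil hf.bilinear) (D i) (k / 2) e f' := by
    intro i
    obtain ⟨κ, e, f', h, hκ⟩ := exists_darboux_of_NdOn hf (hD.nd i)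
    rw [hfin i] at hκ
    have h2 : κ = k / 2 := by omega
    subst h2
    exact ⟨e, f', h⟩
  choose e f' hdar using hdar
  have h1 : ∀ p q : Fin t × Fin (k / 2),
      bil hf.bilinear (f' p.1 p.2) (e q.1 q.2) = if p = q then 1 else 0 := by
    rintro ⟨i, a⟩ ⟨j, b⟩
    by_cases hij : i = j
    · subst hij
      rw [(hdar i).fe hB a b]
      by_cases hab : a = b
      · subst hab
        simp
      · rw [if_neg hab, if_neg (by simpa using hab)]
    · rw [if_neg (by simp [hij])]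
      exact hD.orth i j hij _ ((hdar i).f_mem a) _ ((hdar j).e_mem b)
  have h2 : ∀ p q : Fin t × Fin (k / 2),
      bil hf.bilinear (f' p.1 p.2) (f' q.1 q.2) = 0 := by
    rintro ⟨i, a⟩ ⟨j, b⟩
    by_cases hij : i = j
    · subst hij
      exact (hdar i).ff a b
    · exact hD.orth i j hij _ ((hdar i).f_mem a) _ ((hdar j).f_mem b)
  have h3 : ∀ p q : Fin t × Fin (k / 2),
      bil hf.bilinear (e p.1 p.2) (e q.1 q.2) = 0 := by
    rintro ⟨i, a⟩ ⟨j, b⟩
    by_cases hij : i = j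
    · subst hij
      exact (hdar i).ee a b
    · exact hD.orth i j hij _ ((hdar i).e_mem a) _ ((hdar j).e_mem b)
  have hP : ∀ p q : Fin t × Fin (k / 2), ((π p.1, p.2) : Fin t × Fin (k / 2)) = (π q.1, q.2) ↔
      p = q := by
    rintro ⟨i, a⟩ ⟨j, b⟩
    simp
  have h1' : ∀ p q : Fin t × Fin (k / 2),
      bil hf.bilinear (f' (π p.1) p.2) (e (π q.1) q.2) = if p = q then 1 else 0 := by
    intro p q
    rw [h1 (π p.1, p.2) (π q.1, q.2)]
    by_cases hpq : p = q
    · rw [if_pos hpq, if_pos ((hP p q).mpr hpq)]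
    · rw [if_neg hpq, if_neg (fun h => hpq ((hP p q).mp h))]
  obtain ⟨g, hg, hgS⟩ := Cfsg.Agent.S2166.witt_family hB
    (fun p : Fin t × Fin (k / 2) => f' p.1 p.2) (fun p => e p.1 p.2)
    (fun p => f' (π p.1) p.2) (fun p => e (π p.1) p.2) h1 h2 h3 h1'
    (fun p q => h2 (π p.1, p.2) (π q.1, q.2)) (fun p q => h3 (π p.1, p.2) (π q.1, q.2))
    Finset.univ
  have hiso := Cfsg.Agent.Lib.Helper18.TP_isometry hB hg
  obtain ⟨g', -, hg'1, hg'2⟩ := Cfsg.Agent.Lib.Helper18.TP_inv hB hg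
  have hval : ∀ x, LinearMap.toMatrix' g *ᵥ x = g x := fun x => LinearMap.toMatrix'_mulVec g x
  refine ⟨⟨LinearMap.toMatrix' g, LinearMap.toMatrix' g',
    by rw [← LinearMap.toMatrix'_mul, hg'2, LinearMap.toMatrix'_one],
    by rw [← LinearMap.toMatrix'_mul, hg'1, LinearMap.toMatrix'_one]⟩, ?_, ?_⟩
  · intro x y
    show f (LinearMap.toMatrix' g *ᵥ x) (LinearMap.toMatrix' g *ᵥ y) = f x y
    rw [hval, hval]
    exact hiso x y
  · intro i x hx
    show LinearMap.toMatrix' g *ᵥ x ∈ D (π i)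
    rw [hval]
    obtain ⟨a, b, rfl⟩ := (hdar i).span x hx
    rw [map_sum]
    refine Submodule.sum_mem _ (fun j _ => ?_)
    rw [map_add, map_smul, map_smul]
    have e1 : g (f' i j) = f' (π i) j := (hgS (i, j) (Finset.mem_univ _)).1
    have e2 : g (e i j) = e (π i) j := (hgS (i, j) (Finset.mem_univ _)).2
    rw [e1, e2]
    exact Submodule.add_mem _ (Submodule.smul_mem _ _ ((hdar (π i)).e_mem j))
      (Submodule.smul_mem _ _ ((hdar (π i)).f_mem j))

/-- From one pair of blocks to all pairs, using block permutations in `M`. -/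
theorem Blocks.complete_of_edge {k : ℕ} (hfin : ∀ i, Module.finrank F (D i) = k)
    {M : Subgroup (GL ι F)}
    (hHM : ∀ s : GL ι F, s ∈ Cfsg.Geo.decompositionStabilizer D →
      (∀ x y, f ((s : Matrix ι ι F) *ᵥ x) ((s : Matrix ι ι F) *ᵥ y) = f x y) → s ∈ M)
    {a₀ b₀ : Fin t} (h0 : a₀ ≠ b₀)
    (hedge : ∀ x₁ ∈ D a₀, ∀ x₂ ∈ D b₀, InS f M (x₁ + x₂)) :
    ∀ a b, a ≠ b → ∀ x₁ ∈ D a, ∀ x₂ ∈ D b, InS f M (x₁ + x₂) := by
  intro a b hab x₁ hx₁ x₂ hx₂
  obtain ⟨π, hπa, hπb⟩ := exists_perm_two h0 hab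
  obtain ⟨h, hiso, hmap⟩ := hD.exists_perm hf hfin π
  have hmapeq : ∀ i, (D i).map (Matrix.toLin' (h : Matrix ι ι F)) = D (π i) := fun i =>
    map_eq_of_le_of_finrank h _ _ (hmap i) (by rw [hfin, hfin])
  have hM := hHM h ⟨π, hmapeq⟩ hiso
  have e1 : x₁ ∈ (D a₀).map (Matrix.toLin' (h : Matrix ι ι F)) := by
    rw [hmapeq, hπa]
    exact hx₁
  have e2 : x₂ ∈ (D b₀).map (Matrix.toLin' (h : Matrix ι ι F)) := by
    rw [hmapeq, hπb]
    exact hx₂
  obtain ⟨y₁, hy₁, rfl⟩ := e1
  obtain ⟨y₂, hy₂, rfl⟩ := e2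
  rw [Matrix.toLin'_apply, Matrix.toLin'_apply, ← Matrix.mulVec_add]
  exact InS_conj hf hM hiso (hedge y₁ hy₁ y₂ hy₂)

lemma Blocks.stv_mem_decomp {i : Fin t} {v : ι → F} (hv : v ∈ D i) (a : F) :
    tvG v (a • rho f v) (symp_dot0 hf v a) ∈ Cfsg.Geo.decompositionStabilizer D := by
  refine ⟨1, fun j => ?_⟩
  apply map_eq_of_le_of_finrank _ _ _ _ rfl
  intro x hx
  rw [stv_mulVec hf]
  by_cases hji : j = i
  · subst hji
    exact (D j).add_mem hx ((D j).smul_mem _ hv)
  · rw [hD.orth j i hji x hx v hv, mul_zero, zero_smul, add_zero]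
    exact hx

/-- Overgroups of the stabiliser of an orthogonal decomposition: every vector is a centre. -/
theorem Blocks.overgroup {k : ℕ} (hk : 0 < k) (hfin : ∀ i, Module.finrank F (D i) = k)
    (room : ∀ b, ∀ x ∈ D b, x ≠ 0 → ∃ z ∈ D b, z ≠ 0 ∧ z ≠ x ∧ f z x = 0)
    (M : Subgroup (GL ι F))
    (hHM : ∀ s : GL ι F, s ∈ Cfsg.Geo.decompositionStabilizer D →
      (∀ x y, f ((s : Matrix ι ι F) *ᵥ x) ((s : Matrix ι ι F) *ᵥ y) = f x y) → s ∈ M)
    (g : GL ι F) (hgM : g ∈ M)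
    (hgf : ∀ x y, f ((g : Matrix ι ι F) *ᵥ x) ((g : Matrix ι ι F) *ᵥ y) = f x y)
    (hg : g ∉ Cfsg.Geo.decompositionStabilizer D) : ∀ v, InS f M v := by
  have hS : ∀ i, ∀ d ∈ D i, InS f M d := fun i d hd =>
    InS_of_mem hf (fun c => hHM _ (hD.stv_mem_decomp hf hd c) (stv_pres hf d c))
  obtain ⟨i, v, hv, a, b, hab, ha, hb⟩ := hD.exists_two_hit hf hk hfin g hgf hg
  have hw := InS_conj hf hgM hgf (hS i v hv)
  have hedge := hD.edge_of_hit hf hS hab (room b) hw ha hb
  have hcomp := hD.complete_of_edge hf hfin hHM hab hedge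
  exact hD.all_of_complete hf hS hcomp

/-- Some isometry does not stabilise the decomposition. -/
theorem Blocks.exists_isometry_not_decomp {i₀ i₁ : Fin t} (h01 : i₀ ≠ i₁)
    (hne : ∀ i, D i ≠ ⊥) : ∃ s : GL ι F,
      (∀ x y, f ((s : Matrix ι ι F) *ᵥ x) ((s : Matrix ι ι F) *ᵥ y) = f x y) ∧
      s ∉ Cfsg.Geo.decompositionStabilizer D := by
  have hb := hf.bilinear
  obtain ⟨w₁, hw₁, hw₁0⟩ := Submodule.exists_mem_ne_zero_of_ne_bot (hne i₀)
  obtain ⟨w₂, hw₂, hw₂0⟩ := Submodule.exists_mem_ne_zero_of_ne_bot (hne i₁)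
  obtain ⟨x, hx, hxw⟩ := hD.nd i₀ w₁ hw₁ hw₁0
  refine ⟨tvG (w₁ + w₂) ((1 : F) • rho f (w₁ + w₂)) (symp_dot0 hf _ 1), stv_pres hf _ 1, ?_⟩
  rintro ⟨σ, hσ⟩
  have h1 : ((tvG (w₁ + w₂) ((1 : F) • rho f (w₁ + w₂)) (symp_dot0 hf _ 1) : GL ι F) :
      Matrix ι ι F) *ᵥ x ∈ D (σ i₀) := by
    rw [← hσ i₀]
    exact ⟨x, hx, Matrix.toLin'_apply _ _⟩
  rw [stv_mulVec hf, hb.add_right, hD.orth i₀ i₁ h01 x hx w₂ hw₂, add_zero, one_mul] at h1
  by_cases hj : σ i₀ = i₀
  · rw [hj] at h1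
    have h2 : (f x w₁) • w₂ ∈ D i₀ := by
      have e : (f x w₁) • w₂ = x + (f x w₁) • (w₁ + w₂) - x - (f x w₁) • w₁ := by
        rw [smul_add]
        abel
      rw [e]
      exact (D i₀).sub_mem ((D i₀).sub_mem h1 hx) ((D i₀).smul_mem _ hw₁)
    have h3 : w₂ ∈ D i₀ := by
      have e : w₂ = (f x w₁)⁻¹ • ((f x w₁) • w₂) := by
        rw [smul_smul, inv_mul_cancel₀ hxw, one_smul]
      rw [e]
      exact (D i₀).smul_mem _ h2
    obtain ⟨y, hy, hyw⟩ := hD.nd i₀ w₂ h3 hw₂0
    exact hyw (hD.orth i₀ i₁ h01 y hy w₂ hw₂)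
  · have h2 := hD.orth (σ i₀) i₀ hj _ h1 w₁ hw₁
    rw [hb.add_left, hb.smul_left, hb.add_left, hf.alternating,
      hD.orth i₁ i₀ (Ne.symm h01) w₂ hw₂ w₁ hw₁, add_zero, mul_zero, add_zero] at h2
    exact hxw h2

end symp

end Cfsg.Agent.Lib.Helper97
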