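import Mathlib
import Cfsg.Prelude.Def_GeometricClasses
import Cfsg.Agent.Lib.Helper18.Darboux
import Cfsg.Agent.S2166
import Cfsg.Agent.Lib.Helper97.SpOver3

/-!
# Symplectic overgroups: stabilisers of a pair of complementary totally isotropic subspaces

Helper library (helper97). `Act M φ` says that the map `φ` is the action of an element of `M`.
For `f u v = 0` the map `sm f u v : x ↦ x + f(x, v) u + f(x, u) v` is an isometry. For a pair
`A`, `B` of complementary totally isotropic subspaces the maps `sm f u v` with `u ∈ A`, `v ∈ B`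
stabilise both. An overgroup `M` (inside the isometry group) of the stabiliser of the pair
which contains an element moving some vector of `A ∪ B` outside `A ∪ B` has every vector as a
transvection centre (characteristic not two).
-/

set_option autoImplicit false

namespace Cfsg.Agent.Lib.Helper97

open Matrix

variable {ι : Type} [Fintype ι] [DecidableEq ι] {F : Type*} [Field F]
variable {f : (ι → F) → (ι → F) → F}

/-- The map `φ` is the action of an element of `M`. -/
def Act (M : Subgroup (GL ι F)) (φ : (ι → F) → (ι → F)) : Prop :=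
  ∃ g ∈ M, ∀ x, (g : Matrix ι ι F) *ᵥ x = φ x

lemma Act.congr {M : Subgroup (GL ι F)} {φ ψ : (ι → F) → (ι → F)} (h : Act M φ)
    (he : ∀ x, φ x = ψ x) : Act M ψ := by
  obtain ⟨g, hg, hgx⟩ := h
  exact ⟨g, hg, fun x => (hgx x).trans (he x)⟩

lemma Act.comp {M : Subgroup (GL ι F)} {φ ψ : (ι → F) → (ι → F)} (h₁ : Act M φ)
    (h₂ : Act M ψ) : Act M (fun x => φ (ψ x)) := by
  obtain ⟨g, hg, hgx⟩ := h₁
  obtain ⟨k, hk, hkx⟩ := h₂
  refine ⟨g * k, M.mul_mem hg hk, fun x => ?_⟩
  rw [Units.val_mul, ← Matrix.mulVec_mulVec, hkx, hgx]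

lemma Act.inv {M : Subgroup (GL ι F)} {φ ψ : (ι → F) → (ι → F)} (h : Act M φ)
    (hψ : ∀ x, φ (ψ x) = x) : Act M ψ := by
  obtain ⟨g, hg, hgx⟩ := h
  refine ⟨g⁻¹, M.inv_mem hg, fun x => ?_⟩
  apply gl_mulVec_injective g
  rw [gl_mulVec_inv, hgx, hψ]

lemma Act.conj {M : Subgroup (GL ι F)} {φ : (ι → F) → (ι → F)} {k : GL ι F} (hk : k ∈ M)
    (h : Act M φ) :
    Act M (fun x => (k : Matrix ι ι F) *ᵥ φ (((k⁻¹ : GL ι F) : Matrix ι ι F) *ᵥ x)) := by
  obtain ⟨g, hg, hgx⟩ := h
  refine ⟨k * g * k⁻¹, M.mul_mem (M.mul_mem hk hg) (M.inv_mem hk), fun x => ?_⟩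
  rw [Units.val_mul, Units.val_mul, ← Matrix.mulVec_mulVec, ← Matrix.mulVec_mulVec, hgx]

/-- The short root map `x ↦ x + f(x, v) u + f(x, u) v`. -/
def sm (f : (ι → F) → (ι → F) → F) (u v : ι → F) : (ι → F) → (ι → F) :=
  fun x => x + f x v • u + f x u • v

omit [Fintype ι] [DecidableEq ι] in
lemma sm_apply (u v x : ι → F) : sm f u v x = x + f x v • u + f x u • v := rfl

omit [Fintype ι] [DecidableEq ι] in
lemma sm_comm (u v x : ι → F) : sm f u v x = sm f v u x := by
  rw [sm_apply, sm_apply, add_right_comm]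

section symp

variable (hf : Cfsg.Geo.IsSymplecticForm f)
include hf

lemma InS_of_Act {M : Subgroup (GL ι F)} {v : ι → F}
    (h : ∀ c : F, Act M (fun x => x + (c * f x v) • v)) : InS f M v := by
  apply InS_of_mem hf
  intro a
  obtain ⟨g, hg, hgx⟩ := h a
  have h1 : g = tvG v (a • rho f v) (symp_dot0 hf v a) := by
    apply Units.ext
    apply Matrix.mulVec_injective
    funext x
    rw [hgx, stv_mulVec hf]
  rw [← h1]
  exact hg

/-- The map `sm f u v` is an isometry when `f u v = 0`. -/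
lemma exists_sm {u v : ι → F} (huv : f u v = 0) : ∃ s : GL ι F,
    (∀ x, (s : Matrix ι ι F) *ᵥ x = sm f u v x) ∧
    (∀ x y, f ((s : Matrix ι ι F) *ᵥ x) ((s : Matrix ι ι F) *ᵥ y) = f x y) := by
  have hb := hf.bilinear
  have hvu : f v u = 0 := by rw [hf.skew, huv, neg_zero]
  refine ⟨tvG (u + v) ((1 : F) • rho f (u + v)) (symp_dot0 hf _ _) *
    tvG u ((-1 : F) • rho f u) (symp_dot0 hf _ _) *
    tvG v ((-1 : F) • rho f v) (symp_dot0 hf _ _), fun x => ?_, fun x y => ?_⟩
  · rw [Units.val_mul, Units.val_mul, ← Matrix.mulVec_mulVec, ← Matrix.mulVec_mulVec,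
      stv_mulVec hf, stv_mulVec hf, stv_mulVec hf, sm_apply]
    simp only [hb.add_left, hb.smul_left, hb.add_right, hvu, huv, hf.alternating]
    module
  · rw [Units.val_mul, Units.val_mul, ← Matrix.mulVec_mulVec, ← Matrix.mulVec_mulVec,
      ← Matrix.mulVec_mulVec, ← Matrix.mulVec_mulVec, stv_pres hf, stv_pres hf, stv_pres hf]

end symp

end Cfsg.Agent.Lib.Helper97
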