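import Mathlib

set_option autoImplicit false

namespace Cfsg.Agent.Lib.Helper97

/-- Complement from a relatively complemented interval below a subgroup lying in a unique maximal subgroup. -/
theorem compl_of_interval {G : Type*} [Group G] [Finite G] (T X M : Subgroup G)
    (hTX : T ≤ X)
    (hint : ∀ Y : Subgroup G, T ≤ Y → Y ≤ X → ∃ C : Subgroup G, T ≤ C ∧ C ≤ X ∧ Y ⊔ C = X ∧ Y ⊓ C = T)
    (huniq : ∀ M' : Subgroup G, IsCoatom M' → X ≤ M' → M' = M)
    (H : Subgroup G) (hH : ¬ H ≤ M) (hHT : H ⊓ T = ⊥) :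
    ∃ C : Subgroup G, H ⊔ C = ⊤ ∧ H ⊓ C = ⊥ := by
  obtain ⟨C, hTC, hCX, hsup, hinf⟩ := hint ((H ⊓ X) ⊔ T) le_sup_right (sup_le inf_le_right hTX)
  refine ⟨C, ?_, ?_⟩
  · by_contra hne
    obtain ⟨M', hM', hle⟩ := (eq_top_or_exists_le_coatom (H ⊔ C)).resolve_left hne
    have hXle : X ≤ H ⊔ C := by
      rw [← hsup]
      exact sup_le (sup_le (inf_le_left.trans le_sup_left) (hTC.trans le_sup_right)) le_sup_right
    have h2 := huniq M' hM' (hXle.trans hle)
    exact hH (le_sup_left.trans (h2 ▸ hle))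
  · have h1 : H ⊓ C ≤ T := by
      rw [← hinf]
      exact le_inf (le_sup_of_le_left (le_inf inf_le_left (inf_le_right.trans hCX))) inf_le_right
    exact le_bot_iff.mp (hHT ▸ le_inf inf_le_left h1)

/-- If a conjugate of `H` has a complement in the subgroup lattice then so does `H`. -/
theorem compl_of_conj {G : Type*} [Group G] (g : G) (H : Subgroup G)
    (h : ∃ C : Subgroup G, H.map (MulAut.conj g).toMonoidHom ⊔ C = ⊤ ∧
      H.map (MulAut.conj g).toMonoidHom ⊓ C = ⊥) :
    ∃ C : Subgroup G, H ⊔ C = ⊤ ∧ H ⊓ C = ⊥ := by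
  obtain ⟨C, h1, h2⟩ := h
  let e : Subgroup G ≃o Subgroup G := (MulAut.conj g).mapSubgroup
  have he : e H = H.map (MulAut.conj g).toMonoidHom := rfl
  refine ⟨e.symm C, ?_, ?_⟩
  · apply e.injective
    rw [map_sup, OrderIso.apply_symm_apply, he, h1, map_top]
  · apply e.injective
    rw [map_inf, OrderIso.apply_symm_apply, he, h2, map_bot]

/-- A complemented subgroup lattice of `X` gives complements in the interval `[⊥, X]`. -/
theorem interval_bot_of_complemented {G : Type*} [Group G] (X : Subgroup G)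
    (hK : ComplementedLattice (Subgroup X)) :
    ∀ Y : Subgroup G, ⊥ ≤ Y → Y ≤ X → ∃ C : Subgroup G, ⊥ ≤ C ∧ C ≤ X ∧ Y ⊔ C = X ∧ Y ⊓ C = ⊥ := by
  intro Y _ hYX
  obtain ⟨C', hC'⟩ := hK.exists_isCompl (Y.subgroupOf X)
  refine ⟨C'.map X.subtype, bot_le, Subgroup.map_subtype_le _, ?_, ?_⟩
  · have h1 : Y = (Y.subgroupOf X).map X.subtype := (Subgroup.map_subgroupOf_eq_of_le hYX).symm
    conv_lhs => rw [h1]
    rw [← Subgroup.map_sup, codisjoint_iff.mp hC'.codisjoint, ← MonoidHom.range_eq_map,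
      Subgroup.range_subtype]
  · have h1 : Y = (Y.subgroupOf X).map X.subtype := (Subgroup.map_subgroupOf_eq_of_le hYX).symm
    conv_lhs => rw [h1]
    rw [← Subgroup.map_inf _ _ _ X.subtype_injective, disjoint_iff.mp hC'.disjoint, Subgroup.map_bot]

/-- A complemented subgroup lattice of `X ⧸ N` gives complements in the interval `[N, X]`. -/
theorem interval_of_complemented_quotient {G : Type*} [Group G] (X N : Subgroup G) (hNX : N ≤ X)
    [(N.subgroupOf X).Normal] (hK : ComplementedLattice (Subgroup (X ⧸ N.subgroupOf X))) :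
    ∀ Y : Subgroup G, N ≤ Y → Y ≤ X → ∃ C : Subgroup G, N ≤ C ∧ C ≤ X ∧ Y ⊔ C = X ∧ Y ⊓ C = N := by
  intro Y hNY hYX
  set π := QuotientGroup.mk' (N.subgroupOf X) with hπ
  have hπs : Function.Surjective π := QuotientGroup.mk'_surjective _
  have hker : π.ker = N.subgroupOf X := QuotientGroup.ker_mk' _
  obtain ⟨Cb, hCb⟩ := hK.exists_isCompl ((Y.subgroupOf X).map π)
  have hN' : N.subgroupOf X ≤ Y.subgroupOf X := fun x hx => hNY hx
  have hNmap : (N.subgroupOf X).map X.subtype = N := Subgroup.map_subgroupOf_eq_of_le hNX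
  have hYmap : (Y.subgroupOf X).map X.subtype = Y := Subgroup.map_subgroupOf_eq_of_le hYX
  have hNC : N.subgroupOf X ≤ Cb.comap π := hker.ge.trans (Subgroup.ker_le_comap _ _)
  refine ⟨(Cb.comap π).map X.subtype, ?_, Subgroup.map_subtype_le _, ?_, ?_⟩
  · exact hNmap.ge.trans (Subgroup.map_mono hNC)
  · conv_lhs => rw [← hYmap]
    rw [← Subgroup.map_sup]
    have htop : Y.subgroupOf X ⊔ Cb.comap π = ⊤ := by
      have h1 : (Y.subgroupOf X ⊔ Cb.comap π).map π = ⊤ := by
        rw [Subgroup.map_sup, Subgroup.map_comap_eq_self_of_surjective hπs,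
          codisjoint_iff.mp hCb.codisjoint]
      have h2 : π.ker ≤ Y.subgroupOf X ⊔ Cb.comap π := hker.le.trans (hN'.trans le_sup_left)
      have h3 := Subgroup.comap_map_eq_self h2
      rw [h1, Subgroup.comap_top] at h3
      exact h3.symm
    rw [htop, ← MonoidHom.range_eq_map, Subgroup.range_subtype]
  · conv_lhs => rw [← hYmap]
    rw [← Subgroup.map_inf _ _ _ X.subtype_injective]
    have hinf : Y.subgroupOf X ⊓ Cb.comap π = N.subgroupOf X := by
      apply le_antisymm
      · intro x hx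
        have h1 : π x ∈ (Y.subgroupOf X).map π ⊓ Cb := ⟨Subgroup.mem_map_of_mem _ hx.1, hx.2⟩
        rw [disjoint_iff.mp hCb.disjoint, Subgroup.mem_bot] at h1
        exact hker.le (MonoidHom.mem_ker.mpr h1)
      · exact le_inf hN' hNC
    exact (congrArg (Subgroup.map X.subtype) hinf).trans hNmap

end Cfsg.Agent.Lib.Helper97
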