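import Mathlib
import Cfsg.Agent.Lib.Helper70.G4Base
import Cfsg.Agent.S0144

/-!
# S2553, piece G4-B (helper97): orbit reduction for radical-free subgroups of `A₈`
-/

set_option autoImplicit false

namespace Cfsg.Agent.Lib.Helper97.G4

open Equiv

/-- groups of order dividing 24 are solvable -/
theorem solvable_of_card_dvd_24 {H : Type*} [Group H] [Finite H] (h : Nat.card H ∣ 24) :
    Group.IsSolvable H := by
  have hm : Nat.card H ∈ Nat.divisors 24 := Nat.mem_divisors.mpr ⟨h, by norm_num⟩
  have h24 : Nat.divisors 24 = {1, 2, 3, 4, 6, 8, 12, 24} := by decide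
  rw [h24] at hm
  simp only [Finset.mem_insert, Finset.mem_singleton] at hm
  rcases hm with e | e | e | e | e | e | e | e
  · exact Cfsg.Agent.S0144.result 2 3 0 0 Nat.prime_two Nat.prime_three (by norm_num [e])
  · exact Cfsg.Agent.S0144.result 2 3 1 0 Nat.prime_two Nat.prime_three (by norm_num [e])
  · exact Cfsg.Agent.S0144.result 2 3 0 1 Nat.prime_two Nat.prime_three (by norm_num [e])
  · exact Cfsg.Agent.S0144.result 2 3 2 0 Nat.prime_two Nat.prime_three (by norm_num [e])
  · exact Cfsg.Agent.S0144.result 2 3 1 1 Nat.prime_two Nat.prime_three (by norm_num [e])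
  · exact Cfsg.Agent.S0144.result 2 3 3 0 Nat.prime_two Nat.prime_three (by norm_num [e])
  · exact Cfsg.Agent.S0144.result 2 3 2 1 Nat.prime_two Nat.prime_three (by norm_num [e])
  · exact Cfsg.Agent.S0144.result 2 3 3 1 Nat.prime_two Nat.prime_three (by norm_num [e])

theorem coe_mem_orbit_iff (K : Subgroup (Perm (Fin 8))) (a : Fin 8) (k : K) (x : Fin 8) :
    (k : Perm (Fin 8)) x ∈ MulAction.orbit K a ↔ x ∈ MulAction.orbit K a := by
  have e : (k : Perm (Fin 8)) x = k • x := rfl
  rw [e, ← MulAction.orbit_eq_iff, MulAction.orbit_smul, MulAction.orbit_eq_iff]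

/-- some orbit carries a non-solvable image -/
theorem exists_nonsolvable_orbit (K : Subgroup (Perm (Fin 8))) (hns : ¬ Group.IsSolvable K) :
    ∃ a : Fin 8, ¬ Group.IsSolvable (MulAction.toPermHom K (MulAction.orbit K a)).range := by
  by_contra hall
  push Not at hall
  choose n hn using fun a => (Group.isSolvable_def _).mp (hall a)
  apply hns
  rw [Group.isSolvable_def]
  refine ⟨Finset.univ.sup n, ?_⟩
  rw [eq_bot_iff]
  intro k hk
  rw [Subgroup.mem_bot]
  apply Subtype.ext
  apply Equiv.ext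
  intro a
  have h1 : k ∈ derivedSeries K (n a) :=
    derivedSeries_antitone K (Finset.le_sup (Finset.mem_univ a)) hk
  have h2 := map_derivedSeries_le_derivedSeries
    (MulAction.toPermHom K (MulAction.orbit K a)).rangeRestrict (n a)
    (Subgroup.mem_map_of_mem _ h1)
  rw [hn a, Subgroup.mem_bot] at h2
  have h3 : MulAction.toPermHom K (MulAction.orbit K a) k = 1 := congrArg Subtype.val h2
  have h4 := congrArg
    (fun f => ((f ⟨a, MulAction.mem_orbit_self a⟩ : MulAction.orbit K a) : Fin 8)) h3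
  exact h4

theorem orbit_reduction (K : Subgroup (Equiv.Perm (Fin 8))) (hK : K ≤ alternatingGroup (Fin 8))
    (hns : ¬ Group.IsSolvable K) (hrad : Cfsg.Agent.Lib.Helper70.G4.RadFree K) :
    ∃ (d : ℕ) (T : Subgroup (Equiv.Perm (Fin d))), 5 ≤ d ∧ d ≤ 8 ∧
      MulAction.IsPretransitive T (Fin d) ∧ Nonempty (K ≃* T) ∧
      (7 ≤ d → T ≤ alternatingGroup (Fin d)) := by
  classical
  obtain ⟨a, ha⟩ := exists_nonsolvable_orbit K hns
  obtain ⟨O, hO⟩ : ∃ O : Set (Fin 8), O = MulAction.orbit K a := ⟨_, rfl⟩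
  subst hO
  obtain ⟨φ, hφ⟩ : ∃ φ : K →* Perm (MulAction.orbit K a),
      φ = MulAction.toPermHom K (MulAction.orbit K a) := ⟨_, rfl⟩
  rw [← hφ] at ha
  have hφv : ∀ (k : K) (x : MulAction.orbit K a),
      ((φ k x : MulAction.orbit K a) : Fin 8) = (k : Perm (Fin 8)) x := by
    intro k x; rw [hφ]; rfl
  -- cardinalities
  have hcard : (MulAction.orbit K a).ncard + (MulAction.orbit K a)ᶜ.ncard = 8 := by
    have := Set.ncard_add_ncard_compl (MulAction.orbit K a)
    simpa using this
  have hd : Nat.card (MulAction.orbit K a) = (MulAction.orbit K a).ncard :=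
    Nat.card_coe_set_eq _
  have hdc : Nat.card {x // x ∈ (MulAction.orbit K a)ᶜ} = (MulAction.orbit K a)ᶜ.ncard :=
    Nat.card_coe_set_eq _
  have h24 : (4 : ℕ).factorial = 24 := rfl
  -- the orbit has at least five points
  have h5 : 5 ≤ Nat.card (MulAction.orbit K a) := by
    by_contra hlt
    push Not at hlt
    apply ha
    apply solvable_of_card_dvd_24
    have h1 : Nat.card φ.range ∣ Nat.card (Perm (MulAction.orbit K a)) :=
      Subgroup.card_subgroup_dvd_card _
    rw [Nat.card_perm] at h1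
    rw [← h24]
    exact h1.trans (Nat.factorial_dvd_factorial (by omega))
  -- the kernel is trivial
  have hker : φ.ker = ⊥ := by
    apply hrad _ inferInstance
    apply solvable_of_card_dvd_24
    have hfix : ∀ n ∈ φ.ker, ∀ x ∈ MulAction.orbit K a, (n : Perm (Fin 8)) x = x := by
      intro n hn x hx
      have h1 := congrArg (fun f => ((f ⟨x, hx⟩ : MulAction.orbit K a) : Fin 8))
        (MonoidHom.mem_ker.mp hn)
      simp only [hφv] at h1
      exact h1
    have hpres : ∀ n ∈ φ.ker, ∀ x, (n : Perm (Fin 8)) x ∈ (MulAction.orbit K a)ᶜ ↔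
        x ∈ (MulAction.orbit K a)ᶜ := by
      intro n _ x
      rw [Set.mem_compl_iff, Set.mem_compl_iff, coe_mem_orbit_iff]
    let ψ : φ.ker →* Perm {x // x ∈ (MulAction.orbit K a)ᶜ} :=
      { toFun := fun n => (n.1 : Perm (Fin 8)).subtypePerm (hpres n.1 n.2)
        map_one' := by ext x; rfl
        map_mul' := by intro m n; ext x; rfl }
    have hψ : Function.Injective ψ := by
      rw [injective_iff_map_eq_one]
      intro n hn
      apply Subtype.ext; apply Subtype.ext; apply Equiv.ext
      intro x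
      by_cases hx : x ∈ MulAction.orbit K a
      · exact hfix n.1 n.2 x hx
      · have h1 := congrArg
          (fun f => ((f ⟨x, hx⟩ : {x // x ∈ (MulAction.orbit K a)ᶜ}) : Fin 8)) hn
        exact h1
    have h1 := Subgroup.card_dvd_of_injective ψ hψ
    rw [Nat.card_perm] at h1
    have h2 : Nat.card {x // x ∈ (MulAction.orbit K a)ᶜ} ≤ 3 := by omega
    exact h1.trans ((Nat.factorial_dvd_factorial h2).trans (by decide))
  have hinj : Function.Injective φ := (MonoidHom.ker_eq_bot_iff φ).mp hker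
  obtain ⟨e⟩ : Nonempty (MulAction.orbit K a ≃ Fin (Nat.card (MulAction.orbit K a))) :=
    ⟨Finite.equivFin _⟩
  refine ⟨Nat.card (MulAction.orbit K a), φ.range.map e.permCongrHom.toMonoidHom, h5, by omega,
    ?_, ⟨(MonoidHom.ofInjective hinj).trans
      (Subgroup.equivMapOfInjective φ.range _ (MulEquiv.injective _))⟩, ?_⟩
  · constructor
    intro x y
    obtain ⟨k, hk⟩ := MulAction.exists_smul_eq K (e.symm x) (e.symm y)
    refine ⟨⟨e.permCongrHom (φ k), Subgroup.mem_map_of_mem _ ⟨k, rfl⟩⟩, ?_⟩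
    show e (φ k (e.symm x)) = y
    have h1 : φ k (e.symm x) = e.symm y := by rw [hφ]; exact hk
    rw [h1, e.apply_symm_apply]
  · intro h7 t ht
    obtain ⟨f, ⟨k, rfl⟩, rfl⟩ := ht
    rw [Equiv.Perm.mem_alternatingGroup]
    have hk1 : Equiv.Perm.sign (k : Perm (Fin 8)) = 1 :=
      Equiv.Perm.mem_alternatingGroup.mp (hK k.2)
    have e1 : Equiv.Perm.sign (e.permCongrHom (φ k)) = Equiv.Perm.sign (φ k) :=
      Equiv.Perm.sign_permCongr e (φ k)
    rw [MulEquiv.coe_toMonoidHom, e1, ← hk1]
    have hp : ∀ x, (k : Perm (Fin 8)) x ∈ MulAction.orbit K a ↔ x ∈ MulAction.orbit K a :=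
      fun x => coe_mem_orbit_iff K a k x
    have hle : (MulAction.orbit K a)ᶜ.ncard ≤ 1 := by omega
    have h2 : ∀ x, (k : Perm (Fin 8)) x ≠ x → x ∈ MulAction.orbit K a := by
      intro x hne
      by_contra hx
      exact hne ((Set.ncard_le_one (Set.toFinite _)).mp hle _ (mt (hp x).mp hx) _ hx)
    have e2 : φ k = (k : Perm (Fin 8)).subtypePerm hp := by
      ext x
      rw [hφv]
      rfl
    rw [e2]
    exact Equiv.Perm.sign_subtypePerm _ hp h2

end Cfsg.Agent.Lib.Helper97.G4
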