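import Mathlib
import Cfsg.Agent.Lib.Helper70.G4Base
import Cfsg.Agent.S0144

/-!
# S2553, piece G4-D8b (helper97): transitive radical-free `T ≤ A₈`, `5 ∤ |T|`, has order 168
-/

set_option autoImplicit false

namespace Cfsg.Agent.Lib.Helper97.G4

open Equiv

/-- a divisor of `p ^ a * q ^ b` is again of this shape -/
theorem exists_eq_pow_mul_pow_of_dvd {p q a b m : ℕ} (hp : p.Prime) (hq : q.Prime)
    (h : m ∣ p ^ a * q ^ b) : ∃ a' b', m = p ^ a' * q ^ b' := by
  obtain ⟨k₁, k₂, h1, h2, rfl⟩ := Nat.dvd_mul.mp h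
  obtain ⟨a', -, rfl⟩ := (Nat.dvd_prime_pow hp).mp h1
  obtain ⟨b', -, rfl⟩ := (Nat.dvd_prime_pow hq).mp h2
  exact ⟨a', b', rfl⟩

/-- groups of order dividing `p ^ a * q ^ b` are solvable -/
theorem solvable_of_card_dvd_pq {H : Type*} [Group H] [Finite H] {p q a b : ℕ} (hp : p.Prime)
    (hq : q.Prime) (h : Nat.card H ∣ p ^ a * q ^ b) : Group.IsSolvable H := by
  obtain ⟨a', b', e⟩ := exists_eq_pow_mul_pow_of_dvd hp hq h
  exact Cfsg.Agent.S0144.result p q a' b' hp hq e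

theorem deg8_seven (x0 : Equiv.Perm (Fin 8)) (hx0 : x0.cycleType = {7})
    (hcore : ∀ T : Subgroup (Equiv.Perm (Fin 8)), x0 ∈ T → T ≤ alternatingGroup (Fin 8) →
      ¬ 5 ∣ Nat.card T → Cfsg.Agent.Lib.Helper70.G4.RadFree T → Nat.card T ≤ 168)
    (hEq : ∀ (T T' : Subgroup (Equiv.Perm (Fin 8))), Nonempty (T ≃* T') →
      Cfsg.Agent.Lib.Helper70.G4.RadFree T → Cfsg.Agent.Lib.Helper70.G4.RadFree T')
    (T : Subgroup (Equiv.Perm (Fin 8))) [MulAction.IsPretransitive T (Fin 8)]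
    (hA : T ≤ alternatingGroup (Fin 8)) (hns : ¬ Group.IsSolvable T)
    (hrad : Cfsg.Agent.Lib.Helper70.G4.RadFree T) (h5 : ¬ 5 ∣ Nat.card T) : Nat.card T = 168 := by
  -- `|T|` divides `8! = 5 * 8064`
  have hdvd : Nat.card T ∣ 5 * 8064 := by
    have h1 : Nat.card T ∣ Nat.card (Perm (Fin 8)) := Subgroup.card_subgroup_dvd_card T
    rw [Nat.card_perm, Nat.card_fin] at h1
    exact h1
  have hcop : Nat.Coprime (Nat.card T) 5 :=
    (Nat.coprime_comm.mp ((Nat.Prime.coprime_iff_not_dvd Nat.prime_five).mpr h5))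
  have hdvd2 : Nat.card T ∣ 7 * 1152 := by
    have := hcop.dvd_of_dvd_mul_left hdvd
    exact this
  -- `7 ∣ |T|`
  have h7 : 7 ∣ Nat.card T := by
    by_contra h7
    have hcop7 : Nat.Coprime (Nat.card T) 7 :=
      (Nat.coprime_comm.mp ((Nat.Prime.coprime_iff_not_dvd (by norm_num)).mpr h7))
    have h3 : Nat.card T ∣ 2 ^ 7 * 3 ^ 2 := hcop7.dvd_of_dvd_mul_left hdvd2
    exact hns (solvable_of_card_dvd_pq Nat.prime_two Nat.prime_three h3)
  -- an element of order 7, conjugate to `x0`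
  have : Fact (Nat.Prime 7) := ⟨by norm_num⟩
  obtain ⟨x, hx⟩ := exists_prime_orderOf_dvd_card' (G := T) 7 h7
  have hx' : orderOf (x : Perm (Fin 8)) = 7 := by rw [Subgroup.orderOf_coe, hx]
  have hct : (x : Perm (Fin 8)).cycleType = {7} := by
    obtain ⟨n, hn⟩ := Equiv.Perm.cycleType_prime_order (σ := (x : Perm (Fin 8)))
      (by rw [hx']; norm_num)
    rw [hx'] at hn
    have hsum := Equiv.Perm.sum_cycleType_le (x : Perm (Fin 8))
    rw [hn, Multiset.sum_replicate, Fintype.card_fin, smul_eq_mul] at hsum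
    have hn0 : n = 0 := by omega
    rw [hn, hn0]
    rfl
  have hconj : IsConj (x : Perm (Fin 8)) x0 := by
    rw [Equiv.Perm.isConj_iff_cycleType_eq, hct, hx0]
  obtain ⟨c, hc⟩ := isConj_iff.mp hconj
  -- the conjugate subgroup
  have hinj : Function.Injective (MulAut.conj c).toMonoidHom := (MulAut.conj c).injective
  have hx0T : x0 ∈ T.map (MulAut.conj c).toMonoidHom := by
    refine ⟨(x : Perm (Fin 8)), x.2, ?_⟩
    rw [MulEquiv.coe_toMonoidHom, MulAut.conj_apply, hc]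
  have hA' : T.map (MulAut.conj c).toMonoidHom ≤ alternatingGroup (Fin 8) := by
    rintro _ ⟨t, ht, rfl⟩
    rw [MulEquiv.coe_toMonoidHom, MulAut.conj_apply]
    exact (inferInstance : (alternatingGroup (Fin 8)).Normal).conj_mem t (hA ht) c
  have hcard' : Nat.card (T.map (MulAut.conj c).toMonoidHom) = Nat.card T :=
    Subgroup.card_map_of_injective hinj
  have hrad' : Cfsg.Agent.Lib.Helper70.G4.RadFree (T.map (MulAut.conj c).toMonoidHom) :=
    hEq T _ ⟨Subgroup.equivMapOfInjective T _ hinj⟩ hrad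
  have hle : Nat.card T ≤ 168 := by
    have := hcore _ hx0T hA' (by rw [hcard']; exact h5) hrad'
    rwa [hcard'] at this
  -- `8 ∣ |T|`
  have h8 : 8 ∣ Nat.card T := by
    have h1 := MulAction.index_stabilizer_of_transitive (G := T) (X := Fin 8) (x := 0)
    rw [Nat.card_fin] at h1
    have h2 := Subgroup.index_dvd_card (MulAction.stabilizer (↥T) (0 : Fin 8))
    obtain ⟨m, hm⟩ : ∃ m, m = (MulAction.stabilizer (↥T) (0 : Fin 8)).index := ⟨_, rfl⟩
    rw [← hm] at h1 h2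
    clear hm
    subst h1
    exact h2
  have h56 : 56 ∣ Nat.card T :=
    Nat.Coprime.mul_dvd_of_dvd_of_dvd (by norm_num : Nat.Coprime 7 8) h7 h8
  have hpos : 0 < Nat.card T := Nat.card_pos
  obtain ⟨k, hk⟩ := h56
  have hk3 : k = 1 ∨ k = 2 ∨ k = 3 := by omega
  rcases hk3 with rfl | rfl | rfl
  · exact absurd (Cfsg.Agent.S0144.result (G := T) 2 7 3 1 Nat.prime_two (by norm_num)
      (by rw [hk]; norm_num)) hns
  · exact absurd (Cfsg.Agent.S0144.result (G := T) 2 7 4 1 Nat.prime_two (by norm_num)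
      (by rw [hk]; norm_num)) hns
  · rw [hk]

end Cfsg.Agent.Lib.Helper97.G4
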