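import Mathlib

/-!
# Class number of `GL_n(q)`: the arithmetic part (helper97)

`cnt q d s k` bounds the number of tuples `(e_s, …, e_{s+d-1})` of monic polynomials with nonzero
constant term over a field with `q` elements with `∑ i * deg e_i = k`; we show
`cnt q d 1 n ≤ q ^ n`.
-/

set_option autoImplicit false

namespace Cfsg.Agent.Lib.Helper97.GLk

/-- number of monic polynomials of degree `m` with nonzero constant term -/
def Nq (q m : ℕ) : ℕ := if m = 0 then 1 else (q - 1) * q ^ (m - 1)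

theorem Nq_zero (q : ℕ) : Nq q 0 = 1 := by simp [Nq]

theorem Nq_succ (q m : ℕ) : Nq q (m + 1) = (q - 1) * q ^ m := by simp [Nq]

/-- the counting function -/
def cnt (q : ℕ) : ℕ → ℕ → ℕ → ℕ
  | 0, _, k => if k = 0 then 1 else 0
  | d + 1, s, k => ∑ m ∈ Finset.range (k / s + 1), Nq q m * cnt q d (s + 1) (k - s * m)

theorem cnt_zero (q s k : ℕ) : cnt q 0 s k = if k = 0 then 1 else 0 := rfl

theorem cnt_succ (q d s k : ℕ) :
    cnt q (d + 1) s k = ∑ m ∈ Finset.range (k / s + 1), Nq q m * cnt q d (s + 1) (k - s * m) := rfl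

theorem cnt_mono (q d s k : ℕ) : cnt q d (s + 1) k ≤ cnt q (d + 1) s k := by
  rw [cnt_succ]
  have h := Finset.single_le_sum (f := fun m => Nq q m * cnt q d (s + 1) (k - s * m))
    (s := Finset.range (k / s + 1)) (fun i _ => Nat.zero_le _) (Finset.mem_range.2 (Nat.succ_pos _))
  simpa [Nq_zero] using h

theorem cnt_lt (q d s k : ℕ) (h : k < s) : cnt q (d + 1) s k = cnt q d (s + 1) k := by
  rw [cnt_succ, Nat.div_eq_of_lt h]
  simp [Nq_zero]

theorem cnt_rec (q d s k : ℕ) (hq : 1 ≤ q) (hs : 1 ≤ s) :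
    cnt q (d + 1) s (k + s) + cnt q d (s + 1) k
      = q * cnt q (d + 1) s k + cnt q d (s + 1) (k + s) := by
  have hdiv : (k + s) / s = k / s + 1 := Nat.add_div_right k (by omega)
  rw [cnt_succ q d s (k + s), cnt_succ q d s k, hdiv, Finset.sum_range_succ', Finset.mul_sum]
  have e0 : Nq q 0 * cnt q d (s + 1) (k + s - s * 0) = cnt q d (s + 1) (k + s) := by
    simp [Nq_zero]
  rw [e0]
  have e1 : ∀ m, k + s - s * (m + 1) = k - s * m := by
    intro m
    rw [mul_add, mul_one]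
    omega
  simp only [e1]
  rw [Finset.sum_range_succ', Finset.sum_range_succ']
  have e2 : ∀ m, Nq q (m + 1 + 1) = q * Nq q (m + 1) := by
    intro m
    rw [Nq_succ, Nq_succ, pow_succ]
    ring
  have e3 : Nq q (0 + 1) + 1 = q * Nq q 0 := by
    rw [Nq_succ, Nq_zero]
    simp
    omega
  have e4 : ∑ m ∈ Finset.range (k / s), Nq q (m + 1 + 1) * cnt q d (s + 1) (k - s * (m + 1))
      = ∑ m ∈ Finset.range (k / s), q * (Nq q (m + 1) * cnt q d (s + 1) (k - s * (m + 1))) := by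
    refine Finset.sum_congr rfl (fun m _ => ?_)
    rw [e2, mul_assoc]
  rw [e4]
  have e5 : Nq q (0 + 1) * cnt q d (s + 1) (k - s * 0) + cnt q d (s + 1) k
      = q * (Nq q 0 * cnt q d (s + 1) (k - s * 0)) := by
    rw [← mul_assoc, ← e3]
    simp
    ring
  linarith

section real

variable (q : ℕ)

/-- weighted count -/
noncomputable def wq (d s k : ℕ) : ℚ := (cnt q d s k : ℚ) * ((q : ℚ)⁻¹) ^ k

theorem wq_nonneg (d s k : ℕ) : 0 ≤ wq q d s k := by
  unfold wq
  positivity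

theorem wq_lt (d s k : ℕ) (h : k < s) : wq q (d + 1) s k = wq q d (s + 1) k := by
  unfold wq
  rw [cnt_lt q d s k h]

theorem wq_mono (d s k : ℕ) : wq q d (s + 1) k ≤ wq q (d + 1) s k := by
  unfold wq
  have := cnt_mono q d s k
  have h2 : (cnt q d (s + 1) k : ℚ) ≤ (cnt q (d + 1) s k : ℚ) := by exact_mod_cast this
  exact mul_le_mul_of_nonneg_right h2 (by positivity)

theorem wq_rec (hq : 1 ≤ q) (d s k : ℕ) (hs : 1 ≤ s) :
    wq q (d + 1) s (k + s) + ((q : ℚ)⁻¹) ^ s * wq q d (s + 1) k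
      = ((q : ℚ)⁻¹) ^ (s - 1) * wq q (d + 1) s k + wq q d (s + 1) (k + s) := by
  unfold wq
  have h := cnt_rec q d s k hq hs
  have h2 : (cnt q (d + 1) s (k + s) : ℚ) + (cnt q d (s + 1) k : ℚ)
      = (q : ℚ) * (cnt q (d + 1) s k : ℚ) + (cnt q d (s + 1) (k + s) : ℚ) := by exact_mod_cast h
  have hq0 : (q : ℚ) ≠ 0 := by
    have : (1 : ℚ) ≤ q := by exact_mod_cast hq
    linarith
  obtain ⟨s', rfl⟩ : ∃ s', s = s' + 1 := ⟨s - 1, by omega⟩
  have e1 : ((q : ℚ)⁻¹) ^ (k + (s' + 1)) = ((q : ℚ)⁻¹) ^ k * ((q : ℚ)⁻¹) ^ (s' + 1) := pow_add _ _ _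
  have e2 : (q : ℚ) * ((q : ℚ)⁻¹) ^ (s' + 1) = ((q : ℚ)⁻¹) ^ s' := by
    rw [pow_succ]
    field_simp
  rw [e1, Nat.add_sub_cancel]
  have h3 : (cnt q (d + 1) (s' + 1) (k + (s' + 1)) : ℚ)
      = (q : ℚ) * (cnt q (d + 1) (s' + 1) k : ℚ) + (cnt q d (s' + 1 + 1) (k + (s' + 1)) : ℚ)
        - (cnt q d (s' + 1 + 1) k : ℚ) := by linarith
  rw [h3, ← e2]
  ring

/-- the shifted partial sum identity -/
theorem sum_identity (hq : 1 ≤ q) (d s : ℕ) (hs : 1 ≤ s) (m : ℕ) :
    ∑ k ∈ Finset.range (m + s), wq q (d + 1) s k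
        + ((q : ℚ)⁻¹) ^ s * ∑ j ∈ Finset.range m, wq q d (s + 1) j
      = ((q : ℚ)⁻¹) ^ (s - 1) * ∑ j ∈ Finset.range m, wq q (d + 1) s j
        + ∑ k ∈ Finset.range (m + s), wq q d (s + 1) k := by
  induction m with
  | zero =>
    simp only [Nat.zero_add, Finset.range_zero, Finset.sum_empty, mul_zero, add_zero, zero_add]
    refine Finset.sum_congr rfl (fun k hk => ?_)
    exact wq_lt q d s k (Finset.mem_range.1 hk)
  | succ m ih =>
    have e : m + 1 + s = (m + s) + 1 := by omega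
    rw [e, Finset.sum_range_succ, Finset.sum_range_succ (fun k => wq q d (s + 1) k) (m + s),
      Finset.sum_range_succ, Finset.sum_range_succ (fun j => wq q (d + 1) s j) m, mul_add, mul_add]
    have hr := wq_rec q hq d s m hs
    linarith

theorem main_ineq (hq : 1 ≤ q) (d : ℕ) : ∀ s : ℕ, 1 ≤ s → ∀ n : ℕ,
    ∑ k ∈ Finset.range (n + 1), wq q d s k
      - ((q : ℚ)⁻¹) ^ (s - 1) * ∑ k ∈ Finset.range n, wq q d s k ≤ 1 := by
  have ht0 : (0 : ℚ) ≤ (q : ℚ)⁻¹ := by positivity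
  have ht1 : (q : ℚ)⁻¹ ≤ 1 := by
    have : (1 : ℚ) ≤ q := by exact_mod_cast hq
    exact inv_le_one_of_one_le₀ this
  induction d with
  | zero =>
    intro s hs n
    have hw : ∀ k, wq q 0 s k = if k = 0 then 1 else 0 := by
      intro k
      unfold wq
      rw [cnt_zero]
      split_ifs with h
      · subst h; simp
      · simp
    simp only [hw]
    rw [Finset.sum_ite_eq' (Finset.range (n + 1)) 0 (fun _ => (1 : ℚ)),
      Finset.sum_ite_eq' (Finset.range n) 0 (fun _ => (1 : ℚ))]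
    simp only [Finset.mem_range, Nat.succ_pos, if_true]
    have : 0 ≤ ((q : ℚ)⁻¹) ^ (s - 1) := pow_nonneg ht0 _
    split_ifs <;> linarith
  | succ d ih =>
    intro s hs n
    have hts : ((q : ℚ)⁻¹) ^ s ≤ ((q : ℚ)⁻¹) ^ (s - 1) :=
      pow_le_pow_of_le_one ht0 ht1 (Nat.sub_le s 1)
    have hts0 : 0 ≤ ((q : ℚ)⁻¹) ^ s := pow_nonneg ht0 _
    have hIH := ih (s + 1) (Nat.succ_pos s) n
    rw [Nat.add_sub_cancel] at hIH
    by_cases hns : n < s
    · have e1 : ∑ k ∈ Finset.range (n + 1), wq q (d + 1) s k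
          = ∑ k ∈ Finset.range (n + 1), wq q d (s + 1) k :=
        Finset.sum_congr rfl (fun k hk => wq_lt q d s k (by
          have := Finset.mem_range.1 hk; omega))
      have e2 : ∑ k ∈ Finset.range n, wq q (d + 1) s k
          = ∑ k ∈ Finset.range n, wq q d (s + 1) k :=
        Finset.sum_congr rfl (fun k hk => wq_lt q d s k (by
          have := Finset.mem_range.1 hk; omega))
      rw [e1, e2]
      have h0 : 0 ≤ ∑ k ∈ Finset.range n, wq q d (s + 1) k :=
        Finset.sum_nonneg (fun k _ => wq_nonneg q d (s + 1) k)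
      nlinarith [mul_le_mul_of_nonneg_right hts h0]
    · push Not at hns
      obtain ⟨m, hm⟩ : ∃ m, n + 1 = m + s := ⟨n + 1 - s, by omega⟩
      have hmn : m ≤ n := by omega
      have hI := sum_identity q hq d s hs m
      rw [← hm] at hI
      have hsplitA := Finset.sum_range_add_sum_Ico (fun k => wq q (d + 1) s k) hmn
      have hsplitB := Finset.sum_range_add_sum_Ico (fun k => wq q d (s + 1) k) hmn
      have hIco : ∑ k ∈ Finset.Ico m n, wq q d (s + 1) k
          ≤ ∑ k ∈ Finset.Ico m n, wq q (d + 1) s k :=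
        Finset.sum_le_sum (fun k _ => wq_mono q d s k)
      have hIco0 : 0 ≤ ∑ k ∈ Finset.Ico m n, wq q d (s + 1) k :=
        Finset.sum_nonneg (fun k _ => wq_nonneg q d (s + 1) k)
      have hts' : 0 ≤ ((q : ℚ)⁻¹) ^ (s - 1) := pow_nonneg ht0 _
      nlinarith [mul_le_mul_of_nonneg_left hIco hts', mul_le_mul_of_nonneg_right hts hIco0]

theorem cnt_le (hq : 1 ≤ q) (d n : ℕ) : cnt q d 1 n ≤ q ^ n := by
  have h := main_ineq q hq d 1 le_rfl n
  rw [Finset.sum_range_succ] at h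
  simp only [Nat.sub_self, pow_zero, one_mul, add_sub_cancel_left] at h
  unfold wq at h
  have hq0 : (0 : ℚ) < q := by
    have : (1 : ℚ) ≤ q := by exact_mod_cast hq
    linarith
  rw [inv_pow, mul_inv_le_iff₀ (pow_pos hq0 n), one_mul] at h
  exact_mod_cast h

end real

end Cfsg.Agent.Lib.Helper97.GLk
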