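import Mathlib
import Cfsg.Agent.Lib.Helper97.GLk1

/-!
# Class number of `GL_n(q)`: counting tuples of polynomials (helper97)
-/

set_option autoImplicit false

namespace Cfsg.Agent.Lib.Helper97.GLk

open Polynomial

section

variable (F : Type*) [Field F] [Fintype F]

/-- coefficient vectors with nonzero first entry -/
abbrev Cm (m : ℕ) : Type _ := {c : Fin m → F // ∀ h : 0 < m, c ⟨0, h⟩ ≠ 0}

theorem card_Cm (m : ℕ) : Nat.card (Cm F m) = Nq (Fintype.card F) m := by
  classical
  cases m with
  | zero =>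
    rw [Nq_zero]
    haveI : Unique (Cm F 0) :=
      ⟨⟨⟨fun i => i.elim0, fun h => absurd h (lt_irrefl 0)⟩⟩,
        fun c => Subtype.ext (funext fun i => i.elim0)⟩
    exact Nat.card_unique
  | succ m =>
    rw [Nq_succ]
    have e : Cm F (m + 1) ≃ {a : F // a ≠ 0} × (Fin m → F) :=
      { toFun := fun c => (⟨c.1 0, c.2 (Nat.succ_pos m)⟩, Fin.tail c.1)
        invFun := fun p => ⟨Fin.cons p.1.1 p.2, fun _ => by
          have : (Fin.cons p.1.1 p.2 : Fin (m + 1) → F) 0 = p.1.1 := Fin.cons_zero _ _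
          have h2 : (⟨0, Nat.succ_pos m⟩ : Fin (m + 1)) = 0 := rfl
          rw [h2, this]
          exact p.1.2⟩
        left_inv := fun c => Subtype.ext (Fin.cons_self_tail c.1)
        right_inv := fun p => by
          refine Prod.ext (Subtype.ext ?_) ?_
          · show (Fin.cons p.1.1 p.2 : Fin (m + 1) → F) 0 = p.1.1
            exact Fin.cons_zero _ _
          · show Fin.tail (Fin.cons p.1.1 p.2 : Fin (m + 1) → F) = p.2
            exact Fin.tail_cons _ _ }
    rw [Nat.card_congr e, Nat.card_prod, Nat.card_eq_fintype_card, Nat.card_eq_fintype_card,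
      Fintype.card_subtype_compl, Fintype.card_subtype_eq, Fintype.card_fun, Fintype.card_fin]

/-- monic polynomials of degree `m` with nonzero constant term -/
abbrev Pm (m : ℕ) : Type _ := {f : F[X] // f.Monic ∧ f.natDegree = m ∧ f.coeff 0 ≠ 0}

theorem Pm_inj (m : ℕ) : Function.Injective
    (fun f : Pm F m => (⟨fun i => f.1.coeff i, fun _ => f.2.2.2⟩ : Cm F m)) := by
  intro f g h
  have h1 : ∀ i : Fin m, f.1.coeff i = g.1.coeff i := fun i => congrFun (congrArg Subtype.val h) i
  apply Subtype.ext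
  ext i
  rcases lt_trichotomy i m with hi | hi | hi
  · exact h1 ⟨i, hi⟩
  · have hf := f.2.1.coeff_natDegree
    have hg := g.2.1.coeff_natDegree
    rw [f.2.2.1] at hf
    rw [g.2.2.1] at hg
    rw [hi, hf, hg]
  · rw [coeff_eq_zero_of_natDegree_lt (by rw [f.2.2.1]; exact hi),
      coeff_eq_zero_of_natDegree_lt (by rw [g.2.2.1]; exact hi)]

theorem Pm_finite (m : ℕ) : Finite (Pm F m) := Finite.of_injective _ (Pm_inj F m)

theorem card_Pm_le (m : ℕ) : Nat.card (Pm F m) ≤ Nq (Fintype.card F) m :=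
  (Nat.card_le_card_of_injective _ (Pm_inj F m)).trans_eq (card_Cm F m)

/-- tuples `(e_s, …, e_{s+d-1})` of total weight `k` -/
abbrev Dk (d s k : ℕ) : Type _ :=
  {E : Fin d → F[X] // (∀ j, (E j).Monic ∧ (E j).coeff 0 ≠ 0) ∧
    ∑ j : Fin d, (s + (j : ℕ)) * (E j).natDegree = k}

end

theorem card_le_sum_fiber {α : Type*} {N : ℕ} (f : α → Fin N) (c : Fin N → ℕ)
    (h : ∀ m, Finite {x // f x = m} ∧ Nat.card {x // f x = m} ≤ c m) :
    Finite α ∧ Nat.card α ≤ ∑ m, c m := by
  haveI : ∀ m, Finite {x // f x = m} := fun m => (h m).1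
  have e := Equiv.sigmaFiberEquiv f
  haveI : Finite α := Finite.of_equiv _ e
  refine ⟨inferInstance, ?_⟩
  rw [← Nat.card_congr e, Nat.card_sigma]
  exact Finset.sum_le_sum (fun m _ => (h m).2)

theorem Dk_card (F : Type*) [Field F] [Fintype F] (d : ℕ) : ∀ s k : ℕ, 1 ≤ s →
    Finite (Dk F d s k) ∧ Nat.card (Dk F d s k) ≤ cnt (Fintype.card F) d s k := by
  induction d with
  | zero =>
    intro s k hs
    haveI : Subsingleton (Dk F 0 s k) := ⟨fun a b => Subtype.ext (funext fun i => i.elim0)⟩
    refine ⟨inferInstance, ?_⟩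
    rw [cnt_zero]
    split_ifs with hk
    · exact Finite.card_le_one_iff_subsingleton.2 inferInstance
    · haveI : IsEmpty (Dk F 0 s k) := ⟨fun E => hk (by
        have := E.2.2
        simpa using this.symm)⟩
      simp
  | succ d ih =>
    intro s k hs
    have hsum : ∀ E : Dk F (d + 1) s k,
        s * (E.1 0).natDegree
          + ∑ j : Fin d, (s + 1 + (j : ℕ)) * (Fin.tail E.1 j).natDegree = k := by
      intro E
      have h := E.2.2
      rw [Fin.sum_univ_succ] at h
      have e0 : s * (E.1 0).natDegree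
          = (s + ((0 : Fin (d + 1)) : ℕ)) * (E.1 0).natDegree := by simp
      have e1 : ∑ j : Fin d, (s + 1 + (j : ℕ)) * (Fin.tail E.1 j).natDegree
          = ∑ i : Fin d, (s + ((i.succ : Fin (d + 1)) : ℕ)) * (E.1 i.succ).natDegree := by
        refine Finset.sum_congr rfl (fun j _ => ?_)
        rw [Fin.val_succ]
        have : s + 1 + (j : ℕ) = s + ((j : ℕ) + 1) := by omega
        rw [this]
        rfl
      rw [e0, e1]
      exact h
    have hdeg : ∀ E : Dk F (d + 1) s k, (E.1 0).natDegree < k / s + 1 := by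
      intro E
      have h := hsum E
      have : (E.1 0).natDegree * s ≤ k := by
        rw [mul_comm]
        omega
      exact Nat.lt_succ_of_le ((Nat.le_div_iff_mul_le (by omega)).2 this)
    have key := card_le_sum_fiber
      (fun E : Dk F (d + 1) s k => (⟨(E.1 0).natDegree, hdeg E⟩ : Fin (k / s + 1)))
      (fun m => Nq (Fintype.card F) m * cnt (Fintype.card F) d (s + 1) (k - s * m)) ?_
    · refine ⟨key.1, key.2.trans_eq ?_⟩
      rw [cnt_succ, Fin.sum_univ_eq_sum_range
        (fun m => Nq (Fintype.card F) m * cnt (Fintype.card F) d (s + 1) (k - s * m))]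
    · intro m
      obtain ⟨hfin, hcard⟩ := ih (s + 1) (k - s * m) (Nat.succ_pos s)
      haveI := hfin
      haveI := Pm_finite F (m : ℕ)
      have htail : ∀ E : {E : Dk F (d + 1) s k //
          (⟨(E.1 0).natDegree, hdeg E⟩ : Fin (k / s + 1)) = m},
          ∑ j : Fin d, (s + 1 + (j : ℕ)) * (Fin.tail E.1.1 j).natDegree = k - s * m := by
        intro E
        have h := hsum E.1
        have hm : (E.1.1 0).natDegree = m := congrArg Fin.val E.2
        rw [hm] at h
        omega
      let ψ : {E : Dk F (d + 1) s k //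
          (⟨(E.1 0).natDegree, hdeg E⟩ : Fin (k / s + 1)) = m} →
          Pm F m × Dk F d (s + 1) (k - s * m) :=
        fun E => (⟨E.1.1 0, (E.1.2.1 0).1, congrArg Fin.val E.2, (E.1.2.1 0).2⟩,
          ⟨Fin.tail E.1.1, fun j => E.1.2.1 j.succ, htail E⟩)
      have hψ : Function.Injective ψ := by
        intro E E' h
        have h1 : E.1.1 0 = E'.1.1 0 := congrArg (fun p => p.1.1) h
        have h2 : Fin.tail E.1.1 = Fin.tail E'.1.1 := congrArg (fun p => p.2.1) h
        apply Subtype.ext
        apply Subtype.ext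
        rw [← Fin.cons_self_tail E.1.1, ← Fin.cons_self_tail E'.1.1, h1, h2]
      refine ⟨Finite.of_injective ψ hψ, ?_⟩
      calc Nat.card _ ≤ Nat.card (Pm F m × Dk F d (s + 1) (k - s * m)) :=
            Nat.card_le_card_of_injective ψ hψ
        _ = Nat.card (Pm F m) * Nat.card (Dk F d (s + 1) (k - s * m)) := Nat.card_prod _ _
        _ ≤ _ := Nat.mul_le_mul (card_Pm_le F m) hcard

theorem Dk_card_le (F : Type*) [Field F] [Fintype F] (n : ℕ) :
    Finite (Dk F n 1 n) ∧ Nat.card (Dk F n 1 n) ≤ Fintype.card F ^ n := by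
  obtain ⟨h1, h2⟩ := Dk_card F n 1 n le_rfl
  exact ⟨h1, h2.trans (cnt_le _ Fintype.card_pos n n)⟩

end Cfsg.Agent.Lib.Helper97.GLk
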