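import Mathlib

/-!
# Class number of `GL_n(q)`: general module lemmas (helper97)
-/

set_option autoImplicit false

namespace Cfsg.Agent.Lib.Helper97.GLk

open DirectSum

/-- two maps with equal fibre cardinalities differ by a bijection of the domains -/
theorem exists_equiv_of_fiber_card {α β γ : Type*} [Fintype α] [Fintype β] [DecidableEq γ]
    (f : α → γ) (g : β → γ)
    (h : ∀ c, Fintype.card {a // f a = c} = Fintype.card {b // g b = c}) :
    ∃ σ : α ≃ β, ∀ a, g (σ a) = f a := by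
  let τ : ∀ c, {a // f a = c} ≃ {b // g b = c} := fun c => Fintype.equivOfCardEq (h c)
  refine ⟨(Equiv.sigmaFiberEquiv f).symm.trans
    ((Equiv.sigmaCongrRight τ).trans (Equiv.sigmaFiberEquiv g)), fun a => ?_⟩
  exact (τ (f a) ⟨a, rfl⟩).2

section dsum

variable {R : Type*} [CommRing R] {ι κ : Type*} [DecidableEq ι] [DecidableEq κ]

theorem lof_mk_congr (I : ι → Submodule R R) {i i' : ι} (h : i = i') (a : R) :
    DirectSum.lof R ι (fun i => R ⧸ I i) i (Submodule.Quotient.mk a)
      = DirectSum.lof R ι (fun i => R ⧸ I i) i' (Submodule.Quotient.mk a) := by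
  subst h
  rfl

/-- the comparison map between direct sums of cyclic modules along a partial matching -/
noncomputable def dsumMap (I : ι → Submodule R R) (J : κ → Submodule R R)
    (P : ι → Prop) (P' : κ → Prop) [DecidablePred P]
    (σ : {i // P i} → {k // P' k}) (hσ : ∀ x, I x.1 = J (σ x).1) :
    (⨁ i, R ⧸ I i) →ₗ[R] ⨁ k, R ⧸ J k :=
  DirectSum.toModule R ι _ (fun i =>
    if h : P i then
      (DirectSum.lof R κ (fun k => R ⧸ J k) (σ ⟨i, h⟩).1) ∘ₗ
        (Submodule.quotEquivOfEq (I i) (J (σ ⟨i, h⟩).1) (hσ ⟨i, h⟩)).toLinearMap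
    else 0)

theorem dsumMap_lof_pos (I : ι → Submodule R R) (J : κ → Submodule R R)
    (P : ι → Prop) (P' : κ → Prop) [DecidablePred P]
    (σ : {i // P i} → {k // P' k}) (hσ : ∀ x, I x.1 = J (σ x).1) (i : ι) (h : P i) (a : R) :
    dsumMap I J P P' σ hσ (DirectSum.lof R ι (fun i => R ⧸ I i) i (Submodule.Quotient.mk a))
      = DirectSum.lof R κ (fun k => R ⧸ J k) (σ ⟨i, h⟩).1 (Submodule.Quotient.mk a) := by
  unfold dsumMap
  rw [DirectSum.toModule_lof, dif_pos h]
  rfl

theorem dsumMap_lof_neg (I : ι → Submodule R R) (J : κ → Submodule R R)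
    (P : ι → Prop) (P' : κ → Prop) [DecidablePred P]
    (σ : {i // P i} → {k // P' k}) (hσ : ∀ x, I x.1 = J (σ x).1) (i : ι) (h : ¬ P i) (a : R) :
    dsumMap I J P P' σ hσ (DirectSum.lof R ι (fun i => R ⧸ I i) i (Submodule.Quotient.mk a))
      = 0 := by
  unfold dsumMap
  rw [DirectSum.toModule_lof, dif_neg h]
  rfl

theorem dsum_iso (I : ι → Submodule R R) (J : κ → Submodule R R)
    (P : ι → Prop) (P' : κ → Prop) [DecidablePred P] [DecidablePred P']
    (hI : ∀ i, ¬ P i → I i = ⊤) (hJ : ∀ k, ¬ P' k → J k = ⊤)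
    (σ : {i // P i} ≃ {k // P' k}) (hσ : ∀ x, I x.1 = J (σ x).1) :
    Nonempty ((⨁ i, R ⧸ I i) ≃ₗ[R] ⨁ k, R ⧸ J k) := by
  have hσ' : ∀ y, J y.1 = I (σ.symm y).1 := by
    intro y
    have := hσ (σ.symm y)
    rw [Equiv.apply_symm_apply] at this
    exact this.symm
  have hzeroI : ∀ i, ¬ P i → ∀ a : R, (Submodule.Quotient.mk a : R ⧸ I i) = 0 := by
    intro i hi a
    rw [Submodule.Quotient.mk_eq_zero, hI i hi]
    exact Submodule.mem_top
  have hzeroJ : ∀ k, ¬ P' k → ∀ a : R, (Submodule.Quotient.mk a : R ⧸ J k) = 0 := by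
    intro k hk a
    rw [Submodule.Quotient.mk_eq_zero, hJ k hk]
    exact Submodule.mem_top
  refine ⟨LinearEquiv.ofLinear (dsumMap I J P P' σ hσ) (dsumMap J I P' P σ.symm hσ') ?_ ?_⟩
  · apply DirectSum.linearMap_ext
    intro k
    apply Submodule.linearMap_qext
    refine LinearMap.ext fun a => ?_
    simp only [LinearMap.coe_comp, Function.comp_apply, Submodule.mkQ_apply, LinearMap.id_coe,
      id_eq]
    by_cases hk : P' k
    · rw [dsumMap_lof_pos J I P' P σ.symm hσ' k hk,
        dsumMap_lof_pos I J P P' σ hσ _ (σ.symm ⟨k, hk⟩).2]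
      apply lof_mk_congr
      rw [Subtype.coe_eta, Equiv.apply_symm_apply]
    · rw [dsumMap_lof_neg J I P' P σ.symm hσ' k hk, map_zero, hzeroJ k hk, map_zero]
  · apply DirectSum.linearMap_ext
    intro i
    apply Submodule.linearMap_qext
    refine LinearMap.ext fun a => ?_
    simp only [LinearMap.coe_comp, Function.comp_apply, Submodule.mkQ_apply, LinearMap.id_coe,
      id_eq]
    by_cases hi : P i
    · rw [dsumMap_lof_pos I J P P' σ hσ i hi,
        dsumMap_lof_pos J I P' P σ.symm hσ' _ (σ ⟨i, hi⟩).2]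
      apply lof_mk_congr
      rw [Subtype.coe_eta, Equiv.symm_apply_apply]
    · rw [dsumMap_lof_neg I J P P' σ hσ i hi, map_zero, hzeroI i hi, map_zero]

end dsum

end Cfsg.Agent.Lib.Helper97.GLk
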