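import Mathlib
import Cfsg.Agent.Lib.Helper97.GLk3

/-!
# Class number of `GL_n(q)`: primary decompositions of endomorphisms (helper97)

For an endomorphism `A` of `F^n` we choose a decomposition of the `F[X]`-module `AEval' A` into
cyclic primary modules, and attach to it the tuple of polynomials
`tupN j = ∏_{e_i = j} normalize (p_i)`.  Equal tuples force conjugacy.
-/

set_option autoImplicit false

namespace Cfsg.Agent.Lib.Helper97.GLk

open Polynomial DirectSum

universe u

section

variable {F : Type u} [Field F] [DecidableEq F] {n : ℕ}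

/-- a primary decomposition of the `F[X]`-module attached to an endomorphism -/
structure Dec (A : Module.End F (Fin n → F)) where
  /-- index type -/
  ι : Type u
  /-- finiteness -/
  fι : Fintype ι
  /-- the irreducible polynomials -/
  p : ι → F[X]
  /-- the exponents -/
  e : ι → ℕ
  /-- irreducibility -/
  irr : ∀ i, Irreducible (p i)
  /-- the decomposition -/
  iso : Module.AEval' A ≃ₗ[F[X]] ⨁ i, F[X] ⧸ Submodule.span F[X] {p i ^ e i}

attribute [instance] Dec.fι

omit [DecidableEq F] in
theorem exists_dec (A : Module.End F (Fin n → F)) : Nonempty (Dec A) := by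
  have hM : Module.IsTorsion F[X] (Module.AEval' A) :=
    Module.AEval.isTorsion_of_finiteDimensional F (Fin n → F) A
  obtain ⟨ι, fι, p, hp, e, ⟨iso⟩⟩ := Module.equiv_directSum_of_isTorsion hM
  exact ⟨⟨ι, fι, p, e, hp, iso⟩⟩

omit [DecidableEq F] in
theorem quot_finite (f : F[X]) (hf : f ≠ 0) :
    Module.Finite F (F[X] ⧸ Submodule.span F[X] {f}) := by
  by_cases h : f.natDegree = 0
  · have hu : IsUnit f := by
      rw [Polynomial.natDegree_eq_zero] at h
      obtain ⟨c, rfl⟩ := h
      have : c ≠ 0 := by rintro rfl; simp at hf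
      exact Polynomial.isUnit_C.2 (Ne.isUnit this)
    have : Subsingleton (F[X] ⧸ Submodule.span F[X] {f}) := by
      rw [Submodule.Quotient.subsingleton_iff]
      exact Ideal.span_singleton_eq_top.2 hu
    infer_instance
  · apply Module.finite_of_finrank_pos
    have := finrank_quotient_span_eq_natDegree (f := f)
    rw [this]
    omega

variable {A A' : Module.End F (Fin n → F)}

omit [DecidableEq F] in
theorem Dec.finrank_sum (D : Dec A) : ∑ i, D.e i * (D.p i).natDegree = n := by
  classical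
  have h1 : Module.finrank F (Module.AEval' A) = n := by
    rw [← (Module.AEval'.of A).finrank_eq]
    simp
  have : ∀ i, Module.Finite F (F[X] ⧸ Submodule.span F[X] {D.p i ^ D.e i}) :=
    fun i => quot_finite _ (pow_ne_zero _ (D.irr i).ne_zero)
  have h2 : Module.finrank F (⨁ i, F[X] ⧸ Submodule.span F[X] {D.p i ^ D.e i})
      = Module.finrank F (Module.AEval' A) := (D.iso.restrictScalars F).finrank_eq.symm
  rw [Module.finrank_directSum] at h2
  refine Eq.trans ?_ (h2.trans h1)
  refine Finset.sum_congr rfl (fun i _ => ?_)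
  have := finrank_quotient_span_eq_natDegree (f := D.p i ^ D.e i)
  rw [Polynomial.natDegree_pow] at this
  exact this.symm

omit [DecidableEq F] in
theorem Dec.exp_le (D : Dec A) (i : D.ι) : D.e i ≤ n := by
  have h := D.finrank_sum
  have h1 : D.e i * (D.p i).natDegree ≤ ∑ i, D.e i * (D.p i).natDegree :=
    Finset.single_le_sum (f := fun i => D.e i * (D.p i).natDegree) (fun _ _ => Nat.zero_le _)
      (Finset.mem_univ i)
  have h2 : 1 ≤ (D.p i).natDegree := (D.irr i).natDegree_pos
  nlinarith

/-- the tuple of polynomials attached to a decomposition -/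
noncomputable def Dec.tupN (D : Dec A) (j : ℕ) : F[X] :=
  ∏ i ∈ Finset.univ.filter (fun i => D.e i = j), normalize (D.p i)

theorem Dec.tupN_monic (D : Dec A) (j : ℕ) : (D.tupN j).Monic :=
  Polynomial.monic_prod_of_monic _ _ (fun i _ => Polynomial.monic_normalize (D.irr i).ne_zero)

theorem Dec.tupN_eq_one (D : Dec A) (j : ℕ) (hj : n < j) : D.tupN j = 1 := by
  unfold Dec.tupN
  rw [Finset.filter_false_of_mem, Finset.prod_empty]
  intro i _ h
  have := D.exp_le i
  omega

omit [DecidableEq F] in
theorem Dec.not_X_dvd (D : Dec A) (hA : Function.Injective A) (i : D.ι) (hi : D.e i ≠ 0) :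
    ¬ X ∣ D.p i := by
  classical
  intro hX
  obtain ⟨c, hc⟩ := hX
  have hcu : IsUnit c := ((D.irr i).isUnit_or_isUnit hc).resolve_left Polynomial.not_isUnit_X
  obtain ⟨e', he'⟩ : ∃ e', D.e i = e' + 1 := ⟨D.e i - 1, by omega⟩
  obtain ⟨z, hz⟩ : ∃ z : ⨁ i, F[X] ⧸ Submodule.span F[X] {D.p i ^ D.e i},
      z = DirectSum.lof F[X] D.ι (fun i => F[X] ⧸ Submodule.span F[X] {D.p i ^ D.e i}) i
        (Submodule.Quotient.mk (D.p i ^ e')) := ⟨_, rfl⟩
  have hz0 : z ≠ 0 := by
    intro h0
    rw [hz, DirectSum.lof_eq_of] at h0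
    have h1 := DirectSum.of_injective (β := fun i => F[X] ⧸ Submodule.span F[X] {D.p i ^ D.e i}) i
      (h0.trans (map_zero _).symm)
    rw [Submodule.Quotient.mk_eq_zero] at h1
    have h2 : D.p i ^ D.e i ∣ D.p i ^ e' := Ideal.mem_span_singleton.1 h1
    rw [he'] at h2
    have := (pow_dvd_pow_iff (D.irr i).ne_zero (D.irr i).not_isUnit).1 h2
    omega
  have hXz : (X : F[X]) • z = 0 := by
    rw [hz, ← map_smul, ← Submodule.Quotient.mk_smul]
    have h1 : (Submodule.Quotient.mk ((X : F[X]) • D.p i ^ e') :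
        F[X] ⧸ Submodule.span F[X] {D.p i ^ D.e i}) = 0 := by
      rw [Submodule.Quotient.mk_eq_zero]
      apply Ideal.mem_span_singleton.2
      have : D.p i ^ D.e i = ((X : F[X]) • D.p i ^ e') * c := by
        rw [he', pow_succ, hc, smul_eq_mul]
        ring
      rw [this]
      exact hcu.mul_right_dvd.2 dvd_rfl
    rw [h1, map_zero]
  obtain ⟨m, hm⟩ : ∃ m, m = D.iso.symm z := ⟨_, rfl⟩
  have hm0 : m ≠ 0 := by
    rw [hm]
    intro h
    exact hz0 (D.iso.symm.map_eq_zero_iff.1 h)
  have hXm : (X : F[X]) • m = 0 := by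
    rw [hm, ← D.iso.symm.map_smul, hXz, map_zero]
  obtain ⟨v, hv⟩ : ∃ v, v = (Module.AEval'.of A).symm m := ⟨_, rfl⟩
  have hvm : Module.AEval'.of A v = m := by rw [hv, LinearEquiv.apply_symm_apply]
  rw [← hvm, Module.AEval'.X_smul_of] at hXm
  have hAv : A v = 0 := (Module.AEval'.of A).map_eq_zero_iff.1 hXm
  have hv0 : v = 0 := hA (hAv.trans (map_zero A).symm)
  apply hm0
  rw [← hvm, hv0, map_zero]

theorem Dec.tupN_coeff_zero (D : Dec A) (hA : Function.Injective A) (j : ℕ) (hj : j ≠ 0) :
    (D.tupN j).coeff 0 ≠ 0 := by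
  intro h
  rw [← Polynomial.X_dvd_iff] at h
  obtain ⟨i, hi, hdvd⟩ := Polynomial.prime_X.exists_mem_finset_dvd h
  rw [Finset.mem_filter] at hi
  rw [dvd_normalize_iff] at hdvd
  exact D.not_X_dvd hA i (by rw [hi.2]; exact hj) hdvd

theorem Dec.tup_weight (D : Dec A) :
    ∑ j ∈ Finset.range (n + 1), j * (D.tupN j).natDegree = n := by
  have h1 : ∀ j, (D.tupN j).natDegree
      = ∑ i ∈ Finset.univ.filter (fun i => D.e i = j), (D.p i).natDegree := by
    intro j
    unfold Dec.tupN
    rw [Polynomial.natDegree_prod_of_monic _ _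
      (fun i _ => Polynomial.monic_normalize (D.irr i).ne_zero)]
    refine Finset.sum_congr rfl (fun i _ => ?_)
    exact Polynomial.natDegree_eq_of_degree_eq Polynomial.degree_normalize
  have h2 : ∀ j, j * (D.tupN j).natDegree
      = ∑ i ∈ Finset.univ.filter (fun i => D.e i = j), D.e i * (D.p i).natDegree := by
    intro j
    rw [h1, Finset.mul_sum]
    refine Finset.sum_congr rfl (fun i hi => ?_)
    rw [(Finset.mem_filter.1 hi).2]
  rw [Finset.sum_congr rfl (fun j _ => h2 j)]
  rw [Finset.sum_fiberwise_of_maps_to (g := D.e)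
    (fun i _ => Finset.mem_range.2 (Nat.lt_succ_of_le (D.exp_le i)))]
  exact D.finrank_sum

theorem Dec.tup_weight' (D : Dec A) :
    ∑ j : Fin n, (1 + (j : ℕ)) * (D.tupN ((j : ℕ) + 1)).natDegree = n := by
  have h := D.tup_weight
  rw [Finset.sum_range_succ'] at h
  rw [Fin.sum_univ_eq_sum_range (fun j => (1 + j) * (D.tupN (j + 1)).natDegree) n]
  simp only [zero_mul, add_zero] at h
  refine Eq.trans ?_ h
  refine Finset.sum_congr rfl (fun j _ => ?_)
  rw [add_comm 1 j]

theorem Dec.count_eq (D : Dec A) (j : ℕ) (P : F[X]) :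
    Multiset.count P (UniqueFactorizationMonoid.normalizedFactors (D.tupN j))
      = (Finset.univ.filter (fun i => D.e i = j ∧ normalize (D.p i) = P)).card := by
  unfold Dec.tupN
  rw [Finset.prod_eq_multiset_prod, UniqueFactorizationMonoid.normalizedFactors_prod_eq]
  · rw [Multiset.map_map, Multiset.count_map, ← Finset.filter_val, Finset.card_val,
      Finset.filter_filter]
    congr 1
    refine Finset.filter_congr (fun i _ => ?_)
    simp only [Function.comp_apply, normalize_idem]
    constructor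
    · rintro ⟨h1, h2⟩
      exact ⟨h1, h2.symm⟩
    · rintro ⟨h1, h2⟩
      exact ⟨h1, h2.symm⟩
  · intro a ha
    obtain ⟨i, _, rfl⟩ := Multiset.mem_map.1 ha
    exact (associated_normalize _).irreducible (D.irr i)

theorem Dec.matching (D : Dec A) (D' : Dec A') (h : ∀ j, j ≠ 0 → D.tupN j = D'.tupN j) :
    ∃ σ : {i // D.e i ≠ 0} ≃ {k // D'.e k ≠ 0},
      ∀ x, D'.e (σ x).1 = D.e x.1 ∧ normalize (D'.p (σ x).1) = normalize (D.p x.1) := by
  classical
  have key : ∀ {B : Module.End F (Fin n → F)} (E : Dec B) (P : F[X]) (j : ℕ),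
      Fintype.card {x : {i // E.e i ≠ 0} // (normalize (E.p x.1), E.e x.1) = (P, j)}
        = if j = 0 then 0
          else Multiset.count P (UniqueFactorizationMonoid.normalizedFactors (E.tupN j)) := by
    intro B E P j
    by_cases hj : j = 0
    · rw [if_pos hj, Fintype.card_eq_zero_iff]
      refine ⟨fun x => ?_⟩
      have := (Prod.mk.injEq _ _ _ _ ▸ x.2 : normalize (E.p x.1.1) = P ∧ E.e x.1.1 = j).2
      exact x.1.2 (this.trans hj)
    · rw [if_neg hj, E.count_eq j P, Fintype.card_congr (Equiv.subtypeSubtypeEquivSubtypeInter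
          (fun i => E.e i ≠ 0) (fun i => (normalize (E.p i), E.e i) = (P, j))),
        Fintype.card_subtype]
      congr 1
      refine Finset.filter_congr (fun i _ => ?_)
      rw [Prod.mk.injEq]
      constructor
      · rintro ⟨_, h2, h3⟩
        exact ⟨h3, h2⟩
      · rintro ⟨h2, h3⟩
        exact ⟨by rw [h2]; exact hj, h3, h2⟩
  obtain ⟨σ, hσ⟩ := exists_equiv_of_fiber_card
    (fun x : {i // D.e i ≠ 0} => (normalize (D.p x.1), D.e x.1))
    (fun x : {k // D'.e k ≠ 0} => (normalize (D'.p x.1), D'.e x.1)) (by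
      rintro ⟨P, j⟩
      rw [key D P j, key D' P j]
      by_cases hj : j = 0
      · rw [if_pos hj, if_pos hj]
      · rw [if_neg hj, if_neg hj, h j hj])
  refine ⟨σ, fun x => ?_⟩
  have := hσ x
  rw [Prod.mk.injEq] at this
  exact ⟨this.2, this.1⟩

theorem Dec.intertwine (D : Dec A) (D' : Dec A') (h : ∀ j, j ≠ 0 → D.tupN j = D'.tupN j) :
    ∃ ψ : (Fin n → F) ≃ₗ[F] (Fin n → F), ∀ v, ψ (A v) = A' (ψ v) := by
  classical
  obtain ⟨σ, hσ⟩ := D.matching D' h
  have hiso := dsum_iso (fun i => Submodule.span F[X] {D.p i ^ D.e i})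
    (fun k => Submodule.span F[X] {D'.p k ^ D'.e k})
    (fun i => D.e i ≠ 0) (fun k => D'.e k ≠ 0)
    (fun i hi => by
      have : D.e i = 0 := not_not.1 hi
      rw [this, pow_zero]
      exact Ideal.span_singleton_one)
    (fun k hk => by
      have : D'.e k = 0 := not_not.1 hk
      rw [this, pow_zero]
      exact Ideal.span_singleton_one)
    σ (fun x => by
      obtain ⟨h1, h2⟩ := hσ x
      apply Ideal.span_singleton_eq_span_singleton.2
      rw [h1]
      exact (normalize_eq_normalize_iff_associated.1 h2.symm).pow_pow)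
  obtain ⟨φ⟩ := hiso
  let Ψ : Module.AEval' A ≃ₗ[F[X]] Module.AEval' A' := (D.iso.trans φ).trans D'.iso.symm
  refine ⟨((Module.AEval'.of A).trans (Ψ.restrictScalars F)).trans (Module.AEval'.of A').symm,
    fun v => ?_⟩
  show (Module.AEval'.of A').symm (Ψ (Module.AEval'.of A (A v)))
    = A' ((Module.AEval'.of A').symm (Ψ (Module.AEval'.of A v)))
  rw [← Module.AEval'.X_smul_of, map_smul, Module.AEval'.of_symm_X_smul]

end

end Cfsg.Agent.Lib.Helper97.GLk
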