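import Mathlib
import Cfsg.Agent.Lib.Helper97.GLk2
import Cfsg.Agent.Lib.Helper97.GLk4

/-!
# Class number of `GL_n(q)`: the two bounds (helper97)
-/

set_option autoImplicit false

namespace Cfsg.Agent.Lib.Helper97.GLk

open Polynomial Matrix

section

variable {F : Type*} [Field F]

theorem exists_matrix_charpoly {n : ℕ} (f : F[X]) (hf : f.Monic) (hdeg : f.natDegree = n) :
    ∃ M : Matrix (Fin n) (Fin n) F, M.charpoly = f := by
  have hf0 : f ≠ 0 := hf.ne_zero
  have hdim : (AdjoinRoot.powerBasis hf0).dim = n := by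
    rw [AdjoinRoot.powerBasis_dim]
    exact hdeg
  refine ⟨Matrix.reindex (finCongr hdim) (finCongr hdim)
    (Algebra.leftMulMatrix (AdjoinRoot.powerBasis hf0).basis (AdjoinRoot.powerBasis hf0).gen), ?_⟩
  rw [Matrix.charpoly_reindex, charpoly_leftMulMatrix]
  exact AdjoinRoot.minpoly_powerBasis_gen_of_monic hf hf0

/-- the monic polynomial with given lower coefficients -/
noncomputable def polyOf {n : ℕ} (c : Fin n → F) : F[X] :=
  X ^ n + ∑ i : Fin n, C (c i) * X ^ (i : ℕ)

theorem polyOf_monic {n : ℕ} (c : Fin n → F) : (polyOf c).Monic :=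
  Polynomial.monic_X_pow_add (Polynomial.degree_sum_fin_lt c)

theorem polyOf_natDegree {n : ℕ} (c : Fin n → F) : (polyOf c).natDegree = n := by
  unfold polyOf
  rw [Polynomial.natDegree_add_eq_left_of_degree_lt, natDegree_X_pow]
  rw [degree_X_pow]
  exact degree_sum_fin_lt c

theorem polyOf_coeff {n : ℕ} (c : Fin n → F) (i : Fin n) : (polyOf c).coeff i = c i := by
  unfold polyOf
  rw [coeff_add, coeff_X_pow, if_neg (by have := i.2; omega), zero_add, finset_sum_coeff]
  rw [Finset.sum_eq_single i]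
  · rw [coeff_C_mul, coeff_X_pow, if_pos rfl, mul_one]
  · intro j _ hj
    rw [coeff_C_mul, coeff_X_pow, if_neg (fun h => hj (Fin.ext h.symm)), mul_zero]
  · intro h
    exact absurd (Finset.mem_univ i) h

end

section

variable {F : Type*} [Field F] [Fintype F]

theorem le_card_conjClasses (n : ℕ) (hn : 1 ≤ n) :
    Fintype.card F ^ n - Fintype.card F ^ (n - 1)
      ≤ Nat.card (ConjClasses (Matrix.GeneralLinearGroup (Fin n) F)) := by
  classical
  have hNq : Nq (Fintype.card F) n = Fintype.card F ^ n - Fintype.card F ^ (n - 1) := by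
    obtain ⟨m, rfl⟩ : ∃ m, n = m + 1 := ⟨n - 1, by omega⟩
    rw [Nq_succ, Nat.add_sub_cancel, pow_succ, Nat.sub_mul, one_mul, mul_comm]
  rw [← hNq, ← card_Cm F n]
  have hM : ∀ c : Cm F n, ∃ g : Matrix.GeneralLinearGroup (Fin n) F,
      (g : Matrix (Fin n) (Fin n) F).charpoly = polyOf c.1 := by
    intro c
    obtain ⟨M, hM⟩ := exists_matrix_charpoly (polyOf c.1) (polyOf_monic c.1) (polyOf_natDegree c.1)
    have hdet : M.det ≠ 0 := by
      rw [Matrix.det_eq_sign_charpoly_coeff, hM]
      have h0 : (polyOf c.1).coeff 0 = c.1 ⟨0, hn⟩ := polyOf_coeff c.1 ⟨0, hn⟩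
      rw [h0]
      exact mul_ne_zero (pow_ne_zero _ (neg_ne_zero.2 one_ne_zero)) (c.2 hn)
    exact ⟨Matrix.GeneralLinearGroup.mkOfDetNeZero M hdet, hM⟩
  choose g hg using hM
  apply Nat.card_le_card_of_injective (fun c => ConjClasses.mk (g c))
  intro c c' h
  rw [ConjClasses.mk_eq_mk_iff_isConj, isConj_iff] at h
  obtain ⟨U, hU⟩ := h
  have h1 : polyOf c.1 = polyOf c'.1 := by
    rw [← hg c, ← hg c', ← hU]
    simp only [Units.val_mul]
    rw [Matrix.coe_units_inv]
    exact (Matrix.charpoly_units_conj U (g c).val).symm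
  apply Subtype.ext
  funext i
  rw [← polyOf_coeff c.1 i, ← polyOf_coeff c'.1 i, h1]

theorem card_conjClasses_le (n : ℕ) :
    Nat.card (ConjClasses (Matrix.GeneralLinearGroup (Fin n) F)) ≤ Fintype.card F ^ n := by
  classical
  obtain ⟨hfin, hle⟩ := Dk_card_le F n
  have hinj : ∀ g : Matrix.GeneralLinearGroup (Fin n) F,
      Function.Injective (Matrix.toLin' (g : Matrix (Fin n) (Fin n) F)) := by
    intro g
    apply Function.LeftInverse.injective
      (g := Matrix.toLin' ((g⁻¹ : Matrix.GeneralLinearGroup (Fin n) F) :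
        Matrix (Fin n) (Fin n) F))
    intro v
    rw [← LinearMap.comp_apply, ← Matrix.toLin'_mul, ← Units.val_mul, inv_mul_cancel,
      Units.val_one, Matrix.toLin'_one]
    rfl
  let dec : ∀ g : Matrix.GeneralLinearGroup (Fin n) F,
      Dec (Matrix.toLin' (g : Matrix (Fin n) (Fin n) F)) := fun g => (exists_dec _).some
  let data : Matrix.GeneralLinearGroup (Fin n) F → Dk F n 1 n := fun g =>
    ⟨fun j => (dec g).tupN ((j : ℕ) + 1),
      fun j => ⟨(dec g).tupN_monic _, (dec g).tupN_coeff_zero (hinj g) _ (Nat.succ_ne_zero _)⟩,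
      (dec g).tup_weight'⟩
  let rep : ConjClasses (Matrix.GeneralLinearGroup (Fin n) F) →
      Matrix.GeneralLinearGroup (Fin n) F := fun c => (ConjClasses.exists_rep c).choose
  have hrep : ∀ c, ConjClasses.mk (rep c) = c := fun c => (ConjClasses.exists_rep c).choose_spec
  have key : Function.Injective (fun c => data (rep c)) := by
    intro c c' h
    have h1 : ∀ j : Fin n, (dec (rep c)).tupN ((j : ℕ) + 1)
        = (dec (rep c')).tupN ((j : ℕ) + 1) := fun j => congrFun (congrArg Subtype.val h) j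
    have h2 : ∀ j, j ≠ 0 → (dec (rep c)).tupN j = (dec (rep c')).tupN j := by
      intro j hj
      by_cases hjn : j ≤ n
      · obtain ⟨j', rfl⟩ : ∃ j', j = j' + 1 := ⟨j - 1, by omega⟩
        exact h1 ⟨j', by omega⟩
      · rw [(dec (rep c)).tupN_eq_one j (by omega), (dec (rep c')).tupN_eq_one j (by omega)]
    obtain ⟨ψ, hψ⟩ := (dec (rep c)).intertwine (dec (rep c')) h2
    rw [← hrep c, ← hrep c', ConjClasses.mk_eq_mk_iff_isConj, isConj_iff]
    have hU1 : LinearMap.toMatrix' ψ.toLinearMap * LinearMap.toMatrix' ψ.symm.toLinearMap = 1 := by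
      rw [← LinearMap.toMatrix'_comp, LinearEquiv.comp_symm, LinearMap.toMatrix'_id]
    have hU2 : LinearMap.toMatrix' ψ.symm.toLinearMap * LinearMap.toMatrix' ψ.toLinearMap = 1 := by
      rw [← LinearMap.toMatrix'_comp, LinearEquiv.symm_comp, LinearMap.toMatrix'_id]
    refine ⟨⟨LinearMap.toMatrix' ψ.toLinearMap, LinearMap.toMatrix' ψ.symm.toLinearMap, hU1, hU2⟩,
      ?_⟩
    rw [mul_inv_eq_iff_eq_mul]
    apply Units.ext
    rw [Units.val_mul, Units.val_mul]
    show LinearMap.toMatrix' ψ.toLinearMap * (rep c : Matrix (Fin n) (Fin n) F)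
      = (rep c' : Matrix (Fin n) (Fin n) F) * LinearMap.toMatrix' ψ.toLinearMap
    have e1 : ψ.toLinearMap ∘ₗ Matrix.toLin' (rep c : Matrix (Fin n) (Fin n) F)
        = Matrix.toLin' (rep c' : Matrix (Fin n) (Fin n) F) ∘ₗ ψ.toLinearMap :=
      LinearMap.ext (fun v => hψ v)
    have e2 := congrArg LinearMap.toMatrix' e1
    rwa [LinearMap.toMatrix'_comp, LinearMap.toMatrix'_comp, LinearMap.toMatrix'_toLin',
      LinearMap.toMatrix'_toLin'] at e2
  exact (Nat.card_le_card_of_injective _ key).trans hle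

end

end Cfsg.Agent.Lib.Helper97.GLk
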