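import Mathlib
import Cfsg.Prelude.Def_GeometricClasses
import Cfsg.Agent.Lib.Helper97.KLin

/-!
# Field facts for a field subalgebra (helper97, for S5886)

Generator of the unit group, Frobenius, trace, and the averaging sum.
-/

set_option autoImplicit false

namespace Cfsg.Agent.Lib.Helper97

open Matrix

/-- A generator of the unit group of a finite field, in elementary terms. -/
theorem ff_exists_gen {L : Type*} [Field L] [Finite L] :
    ∃ b : L, b ≠ 0 ∧ (∀ k : L, k ≠ 0 → ∃ i : ℕ, k = b ^ i) ∧ b ^ (Nat.card L - 1) = 1 ∧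
      ∀ e : ℕ, 0 < e → e < Nat.card L - 1 → b ^ e ≠ 1 := by
  obtain ⟨g, hg⟩ := IsCyclic.exists_monoid_generator (α := Lˣ)
  have hord : orderOf g = Nat.card L - 1 := by
    rw [← Nat.card_units]
    apply orderOf_eq_card_of_forall_mem_zpowers
    intro y
    obtain ⟨i, hi⟩ := (Submonoid.mem_powers_iff _ _).mp (hg y)
    exact ⟨(i : ℤ), by simpa using hi⟩
  refine ⟨(g : L), g.ne_zero, fun k hk => ?_, ?_, fun e he1 he2 h => ?_⟩
  · obtain ⟨i, hi⟩ := (Submonoid.mem_powers_iff _ _).mp (hg (Units.mk0 k hk))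
    refine ⟨i, ?_⟩
    have h1 := congrArg Units.val hi
    rw [Units.val_pow_eq_pow_val, Units.val_mk0] at h1
    exact h1.symm
  · have h1 := pow_orderOf_eq_one g
    rw [hord] at h1
    have h2 := congrArg Units.val h1
    rw [Units.val_pow_eq_pow_val, Units.val_one] at h2
    exact h2
  · have h1 : g ^ e = 1 := Units.ext (by rw [Units.val_pow_eq_pow_val, Units.val_one]; exact h)
    have h2 := orderOf_dvd_of_pow_eq_one h1
    rw [hord] at h2
    have h3 := Nat.le_of_dvd he1 h2
    omega

/-- The trace polynomial `∑ x ^ (q ^ l)` does not vanish identically on a field with `q ^ r`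
elements. -/
theorem ff_exists_tr_ne_zero {L : Type*} [Field L] [Finite L] (q r : ℕ) (hq : 1 < q) (hr : 0 < r)
    (hcard : Nat.card L = q ^ r) : ∃ x : L, ∑ l ∈ Finset.range r, x ^ (q ^ l) ≠ 0 := by
  by_contra hcon
  push Not at hcon
  have : Fintype L := Fintype.ofFinite L
  let P : Polynomial L := ∑ l ∈ Finset.range r, Polynomial.X ^ (q ^ l)
  have hdeg : P.natDegree ≤ q ^ (r - 1) := by
    apply Polynomial.natDegree_sum_le_of_forall_le
    intro l hl
    rw [Polynomial.natDegree_X_pow]
    have hl' := Finset.mem_range.mp hl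
    exact Nat.pow_le_pow_right (by omega) (by omega)
  have hP : P = 0 := by
    apply Polynomial.eq_zero_of_natDegree_lt_card_of_eval_eq_zero P (f := id)
      Function.injective_id
    · intro x
      simp only [P, Polynomial.eval_finsetSum, Polynomial.eval_pow, Polynomial.eval_X, id]
      exact hcon x
    · rw [← Nat.card_eq_fintype_card, hcard]
      calc P.natDegree ≤ q ^ (r - 1) := hdeg
        _ < q ^ r := Nat.pow_lt_pow_right hq (by omega)
  have hcoeff : P.coeff (q ^ (r - 1)) = 1 := by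
    simp only [P, Polynomial.finsetSum_coeff, Polynomial.coeff_X_pow]
    rw [Finset.sum_eq_single (r - 1)]
    · simp
    · intro l _ hne
      rw [if_neg]
      intro h
      exact hne (Nat.pow_right_injective hq h).symm
    · intro h
      exact absurd (Finset.mem_range.mpr (by omega)) h
  rw [hP, Polynomial.coeff_zero] at hcoeff
  exact zero_ne_one hcoeff

section

variable {F : Type*} [Field F] [Fintype F] {n r : ℕ} {K : Subalgebra F (Matrix (Fin n) (Fin n) F)}

/-- A generator of the unit group of a field subalgebra. -/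
theorem fs_exists_gen [Nonempty (Fin n)] (hK : Cfsg.Geo.IsFieldSubalgebra r K) :
    ∃ b : ↥K, b ≠ 0 ∧ (∀ k : ↥K, k ≠ 0 → ∃ i : ℕ, k = b ^ i) ∧
      b ^ (Fintype.card F ^ r - 1) = 1 ∧
      ∀ e : ℕ, 0 < e → e < Fintype.card F ^ r - 1 → b ^ e ≠ 1 := by
  let _ : Field ↥K := (fs_isField hK).toField
  have hfin : Finite ↥K := inferInstance
  have h := ff_exists_gen (L := ↥K)
  rw [fs_card hK] at h
  exact h

theorem fs_pow_card [Nonempty (Fin n)] (hK : Cfsg.Geo.IsFieldSubalgebra r K) (x : ↥K) :
    x ^ (Fintype.card F ^ r) = x := by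
  obtain ⟨b, hb0, hgen, hbN, -⟩ := fs_exists_gen hK
  have hq : 1 ≤ Fintype.card F ^ r := Nat.one_le_pow _ _ Fintype.card_pos
  rcases eq_or_ne x 0 with rfl | hx
  · exact zero_pow (by omega)
  · obtain ⟨i, rfl⟩ := hgen x hx
    have h1 : (b ^ i) ^ (Fintype.card F ^ r - 1) = 1 := by
      rw [← pow_mul, mul_comm, pow_mul, hbN, one_pow]
    calc (b ^ i) ^ (Fintype.card F ^ r) = (b ^ i) ^ (Fintype.card F ^ r - 1 + 1) := by
          rw [Nat.sub_add_cancel hq]
      _ = b ^ i := by rw [pow_succ, h1, one_mul]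

theorem fs_frob_sum [Nonempty (Fin n)] (hK : Cfsg.Geo.IsFieldSubalgebra r K) {ι : Type*}
    (s : Finset ι) (f : ι → ↥K) :
    (∑ i ∈ s, f i) ^ Fintype.card F = ∑ i ∈ s, f i ^ Fintype.card F := by
  classical
  induction s using Finset.induction_on with
  | empty =>
    rw [Finset.sum_empty, Finset.sum_empty]
    exact zero_pow Fintype.card_ne_zero
  | insert a s ha ih => rw [Finset.sum_insert ha, Finset.sum_insert ha, fs_frob_add hK, ih]

/-- The trace `∑ x ^ (q ^ l)` is fixed by the Frobenius. -/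
theorem fs_tr_fixed [Nonempty (Fin n)] (hK : Cfsg.Geo.IsFieldSubalgebra r K) (x : ↥K) :
    (∑ l ∈ Finset.range r, x ^ (Fintype.card F ^ l)) ^ Fintype.card F =
      ∑ l ∈ Finset.range r, x ^ (Fintype.card F ^ l) := by
  rw [fs_frob_sum hK]
  have h1 : ∀ l : ℕ, (x ^ (Fintype.card F ^ l)) ^ Fintype.card F =
      x ^ (Fintype.card F ^ (l + 1)) := fun l => by rw [← pow_mul, ← pow_succ]
  rw [Finset.sum_congr rfl (fun l _ => h1 l)]
  have h2 := Finset.sum_range_succ (fun l => x ^ (Fintype.card F ^ l)) r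
  have h3 := Finset.sum_range_succ' (fun l => x ^ (Fintype.card F ^ l)) r
  rw [h3] at h2
  rw [fs_pow_card hK, pow_zero, pow_one] at h2
  exact add_right_cancel h2

/-- In a field subalgebra of prime degree, the elements fixed by the Frobenius are the scalars. -/
theorem fs_fixed_scalar [Nonempty (Fin n)] (hK : Cfsg.Geo.IsFieldSubalgebra r K) (hr : r.Prime)
    (x : ↥K) (hx : x ^ Fintype.card F = x) : ∃ a : F, x = algebraMap F ↥K a := by
  have hcomm : ∀ a b : ↥K, a * b = b * a := fun a b => Subtype.ext (hK.comm a a.2 b b.2)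
  have hq1 : 1 < Fintype.card F := Fintype.one_lt_card
  let E : Subalgebra F ↥K :=
    { carrier := {y | y ^ Fintype.card F = y}
      mul_mem' := fun {a b} ha hb => by
        show (a * b) ^ Fintype.card F = a * b
        have ha' : a ^ Fintype.card F = a := ha
        have hb' : b ^ Fintype.card F = b := hb
        have hc : Commute a b := hcomm a b
        rw [hc.mul_pow, ha', hb']
      add_mem' := fun {a b} ha hb => by
        show (a + b) ^ Fintype.card F = a + b
        have ha' : a ^ Fintype.card F = a := ha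
        have hb' : b ^ Fintype.card F = b := hb
        rw [fs_frob_add hK, ha', hb']
      algebraMap_mem' := fun c => fs_frob_algebraMap c }
  have hdom : IsDomain ↥K := (fs_isField hK).isDomain
  have hsimple := Subalgebra.isSimpleOrder_of_finrank_prime F ↥K (by rw [hK.finrank_eq]; exact hr)
  rcases hsimple.eq_bot_or_eq_top E with h | h
  · have hxE : x ∈ E := hx
    rw [h] at hxE
    obtain ⟨a, ha⟩ := Algebra.mem_bot.mp hxE
    exact ⟨a, ha.symm⟩
  · exfalso
    obtain ⟨b, hb0, -, -, hbe⟩ := fs_exists_gen hK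
    have hbE : b ∈ E := by rw [h]; exact Algebra.mem_top
    have hbq : b ^ Fintype.card F = b := hbE
    have e1 : b ^ (Fintype.card F - 1) = 1 := by
      have h2 : b ^ (Fintype.card F - 1) * b = 1 * b := by
        rw [← pow_succ, Nat.sub_add_cancel hq1.le, hbq, one_mul]
      exact mul_right_cancel₀ hb0 h2
    have hlt : Fintype.card F < Fintype.card F ^ r := by
      calc Fintype.card F = Fintype.card F ^ 1 := (pow_one _).symm
        _ < Fintype.card F ^ r := Nat.pow_lt_pow_right hq1 hr.one_lt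
    exact hbe (Fintype.card F - 1) (by omega) (by omega) e1

/-- The trace is a scalar. -/
theorem fs_tr_scalar [Nonempty (Fin n)] (hK : Cfsg.Geo.IsFieldSubalgebra r K) (hr : r.Prime)
    (x : ↥K) : ∃ a : F, ∑ l ∈ Finset.range r, x ^ (Fintype.card F ^ l) = algebraMap F ↥K a :=
  fs_fixed_scalar hK hr _ (fs_tr_fixed hK x)

/-- The trace is not identically zero. -/
theorem fs_exists_tr_ne_zero [Nonempty (Fin n)] (hK : Cfsg.Geo.IsFieldSubalgebra r K)
    (hr : 0 < r) : ∃ x : ↥K, ∑ l ∈ Finset.range r, x ^ (Fintype.card F ^ l) ≠ 0 := by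
  let _ : Field ↥K := (fs_isField hK).toField
  have hfin : Finite ↥K := inferInstance
  exact ff_exists_tr_ne_zero (L := ↥K) (Fintype.card F) r Fintype.one_lt_card hr (fs_card hK)

/-- The averaging sum: `∑_{i<N} Tr(b^i) b^(N-i) = -1` for a generator `b`, `N = q^r - 1`. -/
theorem fs_avg_sum [Nonempty (Fin n)] (hK : Cfsg.Geo.IsFieldSubalgebra r K) (hr : 0 < r) (b : ↥K)
    (hbN : b ^ (Fintype.card F ^ r - 1) = 1)
    (hbe : ∀ e : ℕ, 0 < e → e < Fintype.card F ^ r - 1 → b ^ e ≠ 1) :
    ∑ i ∈ Finset.range (Fintype.card F ^ r - 1),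
      (∑ j ∈ Finset.range r, (b ^ i) ^ (Fintype.card F ^ j)) *
        b ^ (Fintype.card F ^ r - 1 - i) = -1 := by
  have hdom : IsDomain ↥K := (fs_isField hK).isDomain
  have hq1 : 1 < Fintype.card F := Fintype.one_lt_card
  have hq : 1 ≤ Fintype.card F ^ r := Nat.one_le_pow _ _ Fintype.card_pos
  set N := Fintype.card F ^ r - 1 with hN
  have hterm : ∀ j : ℕ, ∀ i ∈ Finset.range N,
      (b ^ i) ^ (Fintype.card F ^ j) * b ^ (N - i) = (b ^ (Fintype.card F ^ j - 1)) ^ i := by
    intro j i hi
    have hi' := Finset.mem_range.mp hi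
    have hqj : 1 ≤ Fintype.card F ^ j := Nat.one_le_pow _ _ Fintype.card_pos
    rw [← pow_mul, ← pow_add, ← pow_mul]
    have e : i * Fintype.card F ^ j + (N - i) = N + (Fintype.card F ^ j - 1) * i := by
      obtain ⟨t, ht⟩ : ∃ t, Fintype.card F ^ j = t + 1 := ⟨Fintype.card F ^ j - 1, by omega⟩
      rw [ht, Nat.add_sub_cancel, mul_add, mul_one, mul_comm i t]
      omega
    rw [e, pow_add, hbN, one_mul]
  simp_rw [Finset.sum_mul]
  rw [Finset.sum_comm]
  rw [Finset.sum_congr rfl (fun j _ => Finset.sum_congr rfl (hterm j))]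
  rw [Finset.sum_eq_single 0]
  · have hq0 : ((Fintype.card F : ℕ) : ↥K) = 0 := by
      rw [← map_natCast (algebraMap F ↥K), FiniteField.cast_card_eq_zero, map_zero]
    simp only [pow_zero, Nat.sub_self, one_pow, Finset.sum_const, Finset.card_range]
    rw [nsmul_eq_mul, mul_one, hN, Nat.cast_sub hq, Nat.cast_pow, hq0, zero_pow (by omega),
      Nat.cast_one, zero_sub]
  · intro j hj hj0
    have hj' := Finset.mem_range.mp hj
    have hqj : Fintype.card F ^ 1 ≤ Fintype.card F ^ j := Nat.pow_le_pow_right (by omega) (by omega)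
    have hqjr : Fintype.card F ^ j < Fintype.card F ^ r := Nat.pow_lt_pow_right hq1 hj'
    rw [pow_one] at hqj
    have hx1 : b ^ (Fintype.card F ^ j - 1) ≠ 1 := hbe _ (by omega) (by omega)
    have hxN : (b ^ (Fintype.card F ^ j - 1)) ^ N = 1 := by
      rw [← pow_mul, mul_comm, pow_mul, hbN, one_pow]
    have hgeom := mul_geom_sum (b ^ (Fintype.card F ^ j - 1)) N
    rw [hxN, sub_self] at hgeom
    rcases mul_eq_zero.mp hgeom with h | h
    · exact absurd (sub_eq_zero.mp h) hx1
    · exact h
  · intro h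
    exact absurd (Finset.mem_range.mpr hr) h

end

end Cfsg.Agent.Lib.Helper97
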