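import Mathlib
import Cfsg.Prelude.Def_GeometricClasses
import Cfsg.Agent.Lib.Helper97.KAlg1

/-!
# The ring acting on the unipotent radical of a `K`-line (helper97, for S5886)
-/

set_option autoImplicit false

namespace Cfsg.Agent.Lib.Helper97

open Matrix

variable {F : Type*} [Field F] {n : ℕ} {K : Subalgebra F (Matrix (Fin n) (Fin n) F)}

lemma stabL_one (u : Fin n → F) : StabL K u (1 : Matrix (Fin n) (Fin n) F) :=
  fun c => ⟨c, by rw [Matrix.one_mulVec]⟩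

lemma stabL_zero (u : Fin n → F) : StabL K u (0 : Matrix (Fin n) (Fin n) F) :=
  fun c => ⟨0, by rw [Matrix.zero_mulVec, ZeroMemClass.coe_zero, Matrix.zero_mulVec]⟩

lemma stabL_mul {u : Fin n → F} {a b : Matrix (Fin n) (Fin n) F} (ha : StabL K u a)
    (hb : StabL K u b) : StabL K u (a * b) := by
  intro c
  obtain ⟨c', hc'⟩ := hb c
  obtain ⟨c'', hc''⟩ := ha c'
  exact ⟨c'', by rw [← Matrix.mulVec_mulVec, hc', hc'']⟩

lemma stabL_add {u : Fin n → F} {a b : Matrix (Fin n) (Fin n) F} (ha : StabL K u a)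
    (hb : StabL K u b) : StabL K u (a + b) := by
  intro c
  obtain ⟨c', hc'⟩ := hb c
  obtain ⟨c'', hc''⟩ := ha c
  exact ⟨c'' + c', by rw [Matrix.add_mulVec, hc', hc'', Subalgebra.coe_add, Matrix.add_mulVec]⟩

lemma stabL_neg {u : Fin n → F} {a : Matrix (Fin n) (Fin n) F} (ha : StabL K u a) :
    StabL K u (-a) := by
  intro c
  obtain ⟨c', hc'⟩ := ha c
  exact ⟨-c', by rw [Matrix.neg_mulVec, hc', NegMemClass.coe_neg, Matrix.neg_mulVec]⟩

lemma stabL_of_mem (u : Fin n → F) (k : ↥K) : StabL K u (k : Matrix (Fin n) (Fin n) F) :=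
  fun c => ⟨k * c, by rw [Matrix.mulVec_mulVec, Subalgebra.coe_mul]⟩

/-- The inverse of an invertible matrix stabilising a `K`-line stabilises it. -/
theorem stabL_inv [Fintype F] {r : ℕ} (hK : Cfsg.Geo.IsFieldSubalgebra r K) {u : Fin n → F}
    (hu : u ≠ 0) (g : GL (Fin n) F) (hg : StabL K u (g : Matrix (Fin n) (Fin n) F)) :
    StabL K u ((g⁻¹ : GL (Fin n) F) : Matrix (Fin n) (Fin n) F) := by
  choose φ hφ using hg
  have hinj : Function.Injective φ := by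
    intro c₁ c₂ h
    have h1 : (g : Matrix (Fin n) (Fin n) F) *ᵥ ((c₁ : Matrix (Fin n) (Fin n) F) *ᵥ u) =
        (g : Matrix (Fin n) (Fin n) F) *ᵥ ((c₂ : Matrix (Fin n) (Fin n) F) *ᵥ u) := by
      rw [hφ, hφ, h]
    have h3 : ∀ x : Fin n → F, ((g⁻¹ : GL (Fin n) F) : Matrix (Fin n) (Fin n) F) *ᵥ
        ((g : Matrix (Fin n) (Fin n) F) *ᵥ x) = x := fun x => by
      rw [Matrix.mulVec_mulVec, Units.inv_mul, Matrix.one_mulVec]
    have h2 : (c₁ : Matrix (Fin n) (Fin n) F) *ᵥ u = (c₂ : Matrix (Fin n) (Fin n) F) *ᵥ u := by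
      calc (c₁ : Matrix (Fin n) (Fin n) F) *ᵥ u
          = ((g⁻¹ : GL (Fin n) F) : Matrix (Fin n) (Fin n) F) *ᵥ
              ((g : Matrix (Fin n) (Fin n) F) *ᵥ ((c₁ : Matrix (Fin n) (Fin n) F) *ᵥ u)) :=
            (h3 _).symm
        _ = ((g⁻¹ : GL (Fin n) F) : Matrix (Fin n) (Fin n) F) *ᵥ
              ((g : Matrix (Fin n) (Fin n) F) *ᵥ ((c₂ : Matrix (Fin n) (Fin n) F) *ᵥ u)) := by
            rw [h1]
        _ = (c₂ : Matrix (Fin n) (Fin n) F) *ᵥ u := h3 _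
    have h4 : ((c₁ : Matrix (Fin n) (Fin n) F) - (c₂ : Matrix (Fin n) (Fin n) F)) *ᵥ u = 0 := by
      rw [Matrix.sub_mulVec, h2, sub_self]
    have h5 := fs_eq_zero hK (K.sub_mem c₁.2 c₂.2) hu h4
    exact Subtype.ext (sub_eq_zero.mp h5)
  have hfin : Finite ↥K := inferInstance
  have hsurj : Function.Surjective φ := Finite.injective_iff_surjective.mp hinj
  intro c
  obtain ⟨c₀, hc₀⟩ := hsurj c
  refine ⟨c₀, ?_⟩
  rw [← hc₀, ← hφ, Matrix.mulVec_mulVec, Units.inv_mul, Matrix.one_mulVec]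

/-- `1 + E ∈ M`, with `E` mapping everything into the `K`-line `K u` and killing it. -/
def InR (M : Subgroup (GL (Fin n) F)) (K : Subalgebra F (Matrix (Fin n) (Fin n) F))
    (u : Fin n → F) (E : Matrix (Fin n) (Fin n) F) : Prop :=
  (∀ v : Fin n → F, ∃ c : ↥K, E *ᵥ v = (c : Matrix (Fin n) (Fin n) F) *ᵥ u) ∧
  (∀ c : ↥K, E *ᵥ ((c : Matrix (Fin n) (Fin n) F) *ᵥ u) = 0) ∧
  ∃ g : GL (Fin n) F, g ∈ M ∧ (g : Matrix (Fin n) (Fin n) F) = 1 + E

lemma inR_mul_zero {M : Subgroup (GL (Fin n) F)} {u : Fin n → F}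
    {E b : Matrix (Fin n) (Fin n) F} (hE : InR M K u E) (hb : StabL K u b) :
    E * (b * E) = 0 := by
  apply Matrix.mulVec_injective
  funext v
  rw [← Matrix.mulVec_mulVec, ← Matrix.mulVec_mulVec, Matrix.zero_mulVec]
  obtain ⟨c, hc⟩ := hE.1 v
  obtain ⟨c', hc'⟩ := hb c
  rw [hc, hc', hE.2.1 c']

private lemma rr_aux1 {R : Type*} [Ring R] (a b E : R) :
    (1 + a * E) * (1 + b * E) = 1 + (a + b) * E + a * (E * (b * E)) := by
  noncomm_ring

private lemma rr_aux2 {R : Type*} [Ring R] (a E : R) :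
    (1 + a * E) * (1 + -a * E) = 1 - a * (E * (a * E)) := by
  noncomm_ring

/-- The ring of matrices stabilising `K u` whose left multiplication preserves the set of `E`
with `1 + E ∈ M` (`E` mapping into `K u` and killing `K u`). -/
def RR (M : Subgroup (GL (Fin n) F)) (K : Subalgebra F (Matrix (Fin n) (Fin n) F))
    (u : Fin n → F) : Subring (Matrix (Fin n) (Fin n) F) where
  carrier := {ρ | StabL K u ρ ∧ ∀ E, InR M K u E →
    ∃ g : GL (Fin n) F, g ∈ M ∧ (g : Matrix (Fin n) (Fin n) F) = 1 + ρ * E}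
  mul_mem' := by
    rintro a b ⟨ha, ha'⟩ ⟨hb, hb'⟩
    refine ⟨stabL_mul ha hb, fun E hE => ?_⟩
    obtain ⟨g, hg, hgv⟩ := hb' E hE
    have hbE : InR M K u (b * E) := by
      refine ⟨fun v => ?_, fun c => ?_, g, hg, hgv⟩
      · obtain ⟨c, hc⟩ := hE.1 v
        obtain ⟨c', hc'⟩ := hb c
        exact ⟨c', by rw [← Matrix.mulVec_mulVec, hc, hc']⟩
      · rw [← Matrix.mulVec_mulVec, hE.2.1 c, Matrix.mulVec_zero]
    obtain ⟨g', hg', hgv'⟩ := ha' (b * E) hbE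
    exact ⟨g', hg', by rw [hgv', mul_assoc]⟩
  one_mem' := ⟨stabL_one u, fun E hE => by
    obtain ⟨g, hg, hgv⟩ := hE.2.2
    exact ⟨g, hg, by rw [hgv, one_mul]⟩⟩
  add_mem' := by
    rintro a b ⟨ha, ha'⟩ ⟨hb, hb'⟩
    refine ⟨stabL_add ha hb, fun E hE => ?_⟩
    obtain ⟨g₁, hg₁, hgv₁⟩ := ha' E hE
    obtain ⟨g₂, hg₂, hgv₂⟩ := hb' E hE
    refine ⟨g₁ * g₂, M.mul_mem hg₁ hg₂, ?_⟩
    rw [Units.val_mul, hgv₁, hgv₂, rr_aux1, inR_mul_zero hE hb, mul_zero, add_zero]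
  zero_mem' := ⟨stabL_zero u, fun E _ => ⟨1, M.one_mem, by rw [zero_mul, add_zero, Units.val_one]⟩⟩
  neg_mem' := by
    rintro a ⟨ha, ha'⟩
    refine ⟨stabL_neg ha, fun E hE => ?_⟩
    obtain ⟨g, hg, hgv⟩ := ha' E hE
    refine ⟨g⁻¹, M.inv_mem hg, ?_⟩
    have h1 : (g : Matrix (Fin n) (Fin n) F) * (1 + -a * E) = 1 := by
      rw [hgv, rr_aux2, inR_mul_zero hE ha, mul_zero, sub_zero]
    calc ((g⁻¹ : GL (Fin n) F) : Matrix (Fin n) (Fin n) F)
        = ((g⁻¹ : GL (Fin n) F) : Matrix (Fin n) (Fin n) F) *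
            ((g : Matrix (Fin n) (Fin n) F) * (1 + -a * E)) := by rw [h1, mul_one]
      _ = 1 + -a * E := by rw [← mul_assoc, Units.inv_mul, one_mul]

lemma mem_RR {M : Subgroup (GL (Fin n) F)} {u : Fin n → F} {ρ : Matrix (Fin n) (Fin n) F} :
    ρ ∈ RR M K u ↔ StabL K u ρ ∧ ∀ E, InR M K u E →
      ∃ g : GL (Fin n) F, g ∈ M ∧ (g : Matrix (Fin n) (Fin n) F) = 1 + ρ * E := Iff.rfl

/-- R1: an element of `M` stabilising `K u` and acting trivially modulo `K u` is in the ring. -/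
theorem mem_RR_of_stab {M : Subgroup (GL (Fin n) F)} {u : Fin n → F} (g : GL (Fin n) F)
    (hg : g ∈ M) (hgL : StabL K u (g : Matrix (Fin n) (Fin n) F))
    (hg1 : ∀ v : Fin n → F, ∃ c : ↥K, (g : Matrix (Fin n) (Fin n) F) *ᵥ v - v =
      (c : Matrix (Fin n) (Fin n) F) *ᵥ u) :
    (g : Matrix (Fin n) (Fin n) F) ∈ RR M K u := by
  refine ⟨hgL, fun E hE => ?_⟩
  obtain ⟨gE, hgE, hgEv⟩ := hE.2.2
  refine ⟨g * gE * g⁻¹, M.mul_mem (M.mul_mem hg hgE) (M.inv_mem hg), ?_⟩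
  have hEg : E * ((g⁻¹ : GL (Fin n) F) : Matrix (Fin n) (Fin n) F) = E := by
    apply Matrix.mulVec_injective
    funext v
    rw [← Matrix.mulVec_mulVec]
    obtain ⟨c, hc⟩ := hg1 (((g⁻¹ : GL (Fin n) F) : Matrix (Fin n) (Fin n) F) *ᵥ v)
    rw [Matrix.mulVec_mulVec, Units.mul_inv, Matrix.one_mulVec] at hc
    have h1 : ((g⁻¹ : GL (Fin n) F) : Matrix (Fin n) (Fin n) F) *ᵥ v =
        v - (c : Matrix (Fin n) (Fin n) F) *ᵥ u := by
      rw [← hc]; abel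
    rw [h1, Matrix.mulVec_sub, hE.2.1 c, sub_zero]
  rw [Units.val_mul, Units.val_mul, hgEv, mul_add, mul_one, add_mul, Units.mul_inv, mul_assoc,
    hEg]

/-- R2: membership in the ring only depends on the action on `K u`. -/
theorem mem_RR_of_agree {M : Subgroup (GL (Fin n) F)} {u : Fin n → F}
    {ρ ρ' : Matrix (Fin n) (Fin n) F} (hρ : ρ ∈ RR M K u)
    (h : ∀ c : ↥K, ρ' *ᵥ ((c : Matrix (Fin n) (Fin n) F) *ᵥ u) =
      ρ *ᵥ ((c : Matrix (Fin n) (Fin n) F) *ᵥ u)) : ρ' ∈ RR M K u := by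
  refine ⟨fun c => ?_, fun E hE => ?_⟩
  · obtain ⟨c', hc'⟩ := hρ.1 c
    exact ⟨c', by rw [h, hc']⟩
  · obtain ⟨g, hg, hgv⟩ := hρ.2 E hE
    refine ⟨g, hg, ?_⟩
    rw [hgv]
    congr 1
    apply Matrix.mulVec_injective
    funext v
    rw [← Matrix.mulVec_mulVec, ← Matrix.mulVec_mulVec]
    obtain ⟨c, hc⟩ := hE.1 v
    rw [hc, h]

private lemma rr_aux3 {R : Type*} [Ring R] (c d : R) : c + (d - 1) * c = d * c := by
  noncomm_ring

/-- The torus acting as `k ^ (q - 1)` on the `K`-line `K u` and trivially modulo it. -/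
theorem exists_tor_line [Fintype F] {r : ℕ} (hK : Cfsg.Geo.IsFieldSubalgebra r K)
    {u : Fin n → F} (hu : u ≠ 0) (k : ↥K) (hk : k ≠ 0) :
    ∃ g : GL (Fin n) F, g ∈ klG K ∧ StabL K u (g : Matrix (Fin n) (Fin n) F) ∧
      (∀ v : Fin n → F, ∃ c : ↥K, (g : Matrix (Fin n) (Fin n) F) *ᵥ v - v =
        (c : Matrix (Fin n) (Fin n) F) *ᵥ u) ∧
      ∀ c : ↥K, (g : Matrix (Fin n) (Fin n) F) *ᵥ ((c : Matrix (Fin n) (Fin n) F) *ᵥ u) =
        ((k ^ (Fintype.card F - 1) : ↥K) : Matrix (Fin n) (Fin n) F) *ᵥ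
          ((c : Matrix (Fin n) (Fin n) F) *ᵥ u) := by
  have hne : Nonempty (Fin n) := by
    by_contra h
    rw [not_nonempty_iff] at h
    exact hu (Subsingleton.elim _ _)
  obtain ⟨π, hπ⟩ := exists_kfun_one hK u hu
  obtain ⟨g, hg, hgv⟩ := exists_tor hK u π hπ k hk
  have key : ∀ c : ↥K, (g : Matrix (Fin n) (Fin n) F) *ᵥ ((c : Matrix (Fin n) (Fin n) F) *ᵥ u) =
      ((k ^ (Fintype.card F - 1) : ↥K) : Matrix (Fin n) (Fin n) F) *ᵥ
        ((c : Matrix (Fin n) (Fin n) F) *ᵥ u) := by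
    intro c
    rw [hgv, π.map_k, hπ, mul_one, Matrix.mulVec_mulVec, ← Subalgebra.coe_mul,
      ← Matrix.add_mulVec, ← Subalgebra.coe_add, rr_aux3]
  refine ⟨g, hg, fun c => ⟨k ^ (Fintype.card F - 1) * c, ?_⟩,
    fun v => ⟨(k ^ (Fintype.card F - 1) - 1) * π v, ?_⟩, key⟩
  · rw [key, Matrix.mulVec_mulVec, Subalgebra.coe_mul]
  · rw [hgv, add_sub_cancel_left]

/-- `K` is contained in the ring. -/
theorem mem_RR_of_mem [Fintype F] {r : ℕ} (hK : Cfsg.Geo.IsFieldSubalgebra r K) (hr : 1 < r)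
    {u : Fin n → F} (hu : u ≠ 0) (M : Subgroup (GL (Fin n) F)) (hM : klG K ≤ M) (k : ↥K) :
    (k : Matrix (Fin n) (Fin n) F) ∈ RR M K u := by
  have hne : Nonempty (Fin n) := by
    by_contra h
    rw [not_nonempty_iff] at h
    exact hu (Subsingleton.elim _ _)
  let S : Subring ↥K := Subring.comap (K.val : ↥K →+* Matrix (Fin n) (Fin n) F) (RR M K u)
  have hS : S = ⊤ := by
    apply fs_subring_eq_top hK hr
    intro k hk
    show ((k ^ (Fintype.card F - 1) : ↥K) : Matrix (Fin n) (Fin n) F) ∈ RR M K u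
    obtain ⟨g, hg, hgL, hg1, hgk⟩ := exists_tor_line hK hu k hk
    exact mem_RR_of_agree (mem_RR_of_stab g (hM hg) hgL hg1) (fun c => (hgk c).symm)
  have hk : k ∈ S := by rw [hS]; exact Subring.mem_top k
  exact hk

private lemma conj_mul_aux (z : GL (Fin n) F) (a b : Matrix (Fin n) (Fin n) F) :
    (z : Matrix (Fin n) (Fin n) F) * (a * b) * ((z⁻¹ : GL (Fin n) F) : Matrix (Fin n) (Fin n) F) =
      ((z : Matrix (Fin n) (Fin n) F) * a * ((z⁻¹ : GL (Fin n) F) : Matrix (Fin n) (Fin n) F)) *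
        ((z : Matrix (Fin n) (Fin n) F) * b *
          ((z⁻¹ : GL (Fin n) F) : Matrix (Fin n) (Fin n) F)) := by
  have h : ((z⁻¹ : GL (Fin n) F) : Matrix (Fin n) (Fin n) F) * (z : Matrix (Fin n) (Fin n) F) = 1 :=
    Units.inv_mul z
  calc (z : Matrix (Fin n) (Fin n) F) * (a * b) * ((z⁻¹ : GL (Fin n) F) : Matrix (Fin n) (Fin n) F)
      = (z : Matrix (Fin n) (Fin n) F) * a * (1 * (b *
          ((z⁻¹ : GL (Fin n) F) : Matrix (Fin n) (Fin n) F))) := by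
        rw [one_mul]; simp only [mul_assoc]
    _ = _ := by rw [← h]; simp only [mul_assoc]

/-- The conjugate `z K z⁻¹` is contained in the ring, for `z ∈ M` stabilising `K u`. -/
theorem conj_mem_RR [Fintype F] {r : ℕ} (hK : Cfsg.Geo.IsFieldSubalgebra r K) (hr : 1 < r)
    {u : Fin n → F} (hu : u ≠ 0) (M : Subgroup (GL (Fin n) F)) (hM : klG K ≤ M)
    (z : GL (Fin n) F) (hz : z ∈ M) (hzL : StabL K u (z : Matrix (Fin n) (Fin n) F)) (k : ↥K) :
    (z : Matrix (Fin n) (Fin n) F) * (k : Matrix (Fin n) (Fin n) F) *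
      ((z⁻¹ : GL (Fin n) F) : Matrix (Fin n) (Fin n) F) ∈ RR M K u := by
  have hne : Nonempty (Fin n) := by
    by_contra h
    rw [not_nonempty_iff] at h
    exact hu (Subsingleton.elim _ _)
  have hzL' := stabL_inv hK hu z hzL
  let S : Subring ↥K :=
    { carrier := {k | (z : Matrix (Fin n) (Fin n) F) * (k : Matrix (Fin n) (Fin n) F) *
        ((z⁻¹ : GL (Fin n) F) : Matrix (Fin n) (Fin n) F) ∈ RR M K u}
      mul_mem' := fun {a b} ha hb => by
        show (z : Matrix (Fin n) (Fin n) F) * ((a * b : ↥K) : Matrix (Fin n) (Fin n) F) *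
          ((z⁻¹ : GL (Fin n) F) : Matrix (Fin n) (Fin n) F) ∈ RR M K u
        rw [Subalgebra.coe_mul, conj_mul_aux]
        exact (RR M K u).mul_mem ha hb
      one_mem' := by
        show (z : Matrix (Fin n) (Fin n) F) * ((1 : ↥K) : Matrix (Fin n) (Fin n) F) *
          ((z⁻¹ : GL (Fin n) F) : Matrix (Fin n) (Fin n) F) ∈ RR M K u
        rw [OneMemClass.coe_one, mul_one, Units.mul_inv]
        exact (RR M K u).one_mem
      add_mem' := fun {a b} ha hb => by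
        show (z : Matrix (Fin n) (Fin n) F) * ((a + b : ↥K) : Matrix (Fin n) (Fin n) F) *
          ((z⁻¹ : GL (Fin n) F) : Matrix (Fin n) (Fin n) F) ∈ RR M K u
        rw [Subalgebra.coe_add, mul_add, add_mul]
        exact (RR M K u).add_mem ha hb
      zero_mem' := by
        show (z : Matrix (Fin n) (Fin n) F) * ((0 : ↥K) : Matrix (Fin n) (Fin n) F) *
          ((z⁻¹ : GL (Fin n) F) : Matrix (Fin n) (Fin n) F) ∈ RR M K u
        rw [ZeroMemClass.coe_zero, mul_zero, zero_mul]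
        exact (RR M K u).zero_mem
      neg_mem' := fun {a} ha => by
        show (z : Matrix (Fin n) (Fin n) F) * ((-a : ↥K) : Matrix (Fin n) (Fin n) F) *
          ((z⁻¹ : GL (Fin n) F) : Matrix (Fin n) (Fin n) F) ∈ RR M K u
        rw [NegMemClass.coe_neg, mul_neg, neg_mul]
        exact (RR M K u).neg_mem ha }
  have hS : S = ⊤ := by
    apply fs_subring_eq_top hK hr
    intro k hk
    show (z : Matrix (Fin n) (Fin n) F) *
      ((k ^ (Fintype.card F - 1) : ↥K) : Matrix (Fin n) (Fin n) F) *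
        ((z⁻¹ : GL (Fin n) F) : Matrix (Fin n) (Fin n) F) ∈ RR M K u
    obtain ⟨g, hg, hgL, hg1, hgk⟩ := exists_tor_line hK hu k hk
    have hg'M : z * g * z⁻¹ ∈ M := M.mul_mem (M.mul_mem hz (hM hg)) (M.inv_mem hz)
    have hg'L : StabL K u ((z * g * z⁻¹ : GL (Fin n) F) : Matrix (Fin n) (Fin n) F) := by
      rw [Units.val_mul, Units.val_mul]
      exact stabL_mul (stabL_mul hzL hgL) hzL'
    have hg'1 : ∀ v : Fin n → F, ∃ c : ↥K,
        ((z * g * z⁻¹ : GL (Fin n) F) : Matrix (Fin n) (Fin n) F) *ᵥ v - v =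
          (c : Matrix (Fin n) (Fin n) F) *ᵥ u := by
      intro v
      obtain ⟨c, hc⟩ := hg1 (((z⁻¹ : GL (Fin n) F) : Matrix (Fin n) (Fin n) F) *ᵥ v)
      obtain ⟨c', hc'⟩ := hzL c
      refine ⟨c', ?_⟩
      rw [← hc', ← hc, Matrix.mulVec_sub, Matrix.mulVec_mulVec, Matrix.mulVec_mulVec,
        Matrix.mulVec_mulVec, Units.mul_inv, Matrix.one_mulVec, Units.val_mul, Units.val_mul,
        mul_assoc]
    refine mem_RR_of_agree (mem_RR_of_stab _ hg'M hg'L hg'1) (fun c => ?_)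
    obtain ⟨c₁, hc₁⟩ := hzL' c
    rw [Units.val_mul, Units.val_mul, ← Matrix.mulVec_mulVec, ← Matrix.mulVec_mulVec,
      ← Matrix.mulVec_mulVec, ← Matrix.mulVec_mulVec, hc₁, hgk]
  have hk : k ∈ S := by rw [hS]; exact Subring.mem_top k
  exact hk

end Cfsg.Agent.Lib.Helper97
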