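import Mathlib
import Cfsg.Prelude.Def_GeometricClasses
import Cfsg.Agent.Lib.Helper97.KAlg2

/-!
# From an element not normalising `K` on a `K`-line to an `F`-transvection (helper97, for S5886)
-/

set_option autoImplicit false

namespace Cfsg.Agent.Lib.Helper97

open Matrix

/-- Telescoping: the averaged element intertwines `b` and `β`. -/
theorem avg_comm {R : Type*} [Ring R] (β b C : R) (N : ℕ) (hβ : β ^ N = 1) (hb : b ^ N = 1) :
    β * (∑ i ∈ Finset.range N, β ^ i * C * b ^ (N - i)) =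
      (∑ i ∈ Finset.range N, β ^ i * C * b ^ (N - i)) * b := by
  have h1 : β * (∑ i ∈ Finset.range N, β ^ i * C * b ^ (N - i)) =
      ∑ i ∈ Finset.range N, β ^ (i + 1) * C * b ^ (N + 1 - (i + 1)) := by
    rw [Finset.mul_sum]
    apply Finset.sum_congr rfl
    intro i _
    rw [pow_succ', Nat.add_sub_add_right]
    simp only [mul_assoc]
  have h2 : (∑ i ∈ Finset.range N, β ^ i * C * b ^ (N - i)) * b =
      ∑ i ∈ Finset.range N, β ^ i * C * b ^ (N + 1 - i) := by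
    rw [Finset.sum_mul]
    apply Finset.sum_congr rfl
    intro i hi
    have hi' := Finset.mem_range.mp hi
    rw [mul_assoc, ← pow_succ, show N - i + 1 = N + 1 - i by omega]
  rw [h1, h2]
  have h3 := Finset.sum_range_succ (fun i => β ^ i * C * b ^ (N + 1 - i)) N
  have h4 := Finset.sum_range_succ' (fun i => β ^ i * C * b ^ (N + 1 - i)) N
  rw [h4] at h3
  have e1 : β ^ 0 * C * b ^ (N + 1 - 0) = C * b := by
    rw [pow_zero, one_mul, Nat.sub_zero, pow_succ, hb, one_mul]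
  have e2 : β ^ N * C * b ^ (N + 1 - N) = C * b := by
    rw [hβ, one_mul, Nat.add_sub_cancel_left, pow_one]
  rw [e1, e2] at h3
  exact add_right_cancel h3

/-- A matrix mapping everything into the `F`-line through `u ≠ 0` is `u ⊗ ψ`. -/
theorem exists_vec_of_line {F : Type*} [Field F] {n : ℕ} (u : Fin n → F) (hu : u ≠ 0)
    (D : Matrix (Fin n) (Fin n) F) (hD : ∀ v : Fin n → F, ∃ a : F, D *ᵥ v = a • u) :
    ∃ ψ : Fin n → F, ∀ v : Fin n → F, D *ᵥ v = (ψ ⬝ᵥ v) • u := by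
  obtain ⟨i₀, hi₀⟩ := Function.ne_iff.mp hu
  rw [Pi.zero_apply] at hi₀
  refine ⟨fun j => (u i₀)⁻¹ * D i₀ j, fun v => ?_⟩
  obtain ⟨a, ha⟩ := hD v
  have h1 : (D *ᵥ v) i₀ = a * u i₀ := by rw [ha]; rfl
  have h2 : (fun j => (u i₀)⁻¹ * D i₀ j) ⬝ᵥ v = (u i₀)⁻¹ * (D *ᵥ v) i₀ := by
    simp only [dotProduct, Matrix.mulVec, Finset.mul_sum, mul_assoc]
  rw [h2, h1, ha, mul_comm a, ← mul_assoc, inv_mul_cancel₀ hi₀, one_mul]

variable {F : Type*} [Field F] [Fintype F] {n : ℕ} {K : Subalgebra F (Matrix (Fin n) (Fin n) F)}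

/-- The averaged elements sum to `-C`. -/
theorem avg_total [Nonempty (Fin n)] {r : ℕ} (hK : Cfsg.Geo.IsFieldSubalgebra r K) (hr : r.Prime)
    (b : ↥K) (hbN : b ^ (Fintype.card F ^ r - 1) = 1)
    (hbe : ∀ e : ℕ, 0 < e → e < Fintype.card F ^ r - 1 → b ^ e ≠ 1)
    (C : Matrix (Fin n) (Fin n) F) :
    ∑ j ∈ Finset.range r, ∑ i ∈ Finset.range (Fintype.card F ^ r - 1),
      ((b ^ (Fintype.card F ^ j) : ↥K) : Matrix (Fin n) (Fin n) F) ^ i * C *
        (b : Matrix (Fin n) (Fin n) F) ^ (Fintype.card F ^ r - 1 - i) = -C := by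
  rw [Finset.sum_comm]
  have h1 : ∀ i ∈ Finset.range (Fintype.card F ^ r - 1),
      ∑ j ∈ Finset.range r, ((b ^ (Fintype.card F ^ j) : ↥K) : Matrix (Fin n) (Fin n) F) ^ i * C *
        (b : Matrix (Fin n) (Fin n) F) ^ (Fintype.card F ^ r - 1 - i) =
      C * (((∑ j ∈ Finset.range r, (b ^ i) ^ (Fintype.card F ^ j)) *
        b ^ (Fintype.card F ^ r - 1 - i) : ↥K) : Matrix (Fin n) (Fin n) F) := by
    intro i _
    obtain ⟨a, ha⟩ := fs_tr_scalar hK hr (b ^ i)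
    rw [← Finset.sum_mul, ← Finset.sum_mul]
    have h2 : ∑ j ∈ Finset.range r, ((b ^ (Fintype.card F ^ j) : ↥K) : Matrix (Fin n) (Fin n) F) ^ i
        = ((∑ j ∈ Finset.range r, (b ^ i) ^ (Fintype.card F ^ j) : ↥K) :
            Matrix (Fin n) (Fin n) F) := by
      rw [AddSubmonoidClass.coe_finsetSum]
      apply Finset.sum_congr rfl
      intro j _
      rw [← Subalgebra.coe_pow, ← pow_mul, mul_comm, pow_mul]
    rw [h2, Subalgebra.coe_mul, ha, Subalgebra.coe_algebraMap, Algebra.commutes a C, mul_assoc,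
      Subalgebra.coe_pow]
  rw [Finset.sum_congr rfl h1, ← Finset.mul_sum, ← AddSubmonoidClass.coe_finsetSum,
    fs_avg_sum hK hr.pos b hbN hbe, NegMemClass.coe_neg, OneMemClass.coe_one, mul_neg, mul_one]

/-- (Alg): an element of `M ≥ klG K` stabilising a `K`-line on which it does not normalise `K`
yields an `F`-transvection in `M` centred on that line. -/
theorem exists_TM_of_notNormL {r : ℕ} (hK : Cfsg.Geo.IsFieldSubalgebra r K) (hr : r.Prime)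
    (hn : r < n) (M : Subgroup (GL (Fin n) F)) (hM : klG K ≤ M) (u : Fin n → F) (hu : u ≠ 0)
    (z : GL (Fin n) F) (hz : z ∈ M) (hzL : StabL K u (z : Matrix (Fin n) (Fin n) F))
    (hzN : ¬ NormL K u (z : Matrix (Fin n) (Fin n) F)) :
    ∃ ψ : Fin n → F, ψ ≠ 0 ∧ TM M u ψ := by
  have hne : Nonempty (Fin n) := ⟨⟨0, by omega⟩⟩
  have hr1 : 1 < r := hr.one_lt
  have hq1 : 1 < Fintype.card F := Fintype.one_lt_card
  have hcomm : ∀ a b : ↥K, a * b = b * a := fun a b => Subtype.ext (hK.comm a a.2 b b.2)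
  have hKR : ∀ k : ↥K, (k : Matrix (Fin n) (Fin n) F) ∈ RR M K u := mem_RR_of_mem hK hr1 hu M hM
  unfold NormL at hzN
  push Not at hzN
  obtain ⟨k₀, hk₀⟩ := hzN
  obtain ⟨C, hC⟩ : ∃ C : Matrix (Fin n) (Fin n) F, C = (z : Matrix (Fin n) (Fin n) F) *
    (k₀ : Matrix (Fin n) (Fin n) F) * ((z⁻¹ : GL (Fin n) F) : Matrix (Fin n) (Fin n) F) := ⟨_, rfl⟩
  have hCR : C ∈ RR M K u := by
    rw [hC]
    exact conj_mem_RR hK hr1 hu M hM z hz hzL k₀
  have hP : ∀ k' : ↥K, ∃ c₁ : ↥K, C *ᵥ ((c₁ : Matrix (Fin n) (Fin n) F) *ᵥ u) ≠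
      (k' : Matrix (Fin n) (Fin n) F) *ᵥ ((c₁ : Matrix (Fin n) (Fin n) F) *ᵥ u) := by
    intro k'
    obtain ⟨c, hc⟩ := hk₀ k'
    obtain ⟨c₁, hc₁⟩ := hzL c
    refine ⟨c₁, ?_⟩
    rw [← hc₁, hC, ← Matrix.mulVec_mulVec, ← Matrix.mulVec_mulVec,
      Matrix.mulVec_mulVec _ ((z⁻¹ : GL (Fin n) F) : Matrix (Fin n) (Fin n) F), Units.inv_mul,
      Matrix.one_mulVec]
    exact hc
  obtain ⟨b, hb0, hgen, hbN, hbe⟩ := fs_exists_gen hK
  obtain ⟨ρ, hρ⟩ : ∃ ρ : ℕ → Matrix (Fin n) (Fin n) F, ∀ j, ρ j =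
      ∑ i ∈ Finset.range (Fintype.card F ^ r - 1),
        ((b ^ (Fintype.card F ^ j) : ↥K) : Matrix (Fin n) (Fin n) F) ^ i * C *
          (b : Matrix (Fin n) (Fin n) F) ^ (Fintype.card F ^ r - 1 - i) := ⟨_, fun j => rfl⟩
  have hρR : ∀ j, ρ j ∈ RR M K u := fun j => by
    rw [hρ]
    exact Subring.sum_mem _ (fun i _ => Subring.mul_mem _
      (Subring.mul_mem _ (Subring.pow_mem _ (hKR _) _) hCR) (Subring.pow_mem _ (hKR b) _))
  have hρcomm : ∀ j, ((b ^ (Fintype.card F ^ j) : ↥K) : Matrix (Fin n) (Fin n) F) * ρ j =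
      ρ j * (b : Matrix (Fin n) (Fin n) F) := fun j => by
    rw [hρ]
    exact avg_comm _ _ C _
      (by rw [← Subalgebra.coe_pow, ← pow_mul, mul_comm, pow_mul, hbN, one_pow,
        OneMemClass.coe_one])
      (by rw [← Subalgebra.coe_pow, hbN, OneMemClass.coe_one])
  have hρsum : ∑ j ∈ Finset.range r, ρ j = -C := by
    rw [Finset.sum_congr rfl (fun j _ => hρ j)]
    exact avg_total hK hr b hbN hbe C
  -- a good index `j`
  obtain ⟨j, hj0, hjr, c₂, hc₂⟩ : ∃ j, 0 < j ∧ j < r ∧ ∃ c : ↥K,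
      ρ j *ᵥ ((c : Matrix (Fin n) (Fin n) F) *ᵥ u) ≠ 0 := by
    by_contra hcon
    push Not at hcon
    have h0 : ∀ c : ↥K, C *ᵥ ((c : Matrix (Fin n) (Fin n) F) *ᵥ u) =
        -(ρ 0 *ᵥ ((c : Matrix (Fin n) (Fin n) F) *ᵥ u)) := by
      intro c
      have h1 : (∑ j ∈ Finset.range r, ρ j) *ᵥ ((c : Matrix (Fin n) (Fin n) F) *ᵥ u) =
          ρ 0 *ᵥ ((c : Matrix (Fin n) (Fin n) F) *ᵥ u) := by
        rw [Matrix.sum_mulVec]
        apply Finset.sum_eq_single 0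
        · intro j hj hj0
          exact hcon j (Nat.pos_of_ne_zero hj0) (Finset.mem_range.mp hj) c
        · intro h
          exact absurd (Finset.mem_range.mpr hr.pos) h
      rw [hρsum, Matrix.neg_mulVec] at h1
      rw [← h1, neg_neg]
    have hb_comm : ∀ c : ↥K, C *ᵥ ((b : Matrix (Fin n) (Fin n) F) *ᵥ
        ((c : Matrix (Fin n) (Fin n) F) *ᵥ u)) =
        (b : Matrix (Fin n) (Fin n) F) *ᵥ (C *ᵥ ((c : Matrix (Fin n) (Fin n) F) *ᵥ u)) := by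
      intro c
      have e1 : (b : Matrix (Fin n) (Fin n) F) *ᵥ ((c : Matrix (Fin n) (Fin n) F) *ᵥ u) =
          ((b * c : ↥K) : Matrix (Fin n) (Fin n) F) *ᵥ u := by
        rw [Subalgebra.coe_mul, Matrix.mulVec_mulVec]
      have e2 : ((b ^ (Fintype.card F ^ 0) : ↥K) : Matrix (Fin n) (Fin n) F) =
          (b : Matrix (Fin n) (Fin n) F) := by rw [pow_zero, pow_one]
      have e3 := hρcomm 0
      rw [e2] at e3
      calc C *ᵥ ((b : Matrix (Fin n) (Fin n) F) *ᵥ ((c : Matrix (Fin n) (Fin n) F) *ᵥ u))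
          = -(ρ 0 *ᵥ ((b : Matrix (Fin n) (Fin n) F) *ᵥ ((c : Matrix (Fin n) (Fin n) F) *ᵥ u))) := by
            rw [e1, h0]
        _ = -((b : Matrix (Fin n) (Fin n) F) *ᵥ (ρ 0 *ᵥ ((c : Matrix (Fin n) (Fin n) F) *ᵥ u))) := by
            rw [Matrix.mulVec_mulVec, ← e3, ← Matrix.mulVec_mulVec]
        _ = (b : Matrix (Fin n) (Fin n) F) *ᵥ (C *ᵥ ((c : Matrix (Fin n) (Fin n) F) *ᵥ u)) := by
            rw [h0, Matrix.mulVec_neg]
    have hbi : ∀ (i : ℕ) (c : ↥K), C *ᵥ (((b ^ i : ↥K) : Matrix (Fin n) (Fin n) F) *ᵥ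
        ((c : Matrix (Fin n) (Fin n) F) *ᵥ u)) =
        ((b ^ i : ↥K) : Matrix (Fin n) (Fin n) F) *ᵥ
          (C *ᵥ ((c : Matrix (Fin n) (Fin n) F) *ᵥ u)) := by
      intro i
      induction i with
      | zero =>
        intro c
        rw [pow_zero, OneMemClass.coe_one, Matrix.one_mulVec, Matrix.one_mulVec]
      | succ i ih =>
        intro c
        have e1 : (b : Matrix (Fin n) (Fin n) F) *ᵥ ((c : Matrix (Fin n) (Fin n) F) *ᵥ u) =
            ((b * c : ↥K) : Matrix (Fin n) (Fin n) F) *ᵥ u := by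
          rw [Subalgebra.coe_mul, Matrix.mulVec_mulVec]
        rw [pow_succ, Subalgebra.coe_mul, ← Matrix.mulVec_mulVec, e1, ih, ← e1, hb_comm,
          Matrix.mulVec_mulVec]
    have hk_comm : ∀ (k c : ↥K), C *ᵥ ((k : Matrix (Fin n) (Fin n) F) *ᵥ
        ((c : Matrix (Fin n) (Fin n) F) *ᵥ u)) =
        (k : Matrix (Fin n) (Fin n) F) *ᵥ (C *ᵥ ((c : Matrix (Fin n) (Fin n) F) *ᵥ u)) := by
      intro k c
      rcases eq_or_ne k 0 with rfl | hk
      · rw [ZeroMemClass.coe_zero, Matrix.zero_mulVec, Matrix.zero_mulVec, Matrix.mulVec_zero]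
      · obtain ⟨i, rfl⟩ := hgen k hk
        exact hbi i c
    obtain ⟨c₀, hc₀⟩ := hCR.1 1
    obtain ⟨c₁, hc₁⟩ := hP c₀
    apply hc₁
    have h5 := hk_comm c₁ 1
    rw [hc₀] at h5
    rw [OneMemClass.coe_one, Matrix.one_mulVec] at h5
    rw [h5, Matrix.mulVec_mulVec, Matrix.mulVec_mulVec, hK.comm _ c₁.2 _ c₀.2]
  -- semilinearity of `ρ j`
  have hsemi : ∀ (k : ↥K) (x : Fin n → F), ρ j *ᵥ ((k : Matrix (Fin n) (Fin n) F) *ᵥ x) =
      ((k ^ (Fintype.card F ^ j) : ↥K) : Matrix (Fin n) (Fin n) F) *ᵥ (ρ j *ᵥ x) := by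
    have hb1 : ∀ x : Fin n → F, ρ j *ᵥ ((b : Matrix (Fin n) (Fin n) F) *ᵥ x) =
        ((b ^ (Fintype.card F ^ j) : ↥K) : Matrix (Fin n) (Fin n) F) *ᵥ (ρ j *ᵥ x) := fun x => by
      rw [Matrix.mulVec_mulVec, ← hρcomm j, ← Matrix.mulVec_mulVec]
    have hbi : ∀ (i : ℕ) (x : Fin n → F),
        ρ j *ᵥ (((b ^ i : ↥K) : Matrix (Fin n) (Fin n) F) *ᵥ x) =
          (((b ^ i) ^ (Fintype.card F ^ j) : ↥K) : Matrix (Fin n) (Fin n) F) *ᵥ (ρ j *ᵥ x) := by
      intro i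
      induction i with
      | zero =>
        intro x
        rw [pow_zero, one_pow, OneMemClass.coe_one, Matrix.one_mulVec, Matrix.one_mulVec]
      | succ i ih =>
        intro x
        have hc : Commute (b ^ i) b := hcomm _ _
        rw [pow_succ, Subalgebra.coe_mul, ← Matrix.mulVec_mulVec, ih, hb1, Matrix.mulVec_mulVec,
          ← Subalgebra.coe_mul, ← hc.mul_pow]
    intro k x
    rcases eq_or_ne k 0 with rfl | hk
    · rw [zero_pow (pow_ne_zero _ (by omega)), ZeroMemClass.coe_zero, Matrix.zero_mulVec,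
        Matrix.zero_mulVec, Matrix.mulVec_zero]
    · obtain ⟨i, rfl⟩ := hgen k hk
      exact hbi i x
  obtain ⟨e, he⟩ := (hρR j).1 1
  rw [OneMemClass.coe_one, Matrix.one_mulVec] at he
  have hρc : ∀ c : ↥K, ρ j *ᵥ ((c : Matrix (Fin n) (Fin n) F) *ᵥ u) =
      ((c ^ (Fintype.card F ^ j) * e : ↥K) : Matrix (Fin n) (Fin n) F) *ᵥ u := by
    intro c
    rw [hsemi, he, Matrix.mulVec_mulVec, Subalgebra.coe_mul]
  have he0 : e ≠ 0 := by
    rintro rfl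
    apply hc₂
    rw [hρc, mul_zero, ZeroMemClass.coe_zero, Matrix.zero_mulVec]
  obtain ⟨e', he', hee'⟩ := hK.inv e e.2 (fun h => he0 (Subtype.ext h))
  have he'e : e' * (e : Matrix (Fin n) (Fin n) F) = 1 := by
    rw [hK.comm e' he' e e.2]; exact hee'
  obtain ⟨φ₀, hφ₀⟩ : ∃ φ₀ : Matrix (Fin n) (Fin n) F, φ₀ = e' * ρ j := ⟨_, rfl⟩
  have hφ₀R : φ₀ ∈ RR M K u := by
    rw [hφ₀]
    exact Subring.mul_mem _ (hKR ⟨e', he'⟩) (hρR j)
  have hφ₀c : ∀ c : ↥K, φ₀ *ᵥ ((c : Matrix (Fin n) (Fin n) F) *ᵥ u) =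
      ((c ^ (Fintype.card F ^ j) : ↥K) : Matrix (Fin n) (Fin n) F) *ᵥ u := by
    intro c
    rw [hφ₀, ← Matrix.mulVec_mulVec, hρc, Matrix.mulVec_mulVec, Subalgebra.coe_mul, ← mul_assoc,
      hK.comm e' he' _ (c ^ (Fintype.card F ^ j)).2, mul_assoc, he'e, mul_one]
  have hφ₀pow : ∀ (m : ℕ) (c : ↥K), (φ₀ ^ m) *ᵥ ((c : Matrix (Fin n) (Fin n) F) *ᵥ u) =
      ((c ^ (Fintype.card F ^ (j * m)) : ↥K) : Matrix (Fin n) (Fin n) F) *ᵥ u := by
    intro m
    induction m with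
    | zero =>
      intro c
      rw [pow_zero, Matrix.one_mulVec, mul_zero, pow_zero, pow_one]
    | succ m ih =>
      intro c
      rw [pow_succ, ← Matrix.mulVec_mulVec, hφ₀c, ih, ← pow_mul, ← pow_add, Nat.mul_succ,
        add_comm]
  have hcop : Nat.Coprime j r :=
    ((Nat.Prime.coprime_iff_not_dvd hr).mpr (Nat.not_dvd_of_pos_of_lt hj0 hjr)).symm
  obtain ⟨j', -, hj'⟩ := Nat.exists_mul_mod_eq_one_of_coprime hcop hr1
  have hdiv : r * (j * j' / r) + 1 = j * j' := by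
    have h := Nat.div_add_mod (j * j') r
    rw [hj'] at h
    exact h
  have hpowr : ∀ (a : ℕ) (c : ↥K), c ^ (Fintype.card F ^ (r * a)) = c := by
    intro a
    induction a with
    | zero =>
      intro c
      rw [mul_zero, pow_zero, pow_one]
    | succ a ih =>
      intro c
      rw [Nat.mul_succ, pow_add, pow_mul, ih, fs_pow_card hK]
  obtain ⟨φ₁, hφ₁⟩ : ∃ φ₁ : Matrix (Fin n) (Fin n) F, φ₁ = φ₀ ^ j' := ⟨_, rfl⟩
  have hφ₁c : ∀ c : ↥K, φ₁ *ᵥ ((c : Matrix (Fin n) (Fin n) F) *ᵥ u) =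
      ((c ^ Fintype.card F : ↥K) : Matrix (Fin n) (Fin n) F) *ᵥ u := by
    intro c
    rw [hφ₁, hφ₀pow, ← hdiv, pow_succ, pow_mul, hpowr]
  have hφ₁pow : ∀ (l : ℕ) (c : ↥K), (φ₁ ^ l) *ᵥ ((c : Matrix (Fin n) (Fin n) F) *ᵥ u) =
      ((c ^ (Fintype.card F ^ l) : ↥K) : Matrix (Fin n) (Fin n) F) *ᵥ u := by
    intro l
    induction l with
    | zero =>
      intro c
      rw [pow_zero, Matrix.one_mulVec, pow_zero, pow_one]
    | succ l ih =>
      intro c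
      rw [pow_succ, ← Matrix.mulVec_mulVec, hφ₁c, ih, ← pow_mul, ← pow_succ']
  obtain ⟨T, hT⟩ : ∃ T : Matrix (Fin n) (Fin n) F, T = ∑ l ∈ Finset.range r, φ₁ ^ l := ⟨_, rfl⟩
  have hTR : T ∈ RR M K u := by
    rw [hT, hφ₁]
    exact Subring.sum_mem _ (fun l _ => Subring.pow_mem _ (Subring.pow_mem _ hφ₀R _) _)
  have hTc : ∀ c : ↥K, T *ᵥ ((c : Matrix (Fin n) (Fin n) F) *ᵥ u) =
      ((∑ l ∈ Finset.range r, c ^ (Fintype.card F ^ l) : ↥K) : Matrix (Fin n) (Fin n) F) *ᵥ u := by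
    intro c
    rw [hT, Matrix.sum_mulVec, AddSubmonoidClass.coe_finsetSum, Matrix.sum_mulVec]
    exact Finset.sum_congr rfl (fun l _ => hφ₁pow l c)
  -- the `K`-transvection
  obtain ⟨v₁, hv₁⟩ := exists_notMem_line hK hn u
  obtain ⟨π, hπu, hπv⟩ := exists_kfun_pair hK u v₁ hv₁
  have hE : InR M K u (kT u π) :=
    ⟨fun v => ⟨π v, kT_mulVec u π v⟩, fun c => by
      rw [kT_mulVec, π.map_k, hπu, mul_zero, ZeroMemClass.coe_zero, Matrix.zero_mulVec],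
      ktG u π hπu, hM (ktG_mem u π hπu), rfl⟩
  obtain ⟨g, hg, hgv⟩ := hTR.2 _ hE
  have hD : ∀ v : Fin n → F, ∃ a : F, (T * kT u π) *ᵥ v = a • u := by
    intro v
    obtain ⟨a, ha⟩ := fs_tr_scalar hK hr (π v)
    refine ⟨a, ?_⟩
    rw [← Matrix.mulVec_mulVec, kT_mulVec, hTc, ha, Subalgebra.coe_algebraMap,
      Algebra.algebraMap_eq_smul_one, Matrix.smul_mulVec, Matrix.one_mulVec]
  obtain ⟨ψ, hψ⟩ := exists_vec_of_line u hu _ hD
  have hψu : ψ ⬝ᵥ u = 0 := by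
    have h1 := hψ u
    rw [← Matrix.mulVec_mulVec, kT_mulVec, hπu, ZeroMemClass.coe_zero, Matrix.zero_mulVec,
      Matrix.mulVec_zero] at h1
    rcases smul_eq_zero.mp h1.symm with h | h
    · exact h
    · exact absurd h hu
  have hψ0 : ψ ≠ 0 := by
    rintro rfl
    obtain ⟨x, hx⟩ := fs_exists_tr_ne_zero hK hr.pos
    have h1 := hψ ((x : Matrix (Fin n) (Fin n) F) *ᵥ v₁)
    rw [zero_dotProduct, zero_smul, ← Matrix.mulVec_mulVec, kT_mulVec, π.map_k, hπv, mul_one,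
      hTc] at h1
    exact hx (Subtype.ext (fs_eq_zero hK (SetLike.coe_mem _) hu h1))
  refine ⟨ψ, hψ0, TM_of_mem hψu ?_⟩
  have hgeq : g = tvG u ψ hψu := by
    apply Units.ext
    rw [hgv, tvG_val]
    apply Matrix.mulVec_injective
    funext v
    rw [Matrix.add_mulVec, Matrix.one_mulVec, hψ, tv_mulVec]
  rw [← hgeq]
  exact hg

end Cfsg.Agent.Lib.Helper97
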