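import Mathlib
import Cfsg.Prelude.Def_GeometricClasses
import Cfsg.Agent.Lib.Helper97.KLin

/-!
# Determinants of `K`-homologies: the normaliser of `K` has all determinants (helper97)
-/

set_option autoImplicit false

namespace Cfsg.Agent.Lib.Helper97

open Matrix

variable {F : Type*} [Field F] {n : ℕ} {K : Subalgebra F (Matrix (Fin n) (Fin n) F)}

private lemma det_aux {R : Type*} [Ring R] (x k : R) : x + (k - 1) * x = k * x := by
  noncomm_ring

/-- The determinant of the homology `v ↦ v + ((k - 1) π(v)) u` (with `π u = 1`) is the norm of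
`k`. -/
theorem det_torM (hc : ∀ x ∈ K, ∀ y ∈ K, x * y = y * x) (u : Fin n → F) (π : KFun K)
    (hπ : π u = 1) (k : ↥K) : (torM hc u π k).det = Algebra.norm F k := by
  have hfinK : Module.Finite F ↥K := Module.Finite.of_injective K.val.toLinearMap
    Subtype.val_injective
  let bK := Module.finBasis F ↥K
  set A : Matrix (Fin n) (Fin (Module.finrank F ↥K)) F :=
    LinearMap.toMatrix bK (Pi.basisFun F (Fin n)) (actLin K u) with hA
  set B : Matrix (Fin (Module.finrank F ↥K)) (Fin n) F :=
    LinearMap.toMatrix (Pi.basisFun F (Fin n)) bK (π.smul hc (k - 1)).toLin with hB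
  have hAB : A * B = kT u (π.smul hc (k - 1)) := by
    rw [hA, hB, ← LinearMap.toMatrix_comp, LinearMap.toMatrix_eq_toMatrix']
    rfl
  have hBA : 1 + B * A = Algebra.leftMulMatrix bK k := by
    rw [hA, hB, ← LinearMap.toMatrix_comp, Algebra.leftMulMatrix_apply,
      ← LinearMap.toMatrix_one bK, ← map_add]
    congr 1
    apply LinearMap.ext
    intro x
    show x + (k - 1) * π ((x : Matrix (Fin n) (Fin n) F) *ᵥ u) = k * x
    rw [π.map_k, hπ, mul_one]
    exact det_aux x k
  rw [torM, ← hAB, Matrix.det_one_add_mul_comm, hBA, Algebra.norm_eq_matrix_det bK]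

/-- The normaliser of a field subalgebra contains elements of every non-zero determinant. -/
theorem exists_normalizer_det [Fintype F] {r : ℕ} (hK : Cfsg.Geo.IsFieldSubalgebra r K)
    (hn : 0 < n) (δ : F) (hδ : δ ≠ 0) :
    ∃ g : GL (Fin n) F, g ∈ Cfsg.Geo.subalgebraNormalizer K ∧
      (g : Matrix (Fin n) (Fin n) F).det = δ := by
  have hne : Nonempty (Fin n) := ⟨⟨0, hn⟩⟩
  obtain ⟨u, hu⟩ : ∃ u : Fin n → F, u ≠ 0 :=
    ⟨fun _ => 1, fun h => one_ne_zero (congrFun h ⟨0, hn⟩)⟩
  obtain ⟨π, hπ⟩ := exists_kfun_one hK u hu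
  obtain ⟨k, hk⟩ : ∃ k : ↥K, Algebra.norm F k = δ := by
    let _ : Field ↥K := (fs_isField hK).toField
    have hfin : Finite ↥K := inferInstance
    exact @FiniteField.norm_surjective F ↥K _ _ (Subalgebra.algebra K) _ δ
  have hdet : (torM hK.comm u π k).det = δ := by rw [det_torM hK.comm u π hπ k, hk]
  have hdet0 : (torM hK.comm u π k).det ≠ 0 := by rw [hdet]; exact hδ
  refine ⟨Matrix.GeneralLinearGroup.mkOfDetNeZero (torM hK.comm u π k) hdet0, ?_, hdet⟩
  apply mem_normalizer_of_comm
  intro x hx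
  exact torM_comm hK.comm u π k x hx

end Cfsg.Agent.Lib.Helper97
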