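import Mathlib
import Cfsg.Prelude.Def_GeometricClasses
import Cfsg.Agent.Lib.Helper97.KLin

/-!
# A subgroup containing `klG K` and not normalising `K` moves a `K`-line off itself (helper97)
-/

set_option autoImplicit false

namespace Cfsg.Agent.Lib.Helper97

open Matrix

variable {F : Type*} [Field F] [Fintype F] {n : ℕ} {K : Subalgebra F (Matrix (Fin n) (Fin n) F)}

/-- G1: if `klG K ≤ M` and `M` does not normalise `K`, then for every `u ≠ 0` some `h ∈ M` fixes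
`u` and moves some point of the `K`-line `K u` off this line. -/
theorem exists_G1 {r : ℕ} (hK : Cfsg.Geo.IsFieldSubalgebra r K) (hn : r < n)
    (M : Subgroup (GL (Fin n) F)) (hM : klG K ≤ M)
    (hMN : ¬ M ≤ Cfsg.Geo.subalgebraNormalizer K) (u : Fin n → F) (hu : u ≠ 0) :
    ∃ h : GL (Fin n) F, h ∈ M ∧ (h : Matrix (Fin n) (Fin n) F) *ᵥ u = u ∧ ∃ ω : ↥K,
      ∀ k : ↥K, (k : Matrix (Fin n) (Fin n) F) *ᵥ u ≠
        (h : Matrix (Fin n) (Fin n) F) *ᵥ ((ω : Matrix (Fin n) (Fin n) F) *ᵥ u) := by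
  by_contra hcon
  push Not at hcon
  apply hMN
  have hgg : ∀ (g : GL (Fin n) F) (x : Fin n → F),
      ((g⁻¹ : GL (Fin n) F) : Matrix (Fin n) (Fin n) F) *ᵥ
        ((g : Matrix (Fin n) (Fin n) F) *ᵥ x) = x := fun g x => by
    rw [Matrix.mulVec_mulVec, Units.inv_mul, Matrix.one_mulVec]
  have hgg' : ∀ (g : GL (Fin n) F) (x : Fin n → F),
      (g : Matrix (Fin n) (Fin n) F) *ᵥ
        (((g⁻¹ : GL (Fin n) F) : Matrix (Fin n) (Fin n) F) *ᵥ x) = x := fun g x => by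
    rw [Matrix.mulVec_mulVec, Units.mul_inv, Matrix.one_mulVec]
  -- every element of `M` maps `K`-lines into `K`-lines
  have claim : ∀ g ∈ M, ∀ (w : Fin n → F) (ω : ↥K), ∃ k₁ : ↥K,
      (g : Matrix (Fin n) (Fin n) F) *ᵥ ((ω : Matrix (Fin n) (Fin n) F) *ᵥ w) =
        (k₁ : Matrix (Fin n) (Fin n) F) *ᵥ ((g : Matrix (Fin n) (Fin n) F) *ᵥ w) := by
    intro g hg w ω
    rcases eq_or_ne w 0 with rfl | hw
    · exact ⟨0, by rw [Matrix.mulVec_zero, Matrix.mulVec_zero, Matrix.mulVec_zero]⟩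
    have hgw : (g : Matrix (Fin n) (Fin n) F) *ᵥ w ≠ 0 := by
      intro h
      apply hw
      rw [← hgg g w, h, Matrix.mulVec_zero]
    obtain ⟨a, ha, hau⟩ := exists_klG_map hK hn u w hu hw
    obtain ⟨a', ha', ha'u⟩ := exists_klG_map hK hn _ u hgw hu
    have hhM : a' * g * a ∈ M := M.mul_mem (M.mul_mem (hM ha') hg) (hM ha)
    have hhu : ((a' * g * a : GL (Fin n) F) : Matrix (Fin n) (Fin n) F) *ᵥ u = u := by
      rw [Units.val_mul, Units.val_mul, ← Matrix.mulVec_mulVec, ← Matrix.mulVec_mulVec, hau, ha'u]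
    obtain ⟨k, hk⟩ := hcon (a' * g * a) hhM hhu ω
    refine ⟨k, ?_⟩
    rw [Units.val_mul, Units.val_mul, ← Matrix.mulVec_mulVec, ← Matrix.mulVec_mulVec,
      klG_mulVec ha, hau] at hk
    have h1 : ((a'⁻¹ : GL (Fin n) F) : Matrix (Fin n) (Fin n) F) *ᵥ
        ((k : Matrix (Fin n) (Fin n) F) *ᵥ u) =
        ((a'⁻¹ : GL (Fin n) F) : Matrix (Fin n) (Fin n) F) *ᵥ
          ((a' : Matrix (Fin n) (Fin n) F) *ᵥ ((g : Matrix (Fin n) (Fin n) F) *ᵥ
            ((ω : Matrix (Fin n) (Fin n) F) *ᵥ w))) := by rw [hk]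
    rw [hgg, klG_mulVec ((klG K).inv_mem ha')] at h1
    have h2 : ((a'⁻¹ : GL (Fin n) F) : Matrix (Fin n) (Fin n) F) *ᵥ u =
        (g : Matrix (Fin n) (Fin n) F) *ᵥ w := by
      rw [← ha'u, hgg]
    rw [h2] at h1
    exact h1.symm
  have conj : ∀ g ∈ M, ∀ k ∈ K, (g : Matrix (Fin n) (Fin n) F) * k *
      ((g⁻¹ : GL (Fin n) F) : Matrix (Fin n) (Fin n) F) ∈ K := by
    intro g hg k hk
    apply mem_of_forall_line hK hn
    intro w
    obtain ⟨k₁, hk₁⟩ := claim g hg (((g⁻¹ : GL (Fin n) F) : Matrix (Fin n) (Fin n) F) *ᵥ w) ⟨k, hk⟩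
    refine ⟨k₁, ?_⟩
    rw [hgg'] at hk₁
    rw [← Matrix.mulVec_mulVec, ← Matrix.mulVec_mulVec]
    exact hk₁
  intro g hg k
  constructor
  · exact conj g hg k
  · intro hk
    have h1 := conj g⁻¹ (M.inv_mem hg) _ hk
    rw [inv_inv] at h1
    have e : ((g⁻¹ : GL (Fin n) F) : Matrix (Fin n) (Fin n) F) *
        ((g : Matrix (Fin n) (Fin n) F) * k * ((g⁻¹ : GL (Fin n) F) : Matrix (Fin n) (Fin n) F)) *
          (g : Matrix (Fin n) (Fin n) F) = k := by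
      rw [← mul_assoc, ← mul_assoc, Units.inv_mul, one_mul, mul_assoc, Units.inv_mul, mul_one]
    rw [e] at h1
    exact h1

end Cfsg.Agent.Lib.Helper97
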