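import Mathlib
import Cfsg.Prelude.Def_GeometricClasses
import Cfsg.Agent.Lib.Helper50.SpNorm

/-!
# Sp_4(q), q even: definitions and generic glue for the subfield class (helper97, for S5789)

`InL M c`: the long root element (symplectic transvection) `x ↦ x + c f(x, e₁) e₁` at the first
frame vector lies in `M`.  `inS_all_of` is helper50's `inS_all` with the frame transvections as
a hypothesis; `sp_subfield_transfer` is helper50's `sp_subfield_isMaximalIn` with the maximality
of the subfield group in standard position as a hypothesis.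
-/

set_option autoImplicit false

namespace Cfsg.Agent.Lib.Helper97.Sp4E

open Matrix Cfsg.Agent.Lib.Helper97 Cfsg.Agent.Lib.Helper50

section Defs

variable {F : Type*} [Field F]

/-- `c` is a long root parameter of `M` at the first frame vector of `F^4`. -/
def InL (M : Subgroup (GL (Fin 2 ⊕ Fin 2) F)) (c : F) : Prop :=
  Act M (hs (Cfsg.sympForm 2 F) (Pi.single (Sum.inl 0) 1) 0 c)

variable {m : ℕ}

local notation "sf" => Cfsg.sympForm m F

open Classical in
/-- If all frame vectors are transvection centres of `M` and all field elements are short root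
parameters, every vector is a transvection centre of `M`. -/
theorem inS_all_of [Fintype F] {F₀ : Subfield F} {M : Subgroup (GL (Fin m ⊕ Fin m) F)}
    (D : SubfData sf F₀ M) (hsingle : ∀ k : Fin m ⊕ Fin m, InS sf M (Pi.single k 1))
    (hall : ∀ c : F, InK M c) :
    ∀ v : Fin m ⊕ Fin m → F, InS sf M v := by
  have hf := sympForm_symp (F := F) m
  have hb := hf.bilinear
  have key : ∀ n : ℕ, ∀ v : Fin m ⊕ Fin m → F,
      (Finset.univ.filter (fun j => v j ≠ 0)).card = n → InS sf M v := by
    intro n
    induction n using Nat.strong_induction_on with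
    | _ n ih =>
      intro v hv
      by_cases hT : ∃ j, v j ≠ 0 ∧ v (sbar j) ≠ 0
      · obtain ⟨j, hj, hj'⟩ := hT
        have hcard := card_update_lt v (sbar j) hj'
        rw [hv] at hcard
        have hIH := ih _ hcard (Function.update v (sbar j) 0) rfl
        have hfv : sf (Function.update v (sbar j) 0) (Pi.single (sbar j) 1) =
            stau F (sbar j) * v j := by
          rw [sympForm_single, sbar_sbar, Function.update_of_ne (sbar_ne j).symm]
        have hne : sf (Function.update v (sbar j) 0) (Pi.single (sbar j) 1) ≠ 0 := by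
          rw [hfv]; exact mul_ne_zero (stau_ne_zero _) hj
        have h1 := InS_move hf (hsingle (sbar j)) hIH
          (v (sbar j) / sf (Function.update v (sbar j) 0) (Pi.single (sbar j) 1))
        have e : Function.update v (sbar j) 0 +
            (v (sbar j) / sf (Function.update v (sbar j) 0) (Pi.single (sbar j) 1) *
              sf (Function.update v (sbar j) 0) (Pi.single (sbar j) 1)) •
              (Pi.single (sbar j) 1 : Fin m ⊕ Fin m → F) = v := by
          rw [div_mul_cancel₀ _ hne]
          funext i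
          by_cases hi : i = sbar j
          · subst hi
            simp
          · simp [Function.update_of_ne hi, Pi.single_eq_of_ne hi]
        rwa [e] at h1
      · push Not at hT
        by_cases hv0 : v = 0
        · rw [hv0]; exact InS_zero hf M
        obtain ⟨j, hj⟩ := Function.ne_iff.mp hv0
        rw [Pi.zero_apply] at hj
        by_cases hone : ∀ l, l ≠ j → v l = 0
        · have e : v = v j • (Pi.single j 1 : Fin m ⊕ Fin m → F) := by
            funext i
            by_cases hi : i = j
            · subst hi; simp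
            · simp [hone i hi, Pi.single_eq_of_ne hi]
          rw [e]
          exact InS_smul hf (hsingle j) (v j)
        · push Not at hone
          obtain ⟨l, hlj, hl⟩ := hone
          have hidx : sidx l ≠ sidx j := by
            intro h
            rcases eq_or_eq_sbar h with h' | h'
            · exact hlj h'
            · rw [h'] at hl; exact hl (hT j hj)
          have hidx' : sidx l ≠ sidx (sbar j) := by rw [sidx_sbar]; exact hidx
          have hψ : Act M (hs sf (Pi.single l 1)
              ((- v l / (stau F (sbar j) * v j)) • Pi.single (sbar j) 1) 0) :=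
            hall _ l (sbar j) hidx'
          have e0 : sf (Pi.single l 1)
              ((- v l / (stau F (sbar j) * v j)) • Pi.single (sbar j) 1) = 0 := by
            rw [hb.smul_right, sympForm_single_ne hidx', mul_zero]
          have hψv : hs sf (Pi.single l 1)
              ((- v l / (stau F (sbar j) * v j)) • Pi.single (sbar j) 1) 0 v =
              Function.update v l 0 := by
            have hden : stau F (sbar j) * v j ≠ 0 := mul_ne_zero (stau_ne_zero _) hj
            rw [hs_apply, hb.smul_right, sympForm_single, sbar_sbar, sympForm_single, hT l hl,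
              div_mul_cancel₀ _ hden, mul_zero, zero_smul, mul_zero, zero_smul, add_zero, add_zero]
            funext i
            by_cases hi : i = l
            · subst hi; simp
            · simp [Function.update_of_ne hi, Pi.single_eq_of_ne hi]
          have hcard := card_update_lt v l hl
          rw [hv] at hcard
          have hIH := ih _ hcard (Function.update v l 0) rfl
          have h1 := inS_of_act D (act_hs_inv hf e0 hψ) hIH
          rw [← hψv, hs_inv' hf e0] at h1
          exact h1
  intro v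
  exact key _ v rfl


/-- Transfer of the maximality of the subfield group from the standard position to a general
rational structure. -/
theorem sp_subfield_transfer (m : ℕ) (F₀ : Subfield F)
    (hstd : Cfsg.Geo.IsMaximalIn (Cfsg.spGL m F) (H1 (Fin m ⊕ Fin m) F₀ ⊓ Cfsg.spGL m F))
    (P : GL (Fin m ⊕ Fin m) F) (ζ : F) (hζ : ζ ≠ 0)
    (hP : Cfsg.Geo.IsFormRationalStructure (Cfsg.sympForm m F) F₀ ζ P) :
    Cfsg.Geo.IsMaximalIn (Cfsg.spGL m F) (Cfsg.Geo.subfieldSubgroup F₀ P ⊓ Cfsg.spGL m F) := by
  obtain ⟨G0, hG0, hnorm⟩ := exists_sp_normal m F₀ P ζ hζ hP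
  obtain ⟨P', hP'⟩ : ∃ P' : GL (Fin m ⊕ Fin m) F, P' = P * G0 := ⟨_, rfl⟩
  rw [← hP'] at hnorm
  have hsim : ∀ u v : Fin m ⊕ Fin m → F,
      Cfsg.sympForm m F ((P' : Matrix (Fin m ⊕ Fin m) (Fin m ⊕ Fin m) F) *ᵥ u)
        ((P' : Matrix (Fin m ⊕ Fin m) (Fin m ⊕ Fin m) F) *ᵥ v) = ζ⁻¹ * Cfsg.sympForm m F u v := by
    intro u v
    rw [← hnorm u v, ← mul_assoc, inv_mul_cancel₀ hζ, one_mul]
  have hsim' : ∀ u v : Fin m ⊕ Fin m → F,
      Cfsg.sympForm m F (((P'⁻¹ : GL (Fin m ⊕ Fin m) F) :
          Matrix (Fin m ⊕ Fin m) (Fin m ⊕ Fin m) F) *ᵥ u)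
        (((P'⁻¹ : GL (Fin m ⊕ Fin m) F) : Matrix (Fin m ⊕ Fin m) (Fin m ⊕ Fin m) F) *ᵥ v) =
        ζ * Cfsg.sympForm m F u v := by
    intro u v
    have h1 := hnorm (((P'⁻¹ : GL (Fin m ⊕ Fin m) F) :
      Matrix (Fin m ⊕ Fin m) (Fin m ⊕ Fin m) F) *ᵥ u)
      (((P'⁻¹ : GL (Fin m ⊕ Fin m) F) : Matrix (Fin m ⊕ Fin m) (Fin m ⊕ Fin m) F) *ᵥ v)
    rw [gl_mulVec_inv, gl_mulVec_inv] at h1
    exact h1.symm
  have h := isMaximalIn_map (MulAut.conj P') (hstd)
  rw [Subgroup.map_inf_eq _ _ _ (MulAut.conj P').injective] at h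
  have e1 : (H1 (Fin m ⊕ Fin m) F₀).map (MulAut.conj P').toMonoidHom =
      Cfsg.Geo.subfieldSubgroup F₀ P := by
    show _ = (H1 (Fin m ⊕ Fin m) F₀).map (MulAut.conj P).toMonoidHom
    apply le_antisymm
    · rintro _ ⟨y, hy, rfl⟩
      refine ⟨G0 * y * G0⁻¹, (H1 (Fin m ⊕ Fin m) F₀).mul_mem
        ((H1 (Fin m ⊕ Fin m) F₀).mul_mem hG0 hy) ((H1 (Fin m ⊕ Fin m) F₀).inv_mem hG0), ?_⟩
      show P * (G0 * y * G0⁻¹) * P⁻¹ = P' * y * P'⁻¹
      rw [hP']
      group
    · rintro _ ⟨y, hy, rfl⟩
      refine ⟨G0⁻¹ * y * G0, (H1 (Fin m ⊕ Fin m) F₀).mul_mem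
        ((H1 (Fin m ⊕ Fin m) F₀).mul_mem ((H1 (Fin m ⊕ Fin m) F₀).inv_mem hG0) hy) hG0, ?_⟩
      show P' * (G0⁻¹ * y * G0) * P'⁻¹ = P * y * P⁻¹
      rw [hP']
      group
  have e2 : (Cfsg.spGL m F).map (MulAut.conj P').toMonoidHom = Cfsg.spGL m F := by
    apply le_antisymm
    · rintro _ ⟨y, hy, rfl⟩
      have hy' := (mem_spGL_iff m y).mp hy
      show P' * y * P'⁻¹ ∈ Cfsg.spGL m F
      rw [mem_spGL_iff]
      intro u v
      rw [Units.val_mul, Units.val_mul, ← Matrix.mulVec_mulVec, ← Matrix.mulVec_mulVec,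
        ← Matrix.mulVec_mulVec, ← Matrix.mulVec_mulVec, hsim, hy', hsim', ← mul_assoc,
        inv_mul_cancel₀ hζ, one_mul]
    · intro x hx
      have hx' := (mem_spGL_iff m x).mp hx
      refine ⟨P'⁻¹ * x * P', ?_, ?_⟩
      · show P'⁻¹ * x * P' ∈ Cfsg.spGL m F
        rw [mem_spGL_iff]
        intro u v
        rw [Units.val_mul, Units.val_mul, ← Matrix.mulVec_mulVec, ← Matrix.mulVec_mulVec,
          ← Matrix.mulVec_mulVec, ← Matrix.mulVec_mulVec, hsim', hx', hsim, ← mul_assoc,
          mul_inv_cancel₀ hζ, one_mul]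
      · show P' * (P'⁻¹ * x * P') * P'⁻¹ = x
        group
  rw [e1, e2] at h
  exact h


end Defs

end Cfsg.Agent.Lib.Helper97.Sp4E
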