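import Mathlib
import Cfsg.Prelude.Def_GeometricClasses
import Cfsg.Agent.Lib.Helper97.Sp4EDefs

/-!
# SP4E piece LONG (for S5789): basic properties of the long root parameters `InL`
(filled by helper85)
-/

set_option autoImplicit false

namespace Cfsg.Agent.Lib.Helper97.Sp4E

open Matrix Cfsg.Agent.Lib.Helper97 Cfsg.Agent.Lib.Helper50

variable {F : Type*} [Field F]

local notation "sf" => Cfsg.sympForm 2 F

/-- Rational parameters. -/
theorem inL_of_mem {F₀ : Subfield F} {M : Subgroup (GL (Fin 2 ⊕ Fin 2) F)}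
    (D : SubfData sf F₀ M) {c : F} (hc : c ∈ F₀) : InL M c := by
  have hf := sympForm_symp (F := F) 2
  exact act_hs_rat hf D (ratV_single F₀ (Sum.inl 0) F₀.one_mem) (ratV_zero F₀) hc
    (form_zero_right hf.bilinear _)

theorem inL_add {M : Subgroup (GL (Fin 2 ⊕ Fin 2) F)} {a b : F} (ha : InL M a)
    (hb : InL M b) : InL M (a + b) := by
  have hf := sympForm_symp (F := F) 2
  have hbil := hf.bilinear
  have h0 : sf (Pi.single (Sum.inl 0) 1 : Fin 2 ⊕ Fin 2 → F) 0 = 0 := form_zero_right hbil _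
  have h := act_hs_mul hf h0 h0 ha hb
  exact act_hs_eq h (add_zero 0) (by rw [form_zero_right hbil, add_zero])

/-- A long root parameter is a parameter at every non-zero rational vector. -/
theorem act_of_inL {F₀ : Subfield F} {M : Subgroup (GL (Fin 2 ⊕ Fin 2) F)}
    (D : SubfData sf F₀ M) {c : F} (hc : InL M c) {v : Fin 2 ⊕ Fin 2 → F} (hv : RatV F₀ v)
    (hv0 : v ≠ 0) : Act M (hs sf v 0 c) := by
  obtain ⟨g, hgM, -, hgv⟩ := exists_rat_move D (Sum.inl 0) hv hv0
  have h := act_hs_conj D.iso (act_mulVec hgM) hc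
  exact act_hs_eq3 h hgv (Matrix.mulVec_zero _) rfl

theorem inL_of_act {F₀ : Subfield F} {M : Subgroup (GL (Fin 2 ⊕ Fin 2) F)}
    (D : SubfData sf F₀ M) {c : F} {v : Fin 2 ⊕ Fin 2 → F} (hv : RatV F₀ v) (hv0 : v ≠ 0)
    (h : Act M (hs sf v 0 c)) : InL M c := by
  obtain ⟨g, hgM, -, hgv⟩ := exists_rat_move D (Sum.inl 0) hv hv0
  have h' := act_hs_conj D.iso (act_mulVec (M.inv_mem hgM)) h
  refine act_hs_eq3 h' ?_ (Matrix.mulVec_zero _) rfl
  show ((g⁻¹ : GL (Fin 2 ⊕ Fin 2) F) : Matrix (Fin 2 ⊕ Fin 2) (Fin 2 ⊕ Fin 2) F) *ᵥ v =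
    Pi.single (Sum.inl 0) 1
  rw [← hgv, gl_inv_mulVec]

/-- In characteristic two the parameters are stable under multiplication by `F₀`. -/
theorem inL_smul [Fintype F] (h2 : (2 : F) = 0) {F₀ : Subfield F}
    {M : Subgroup (GL (Fin 2 ⊕ Fin 2) F)} (D : SubfData sf F₀ M) {c l : F} (hl : l ∈ F₀)
    (hc : InL M c) : InL M (l * c) := by
  have hf := sympForm_symp (F := F) 2
  have hb := hf.bilinear
  obtain ⟨s, hs, hsl⟩ : ∃ s ∈ F₀, s ^ 2 = l := by
    have hinj : Function.Injective (fun x : F₀ => x ^ 2) := by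
      intro x y hxy
      have hxy' : (x : F) ^ 2 = (y : F) ^ 2 := by
        have h3 := congrArg Subtype.val hxy
        simpa using h3
      have h0 : ((x : F) - (y : F)) ^ 2 = 0 := by
        linear_combination hxy' + ((y : F) ^ 2 - (x : F) * (y : F)) * h2
      exact Subtype.ext (sub_eq_zero.1 ((pow_eq_zero_iff two_ne_zero).1 h0))
    obtain ⟨s, hs⟩ := Finite.surjective_of_injective hinj ⟨l, hl⟩
    refine ⟨s.1, s.2, ?_⟩
    have h3 := congrArg Subtype.val hs
    simpa using h3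
  by_cases hs0 : s = 0
  · have hl0 : l = 0 := by rw [← hsl, hs0]; ring
    rw [hl0, zero_mul]
    exact inL_of_mem D F₀.zero_mem
  · have hv : RatV F₀ (s • (Pi.single (Sum.inl 0) 1 : Fin 2 ⊕ Fin 2 → F)) :=
      ratV_smul hs (ratV_single F₀ _ F₀.one_mem)
    have hv0 : s • (Pi.single (Sum.inl 0) 1 : Fin 2 ⊕ Fin 2 → F) ≠ 0 :=
      smul_ne_zero hs0 (single_ne_zero' _)
    have h := act_of_inL D hc hv hv0
    have h' := h.congr (fun x => hs_smul_left hb s _ 0 c x)
    exact act_hs_eq h' (smul_zero s) (by rw [hsl, mul_comm])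

end Cfsg.Agent.Lib.Helper97.Sp4E
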