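import Mathlib
import Cfsg.Prelude.Def_GeometricClasses
import Cfsg.Agent.Lib.Helper97.Sp4EDefs
import Cfsg.Agent.Lib.Helper97.Sp4ELong

/-!
# SP4E piece ALLB (for S5789): if every field element is a long root parameter, every vector is
a transvection centre
-/

set_option autoImplicit false

namespace Cfsg.Agent.Lib.Helper97.Sp4E

open Matrix Cfsg.Agent.Lib.Helper97 Cfsg.Agent.Lib.Helper50

variable {F : Type*} [Field F]

local notation "sf" => Cfsg.sympForm 2 F

theorem inS_all_of_inL [Fintype F] (h2 : (2 : F) = 0) {F₀ : Subfield F}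
    {M : Subgroup (GL (Fin 2 ⊕ Fin 2) F)} (D : SubfData sf F₀ M) (hall : ∀ c : F, InL M c) :
    ∀ v : Fin 2 ⊕ Fin 2 → F, InS sf M v := by
  have hf := sympForm_symp (F := F) 2
  have hb := hf.bilinear
  have hsingle : ∀ k : Fin 2 ⊕ Fin 2, InS sf M (Pi.single k 1) := by
    intro k
    apply InS_of_Act hf
    intro c
    exact (act_of_inL D (hall c) (ratV_single F₀ k F₀.one_mem) (single_ne_zero' k)).congr
      (hs_tv hb _ _)
  have hallK : ∀ c : F, InK M c := by
    intro c k l hkl
    have hyw : sf (Pi.single l 1) (Pi.single k 1) = 0 := sympForm_single_ne (Ne.symm hkl)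
    have hwy : sf (Pi.single k 1) (Pi.single l 1) = 0 := sympForm_single_ne hkl
    have hsum_rat : RatV F₀ (Pi.single l 1 + Pi.single k 1 : Fin 2 ⊕ Fin 2 → F) :=
      ratV_add (ratV_single F₀ l F₀.one_mem) (ratV_single F₀ k F₀.one_mem)
    have hsum_ne : (Pi.single l 1 + Pi.single k 1 : Fin 2 ⊕ Fin 2 → F) ≠ 0 := by
      intro h
      have h1 := congrFun h k
      have hlk : k ≠ l := fun e => hkl (by rw [e])
      rw [Pi.add_apply, Pi.single_eq_of_ne hlk, Pi.single_eq_same, zero_add, Pi.zero_apply] at h1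
      exact one_ne_zero h1
    have h1 : Act M (hs sf (Pi.single l 1 + Pi.single k 1) 0 c) :=
      act_of_inL D (hall c) hsum_rat hsum_ne
    have h2' : Act M (hs sf (Pi.single l 1) 0 c) :=
      act_of_inL D (hall c) (ratV_single F₀ l F₀.one_mem) (single_ne_zero' l)
    have h3 : Act M (hs sf (Pi.single k 1) 0 c) :=
      act_of_inL D (hall c) (ratV_single F₀ k F₀.one_mem) (single_ne_zero' k)
    have hy0 : sf (Pi.single l 1) (0 : Fin 2 ⊕ Fin 2 → F) = 0 := form_zero_right hb _
    have hw0 : sf (Pi.single k 1) (0 : Fin 2 ⊕ Fin 2 → F) = 0 := form_zero_right hb _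
    have h4 : Act M (hs sf (Pi.single l 1) (-0) (-c)) := act_hs_inv hf hy0 h2'
    have h5 : Act M (hs sf (Pi.single k 1) (c • Pi.single l 1) c) := by
      refine (h1.comp h4).congr (fun x => ?_)
      show hs sf (Pi.single l 1 + Pi.single k 1) 0 c (hs sf (Pi.single l 1) (-0) (-c) x) =
        hs sf (Pi.single k 1) (c • Pi.single l 1) c x
      rw [hs_tv_add hf hyw c, hs_inv hf hy0 c x]
    have hwcy : sf (Pi.single k 1) (c • (Pi.single l 1 : Fin 2 ⊕ Fin 2 → F)) = 0 := by
      rw [hb.smul_right, hwy, mul_zero]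
    have h6 := act_hs_mul hf hwcy hw0 h5 h3
    refine act_hs_eq h6 (add_zero _) ?_
    rw [form_zero_left hb, add_zero, ← two_mul, h2, zero_mul]
  exact inS_all_of D hsingle hallK

end Cfsg.Agent.Lib.Helper97.Sp4E
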