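import Mathlib
import Cfsg.Prelude.Def_GeometricClasses
import Cfsg.Agent.Lib.Helper50.SpHeis

/-!
# SP4E piece CRHO (for S5789): from products of two commuting transvections to transvections
(characteristic two)
-/

set_option autoImplicit false

namespace Cfsg.Agent.Lib.Helper97.Sp4E

open Matrix Cfsg.Agent.Lib.Helper97 Cfsg.Agent.Lib.Helper50

variable {ι : Type} [Fintype ι] [DecidableEq ι] {F : Type*} [Field F]

theorem inS_of_tau {f : (ι → F) → (ι → F) → F} (hf : Cfsg.Geo.IsSymplecticForm f)
    (h2 : (2 : F) = 0) (M : Subgroup (GL ι F))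
    (hMf : ∀ g ∈ M, ∀ x y : ι → F,
      f ((g : Matrix ι ι F) *ᵥ x) ((g : Matrix ι ι F) *ᵥ y) = f x y)
    {u w : ι → F} (huw : f u w = 0) (κ : F)
    (hτ : ∀ c : F, Act M (fun x => x + (c * κ * f x u) • u + (c * f x w) • w))
    (he : ∀ α : F, ∃ e ∈ M, (e : Matrix ι ι F) *ᵥ u = u ∧ (e : Matrix ι ι F) *ᵥ w = w + α • u)
    (t : F) (ht0 : t ≠ 0) (ht1 : t ≠ 1) : InS f M u := by
  have hb := hf.bilinear
  have hwu : f w u = 0 := by rw [hf.skew, huw, neg_zero]
  have huu : f u u = 0 := hf.alternating u
  have hww : f w w = 0 := hf.alternating w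
  -- step 1: the commutator-type product is a Heisenberg element
  have h1 : ∀ c α : F, Act M (hs f u ((c * α) • w) (c * α ^ 2)) := by
    intro c α
    obtain ⟨e, heM, heu, hew⟩ := he α
    have hconj := Act.conj heM (hτ c)
    refine (hconj.comp (hτ c)).congr (fun x => ?_)
    have key : ∀ x z : ι → F,
        f (((e⁻¹ : GL ι F) : Matrix ι ι F) *ᵥ x) z = f x ((e : Matrix ι ι F) *ᵥ z) := by
      intro x z
      rw [← hMf e heM (((e⁻¹ : GL ι F) : Matrix ι ι F) *ᵥ x) z, gl_mulVec_inv]
    set a : F := f x u with ha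
    set b : F := f x w with hbdef
    set x' : ι → F := x + (c * κ * a) • u + (c * b) • w with hx'
    have hfu : f x' u = a := by
      rw [hx', hb.add_left, hb.add_left, hb.smul_left, hb.smul_left, huu, hwu, mul_zero, mul_zero,
        add_zero, add_zero]
    have hfw : f x' w = b := by
      rw [hx', hb.add_left, hb.add_left, hb.smul_left, hb.smul_left, huw, hww, mul_zero, mul_zero,
        add_zero, add_zero]
    rw [key, key, Matrix.mulVec_add, Matrix.mulVec_add, Matrix.mulVec_smul, Matrix.mulVec_smul,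
      gl_mulVec_inv, heu, hew, hs_apply, hfu, hb.add_right, hb.smul_right, hfw, hfu,
      hb.smul_right, ← hbdef, ← ha]
    have hmod : x' + (c * κ * a) • u + (c * (b + α * a)) • (w + α • u)
        = x + (c * α * b) • u + a • (c * α) • w + (c * α ^ 2 * a) • u
          + (2 : F) • ((c * κ * a) • u + (c * b) • w) := by
      rw [hx']
      module
    rw [hmod, h2, zero_smul, add_zero]
  -- step 2: products give transvections
  have ht : t + t ^ 2 ≠ 0 := by
    have h3 : t + t ^ 2 = t * (t - 1) := by linear_combination t * h2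
    rw [h3]
    exact mul_ne_zero ht0 (sub_ne_zero.mpr ht1)
  refine InS_of_Act hf (fun c => ?_)
  set s : F := c / (t + t ^ 2) with hs_def
  have hA := h1 (s * t) 1
  have hB := h1 s t
  have huy : f u ((s * t) • w) = 0 := by rw [hb.smul_right, huw, mul_zero]
  have huy1 : f u ((s * t * 1) • w) = 0 := by rw [hb.smul_right, huw, mul_zero]
  have hAB := act_hs_mul hf huy1 huy hA hB
  refine hAB.congr (fun x => ?_)
  have hy0 : (s * t * 1) • w + (s * t) • w = 0 := by
    have : (s * t * 1) • w + (s * t) • w = (2 : F) • ((s * t) • w) := by module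
    rw [this, h2, zero_smul]
  have hc0 : s * t * 1 ^ 2 + s * t ^ 2 + f ((s * t) • w) ((s * t * 1) • w) = c := by
    rw [hb.smul_left, hb.smul_right, hww]
    have hsc : s * (t + t ^ 2) = c := by rw [hs_def, div_mul_cancel₀ _ ht]
    linear_combination hsc
  rw [hy0, hc0, hs_tv hb]

end Cfsg.Agent.Lib.Helper97.Sp4E
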