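import Mathlib
import Cfsg.Prelude.Def_GeometricClasses
import Cfsg.Agent.Lib.Helper71.SpK1
import Cfsg.Agent.Lib.Helper50.SpHeis

/-!
# SP4E piece CTAU (for S5789): conjugates of `L`-transvections by an element fixing `u`
-/

set_option autoImplicit false

namespace Cfsg.Agent.Lib.Helper97.Sp4E

open Matrix Cfsg.Agent.Lib.Helper97 Cfsg.Agent.Lib.Helper50 Cfsg.Agent.Lib.Helper71.SpK

variable {ι : Type} [Fintype ι] [DecidableEq ι] {F : Type*} [Field F]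

theorem act_tau {f : (ι → F) → (ι → F) → F} {L : Type*} [Field L] [Algebra F L] (S : KS f L)
    (M : Subgroup (GL ι F)) (hNM : S.NG ≤ M)
    (hMf : ∀ g ∈ M, ∀ x y : ι → F,
      f ((g : Matrix ι ι F) *ᵥ x) ((g : Matrix ι ι F) *ᵥ y) = f x y)
    {lam a₀ : L} {κ : F}
    (hid : ∀ z : L, a₀ * z = algebraMap F L (κ * S.β z) + algebraMap F L (S.β (lam * z)) * lam)
    {u : ι → F} {g : GL ι F} (hg : g ∈ M) (hgu : (g : Matrix ι ι F) *ᵥ u = u) (c : F) :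
    Act M (fun x => x + (c * κ * f x u) • u +
      (c * f x ((g : Matrix ι ι F) *ᵥ (S.φ lam *ᵥ u))) • ((g : Matrix ι ι F) *ᵥ (S.φ lam *ᵥ u))) := by
  refine ⟨g * S.T u (algebraMap F L c * a₀) * g⁻¹,
    M.mul_mem (M.mul_mem hg (hNM (S.T_mem_NG u _))) (M.inv_mem hg), fun x => ?_⟩
  have hx : (g : Matrix ι ι F) *ᵥ (((g⁻¹ : GL ι F) : Matrix ι ι F) *ᵥ x) = x := by
    rw [Matrix.mulVec_mulVec, ← Units.val_mul, mul_inv_cancel, Units.val_one, Matrix.one_mulVec]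
  have h1 : f (((g⁻¹ : GL ι F) : Matrix ι ι F) *ᵥ x) u = f x u := by
    have h := hMf g hg (((g⁻¹ : GL ι F) : Matrix ι ι F) *ᵥ x) u
    rw [hx, hgu] at h
    exact h.symm
  have h2 : f (((g⁻¹ : GL ι F) : Matrix ι ι F) *ᵥ x) (S.φ lam *ᵥ u) =
      f x ((g : Matrix ι ι F) *ᵥ (S.φ lam *ᵥ u)) := by
    have h := hMf g hg (((g⁻¹ : GL ι F) : Matrix ι ι F) *ᵥ x) (S.φ lam *ᵥ u)
    rw [hx] at h
    exact h.symm
  have h3 : S.φ ((algebraMap F L c * a₀) * S.B (((g⁻¹ : GL ι F) : Matrix ι ι F) *ᵥ x) u) *ᵥ u =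
      (c * κ * f x u) • u +
        (c * f x ((g : Matrix ι ι F) *ᵥ (S.φ lam *ᵥ u))) • (S.φ lam *ᵥ u) := by
    rw [mul_assoc, hid, S.φ_mul_mulVec, S.φ_algebraMap_mulVec, S.φ_add_mulVec,
      S.φ_algebraMap_mulVec, S.φ_mul_mulVec, S.φ_algebraMap_mulVec, S.β_B, h1,
      ← S.f_act_right lam, h2, smul_add, smul_smul, smul_smul, mul_assoc]
  rw [Units.val_mul, Units.val_mul, ← Matrix.mulVec_mulVec, ← Matrix.mulVec_mulVec, S.T_mulVec,
    h3, Matrix.mulVec_add, Matrix.mulVec_add, Matrix.mulVec_smul, Matrix.mulVec_smul, hx, hgu]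
  exact (add_assoc _ _ _).symm

end Cfsg.Agent.Lib.Helper97.Sp4E
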