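import Mathlib
import Cfsg.Prelude.Def_GeometricClasses
import Cfsg.Agent.Lib.Helper71.SpK1
import Cfsg.Agent.Lib.Helper50.SpHeis

/-!
# SP4E piece CW2 (for S5789): the image of `λ u` under an element fixing `u` and moving its
`L`-line is not `B`-orthogonal to `u` (dimension four, quadratic extension)
-/

set_option autoImplicit false

namespace Cfsg.Agent.Lib.Helper97.Sp4E

open Matrix Cfsg.Agent.Lib.Helper97 Cfsg.Agent.Lib.Helper50 Cfsg.Agent.Lib.Helper71.SpK

variable {ι : Type} [Fintype ι] [DecidableEq ι] {F : Type*} [Field F]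

theorem B_w2_ne {f : (ι → F) → (ι → F) → F} {L : Type*} [Field L] [Algebra F L] (S : KS f L)
    (hf : Cfsg.Geo.IsSymplecticForm f) (hcard : Fintype.card ι = 4)
    (hrank : Module.finrank F L = 2) {lam : L}
    (hspan : ∀ l : L, ∃ x y : F, l = algebraMap F L x + algebraMap F L y * lam)
    {u : ι → F} (hu : u ≠ 0) {g : GL ι F} (hgu : (g : Matrix ι ι F) *ᵥ u = u)
    (hne : gim (S.line u) g ≠ S.line u) :
    S.B ((g : Matrix ι ι F) *ᵥ (S.φ lam *ᵥ u)) u ≠ 0 := by
  intro hB
  let Bu : (ι → F) →ₗ[F] L :=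
    { toFun := fun x => S.B x u
      map_add' := fun x y => S.B_add x y u
      map_smul' := fun c x => by
        rw [S.B_smul_left, RingHom.id_apply, Algebra.smul_def] }
  have hBu : ∀ x, Bu x = S.B x u := fun x => rfl
  have hsurj : Function.Surjective Bu := by
    obtain ⟨x₀, hx₀⟩ := S.B_nondeg hf hu
    intro l
    refine ⟨S.φ (l * (S.B x₀ u)⁻¹) *ᵥ x₀, ?_⟩
    rw [hBu, S.B_act, mul_assoc, inv_mul_cancel₀ hx₀, mul_one]
  have hFD : FiniteDimensional F L := Module.finite_of_finrank_pos (by rw [hrank]; norm_num)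
  have hker : Module.finrank F (LinearMap.ker Bu) = 2 := by
    have h1 := LinearMap.finrank_range_add_finrank_ker Bu
    rw [LinearMap.range_eq_top.mpr hsurj, finrank_top, hrank, Module.finrank_fintype_fun_eq_card,
      hcard] at h1
    omega
  have hle : S.line u ≤ LinearMap.ker Bu := by
    intro y hy
    rw [LinearMap.mem_ker, hBu]
    exact S.B_line hy
  have heq : S.line u = LinearMap.ker Bu :=
    Submodule.eq_of_le_of_finrank_eq hle (by rw [S.finrank_line hu, hrank, hker])
  have hw2 : (g : Matrix ι ι F) *ᵥ (S.φ lam *ᵥ u) ∈ S.line u := by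
    rw [heq, LinearMap.mem_ker, hBu]
    exact hB
  have hsub : gim (S.line u) g ≤ S.line u := by
    intro y hy
    obtain ⟨w, hw, rfl⟩ := mem_gim'.mp hy
    obtain ⟨l, rfl⟩ := S.mem_line.mp hw
    obtain ⟨x, y', hl⟩ := hspan l
    rw [hl, S.φ_add_mulVec, S.φ_algebraMap_mulVec, S.φ_mul_mulVec, S.φ_algebraMap_mulVec,
      Matrix.mulVec_add, Matrix.mulVec_smul, Matrix.mulVec_smul, hgu]
    exact (S.line u).add_mem ((S.line u).smul_mem x (S.self_mem_line u))
      ((S.line u).smul_mem y' hw2)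
  exact hne (Submodule.eq_of_le_of_finrank_eq hsub (finrank_gim _ _))

end Cfsg.Agent.Lib.Helper97.Sp4E
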