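import Mathlib
import Cfsg.Prelude.Def_GeometricClasses
import Cfsg.Agent.Lib.Helper97.SpOver2
import Cfsg.Agent.Lib.Helper71.SpKMain
import Cfsg.Agent.Lib.Helper94.SpJ13
import Cfsg.Agent.Lib.Helper97.Sp4ECField
import Cfsg.Agent.Lib.Helper97.Sp4ECW2
import Cfsg.Agent.Lib.Helper97.Sp4ECTau
import Cfsg.Agent.Lib.Helper97.Sp4ECRho

/-!
# Normalisers of quadratic extension fields in `Sp_4(q)`, `q` even, are maximal (helper97, S5789)

Assembly of the SP4E pieces CFIELD, CW2, CTAU, CRHO on top of helper71's abstract setting `KS`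
and helper94's `exists_KS`: an overgroup `M` of the `L`-linear isometries containing an element
outside the normaliser contains an element `g₀` fixing a vector `u` and moving its `L`-line;
conjugating the `L`-transvections at `u` by `g₀` gives products of two commuting transvections,
and commutators with `L`-transvections give all transvections with centre `u`.
-/

set_option autoImplicit false

namespace Cfsg.Agent.Lib.Helper97.Sp4E

open Matrix Cfsg.Agent.Lib.Helper97 Cfsg.Agent.Lib.Helper50 Cfsg.Agent.Lib.Helper71.SpK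

theorem c3_max {F : Type*} [Field F] [Fintype F] (h2 : (2 : F) = 0) (t : F) (ht0 : t ≠ 0)
    (ht1 : t ≠ 1) (K : Subalgebra F (Matrix (Fin 2 ⊕ Fin 2) (Fin 2 ⊕ Fin 2) F))
    (hK : Cfsg.Geo.IsFieldSubalgebra 2 K)
    (halt : ∀ k ∈ K, ∀ v : (Fin 2 ⊕ Fin 2 → F), Cfsg.sympForm 2 F (Matrix.mulVec k v) v = 0) :
    Cfsg.Geo.IsMaximalIn (Cfsg.spGL 2 F) (Cfsg.Geo.subalgebraNormalizer K ⊓ Cfsg.spGL 2 F) := by
  have hf := Cfsg.Agent.Lib.Helper97.sympForm_symp (F := F) 2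
  have : Nonempty (Fin 2 ⊕ Fin 2) := ⟨Sum.inl 0⟩
  obtain ⟨L, instL, instA, instFD, S, hrange, hrank⟩ :=
    Cfsg.Agent.Lib.Helper94.SpJ13.exists_KS hf K hK halt
  have hcard : Fintype.card (Fin 2 ⊕ Fin 2) = 4 := by
    rw [Fintype.card_sum, Fintype.card_fin]
  constructor
  · refine lt_of_le_of_ne inf_le_right ?_
    intro heq
    obtain ⟨g, hgiso, hgN⟩ :=
      Cfsg.Agent.Lib.Helper94.SpJ13.exists_iso_not_normalizer hf (le_refl 2) K hK halt
        (by rw [hcard]; norm_num)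
    have hg : g ∈ Cfsg.spGL 2 F := (Cfsg.Agent.Lib.Helper97.mem_spGL_iff 2 g).mpr hgiso
    rw [← heq] at hg
    exact hgN (Subgroup.mem_inf.mp hg).1
  · intro M hNM hMle
    by_cases hMN : M = Cfsg.Geo.subalgebraNormalizer K ⊓ Cfsg.spGL 2 F
    · exact Or.inl hMN
    · right
      apply le_antisymm hMle
      apply Cfsg.Agent.Lib.Helper97.spGL_le_of_InS
      have hex : ∃ h ∈ M, h ∉ Cfsg.Geo.subalgebraNormalizer K := by
        by_contra hcon
        push Not at hcon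
        exact hMN (le_antisymm (fun g hg => Subgroup.mem_inf.mpr ⟨hcon g hg, hMle hg⟩) hNM)
      obtain ⟨h, hhM, hhN⟩ := hex
      have hMf : ∀ g ∈ M, ∀ x y : Fin 2 ⊕ Fin 2 → F,
          Cfsg.sympForm 2 F ((g : Matrix (Fin 2 ⊕ Fin 2) (Fin 2 ⊕ Fin 2) F).mulVec x)
            ((g : Matrix (Fin 2 ⊕ Fin 2) (Fin 2 ⊕ Fin 2) F).mulVec y) = Cfsg.sympForm 2 F x y :=
        fun g hg => (Cfsg.Agent.Lib.Helper97.mem_spGL_iff 2 g).mp (hMle hg)
      have hNG : S.NG ≤ M := by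
        intro g hg
        apply hNM
        refine Subgroup.mem_inf.mpr ⟨?_, (Cfsg.Agent.Lib.Helper97.mem_spGL_iff 2 g).mpr (S.NG_f hg)⟩
        rw [← hrange]
        exact S.NG_le_normalizer hg
      obtain ⟨u, g₀, hu, hg₀M, hg₀u, hg₀ne⟩ :=
        S.exists_fix_moved hf M hNG h hhM (by rw [hrange]; exact hhN)
      obtain ⟨lam, a₀, κ, hκ, hspan, hid⟩ := exists_lam hrank S.β
      have hb := B_w2_ne S hf hcard hrank hspan hu hg₀u hg₀ne
      obtain ⟨w2, hw2⟩ : ∃ w2 : Fin 2 ⊕ Fin 2 → F,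
          w2 = (g₀ : Matrix (Fin 2 ⊕ Fin 2) (Fin 2 ⊕ Fin 2) F) *ᵥ (S.φ lam *ᵥ u) := ⟨_, rfl⟩
      rw [← hw2] at hb
      have huw : Cfsg.sympForm 2 F u w2 = 0 := by
        have h1 := hMf g₀ hg₀M u (S.φ lam *ᵥ u)
        rw [hg₀u, ← hw2] at h1
        rw [h1, S.f_act_right, S.B_self, mul_zero, map_zero]
      have hτ : ∀ c : F, Act M (fun x => x + (c * κ * Cfsg.sympForm 2 F x u) • u +
          (c * Cfsg.sympForm 2 F x w2) • w2) := by
        intro c
        have h1 := act_tau S M hNG hMf hid hg₀M hg₀u c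
        rw [← hw2] at h1
        exact h1
      have he : ∀ α : F, ∃ e ∈ M,
          (e : Matrix (Fin 2 ⊕ Fin 2) (Fin 2 ⊕ Fin 2) F) *ᵥ u = u ∧
          (e : Matrix (Fin 2 ⊕ Fin 2) (Fin 2 ⊕ Fin 2) F) *ᵥ w2 = w2 + α • u := by
        intro α
        refine ⟨S.T u (algebraMap F L α * (S.B w2 u)⁻¹), hNG (S.T_mem_NG _ _), ?_, ?_⟩
        · rw [S.T_mulVec, S.B_self, mul_zero, S.φ_zero_mulVec, add_zero]
        · rw [S.T_mulVec, mul_assoc, inv_mul_cancel₀ hb, mul_one, S.φ_algebraMap_mulVec]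
      have hInS := inS_of_tau hf h2 M hMf huw κ hτ he t ht0 ht1
      exact S.InS_all hf M hNG hu hInS

end Cfsg.Agent.Lib.Helper97.Sp4E
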