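import Mathlib
import Cfsg.Prelude.Def_GeometricClasses
import Cfsg.Agent.Lib.Helper97.Sp4EDefs
import Cfsg.Agent.Lib.Helper97.Sp4ELong

/-!
# SP4E piece GK2 (for S5789): Heisenberg elements at a rational point with one-dimensional part
-/

set_option autoImplicit false

namespace Cfsg.Agent.Lib.Helper97.Sp4E

open Matrix Cfsg.Agent.Lib.Helper97 Cfsg.Agent.Lib.Helper50

variable {F : Type*} [Field F]

local notation "sf" => Cfsg.sympForm 2 F

theorem gk2 (h2 : (2 : F) = 0) {F₀ : Subfield F} {M : Subgroup (GL (Fin 2 ⊕ Fin 2) F)}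
    (D : SubfData sf F₀ M) (hA : ∀ c : F, InL M c → c ∈ F₀)
    {u v v' : Fin 2 ⊕ Fin 2 → F} (hu : RatV F₀ u) (hv : RatV F₀ v) (hv' : RatV F₀ v')
    (hu0 : u ≠ 0) (huv : sf u v = 0) (huv' : sf u v' = 0) (hvv' : sf v v' = 1) {x y : F}
    (h : Act M (hs sf u (y • v) x)) : x + y ^ 2 ∈ F₀ := by
  have hf := sympForm_symp (F := F) 2
  have hb := hf.bilinear
  have h1 : (1 : F) + 1 = 0 := by rw [one_add_one_eq_two]; exact h2
  have hv'v : sf v' v = 1 := by
    rw [hf.skew, hvv']
    linear_combination (-1 : F) * h2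
  have hyy : ∀ z : Fin 2 ⊕ Fin 2 → F, z + z = 0 := by
    intro z
    rw [← two_smul F z, h2, zero_smul]
  -- the two rational transvections
  have ht1 : Act M (hs sf v' 0 1) :=
    act_hs_rat hf D hv' (ratV_zero F₀) F₀.one_mem (form_zero_right hb v')
  have ht2 : Act M (hs sf (v + v') 0 1) :=
    act_hs_rat hf D (ratV_add hv hv') (ratV_zero F₀) F₀.one_mem (form_zero_right hb (v + v'))
  -- their action on u and y • v
  have e1u : hs sf v' 0 1 u = u := by
    rw [hs_tv hb, huv', mul_zero, zero_smul, add_zero]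
  have e1v : hs sf v' 0 1 (y • v) = y • (v + v') := by
    rw [hs_tv hb, hb.smul_left, hvv']
    module
  have e2u : hs sf (v + v') 0 1 u = u := by
    rw [hs_tv hb, hb.add_right, huv, huv', add_zero, mul_zero, zero_smul, add_zero]
  have e2v : hs sf (v + v') 0 1 (y • v) = y • v' := by
    rw [hs_tv hb, hb.smul_left, hb.add_right, hf.alternating v, hvv', zero_add, mul_one, one_mul,
      smul_add]
    have := hyy (y • v)
    calc y • v + (y • v + y • v') = (y • v + y • v) + y • v' := by abel
      _ = y • v' := by rw [this, zero_add]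
  have hZ1 : Act M (hs sf u (y • (v + v')) x) := by
    have := act_hs_conj D.iso ht1 h
    rwa [e1u, e1v] at this
  have hZ2 : Act M (hs sf u (y • v') x) := by
    have := act_hs_conj D.iso ht2 h
    rwa [e2u, e2v] at this
  have hu1 : sf u (y • v) = 0 := by rw [hb.smul_right, huv, mul_zero]
  have hu2 : sf u (y • (v + v')) = 0 := by
    rw [hb.smul_right, hb.add_right, huv, huv', add_zero, mul_zero]
  have hu3 : sf u (y • v') = 0 := by rw [hb.smul_right, huv', mul_zero]
  have hW : Act M (hs sf u (y • v') (y ^ 2)) := by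
    have h3 := act_hs_mul hf hu1 hu2 h hZ1
    refine act_hs_eq h3 ?_ ?_
    · rw [smul_add]
      have := hyy (y • v)
      calc y • v + (y • v + y • v') = (y • v + y • v) + y • v' := by abel
        _ = y • v' := by rw [this, zero_add]
    · rw [hb.smul_left, hb.smul_right, hb.add_left, hf.alternating v, hv'v]
      linear_combination x * h2
  have hfin : Act M (hs sf u 0 (x + y ^ 2)) := by
    have h3 := act_hs_mul hf hu3 hu3 hW hZ2
    refine act_hs_eq h3 (hyy _) ?_
    rw [hf.alternating]
    ring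
  exact hA _ (inL_of_act D hu hu0 hfin)

end Cfsg.Agent.Lib.Helper97.Sp4E
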