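import Mathlib
import Cfsg.Prelude.Def_GeometricClasses
import Cfsg.Agent.Lib.Helper97.Sp4EDefs
import Cfsg.Agent.Lib.Helper97.Sp4ELong
import Cfsg.Agent.Lib.Helper97.Sp4EGK2

/-!
# SP4E piece GSUB (for S5789): a transvection of `M` with centre `p u + q v`
-/

set_option autoImplicit false

namespace Cfsg.Agent.Lib.Helper97.Sp4E

open Matrix Cfsg.Agent.Lib.Helper97 Cfsg.Agent.Lib.Helper50

variable {F : Type*} [Field F]

local notation "sf" => Cfsg.sympForm 2 F

theorem gsubi (h2 : (2 : F) = 0) {F₀ : Subfield F} {M : Subgroup (GL (Fin 2 ⊕ Fin 2) F)}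
    (D : SubfData sf F₀ M) (hsq : ∀ c : F, c ^ 2 ∈ F₀ → c ∈ F₀)
    (hA : ∀ c : F, InL M c → c ∈ F₀)
    {u v v' : Fin 2 ⊕ Fin 2 → F} (hu : RatV F₀ u) (hv : RatV F₀ v) (hv' : RatV F₀ v')
    (hu0 : u ≠ 0) (huv : sf u v = 0) (huv' : sf u v' = 0) (hvv' : sf v v' = 1) {p q : F}
    (h : Act M (hs sf (p • u + q • v) 0 1)) : q ^ 2 + q ∈ F₀ := by
  have hf := sympForm_symp (F := F) 2
  have hb := hf.bilinear
  have hvu : sf v u = 0 := by rw [hf.skew, huv, neg_zero]
  -- the rational Heisenberg element `ψ = hs sf u v' 0` lies in `M`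
  have hψ : Act M (hs sf u v' 0) := act_hs_rat hf D hu hv' F₀.zero_mem huv'
  have h1 := act_hs_conj D.iso hψ h
  have e1 : hs sf u v' 0 (p • u + q • v) = (p • u + q • v) + q • u := by
    rw [hs_apply]
    simp only [hb.add_left, hb.smul_left, huv', hvv', hf.alternating u, hvu]
    module
  have e0 : hs sf u v' 0 (0 : Fin 2 ⊕ Fin 2 → F) = 0 := hs_apply_zero hb _ _ _
  rw [e1, e0] at h1
  have ha0 : sf (p • u + q • v) 0 = 0 := form_zero_right hb _
  have hau : sf (p • u + q • v) (q • u) = 0 := by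
    rw [hb.add_left, hb.smul_left, hb.smul_left, hb.smul_right, hb.smul_right,
      hf.alternating u, hvu]
    ring
  have h3 : Act M (hs sf (q • u) ((1 : F) • (p • u + q • v)) 1) := by
    refine (h1.comp (act_hs_inv hf ha0 h)).congr (fun x => ?_)
    rw [hs_tv_add hf hau 1, hs_inv hf ha0]
  have h4 : Act M (hs sf u ((q ^ 2) • v) (q ^ 2)) := by
    refine h3.congr (fun x => ?_)
    rw [hs_smul_left hb]
    have e : q • ((1 : F) • (p • u + q • v)) = (q ^ 2) • v + (q * p) • u := by module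
    rw [e, hs_add_self hf, h2, zero_mul, add_zero, one_mul]
  have h5 := gk2 h2 D hA hu hv hv' hu0 huv huv' hvv' h4
  apply hsq
  have e : (q ^ 2 + q) ^ 2 = q ^ 2 + (q ^ 2) ^ 2 := by linear_combination (q ^ 3) * h2
  rw [e]
  exact h5

end Cfsg.Agent.Lib.Helper97.Sp4E
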