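import Mathlib
import Cfsg.Prelude.Def_GeometricClasses
import Cfsg.Agent.Lib.Helper97.Sp4EDefs
import Cfsg.Agent.Lib.Helper97.Sp4ELong
import Cfsg.Agent.Lib.Helper97.Sp4EGSub

/-!
# SP4E piece CHAINE (for S5789): the `f₂`-coordinate of a transvection centre in `e₁^⊥`
-/

set_option autoImplicit false

namespace Cfsg.Agent.Lib.Helper97.Sp4E

open Matrix Cfsg.Agent.Lib.Helper97 Cfsg.Agent.Lib.Helper50

variable {F : Type*} [Field F]

local notation "sf" => Cfsg.sympForm 2 F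

theorem chainE (h2 : (2 : F) = 0) {F₀ : Subfield F} {M : Subgroup (GL (Fin 2 ⊕ Fin 2) F)}
    (D : SubfData sf F₀ M) (hsq : ∀ c : F, c ^ 2 ∈ F₀ → c ∈ F₀)
    (hA : ∀ c : F, InL M c → c ∈ F₀) {a : Fin 2 ⊕ Fin 2 → F}
    (ha : sf a (Pi.single (Sum.inl 0) 1) = 0) (h : Act M (hs sf a 0 1)) (l : F) (hl : l ∈ F₀) :
    (l * a (Sum.inr 1) ^ 2) ^ 2 + l * a (Sum.inr 1) ^ 2 ∈ F₀ := by
  have hf := sympForm_symp (F := F) 2
  have hb := hf.bilinear
  obtain ⟨γ, hγ⟩ : ∃ γ : F, γ = a (Sum.inr 1) := ⟨_, rfl⟩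
  rw [← hγ]
  obtain ⟨c, hc⟩ : ∃ c : F, c = l * γ := ⟨_, rfl⟩
  obtain ⟨μ, hμ⟩ : ∃ μ : F, μ = l * γ ^ 2 := ⟨_, rfl⟩
  rw [← hμ]
  obtain ⟨e1, he1⟩ : ∃ e1 : Fin 2 ⊕ Fin 2 → F, e1 = Pi.single (Sum.inl 0) 1 := ⟨_, rfl⟩
  obtain ⟨e2, he2⟩ : ∃ e2 : Fin 2 ⊕ Fin 2 → F, e2 = Pi.single (Sum.inl 1) 1 := ⟨_, rfl⟩
  obtain ⟨f1, hf1⟩ : ∃ f1 : Fin 2 ⊕ Fin 2 → F, f1 = Pi.single (Sum.inr 0) 1 := ⟨_, rfl⟩
  rw [← he1] at ha
  -- characteristic two
  have hneg : (-1 : F) = 1 := by linear_combination (-1 : F) * h2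
  have hvv : ∀ x : Fin 2 ⊕ Fin 2 → F, x + x = 0 := fun x => by
    rw [← two_smul F x, h2, zero_smul]
  -- rationality
  have re1 : RatV F₀ e1 := by rw [he1]; exact ratV_single F₀ _ F₀.one_mem
  have re2 : RatV F₀ e2 := by rw [he2]; exact ratV_single F₀ _ F₀.one_mem
  have rf1 : RatV F₀ f1 := by rw [hf1]; exact ratV_single F₀ _ F₀.one_mem
  have e2ne : e2 ≠ 0 := by rw [he2]; exact single_ne_zero' _
  -- form values
  have hae2 : sf a e2 = γ := by
    rw [he2, sympForm_single, hγ]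
    simp [stau, sbar]
  have he2a : sf e2 a = γ := by
    rw [hf.skew, hae2]
    linear_combination (-γ) * h2
  have he1a : sf e1 a = 0 := by rw [hf.skew, ha, neg_zero]
  have he1e2 : sf e1 e2 = 0 := by
    rw [he1, he2]
    exact sympForm_single_ne (by simp [sidx])
  have he2e1 : sf e2 e1 = 0 := by rw [hf.skew, he1e2, neg_zero]
  have he2f1 : sf e2 f1 = 0 := by
    rw [he2, hf1]
    exact sympForm_single_ne (by simp [sidx])
  have he1f1 : sf e1 f1 = 1 := by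
    rw [he1, hf1, sympForm_single]
    simp [stau, sbar, hneg]
  -- (R1)
  have hρ : Act M (hs sf e1 (l • e2) 0) :=
    act_hs_rat hf D re1 (ratV_smul hl re2) F₀.zero_mem (by rw [hb.smul_right, he1e2, mul_zero])
  have hρa : hs sf e1 (l • e2) 0 a = a + c • e1 := by
    rw [hs_apply, hb.smul_right, hae2, ha, hc]
    simp
  have hρ0 : hs sf e1 (l • e2) 0 0 = 0 := hs_apply_zero hb _ _ _
  have h1 : Act M (hs sf (a + c • e1) 0 1) := by
    have := act_hs_conj D.iso hρ h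
    rwa [hρa, hρ0] at this
  have ha0 : sf a 0 = 0 := form_zero_right hb a
  have hace1 : sf a (c • e1) = 0 := by rw [hb.smul_right, ha, mul_zero]
  have hE0 : Act M (hs sf (c • e1) ((1 : F) • a) 1) :=
    (h1.comp (act_hs_inv hf ha0 h)).congr (fun x => by
      rw [hs_tv_add hf hace1 1, hs_inv hf ha0 1 x])
  have hE : Act M (hs sf e1 (c • a) (c ^ 2)) :=
    act_hs_eq (hE0.congr (fun x => hs_smul_left hb c e1 ((1 : F) • a) 1 x))
      (by rw [one_smul]) (by rw [one_mul])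
  -- (STEP3)
  have ht2 : Act M (hs sf e2 0 1) :=
    act_hs_rat hf D re2 (ratV_zero F₀) F₀.one_mem (form_zero_right hb e2)
  have ht2e1 : hs sf e2 0 1 e1 = e1 := by
    rw [hs_tv hb, he1e2, mul_zero, zero_smul, add_zero]
  have ht2a : hs sf e2 0 1 (c • a) = c • a + (c * γ) • e2 := by
    rw [hs_tv hb, hb.smul_left, hae2, one_mul]
  have hE' : Act M (hs sf e1 (c • a + (c * γ) • e2) (c ^ 2)) := by
    have := act_hs_conj D.iso ht2 hE
    rwa [ht2e1, ht2a] at this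
  have hw1 : sf e1 (c • a) = 0 := by rw [hb.smul_right, he1a, mul_zero]
  have hw2 : sf e1 (c • a + (c * γ) • e2) = 0 := by
    rw [hb.add_right, hw1, hb.smul_right, he1e2, mul_zero, add_zero]
  have hEE : Act M (hs sf e1 (μ • e2) (μ ^ 2)) := by
    refine act_hs_eq (act_hs_mul hf hw1 hw2 hE hE') ?_ ?_
    · rw [← add_assoc, hvv, zero_add, hμ, hc]
      congr 1
      ring
    · rw [hb.add_left, hb.smul_left, hb.smul_right, hf.alternating, hb.smul_left, hb.smul_right,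
        he2a, hμ, hc]
      linear_combination (l ^ 2 * γ ^ 2) * h2
  -- (CONVERT)
  have hC0 : Act M (hs sf e1 (μ • ((1 : F) • e2)) (1 * μ ^ 2)) :=
    act_hs_eq hEE (by rw [one_smul]) (by rw [one_mul])
  have hC : Act M (hs sf (μ • e1) ((1 : F) • e2) 1) :=
    hC0.congr (fun x => (hs_smul_left hb μ e1 ((1 : F) • e2) 1 x).symm)
  have he2μ : sf e2 (μ • e1) = 0 := by rw [hb.smul_right, he2e1, mul_zero]
  have hfin : Act M (hs sf ((1 : F) • e2 + μ • e1) 0 1) := by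
    have e : (1 : F) • e2 + μ • e1 = e2 + μ • e1 := by rw [one_smul]
    refine (hC.comp ht2).congr (fun x => ?_)
    rw [e, hs_tv_add hf he2μ 1]
  exact gsubi h2 D hsq hA re2 re1 rf1 e2ne he2e1 he2f1 he1f1 hfin

end Cfsg.Agent.Lib.Helper97.Sp4E
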