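import Mathlib
import Cfsg.Prelude.Def_GeometricClasses
import Cfsg.Agent.Lib.Helper97.Sp4EDefs
import Cfsg.Agent.Lib.Helper97.Sp4ELong
import Cfsg.Agent.Lib.Helper97.Sp4EGSub

/-!
# SP4E piece CHAINF (for S5789): the `e₂`-coordinate of a transvection centre in `e₁^⊥`
-/

set_option autoImplicit false

namespace Cfsg.Agent.Lib.Helper97.Sp4E

open Matrix Cfsg.Agent.Lib.Helper97 Cfsg.Agent.Lib.Helper50

variable {F : Type*} [Field F]

local notation "sf" => Cfsg.sympForm 2 F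

theorem chainF (h2 : (2 : F) = 0) {F₀ : Subfield F} {M : Subgroup (GL (Fin 2 ⊕ Fin 2) F)}
    (D : SubfData sf F₀ M) (hsq : ∀ c : F, c ^ 2 ∈ F₀ → c ∈ F₀)
    (hA : ∀ c : F, InL M c → c ∈ F₀) {a : Fin 2 ⊕ Fin 2 → F}
    (ha : sf a (Pi.single (Sum.inl 0) 1) = 0) (h : Act M (hs sf a 0 1)) (l : F) (hl : l ∈ F₀) :
    (l * a (Sum.inl 1) ^ 2) ^ 2 + l * a (Sum.inl 1) ^ 2 ∈ F₀ := by
  have hf := sympForm_symp (F := F) 2
  have hb := hf.bilinear
  have hneg : ∀ z : F, -z = z := by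
    intro z
    linear_combination (-z) * h2
  -- the frame vectors
  obtain ⟨e1, he1⟩ : ∃ e1 : Fin 2 ⊕ Fin 2 → F, e1 = Pi.single (Sum.inl 0) 1 := ⟨_, rfl⟩
  obtain ⟨f1, hf1⟩ : ∃ f1 : Fin 2 ⊕ Fin 2 → F, f1 = Pi.single (Sum.inr 0) 1 := ⟨_, rfl⟩
  obtain ⟨f2, hf2⟩ : ∃ f2 : Fin 2 ⊕ Fin 2 → F, f2 = Pi.single (Sum.inr 1) 1 := ⟨_, rfl⟩
  rw [← he1] at ha
  have hE1 : RatV F₀ e1 := by rw [he1]; exact ratV_single F₀ (Sum.inl 0) F₀.one_mem
  have hF1 : RatV F₀ f1 := by rw [hf1]; exact ratV_single F₀ (Sum.inr 0) F₀.one_mem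
  have hF2 : RatV F₀ f2 := by rw [hf2]; exact ratV_single F₀ (Sum.inr 1) F₀.one_mem
  have hsf2 : ∀ x : Fin 2 ⊕ Fin 2 → F, sf x f2 = x (Sum.inl 1) := by
    intro x
    rw [hf2, sympForm_single]
    show (-1 : F) * x (Sum.inl 1) = x (Sum.inl 1)
    rw [neg_one_mul, hneg]
  have hsf2' : sf f2 a = a (Sum.inl 1) := by rw [hf.skew, hsf2, hneg]
  have he1f2 : sf e1 f2 = 0 := by
    rw [he1, hf2]
    exact sympForm_single_ne (show (0 : Fin 2) ≠ 1 by decide)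
  have hf2e1 : sf f2 e1 = 0 := by
    rw [he1, hf2]
    exact sympForm_single_ne (show (1 : Fin 2) ≠ 0 by decide)
  have hf2f1 : sf f2 f1 = 0 := by
    rw [hf1, hf2]
    exact sympForm_single_ne (show (1 : Fin 2) ≠ 0 by decide)
  have he1f1 : sf e1 f1 = 1 := by
    rw [hf1, sympForm_single, he1]
    show (-1 : F) * (Pi.single (Sum.inl 0) (1 : F) : Fin 2 ⊕ Fin 2 → F) (Sum.inl 0) = 1
    rw [Pi.single_eq_same, mul_one, hneg]
  have he1a : sf e1 a = 0 := by rw [hf.skew, ha, neg_zero]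
  have hf20 : f2 ≠ 0 := by rw [hf2]; exact single_ne_zero' (Sum.inr 1)
  -- (R1) the rational element ρ
  have h0 : sf e1 (l • f2) = 0 := by rw [hb.smul_right, he1f2, mul_zero]
  have hρ : Act M (hs sf e1 (l • f2) 0) :=
    act_hs_rat hf D hE1 (ratV_smul hl hF2) F₀.zero_mem h0
  have hρa : hs sf e1 (l • f2) 0 a = a + (l * a (Sum.inl 1)) • e1 := by
    rw [hs_apply, ha, hb.smul_right, hsf2, mul_zero, zero_smul, zero_smul, add_zero, add_zero]
  have hρ0 : hs sf e1 (l • f2) 0 0 = 0 := hs_apply_zero hb _ _ _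
  have h1 : Act M (hs sf (a + (l * a (Sum.inl 1)) • e1) 0 1) := by
    have h' := act_hs_conj D.iso hρ h
    rwa [hρa, hρ0] at h'
  have hyw : sf a ((l * a (Sum.inl 1)) • e1) = 0 := by rw [hb.smul_right, ha, mul_zero]
  have hinv : ∀ x, hs sf a 0 1 (hs sf a 0 1 x) = x := by
    intro x
    rw [hs_tv hb, hs_tv hb, hb.add_left, hb.smul_left, hf.alternating a, mul_zero, add_zero,
      one_mul, add_assoc, ← add_smul]
    have h3 : sf x a + sf x a = 0 := by linear_combination (sf x a) * h2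
    rw [h3, zero_smul, add_zero]
  have hE0 : Act M (hs sf ((l * a (Sum.inl 1)) • e1) ((1 : F) • a) 1) :=
    (h1.comp h).congr (fun x => by rw [hs_tv_add hf hyw 1 (hs sf a 0 1 x), hinv x])
  have hE : Act M (hs sf e1 ((l * a (Sum.inl 1)) • a) ((l * a (Sum.inl 1)) ^ 2)) :=
    act_hs_eq (hE0.congr (fun x => hs_smul_left hb _ _ _ _ x)) (by rw [one_smul]) (one_mul _)
  -- (STEP3) conjugation by the rational transvection at f2
  have ht : Act M (hs sf f2 0 1) :=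
    act_hs_rat hf D hF2 (ratV_zero F₀) F₀.one_mem (form_zero_right hb f2)
  have hte1 : hs sf f2 0 1 e1 = e1 := by
    rw [hs_tv hb, he1f2, mul_zero, zero_smul, add_zero]
  have hta : hs sf f2 0 1 ((l * a (Sum.inl 1)) • a) =
      (l * a (Sum.inl 1)) • a + (l * a (Sum.inl 1) * a (Sum.inl 1)) • f2 := by
    rw [hs_tv hb, hb.smul_left, hsf2, one_mul]
  have hE' : Act M (hs sf e1 ((l * a (Sum.inl 1)) • a +
      (l * a (Sum.inl 1) * a (Sum.inl 1)) • f2) ((l * a (Sum.inl 1)) ^ 2)) := by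
    have h' := act_hs_conj D.iso ht hE
    rwa [hte1, hta] at h'
  have hwy : sf e1 ((l * a (Sum.inl 1)) • a) = 0 := by rw [hb.smul_right, he1a, mul_zero]
  have hwy' : sf e1 ((l * a (Sum.inl 1)) • a +
      (l * a (Sum.inl 1) * a (Sum.inl 1)) • f2) = 0 := by
    rw [hb.add_right, hb.smul_right, hb.smul_right, he1a, he1f2, mul_zero, mul_zero, add_zero]
  have hZ : Act M (hs sf e1 ((l * a (Sum.inl 1) ^ 2) • f2) ((l * a (Sum.inl 1) ^ 2) ^ 2)) := by
    refine act_hs_eq (act_hs_mul hf hwy hwy' hE hE') ?_ ?_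
    · have h3 : (l * a (Sum.inl 1)) • a + (l * a (Sum.inl 1)) • a = 0 := by
        rw [← two_smul F ((l * a (Sum.inl 1)) • a), h2, zero_smul]
      rw [← add_assoc, h3, zero_add]
      congr 1
      ring
    · rw [hb.add_left, hb.smul_left, hb.smul_left, hb.smul_right, hb.smul_right,
        hf.alternating a, hsf2']
      linear_combination ((l * a (Sum.inl 1)) ^ 2) * h2
  -- (CONVERT)
  have hZ' : Act M (hs sf ((l * a (Sum.inl 1) ^ 2) • e1) f2 1) :=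
    hZ.congr (fun x =>
      ((hs_smul_left hb (l * a (Sum.inl 1) ^ 2) e1 f2 1 x).trans (by rw [one_mul])).symm)
  have hyw2 : sf f2 ((l * a (Sum.inl 1) ^ 2) • e1) = 0 := by
    rw [hb.smul_right, hf2e1, mul_zero]
  have hT : Act M (hs sf (f2 + (l * a (Sum.inl 1) ^ 2) • e1) 0 1) :=
    ((act_hs_eq hZ' (one_smul F f2).symm rfl).comp ht).congr
      (fun x => (hs_tv_add hf hyw2 1 x).symm)
  -- (GSUB)
  exact gsubi h2 D hsq hA (u := f2) (v := e1) (v' := f1) hF2 hE1 hF1 hf20 hf2e1 hf2f1 he1f1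
    (p := 1) (q := l * a (Sum.inl 1) ^ 2)
    (act_hs_eq3 hT (by rw [one_smul]) rfl rfl)

end Cfsg.Agent.Lib.Helper97.Sp4E
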