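import Mathlib
import Cfsg.Agent.Lib.Helper50.SpHeis
import Cfsg.Agent.Lib.Helper97.Sp4EQlem

/-!
# SP4E piece DICH (for S5789): dichotomy for the set of long root parameters
-/

set_option autoImplicit false

namespace Cfsg.Agent.Lib.Helper97.Sp4E

variable {F : Type*} [Field F]

theorem dich_four [Fintype F] (h2 : (2 : F) = 0) {F₀ : Subfield F} (S : F → Prop)
    (hmem : ∀ c ∈ F₀, S c) (hadd : ∀ a b, S a → S b → S (a + b))
    (hF4 : Fintype.card F = 4) (t : F) (ht : S t) (htF : t ∉ F₀) : ∀ c : F, S c := by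
  classical
  have h0 : t ≠ 0 := fun h => htF (h ▸ F₀.zero_mem)
  have h1 : t ≠ 1 := fun h => htF (h ▸ F₀.one_mem)
  have h10 : (1 : F) ≠ 0 := one_ne_zero
  have ht1 : t + 1 ≠ 0 := by
    intro h
    apply h1
    linear_combination h - h2
  have hs : ({0, 1, t, t + 1} : Finset F).card = 4 := by
    rw [Finset.card_insert_of_notMem, Finset.card_insert_of_notMem,
      Finset.card_insert_of_notMem, Finset.card_singleton]
    · simp
    · simp only [Finset.mem_insert, Finset.mem_singleton, not_or]
      refine ⟨fun h => h1 h.symm, fun h => h0 ?_⟩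
      linear_combination -h
    · simp only [Finset.mem_insert, Finset.mem_singleton, not_or]
      exact ⟨fun h => h10 h.symm, fun h => h0 h.symm, fun h => ht1 h.symm⟩
  have huniv : ({0, 1, t, t + 1} : Finset F) = Finset.univ :=
    Finset.eq_univ_of_card _ (by rw [hs, hF4])
  intro c
  have hc : c ∈ ({0, 1, t, t + 1} : Finset F) := by rw [huniv]; exact Finset.mem_univ c
  simp only [Finset.mem_insert, Finset.mem_singleton] at hc
  rcases hc with rfl | rfl | rfl | rfl
  · exact hmem 0 F₀.zero_mem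
  · exact hmem 1 F₀.one_mem
  · exact ht
  · exact hadd _ _ ht (hmem 1 F₀.one_mem)

theorem dich [Fintype F] (h2 : (2 : F) = 0) {F₀ : Subfield F} (S : F → Prop)
    (hmem : ∀ c ∈ F₀, S c) (hadd : ∀ a b, S a → S b → S (a + b))
    (hsc : ∀ l ∈ F₀, ∀ c, S c → S (l * c))
    (hK1 : ∀ s t, S s → S t → S (s ^ 2 * (t ^ 2 + t)))
    (r : ℕ) (hr : r.Prime) (hcard : Fintype.card F = Nat.card F₀ ^ r) :
    (∀ c : F, S c → c ∈ F₀) ∨ (∀ c : F, S c) := by
  have hS1 : S 1 := hmem 1 F₀.one_mem
  have hstep : ∀ t, S t → S (t ^ 2 + t) := by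
    intro t ht
    have := hK1 1 t hS1 ht
    rwa [one_pow, one_mul] at this
  have hsq : ∀ t, S t → S (t ^ 2) := by
    intro t ht
    have h := hadd _ _ (hstep t ht) ht
    have e : t ^ 2 + t + t = t ^ 2 := by linear_combination t * h2
    rwa [e] at h
  -- squaring is surjective on `S`
  have hsurj : ∀ a, S a → ∃ s, S s ∧ s ^ 2 = a := by
    let f : {c : F // S c} → {c : F // S c} := fun c => ⟨c.1 ^ 2, hsq c.1 c.2⟩
    have hinj : Function.Injective f := by
      intro a b hab
      have h : a.1 ^ 2 = b.1 ^ 2 := congrArg Subtype.val hab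
      have h' : (a.1 - b.1) ^ 2 = 0 := by linear_combination h - a.1 * b.1 * h2 + b.1 ^ 2 * h2
      have h'' : a.1 - b.1 = 0 := pow_eq_zero_iff (two_ne_zero) |>.mp h'
      exact Subtype.ext (sub_eq_zero.mp h'')
    have hsur := Finite.surjective_of_injective hinj
    intro a ha
    obtain ⟨s, hs⟩ := hsur ⟨a, ha⟩
    exact ⟨s.1, s.2, congrArg Subtype.val hs⟩
  have hmulK : ∀ a t, S a → S t → S ((t ^ 2 + t) * a) := by
    intro a t ha ht
    obtain ⟨s, hs, rfl⟩ := hsurj a ha
    have := hK1 s t hs ht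
    rwa [mul_comm] at this
  have hdich := Cfsg.Agent.Lib.Helper50.pred_dichotomy (F₀ := F₀)
    (fun c => ∀ a, S a → S (c * a))
    (fun c hc a ha => hsc c hc a ha)
    (fun a b ha hb x hx => by
      rw [add_mul]
      exact hadd _ _ (ha x hx) (hb x hx))
    (fun a ha x hx => by
      have e : -a * x = a * x := by linear_combination -(a * x) * h2
      rw [e]
      exact ha x hx)
    (fun a b ha hb x hx => by
      rw [mul_assoc]
      exact ha _ (hb x hx))
    r hr hcard
  rcases hdich with hd | hd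
  · -- `t ^ 2 + t ∈ F₀` for all `t ∈ S`
    have hF0 : ∀ t, S t → t ^ 2 + t ∈ F₀ := fun t ht => hd _ (fun a ha => hmulK a t ha ht)
    by_cases hex : Nat.card F₀ = 2 ∧ r = 2
    · by_cases hall : ∀ c : F, S c → c ∈ F₀
      · exact Or.inl hall
      · right
        push Not at hall
        obtain ⟨t, ht, htF⟩ := hall
        have hF4 : Fintype.card F = 4 := by
          rw [hcard, hex.1, hex.2]
          norm_num
        exact dich_four h2 S hmem hadd hF4 t ht htF
    · left
      intro t ht
      exact qlem h2 F₀ r hr hcard hex t (fun l hl => hF0 _ (hsc l hl t ht))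
  · right
    intro c
    have := hd c 1 hS1
    rwa [mul_one] at this

end Cfsg.Agent.Lib.Helper97.Sp4E
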