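import Mathlib
import Cfsg.Prelude.Def_GeometricClasses
import Cfsg.Agent.Lib.Helper97.Sp4EDefs
import Cfsg.Agent.Lib.Helper97.Sp4ELong

/-!
# SP4E piece F4 (for S5789): transvection centres of `M` are proportional to rational vectors
when `F = F₄`, `F₀ = F₂`
-/

set_option autoImplicit false

namespace Cfsg.Agent.Lib.Helper97.Sp4E

open Matrix Cfsg.Agent.Lib.Helper97 Cfsg.Agent.Lib.Helper50

variable {F : Type*} [Field F]

local notation "sf" => Cfsg.sympForm 2 F

/-- A subfield with two elements is `{0, 1}`. -/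
theorem f4_mem_two {F₀ : Subfield F} (hF₀ : Nat.card F₀ = 2) :
    ∀ c ∈ F₀, c = 0 ∨ c = 1 := by
  intro c hc
  obtain ⟨b, hb0, hbu⟩ := (Nat.card_eq_two_iff' (0 : F₀)).mp hF₀
  by_cases h0 : c = 0
  · exact Or.inl h0
  · right
    have h1 : (⟨c, hc⟩ : F₀) = b := hbu _ (by
      intro h
      exact h0 (congrArg Subtype.val h))
    have h2 : (1 : F₀) = b := hbu _ one_ne_zero
    have h3 : (⟨c, hc⟩ : F₀) = 1 := h1.trans h2.symm
    exact congrArg Subtype.val h3

/-- Every element of `F₄` is in `F₂` or in `F₂ + ω`. -/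
theorem f4_cover [Fintype F] (h2 : (2 : F) = 0) {F₀ : Subfield F} (hF₀ : Nat.card F₀ = 2)
    (hF : Fintype.card F = 4) {ω : F} (hω : ω ∉ F₀) :
    ∀ c : F, c ∈ F₀ ∨ c + ω ∈ F₀ := by
  have hww : ω + ω = 0 := by linear_combination ω * h2
  let g : F₀ ⊕ F₀ → F := Sum.elim (fun c => (c : F)) (fun c => (c : F) + ω)
  have hinj : Function.Injective g := by
    rintro (⟨p, hp⟩ | ⟨p, hp⟩) (⟨q, hq⟩ | ⟨q, hq⟩) hpq
    · simp only [g, Sum.elim_inl] at hpq
      subst hpq
      rfl
    · exfalso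
      simp only [g, Sum.elim_inl, Sum.elim_inr] at hpq
      apply hω
      have : ω = p - q := by linear_combination -hpq
      rw [this]
      exact F₀.sub_mem hp hq
    · exfalso
      simp only [g, Sum.elim_inl, Sum.elim_inr] at hpq
      apply hω
      have : ω = q - p := by linear_combination hpq
      rw [this]
      exact F₀.sub_mem hq hp
    · simp only [g, Sum.elim_inr] at hpq
      have : p = q := by linear_combination hpq
      subst this
      rfl
  have hcard : Nat.card F ≤ Nat.card (F₀ ⊕ F₀) := by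
    rw [Nat.card_sum, hF₀, Nat.card_eq_fintype_card, hF]
  have hbij := hinj.bijective_of_nat_card_le hcard
  intro c
  obtain ⟨(⟨p, hp⟩ | ⟨p, hp⟩), hpc⟩ := hbij.2 c
  · left
    simp only [g, Sum.elim_inl] at hpc
    rw [← hpc]; exact hp
  · right
    simp only [g, Sum.elim_inr] at hpc
    have : c + ω = p := by linear_combination -hpc + hww
    rw [this]; exact hp

/-- The square of a generator of `F₄`. -/
theorem f4_sq [Fintype F] (h2 : (2 : F) = 0) {F₀ : Subfield F} (hF₀ : Nat.card F₀ = 2)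
    (hF : Fintype.card F = 4) {ω : F} (hω : ω ∉ F₀) : ω ^ 2 = ω + 1 := by
  have h01 := f4_mem_two hF₀
  have hω0 : ω ≠ 0 := fun h => hω (h ▸ F₀.zero_mem)
  have hω1 : ω + 1 ≠ 0 := by
    intro h
    apply hω
    have : ω = -1 := by linear_combination h
    rw [this]
    exact F₀.neg_mem F₀.one_mem
  rcases f4_cover h2 hF₀ hF hω (ω ^ 2) with h | h
  · exfalso
    rcases h01 _ h with h | h
    · exact hω0 (pow_eq_zero_iff (two_ne_zero) |>.mp h)
    · have : (ω + 1) ^ 2 = 0 := by linear_combination h + (ω + 1) * h2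
      exact hω1 (pow_eq_zero_iff (two_ne_zero) |>.mp this)
  · rcases h01 _ h with h | h
    · exfalso
      have : ω * (ω + 1) = 0 := by linear_combination h
      rcases mul_eq_zero.mp this with h' | h'
      · exact hω0 h'
      · exact hω1 h'
    · linear_combination h - ω * h2

/-- In characteristic two the frame signs are trivial. -/
theorem f4_stau (h2 : (2 : F) = 0) (k : Fin 2 ⊕ Fin 2) : stau F k = 1 := by
  rcases k with i | i
  · rfl
  · show (-1 : F) = 1
    linear_combination -h2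

/-- A rational vector `z` with `f x z = 0` and `f y z = 1`. -/
theorem f4_exists_z (h2 : (2 : F) = 0) {F₀ : Subfield F}
    (h01 : ∀ c ∈ F₀, c = 0 ∨ c = 1) {x y : Fin 2 ⊕ Fin 2 → F}
    (hx : RatV F₀ x) (hy : RatV F₀ y) (hy0 : y ≠ 0) (hxy : x ≠ y) :
    ∃ z : Fin 2 ⊕ Fin 2 → F, RatV F₀ z ∧ sf x z = 0 ∧ sf y z = 1 := by
  have hf := sympForm_symp (F := F) 2
  have hb := hf.bilinear
  by_cases hA : ∃ j, x j = 0 ∧ y j = 1
  · obtain ⟨j, hxj, hyj⟩ := hA
    refine ⟨Pi.single (sbar j) 1, ratV_single F₀ _ F₀.one_mem, ?_, ?_⟩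
    · rw [sympForm_single, sbar_sbar, hxj, mul_zero]
    · rw [sympForm_single, sbar_sbar, hyj, mul_one, f4_stau h2]
  · push Not at hA
    have hyx : ∀ j, y j = 1 → x j = 1 := by
      intro j hj
      rcases h01 _ (hx j) with h | h
      · exact absurd hj (hA j h)
      · exact h
    obtain ⟨j₁, hj₁⟩ := Function.ne_iff.mp hxy
    obtain ⟨j₂, hj₂⟩ := Function.ne_iff.mp hy0
    rw [Pi.zero_apply] at hj₂
    have hy2 : y j₂ = 1 := (h01 _ (hy j₂)).resolve_left hj₂
    have hx2 : x j₂ = 1 := hyx j₂ hy2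
    have hy1 : y j₁ = 0 := by
      rcases h01 _ (hy j₁) with h | h
      · exact h
      · exact absurd ((hyx j₁ h).trans h.symm) hj₁
    have hx1 : x j₁ = 1 := by
      rcases h01 _ (hx j₁) with h | h
      · exact absurd (h.trans hy1.symm) hj₁
      · exact h
    refine ⟨Pi.single (sbar j₁) 1 + Pi.single (sbar j₂) 1,
      ratV_add (ratV_single F₀ _ F₀.one_mem) (ratV_single F₀ _ F₀.one_mem), ?_, ?_⟩
    · rw [hb.add_right, sympForm_single, sympForm_single, sbar_sbar, sbar_sbar, hx1, hx2,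
        f4_stau h2, f4_stau h2]
      linear_combination h2
    · rw [hb.add_right, sympForm_single, sympForm_single, sbar_sbar, sbar_sbar, hy1, hy2,
        f4_stau h2, f4_stau h2]
      ring

theorem rat_of_perp_frame_F4 [Fintype F] (h2 : (2 : F) = 0) {F₀ : Subfield F}
    {M : Subgroup (GL (Fin 2 ⊕ Fin 2) F)} (D : SubfData sf F₀ M) (hF₀ : Nat.card F₀ = 2)
    (hF : Fintype.card F = 4) (hA : ∀ c : F, InL M c → c ∈ F₀) {a : Fin 2 ⊕ Fin 2 → F}
    (h : Act M (hs sf a 0 1)) :
    ∃ (l : F) (r' : Fin 2 ⊕ Fin 2 → F), RatV F₀ r' ∧ a = l • r' := by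
  classical
  have hf := sympForm_symp (F := F) 2
  have hb := hf.bilinear
  have h01 := f4_mem_two hF₀
  -- a generator of `F` over `F₀`
  obtain ⟨ω, hω⟩ : ∃ ω : F, ω ∉ F₀ := by
    by_contra hcon
    push Not at hcon
    have h1 : Nat.card F₀ = Nat.card F :=
      Nat.card_congr ⟨fun c => (c : F), fun c => ⟨c, hcon c⟩, fun _ => rfl, fun _ => rfl⟩
    rw [hF₀, Nat.card_eq_fintype_card, hF] at h1
    omega
  have hcov := f4_cover h2 hF₀ hF hω
  have hω2 := f4_sq h2 hF₀ hF hω
  have hvv : ∀ v : Fin 2 ⊕ Fin 2 → F, v + v = 0 := by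
    intro v
    rw [← two_smul F v, h2, zero_smul]
  -- the three basic facts on transvection centres
  have T1 : ∀ b : Fin 2 ⊕ Fin 2 → F, RatV F₀ b → Act M (hs sf b 0 1) := fun b hbr =>
    act_hs_rat hf D hbr (ratV_zero F₀) F₀.one_mem (form_zero_right hb b)
  have T2 : ∀ ψ : (Fin 2 ⊕ Fin 2 → F) → (Fin 2 ⊕ Fin 2 → F), Act M ψ → ψ 0 = 0 →
      ∀ b : Fin 2 ⊕ Fin 2 → F, Act M (hs sf b 0 1) → Act M (hs sf (ψ b) 0 1) := by
    intro ψ hψ hψ0 b hbT
    exact act_hs_eq (act_hs_conj D.iso hψ hbT) hψ0 rfl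
  have T3 : ∀ v : Fin 2 ⊕ Fin 2 → F, RatV F₀ v → v ≠ 0 → ∀ k : F,
      Act M (hs sf (k • v) 0 1) → k ∈ F₀ := by
    intro v hv hv0 k hk
    have h1 : Act M (hs sf v (k • (0 : Fin 2 ⊕ Fin 2 → F)) (1 * k ^ 2)) :=
      hk.congr (fun x => hs_smul_left hb k v 0 1 x)
    have h3 : Act M (hs sf v 0 (k ^ 2)) := act_hs_eq h1 (smul_zero k) (one_mul _)
    have h4 : k ^ 2 ∈ F₀ := hA _ (inL_of_act D hv hv0 h3)
    rcases h01 _ h4 with h5 | h5
    · rw [pow_eq_zero_iff two_ne_zero |>.mp h5]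
      exact F₀.zero_mem
    · have h6 : (k + 1) ^ 2 = 0 := by linear_combination h5 + (k + 1) * h2
      have h7 : k = -1 := by
        have := pow_eq_zero_iff two_ne_zero |>.mp h6
        linear_combination this
      rw [h7]
      exact F₀.neg_mem F₀.one_mem
  -- decompose `a = x + ω • y` with `x`, `y` rational
  have hdec : ∀ i, ∃ p q : F, p ∈ F₀ ∧ q ∈ F₀ ∧ a i = p + ω * q := by
    intro i
    rcases hcov (a i) with hi | hi
    · exact ⟨a i, 0, hi, F₀.zero_mem, by ring⟩
    · exact ⟨a i + ω, 1, hi, F₀.one_mem, by linear_combination -ω * h2⟩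
  choose x y hx hy hxy using hdec
  have ha : a = x + ω • y := by
    funext i
    rw [Pi.add_apply, Pi.smul_apply, smul_eq_mul]
    exact hxy i
  by_cases hy0 : y = 0
  · refine ⟨1, x, hx, ?_⟩
    rw [ha, hy0, smul_zero, add_zero, one_smul]
  by_cases hx0 : x = 0
  · refine ⟨ω, y, hy, ?_⟩
    rw [ha, hx0, zero_add]
  by_cases hxy' : x = y
  · refine ⟨1 + ω, x, hx, ?_⟩
    rw [ha, ← hxy']
    module
  exfalso
  have hωF : (ω + 1 ∈ F₀) → False := by
    intro hmem
    apply hω
    have : ω = (ω + 1) - 1 := by ring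
    rw [this]
    exact F₀.sub_mem hmem F₀.one_mem
  have hxx := hf.alternating x
  have hyy := hf.alternating y
  have hyx : sf y x = - sf x y := hf.skew y x
  rcases h01 _ (D.frat x y hx hy) with hfxy | hfxy
  · -- `f x y = 0`
    obtain ⟨z, hz, hxz, hyz⟩ := f4_exists_z h2 h01 hx hy hy0 hxy'
    have hzz := hf.alternating z
    have hzx : sf z x = - sf x z := hf.skew z x
    have hzy : sf z y = - sf y z := hf.skew z y
    -- u₁
    have hu1 : hs sf z 0 1 a = x + ω • y + ω • z := by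
      rw [hs_tv hb, ha, hb.add_left, hb.smul_left, hxz, hyz]
      module
    have hT1 : Act M (hs sf (x + ω • y + ω • z) 0 1) := by
      have := T2 _ (T1 z hz) (hs_apply_zero hb _ _ _) a h
      rwa [hu1] at this
    -- u₂
    have hu2 : hs sf a 0 1 (x + z) = ω ^ 2 • x + z + ω ^ 2 • y := by
      rw [hs_tv hb, ha, hb.add_left, hb.add_right, hb.add_right, hb.smul_right, hb.smul_right,
        hxx, hfxy, hzx, hzy, hxz, hyz]
      have e1 : (1 * (0 + ω * 0 + (-0 + ω * -1)) : F) = ω := by linear_combination -ω * h2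
      rw [e1]
      have e2 : x + z + ω • (x + ω • y) = (ω + 1) • x + z + (ω ^ 2) • y := by module
      rw [e2, ← hω2]
    have hT2 : Act M (hs sf (ω ^ 2 • x + z + ω ^ 2 • y) 0 1) := by
      have := T2 _ h (hs_apply_zero hb _ _ _) (x + z) (T1 _ (ratV_add hx hz))
      rwa [hu2] at this
    -- u₃
    have hform : sf (ω ^ 2 • x + z + ω ^ 2 • y) (x + ω • y + ω • z) = ω ^ 2 := by
      simp only [hb.add_left, hb.add_right, hb.smul_left, hb.smul_right, hxx, hyy, hzz, hfxy,
        hyx, hzx, hzy, hxz, hyz]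
      linear_combination ω * hω2
    have hu3 : hs sf (x + ω • y + ω • z) 0 1 (ω ^ 2 • x + z + ω ^ 2 • y) = ω • y := by
      rw [hs_tv hb, hform]
      have e1 : (1 * ω ^ 2 : F) • (x + ω • y + ω • z) =
          ω ^ 2 • x + (ω ^ 2 * ω) • y + (ω ^ 2 * ω) • z := by module
      have e2 : ω ^ 2 * ω = 1 := by linear_combination (ω + 1) * hω2 + ω * h2
      rw [e1, e2, hω2]
      have e3 : (ω + 1) • x + z + (ω + 1) • y + ((ω + 1) • x + (1 : F) • y + (1 : F) • z) =
          ω • y + (((ω + 1) • x + (ω + 1) • x) + (z + z) + (y + y)) := by module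
      rw [e3, hvv ((ω + 1) • x), hvv z, hvv y]
      simp
    have hT3 : Act M (hs sf (ω • y) 0 1) := by
      have := T2 _ hT1 (hs_apply_zero hb _ _ _) _ hT2
      rwa [hu3] at this
    exact hω (T3 y hy hy0 ω hT3)
  · -- `f x y = 1`
    have hu : hs sf a 0 1 x = ω ^ 2 • (x + y) := by
      rw [hs_tv hb, ha, hb.add_right, hb.smul_right, hxx, hfxy, hω2]
      have e1 : (1 * (0 + ω * 1) : F) = ω := by ring
      rw [e1]
      have e2 : x + ω • (x + ω • y) = (ω + 1) • x + (ω ^ 2) • y := by module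
      rw [e2, hω2]
      module
    have hT : Act M (hs sf (ω ^ 2 • (x + y)) 0 1) := by
      have := T2 _ h (hs_apply_zero hb _ _ _) x (T1 x hx)
      rwa [hu] at this
    have hne : x + y ≠ 0 := by
      intro h0
      apply hxy'
      have : x = x + (y + y) := by rw [hvv, add_zero]
      rw [this, ← add_assoc, h0, zero_add]
    have := T3 (x + y) (ratV_add hx hy) hne (ω ^ 2) hT
    rw [hω2] at this
    exact hωF this

end Cfsg.Agent.Lib.Helper97.Sp4E
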