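import Mathlib
import Cfsg.Prelude.Def_GeometricClasses
import Cfsg.Agent.Lib.Helper97.Sp4EDefs

/-!
# SP4E piece IMG (for S5789): an element of `M` mapping the first frame point to a rational point
is a scalar multiple of a rational matrix
-/

set_option autoImplicit false

namespace Cfsg.Agent.Lib.Helper97.Sp4E

open Matrix Cfsg.Agent.Lib.Helper97 Cfsg.Agent.Lib.Helper50

variable {F : Type*} [Field F]

local notation "sf" => Cfsg.sympForm 2 F

theorem mem_H1_of_rat_image2 {F₀ : Subfield F} {M : Subgroup (GL (Fin 2 ⊕ Fin 2) F)}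
    (D : SubfData sf F₀ M) {g : GL (Fin 2 ⊕ Fin 2) F} (hg : g ∈ M)
    (hperp : ∀ z x : Fin 2 ⊕ Fin 2 → F, z ≠ 0 →
      (∃ (l : F) (r : Fin 2 ⊕ Fin 2 → F), RatV F₀ r ∧
        (g : Matrix (Fin 2 ⊕ Fin 2) (Fin 2 ⊕ Fin 2) F) *ᵥ z = l • r) →
      RatV F₀ x → sf x z = 0 →
      ∃ (l : F) (r : Fin 2 ⊕ Fin 2 → F), RatV F₀ r ∧
        (g : Matrix (Fin 2 ⊕ Fin 2) (Fin 2 ⊕ Fin 2) F) *ᵥ x = l • r)
    (hR : ∃ (l : F) (r : Fin 2 ⊕ Fin 2 → F), RatV F₀ r ∧
      (g : Matrix (Fin 2 ⊕ Fin 2) (Fin 2 ⊕ Fin 2) F) *ᵥ Pi.single (Sum.inl 0) 1 = l • r) :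
    g ∈ H1 (Fin 2 ⊕ Fin 2) F₀ := by
  have hf := sympForm_symp (F := F) 2
  have hb := hf.bilinear
  have hA : ∀ t : Fin 2, ∃ (l : F) (r : Fin 2 ⊕ Fin 2 → F), RatV F₀ r ∧
      (g : Matrix (Fin 2 ⊕ Fin 2) (Fin 2 ⊕ Fin 2) F) *ᵥ Pi.single (Sum.inl t) 1 = l • r := by
    intro t
    refine hperp _ _ (single_ne_zero' (Sum.inl 0)) hR (ratV_single F₀ _ F₀.one_mem) ?_
    rw [sympForm_single]
    simp [sbar]
  have hB : ∀ x : Fin 2 ⊕ Fin 2 → F, RatV F₀ x → (∃ t : Fin 2, x (Sum.inr t) = 0) →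
      ∃ (l : F) (r : Fin 2 ⊕ Fin 2 → F), RatV F₀ r ∧
        (g : Matrix (Fin 2 ⊕ Fin 2) (Fin 2 ⊕ Fin 2) F) *ᵥ x = l • r := by
    rintro x hx ⟨t, ht⟩
    refine hperp _ _ (single_ne_zero' (Sum.inl t)) (hA t) hx ?_
    rw [sympForm_single]
    simp [sbar, ht]
  -- every rational vector is mapped to a multiple of a rational vector
  have hgood : ∀ x : Fin 2 ⊕ Fin 2 → F, RatV F₀ x →
      ∃ (l : F) (r : Fin 2 ⊕ Fin 2 → F), RatV F₀ r ∧
        (g : Matrix (Fin 2 ⊕ Fin 2) (Fin 2 ⊕ Fin 2) F) *ᵥ x = l • r := by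
    intro x hx
    obtain ⟨q, hq⟩ : ∃ q : Fin 2 ⊕ Fin 2 → F, q =
        x (Sum.inl 1) • Pi.single (Sum.inl 1) 1 + x (Sum.inr 1) • Pi.single (Sum.inr 1) 1 :=
      ⟨_, rfl⟩
    have hqr : RatV F₀ q := by
      rw [hq]
      exact ratV_add (ratV_smul (hx _) (ratV_single F₀ _ F₀.one_mem))
        (ratV_smul (hx _) (ratV_single F₀ _ F₀.one_mem))
    have hq0 : q (Sum.inr 0) = 0 := by
      rw [hq]
      simp
    have hq1 : q (Sum.inr 1) = x (Sum.inr 1) := by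
      rw [hq]
      simp
    by_cases hqz : q = 0
    · refine hB x hx ⟨1, ?_⟩
      rw [← hq1, hqz]
      rfl
    · refine hperp q x hqz (hB q hqr ⟨0, hq0⟩) hx ?_
      rw [hq, hb.add_right, hb.smul_right, hb.smul_right, sympForm_single, sympForm_single]
      simp only [stau, sbar, Sum.elim_inl, Sum.elim_inr, Sum.swap_inl, Sum.swap_inr]
      ring
  have hC1 : ∀ j : Fin 2 ⊕ Fin 2, ∃ (l : F) (r : Fin 2 ⊕ Fin 2 → F), RatV F₀ r ∧
      (g : Matrix (Fin 2 ⊕ Fin 2) (Fin 2 ⊕ Fin 2) F) *ᵥ Pi.single j 1 = l • r :=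
    fun j => hgood _ (ratV_single F₀ _ F₀.one_mem)
  have hC2 : ∀ j j' : Fin 2 ⊕ Fin 2, ∃ (l : F) (r : Fin 2 ⊕ Fin 2 → F), RatV F₀ r ∧
      (g : Matrix (Fin 2 ⊕ Fin 2) (Fin 2 ⊕ Fin 2) F) *ᵥ (Pi.single j 1 + Pi.single j' 1) =
        l • r :=
    fun j j' => hgood _ (ratV_add (ratV_single F₀ _ F₀.one_mem) (ratV_single F₀ _ F₀.one_mem))
  choose lam r hr hlr using hC1
  -- comparison of the scalars through a sum of two frame vectors
  have hsub : ∀ j j' : Fin 2 ⊕ Fin 2, sidx j ≠ sidx j' → ∀ (l2 : F) (r2 : Fin 2 ⊕ Fin 2 → F),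
      RatV F₀ r2 → (g : Matrix (Fin 2 ⊕ Fin 2) (Fin 2 ⊕ Fin 2) F) *ᵥ
        (Pi.single j 1 + Pi.single j' 1) = l2 • r2 →
      ∃ q : F, q ∈ F₀ ∧ q ≠ 0 ∧ lam j = q * l2 := by
    intro j j' hjj' l2 r2 hr2 hl2
    have hj's : sidx j' ≠ sidx (sbar j) := by rw [sidx_sbar]; exact Ne.symm hjj'
    have h1 := D.iso g hg (Pi.single j 1) (Pi.single (sbar j) 1)
    rw [hlr j, hlr (sbar j), hb.smul_left, hb.smul_right, sympForm_single (Pi.single j 1),
      sbar_sbar, Pi.single_eq_same, mul_one] at h1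
    have h2 := D.iso g hg (Pi.single j 1 + Pi.single j' 1) (Pi.single (sbar j) 1)
    rw [hl2, hlr (sbar j), hb.smul_left, hb.smul_right, hb.add_left,
      sympForm_single (Pi.single j 1), sbar_sbar, Pi.single_eq_same, mul_one,
      sympForm_single_ne hj's, add_zero] at h2
    have hτ : stau F (sbar j) ≠ 0 := stau_ne_zero _
    have hA0 : sf (r j) (r (sbar j)) ≠ 0 := by
      intro h0
      rw [h0, mul_zero, mul_zero] at h1
      exact hτ h1.symm
    have hlam' : lam (sbar j) ≠ 0 := by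
      intro h0
      rw [h0, zero_mul, mul_zero] at h1
      exact hτ h1.symm
    have hB0 : sf r2 (r (sbar j)) ≠ 0 := by
      intro h0
      rw [h0, mul_zero, mul_zero] at h2
      exact hτ h2.symm
    have hl20 : l2 ≠ 0 := by
      intro h0
      rw [h0, zero_mul] at h2
      exact hτ h2.symm
    have key : lam j * sf (r j) (r (sbar j)) = l2 * sf r2 (r (sbar j)) := by
      apply mul_left_cancel₀ hlam'
      linear_combination h1 - h2
    refine ⟨sf r2 (r (sbar j)) / sf (r j) (r (sbar j)),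
      F₀.div_mem (sympForm_rat hr2 (hr _)) (sympForm_rat (hr _) (hr _)),
      div_ne_zero hB0 hA0, ?_⟩
    field_simp
    linear_combination key
  have hratio : ∀ j j' : Fin 2 ⊕ Fin 2, sidx j ≠ sidx j' → lam j / lam j' ∈ F₀ := by
    intro j j' hjj'
    obtain ⟨l2, r2, hr2, hl2⟩ := hC2 j j'
    obtain ⟨q1, hq1, hq10, e1⟩ := hsub j j' hjj' l2 r2 hr2 hl2
    obtain ⟨q2, hq2, hq20, e2⟩ := hsub j' j (Ne.symm hjj') l2 r2 hr2 (by rw [add_comm]; exact hl2)
    have hl20 : l2 ≠ 0 := by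
      intro h0
      have h3 := hlr j
      rw [e1, h0, mul_zero, zero_smul] at h3
      have h4 := gl_inv_mulVec g (Pi.single j 1)
      rw [h3, Matrix.mulVec_zero] at h4
      exact single_ne_zero' j h4.symm
    have e : lam j / lam j' = q1 / q2 := by
      rw [e1, e2]
      field_simp
    rw [e]
    exact F₀.div_mem hq1 hq2
  have hlam0 : ∀ j, lam j ≠ 0 := by
    intro j h0
    have h3 := hlr j
    rw [h0, zero_smul] at h3
    have h4 := gl_inv_mulVec g (Pi.single j 1)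
    rw [h3, Matrix.mulVec_zero] at h4
    exact single_ne_zero' j h4.symm
  have hother : ∀ a : Fin 2, ∃ t : Fin 2, t ≠ a := by decide
  have hall : ∀ j : Fin 2 ⊕ Fin 2, lam j / lam (Sum.inl 0) ∈ F₀ := by
    intro j
    by_cases hj : sidx j = sidx (Sum.inl 0 : Fin 2 ⊕ Fin 2)
    · obtain ⟨t, ht⟩ := hother (sidx j)
      have h1 : lam j / lam (Sum.inl t) ∈ F₀ := hratio j (Sum.inl t) (Ne.symm ht)
      have h2 : lam (Sum.inl t) / lam (Sum.inl 0) ∈ F₀ :=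
        hratio (Sum.inl t) (Sum.inl 0) (by rw [← hj]; exact ht)
      have e : lam j / lam (Sum.inl 0) =
          (lam j / lam (Sum.inl t)) * (lam (Sum.inl t) / lam (Sum.inl 0)) := by
        have := hlam0 (Sum.inl t)
        have := hlam0 (Sum.inl 0)
        field_simp
      rw [e]
      exact F₀.mul_mem h1 h2
    · exact hratio j (Sum.inl 0) hj
  refine mem_H1_of F₀ g (lam (Sum.inl 0)) (hlam0 _)
    (Matrix.of (fun i j => (lam j / lam (Sum.inl 0)) * r j i)) ?_ ?_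
  · intro i j
    exact F₀.mul_mem (hall j) (hr j i)
  · ext i j
    have h1 := congrFun (hlr j) i
    rw [Matrix.mulVec_single_one, Matrix.col_apply] at h1
    rw [h1, Matrix.smul_apply, Matrix.of_apply, Pi.smul_apply, smul_eq_mul, smul_eq_mul]
    have := hlam0 (Sum.inl 0)
    field_simp

end Cfsg.Agent.Lib.Helper97.Sp4E
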