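import Mathlib
import Cfsg.Prelude.Def_GeometricClasses
import Cfsg.Agent.Lib.Helper97.Sp4EDefs
import Cfsg.Agent.Lib.Helper97.Sp4ELong

/-!
# SP4E piece K1 (for S5789): the relation `s, t ↦ s² (t² + t)` on long root parameters
-/

set_option autoImplicit false

namespace Cfsg.Agent.Lib.Helper97.Sp4E

open Matrix Cfsg.Agent.Lib.Helper97 Cfsg.Agent.Lib.Helper50

variable {F : Type*} [Field F]

local notation "sf" => Cfsg.sympForm 2 F

/-- The element `Y_w = hs sf e₁ ((s t) • w) (t s²)` for a rational pair `w, w'` with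
`sf w w' = 1`, both orthogonal to `e₁`. -/
theorem k1_Y {F₀ : Subfield F} {M : Subgroup (GL (Fin 2 ⊕ Fin 2) F)}
    (D : SubfData sf F₀ M) {s t : F} (hS : InL M s) (hT : InL M t)
    {w w' : Fin 2 ⊕ Fin 2 → F} (hw : RatV F₀ w) (hw' : RatV F₀ w') (hw0 : w ≠ 0)
    (hw'0 : w' ≠ 0) (hwe : w' + Pi.single (Sum.inl 0) 1 ≠ 0) (h1 : sf w w' = 1)
    (hwe1 : sf w (Pi.single (Sum.inl 0) 1) = 0) (hw'e1 : sf w' (Pi.single (Sum.inl 0) 1) = 0) :
    Act M (hs sf (Pi.single (Sum.inl 0) 1) ((s * t) • w) (t * s ^ 2)) := by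
  have hf := sympForm_symp (F := F) 2
  have hb := hf.bilinear
  have he1rat : RatV F₀ (Pi.single (Sum.inl 0) 1 : Fin 2 ⊕ Fin 2 → F) :=
    ratV_single F₀ (Sum.inl 0) F₀.one_mem
  -- (i)
  have hA1 : Act M (hs sf (w' + Pi.single (Sum.inl 0) 1) 0 s) :=
    act_of_inL D hS (ratV_add hw' he1rat) hwe
  have hA2 : Act M (hs sf w' 0 s) := act_of_inL D hS hw' hw'0
  have hw'z : sf w' 0 = 0 := form_zero_right hb w'
  have hA2i : Act M (hs sf w' (-0) (-s)) := act_hs_inv hf hw'z hA2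
  have hσ : Act M (hs sf (Pi.single (Sum.inl 0) 1) (s • w') s) := by
    refine (hA1.comp hA2i).congr (fun x => ?_)
    rw [hs_tv_add hf hw'e1, hs_inv hf hw'z]
  -- (ii)
  have hσw : hs sf (Pi.single (Sum.inl 0) 1) (s • w') s w =
      w + s • (Pi.single (Sum.inl 0) 1 : Fin 2 ⊕ Fin 2 → F) := by
    rw [hs_apply, hb.smul_right, h1, hwe1]
    module
  have hσ0 : hs sf (Pi.single (Sum.inl 0) 1) (s • w') s 0 = 0 := hs_apply_zero hb _ _ _
  have hA3 : Act M (hs sf w 0 t) := act_of_inL D hT hw hw0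
  have hA4 := act_hs_conj D.iso hσ hA3
  rw [hσw, hσ0] at hA4
  -- (iii)
  have hw_se1 : sf w (s • (Pi.single (Sum.inl 0) 1 : Fin 2 ⊕ Fin 2 → F)) = 0 := by
    rw [hb.smul_right, hwe1, mul_zero]
  have hwz : sf w 0 = 0 := form_zero_right hb w
  have hA3i : Act M (hs sf w (-0) (-t)) := act_hs_inv hf hwz hA3
  have hY : Act M (hs sf (s • (Pi.single (Sum.inl 0) 1 : Fin 2 ⊕ Fin 2 → F)) (t • w) t) := by
    refine (hA4.comp hA3i).congr (fun x => ?_)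
    rw [hs_tv_add hf hw_se1, hs_inv hf hwz]
  refine hY.congr (fun x => ?_)
  rw [hs_smul_left hb, smul_smul]

theorem k1_main (h2 : (2 : F) = 0) {F₀ : Subfield F} {M : Subgroup (GL (Fin 2 ⊕ Fin 2) F)}
    (D : SubfData sf F₀ M) {s t : F} (hS : InL M s) (hT : InL M t) :
    InL M (s ^ 2 * (t ^ 2 + t)) := by
  have hf := sympForm_symp (F := F) 2
  have hb := hf.bilinear
  obtain ⟨e1, he1⟩ : ∃ v : Fin 2 ⊕ Fin 2 → F, v = Pi.single (Sum.inl 0) 1 := ⟨_, rfl⟩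
  obtain ⟨e2, he2⟩ : ∃ v : Fin 2 ⊕ Fin 2 → F, v = Pi.single (Sum.inl 1) 1 := ⟨_, rfl⟩
  obtain ⟨f2, hf2⟩ : ∃ v : Fin 2 ⊕ Fin 2 → F, v = Pi.single (Sum.inr 1) 1 := ⟨_, rfl⟩
  have re2 : RatV F₀ e2 := by rw [he2]; exact ratV_single F₀ _ F₀.one_mem
  have rf2 : RatV F₀ f2 := by rw [hf2]; exact ratV_single F₀ _ F₀.one_mem
  -- values of the form
  have e2f2 : sf e2 f2 = 1 := by
    rw [hf2, sympForm_single, he2]
    have a1 : stau F (Sum.inr (1 : Fin 2)) = -1 := rfl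
    have a2 : sbar (Sum.inr (1 : Fin 2)) = (Sum.inl 1 : Fin 2 ⊕ Fin 2) := rfl
    rw [a1, a2, Pi.single_eq_same]
    linear_combination (-1 : F) * h2
  have f2e2 : sf f2 e2 = 1 := by
    rw [he2, sympForm_single, hf2]
    have a1 : stau F (Sum.inl (1 : Fin 2)) = 1 := rfl
    have a2 : sbar (Sum.inl (1 : Fin 2)) = (Sum.inr 1 : Fin 2 ⊕ Fin 2) := rfl
    rw [a1, a2, Pi.single_eq_same, mul_one]
  have e2e1 : sf e2 e1 = 0 := by
    rw [he1, sympForm_single, he2]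
    have a2 : sbar (Sum.inl (0 : Fin 2)) = (Sum.inr 0 : Fin 2 ⊕ Fin 2) := rfl
    rw [a2, Pi.single_eq_of_ne (by simp), mul_zero]
  have f2e1 : sf f2 e1 = 0 := by
    rw [he1, sympForm_single, hf2]
    have a2 : sbar (Sum.inl (0 : Fin 2)) = (Sum.inr 0 : Fin 2 ⊕ Fin 2) := rfl
    rw [a2, Pi.single_eq_of_ne (by simp), mul_zero]
  have e1e2 : sf e1 e2 = 0 := by rw [hf.skew, e2e1, neg_zero]
  have e1f2 : sf e1 f2 = 0 := by rw [hf.skew, f2e1, neg_zero]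
  -- non-vanishing
  have e2ne : e2 ≠ 0 := by
    intro h
    have h3 := congrFun h (Sum.inl 1)
    rw [he2] at h3
    simp at h3
  have f2ne : f2 ≠ 0 := by
    intro h
    have h3 := congrFun h (Sum.inr 1)
    rw [hf2] at h3
    simp at h3
  have e2f2ne : e2 + f2 ≠ 0 := by
    intro h
    have h3 := congrFun h (Sum.inl 1)
    rw [he2, hf2] at h3
    simp at h3
  have f2e1ne : f2 + e1 ≠ 0 := by
    intro h
    have h3 := congrFun h (Sum.inl 0)
    rw [he1, hf2] at h3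
    simp at h3
  have e2e1ne : e2 + e1 ≠ 0 := by
    intro h
    have h3 := congrFun h (Sum.inl 0)
    rw [he1, he2] at h3
    simp at h3
  rw [he1] at e2e1 f2e1 f2e1ne e2e1ne
  have Y1 := k1_Y D hS hT re2 rf2 e2ne f2ne f2e1ne e2f2 e2e1 f2e1
  have Y2 := k1_Y D hS hT rf2 re2 f2ne e2ne e2e1ne f2e2 f2e1 e2e1
  have Y3 := k1_Y D hS hT (ratV_add re2 rf2) re2 e2f2ne e2ne e2e1ne
    (by rw [hb.add_left, hf.alternating, f2e2, zero_add])
    (by rw [hb.add_left, e2e1, f2e1, add_zero]) e2e1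
  rw [← he1] at Y1 Y2 Y3
  -- combine
  have o1 : sf e1 ((s * t) • e2) = 0 := by rw [hb.smul_right, e1e2, mul_zero]
  have o2 : sf e1 ((s * t) • f2) = 0 := by rw [hb.smul_right, e1f2, mul_zero]
  have o3 : sf e1 ((s * t) • (e2 + f2)) = 0 := by
    rw [hb.smul_right, hb.add_right, e1e2, e1f2, add_zero, mul_zero]
  have Z1 := act_hs_mul hf o1 o2 Y1 Y2
  have Z1' : Act M (hs sf e1 ((s * t) • (e2 + f2)) (s ^ 2 * t ^ 2)) := by
    refine act_hs_eq Z1 (by rw [smul_add]) ?_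
    rw [hb.smul_left, hb.smul_right, f2e2]
    linear_combination (t * s ^ 2) * h2
  have Z2 := act_hs_mul hf o3 o3 Z1' Y3
  show Act M (hs sf (Pi.single (Sum.inl 0) 1) 0 (s ^ 2 * (t ^ 2 + t)))
  rw [← he1]
  refine act_hs_eq Z2 ?_ ?_
  · rw [← two_smul F, h2, zero_smul]
  · rw [hf.alternating]
    ring

theorem inL_K1 (h2 : (2 : F) = 0) {F₀ : Subfield F} {M : Subgroup (GL (Fin 2 ⊕ Fin 2) F)}
    (D : SubfData sf F₀ M) {s t : F} (hs : InL M s) (ht : InL M t) :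
    InL M (s ^ 2 * (t ^ 2 + t)) := by
  exact k1_main h2 D hs ht

end Cfsg.Agent.Lib.Helper97.Sp4E
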