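import Mathlib
import Cfsg.Prelude.Def_GeometricClasses
import Cfsg.Agent.Lib.Helper97.Sp4EDefs
import Cfsg.Agent.Lib.Helper97.Sp4ELong
import Cfsg.Agent.Lib.Helper97.Sp4EQlem
import Cfsg.Agent.Lib.Helper97.Sp4EGSub
import Cfsg.Agent.Lib.Helper97.Sp4EChainE
import Cfsg.Agent.Lib.Helper97.Sp4EChainF

/-!
# SP4E piece RATQ (for S5789): transvection centres of `M` in `e₁^⊥` are proportional to rational
vectors (generic case)
-/

set_option autoImplicit false

namespace Cfsg.Agent.Lib.Helper97.Sp4E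

open Matrix Cfsg.Agent.Lib.Helper97 Cfsg.Agent.Lib.Helper50

variable {F : Type*} [Field F]

local notation "sf" => Cfsg.sympForm 2 F

theorem rat_of_perp_frame_Q [Fintype F] (h2 : (2 : F) = 0) {F₀ : Subfield F}
    {M : Subgroup (GL (Fin 2 ⊕ Fin 2) F)} (D : SubfData sf F₀ M) (r : ℕ) (hr : r.Prime)
    (hcard : Fintype.card F = Nat.card F₀ ^ r) (hex : ¬ (Nat.card F₀ = 2 ∧ r = 2))
    (hA : ∀ c : F, InL M c → c ∈ F₀) {a : Fin 2 ⊕ Fin 2 → F}
    (ha : sf a (Pi.single (Sum.inl 0) 1) = 0) (h : Act M (hs sf a 0 1)) :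
    ∃ (l : F) (r' : Fin 2 ⊕ Fin 2 → F), RatV F₀ r' ∧ a = l • r' := by
  have hf := sympForm_symp (F := F) 2
  have hb := hf.bilinear
  have hsq : ∀ c : F, c ^ 2 ∈ F₀ → c ∈ F₀ := mem_of_sq_mem F₀ r hcard (Or.inl h2)
  have hone : (-1 : F) = 1 := by linear_combination (-1 : F) * h2
  -- the coordinates of `a` at `f2`, `e2` are rational
  have hγ : a (Sum.inr 1) ∈ F₀ :=
    hsq _ (qlem h2 F₀ r hr hcard hex _ (fun l hl => chainE h2 D hsq hA ha h l hl))
  have hβ : a (Sum.inl 1) ∈ F₀ :=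
    hsq _ (qlem h2 F₀ r hr hcard hex _ (fun l hl => chainF h2 D hsq hA ha h l hl))
  -- the coordinate at `f1` vanishes
  have h0 : a (Sum.inr 0) = 0 := by
    have h1 := ha
    rw [sympForm_single] at h1
    simpa [stau, sbar] using h1
  -- the rational part
  obtain ⟨w₁, hw₁⟩ : ∃ w₁ : Fin 2 ⊕ Fin 2 → F,
      w₁ = a - a (Sum.inl 0) • Pi.single (Sum.inl 0) 1 := ⟨_, rfl⟩
  have hw₁l0 : w₁ (Sum.inl 0) = 0 := by rw [hw₁]; simp
  have hw₁r0 : w₁ (Sum.inr 0) = 0 := by rw [hw₁]; simp [h0]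
  have hw₁rat : RatV F₀ w₁ := by
    intro i
    rcases i with i | i
    · fin_cases i
      · show w₁ (Sum.inl 0) ∈ F₀
        rw [hw₁l0]; exact F₀.zero_mem
      · show w₁ (Sum.inl 1) ∈ F₀
        rw [hw₁]; simpa using hβ
    · fin_cases i
      · show w₁ (Sum.inr 0) ∈ F₀
        rw [hw₁r0]; exact F₀.zero_mem
      · show w₁ (Sum.inr 1) ∈ F₀
        rw [hw₁]; simpa using hγ
  have ha_eq : a = w₁ + a (Sum.inl 0) • Pi.single (Sum.inl 0) 1 := by
    rw [hw₁, sub_add_cancel]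
  by_cases hw0 : w₁ = 0
  · refine ⟨a (Sum.inl 0), Pi.single (Sum.inl 0) 1, ratV_single F₀ _ F₀.one_mem, ?_⟩
    rw [ha_eq, hw0, zero_add]
    simp
  · have hα : a (Sum.inl 0) ∈ F₀ := by
      apply qlem h2 F₀ r hr hcard hex
      intro l hl
      by_cases hl0 : l = 0
      · rw [hl0]; simp
      · have huv : sf w₁ (l⁻¹ • Pi.single (Sum.inl 0) 1) = 0 := by
          rw [hb.smul_right, sympForm_single]
          simp [sbar, hw₁r0]
        have huv' : sf w₁ (l • Pi.single (Sum.inr 0) 1) = 0 := by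
          rw [hb.smul_right, sympForm_single]
          simp [sbar, hw₁l0]
        have hvv' : sf (l⁻¹ • Pi.single (Sum.inl 0) 1) (l • Pi.single (Sum.inr 0) 1) = 1 := by
          rw [hb.smul_left, hb.smul_right, sympForm_single]
          simp [stau, sbar, hone, hl0]
        have hact : Act M (hs sf ((1 : F) • w₁ +
            (a (Sum.inl 0) * l) • (l⁻¹ • Pi.single (Sum.inl 0) 1)) 0 1) := by
          have e : (1 : F) • w₁ + (a (Sum.inl 0) * l) • (l⁻¹ • Pi.single (Sum.inl 0) 1) = a := by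
            rw [one_smul, smul_smul, mul_assoc, mul_inv_cancel₀ hl0, mul_one]
            exact ha_eq.symm
          rw [e]
          exact h
        have hg := gsubi h2 D hsq hA hw₁rat
          (ratV_smul (F₀.inv_mem hl) (ratV_single F₀ (Sum.inl 0) F₀.one_mem))
          (ratV_smul hl (ratV_single F₀ (Sum.inr 0) F₀.one_mem)) hw0 huv huv' hvv' hact
        rw [mul_comm l]
        exact hg
    refine ⟨1, a, ?_, (one_smul F a).symm⟩
    rw [ha_eq]
    exact ratV_add hw₁rat (ratV_smul hα (ratV_single F₀ _ F₀.one_mem))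

end Cfsg.Agent.Lib.Helper97.Sp4E
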