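import Mathlib
import Cfsg.Prelude.Def_GeometricClasses
import Cfsg.Agent.Lib.Helper97.Sp4EDefs
import Cfsg.Agent.Lib.Helper97.Sp4ELong
import Cfsg.Agent.Lib.Helper97.Sp4EK1
import Cfsg.Agent.Lib.Helper97.Sp4EDich
import Cfsg.Agent.Lib.Helper97.Sp4EAllB
import Cfsg.Agent.Lib.Helper97.Sp4ERatQ
import Cfsg.Agent.Lib.Helper97.Sp4EF4
import Cfsg.Agent.Lib.Helper97.Sp4EImg
import Cfsg.Agent.Lib.Helper97.Sp4EDih

/-!
# Subfield subgroups of `Sp_4(q)`, `q` even, are maximal (helper97, for S5789)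

Assembly of the SP4E pieces: an overgroup `M` of the subfield group has long root parameter set
`F₀` or `F` (`dich`); in the first case elements of `M` not in general position are in the
subfield group (`sp_mem_H1_of_not_GP2`) and the dihedral argument applies (`le_H1_two_gen4`), in
the second `M` contains all symplectic transvections (`inS_all_of_inL`).
-/

set_option autoImplicit false

namespace Cfsg.Agent.Lib.Helper97.Sp4E

open Matrix Cfsg.Agent.Lib.Helper97 Cfsg.Agent.Lib.Helper50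

variable {F : Type*} [Field F]

local notation "sf" => Cfsg.sympForm 2 F

/-- A transvection of `M` whose centre is orthogonal to the first frame vector has a centre
proportional to a rational vector. -/
theorem rat_of_perp_frame2 [Fintype F] (h2 : (2 : F) = 0) {F₀ : Subfield F}
    {M : Subgroup (GL (Fin 2 ⊕ Fin 2) F)} (D : SubfData sf F₀ M) (r : ℕ) (hr : r.Prime)
    (hcard : Fintype.card F = Nat.card F₀ ^ r) (hA : ∀ c : F, InL M c → c ∈ F₀)
    {a : Fin 2 ⊕ Fin 2 → F} (ha : sf a (Pi.single (Sum.inl 0) 1) = 0)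
    (h : Act M (hs sf a 0 1)) :
    ∃ (l : F) (r' : Fin 2 ⊕ Fin 2 → F), RatV F₀ r' ∧ a = l • r' := by
  by_cases hex : Nat.card F₀ = 2 ∧ r = 2
  · have hF : Fintype.card F = 4 := by rw [hcard, hex.1, hex.2]; norm_num
    exact rat_of_perp_frame_F4 h2 D hex.1 hF hA h
  · exact rat_of_perp_frame_Q h2 D r hr hcard hex hA ha h

/-- A transvection of `M` whose centre lies in a rational hyperplane has a centre proportional to
a rational vector. -/
theorem rat_of_perp2 [Fintype F] (h2 : (2 : F) = 0) {F₀ : Subfield F} {M : Subgroup (GL (Fin 2 ⊕ Fin 2) F)}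
    (D : SubfData sf F₀ M) (r : ℕ) (hr : r.Prime)
    (hcard : Fintype.card F = Nat.card F₀ ^ r) (hA : ∀ c : F, InL M c → c ∈ F₀)
    {w' a : Fin 2 ⊕ Fin 2 → F} (hw' : RatV F₀ w') (hw'0 : w' ≠ 0) (ha : sf a w' = 0)
    (h : Act M (hs sf a 0 1)) :
    ∃ (l : F) (r : Fin 2 ⊕ Fin 2 → F), RatV F₀ r ∧ a = l • r := by
  obtain ⟨g, hgM, hgr, hgw⟩ := exists_rat_move D (Sum.inl 0) hw' hw'0
  have hginv : Act M (fun x => ((g⁻¹ : GL (Fin 2 ⊕ Fin 2) F) :
      Matrix (Fin 2 ⊕ Fin 2) (Fin 2 ⊕ Fin 2) F) *ᵥ x) := act_mulVec (M.inv_mem hgM)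
  have h1 := act_hs_conj D.iso hginv h
  simp only [Matrix.mulVec_zero] at h1
  have e : sf (((g⁻¹ : GL (Fin 2 ⊕ Fin 2) F) : Matrix (Fin 2 ⊕ Fin 2) (Fin 2 ⊕ Fin 2) F) *ᵥ a)
      (Pi.single (Sum.inl 0) 1) = 0 := by
    have h2 := D.iso g⁻¹ (M.inv_mem hgM) a w'
    rw [← hgw, gl_inv_mulVec, hgw, ha] at h2
    exact h2
  obtain ⟨l, r1, hr1, hlr⟩ := rat_of_perp_frame2 h2 D r hr hcard hA e h1
  refine ⟨l, (g : Matrix (Fin 2 ⊕ Fin 2) (Fin 2 ⊕ Fin 2) F) *ᵥ r1, ratM_mulVec hgr hr1, ?_⟩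
  rw [← Matrix.mulVec_smul, ← hlr, gl_mulVec_inv]

/-- If `g ∈ M` maps the rational point `z` to a rational point, it maps every rational point
orthogonal to `z` to a rational point. -/
theorem rat_image_of_perp2 [Fintype F] (h2 : (2 : F) = 0) {F₀ : Subfield F} {M : Subgroup (GL (Fin 2 ⊕ Fin 2) F)}
    (D : SubfData sf F₀ M) (r₀ : ℕ) (hr₀ : r₀.Prime)
    (hcard : Fintype.card F = Nat.card F₀ ^ r₀) (hA : ∀ c : F, InL M c → c ∈ F₀)
    {g : GL (Fin 2 ⊕ Fin 2) F} (hg : g ∈ M) {z x : Fin 2 ⊕ Fin 2 → F} (hz0 : z ≠ 0)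
    (hRz : ∃ (l : F) (r : Fin 2 ⊕ Fin 2 → F), RatV F₀ r ∧
      (g : Matrix (Fin 2 ⊕ Fin 2) (Fin 2 ⊕ Fin 2) F) *ᵥ z = l • r)
    (hx : RatV F₀ x) (hxz : sf x z = 0) :
    ∃ (l : F) (r : Fin 2 ⊕ Fin 2 → F), RatV F₀ r ∧
      (g : Matrix (Fin 2 ⊕ Fin 2) (Fin 2 ⊕ Fin 2) F) *ᵥ x = l • r := by
  have hf := sympForm_symp (F := F) 2
  have hb := hf.bilinear
  obtain ⟨l, r, hr, hlr⟩ := hRz
  have hgz0 : (g : Matrix (Fin 2 ⊕ Fin 2) (Fin 2 ⊕ Fin 2) F) *ᵥ z ≠ 0 := by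
    intro h0
    apply hz0
    have h1 := gl_inv_mulVec g z
    rw [h0, Matrix.mulVec_zero] at h1
    exact h1.symm
  have hl0 : l ≠ 0 := by
    rintro rfl
    rw [zero_smul] at hlr
    exact hgz0 hlr
  have hr0 : r ≠ 0 := by
    rintro rfl
    rw [smul_zero] at hlr
    exact hgz0 hlr
  have e : sf ((g : Matrix (Fin 2 ⊕ Fin 2) (Fin 2 ⊕ Fin 2) F) *ᵥ x) r = 0 := by
    have h1 := D.iso g hg x z
    rw [hlr, hb.smul_right, hxz] at h1
    exact (mul_eq_zero.mp h1).resolve_left hl0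
  have hq : Act M (hs sf x 0 1) :=
    act_hs_rat hf D hx (ratV_zero F₀) F₀.one_mem (form_zero_right hb _)
  have h1 := act_hs_conj D.iso (act_mulVec hg) hq
  simp only [Matrix.mulVec_zero] at h1
  exact rat_of_perp2 h2 D r₀ hr₀ hcard hA hr hr0 e h1

/-- If all short root parameters of `M` are rational, an element of `M` that is not in general
position is a scalar multiple of a rational matrix. -/
theorem sp_mem_H1_of_not_GP2 [Fintype F] (h2 : (2 : F) = 0) {F₀ : Subfield F} {M : Subgroup (GL (Fin 2 ⊕ Fin 2) F)}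
    (D : SubfData sf F₀ M) (r₀ : ℕ) (hr₀ : r₀.Prime)
    (hcard : Fintype.card F = Nat.card F₀ ^ r₀) (hA : ∀ c : F, InL M c → c ∈ F₀)
    (g : GL (Fin 2 ⊕ Fin 2) F) (hg : g ∈ M) (hGP : ¬ GP F₀ g) :
    g ∈ H1 (Fin 2 ⊕ Fin 2) F₀ := by
  have hf := sympForm_symp (F := F) 2
  have hb := hf.bilinear
  unfold GP at hGP
  push Not at hGP
  obtain ⟨v, φ, hv, hφ, hv0, hφ0, h0⟩ := hGP
  obtain ⟨w', hw'⟩ : ∃ w' : Fin 2 ⊕ Fin 2 → F, w' = -(Matrix.J (Fin 2) F *ᵥ φ) := ⟨_, rfl⟩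
  have hw'r : RatV F₀ w' := by
    rw [hw']
    exact ratV_neg (ratM_mulVec (ratM_J F₀) hφ)
  have hJ : Matrix.J (Fin 2) F *ᵥ w' = φ := by
    rw [hw', Matrix.mulVec_neg, Matrix.mulVec_mulVec, Matrix.J_squared, Matrix.neg_mulVec,
      Matrix.one_mulVec, neg_neg]
  have hw'0 : w' ≠ 0 := by
    intro h
    rw [h, Matrix.mulVec_zero] at hJ
    exact hφ0 hJ.symm
  have hform : ∀ x : Fin 2 ⊕ Fin 2 → F, sf x w' = φ ⬝ᵥ x := by
    intro x
    show x ⬝ᵥ (Matrix.J (Fin 2) F *ᵥ w') = _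
    rw [hJ, dotProduct_comm]
  obtain ⟨g1, hg1M, hg1r, hg1⟩ := exists_rat_move D (Sum.inl 0) hv hv0
  have hgg : g * g1 ∈ M := M.mul_mem hg hg1M
  have hval : ((g * g1 : GL (Fin 2 ⊕ Fin 2) F) : Matrix (Fin 2 ⊕ Fin 2) (Fin 2 ⊕ Fin 2) F) *ᵥ
      Pi.single (Sum.inl 0) 1 =
      (g : Matrix (Fin 2 ⊕ Fin 2) (Fin 2 ⊕ Fin 2) F) *ᵥ v := by
    rw [Units.val_mul, ← Matrix.mulVec_mulVec, hg1]
  have hq : Act M (hs sf (Pi.single (Sum.inl 0) 1) 0 1) :=
    act_hs_rat hf D (ratV_single F₀ _ F₀.one_mem) (ratV_zero F₀) F₀.one_mem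
      (form_zero_right hb _)
  have h1 := act_hs_conj D.iso (act_mulVec hgg) hq
  simp only [Matrix.mulVec_zero] at h1
  rw [hval] at h1
  have hR := rat_of_perp2 h2 D r₀ hr₀ hcard hA hw'r hw'0 (by rw [hform]; exact h0) h1
  have hmem := mem_H1_of_rat_image2 D hgg
    (fun z x hz0 hRz hx hxz => rat_image_of_perp2 h2 D r₀ hr₀ hcard hA hgg hz0 hRz hx hxz)
    (by rw [hval]; exact hR)
  have hg1H : g1 ∈ H1 (Fin 2 ⊕ Fin 2) F₀ :=
    mem_H1_of F₀ g1 1 one_ne_zero _ hg1r (by rw [one_smul])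
  have e : g = (g * g1) * g1⁻¹ := by group
  rw [e]
  exact (H1 (Fin 2 ⊕ Fin 2) F₀).mul_mem hmem ((H1 (Fin 2 ⊕ Fin 2) F₀).inv_mem hg1H)


variable [Fintype F]

/-- The characteristic two instance of the dihedral argument in `Sp_2m`. -/
theorem sp_le_H1_two4 {F₀ : Subfield F} {M : Subgroup (GL (Fin 2 ⊕ Fin 2) F)}
    (D : SubfData sf F₀ M)
    (hGPl : ∀ g ∈ M, ¬ GP F₀ g → g ∈ H1 (Fin 2 ⊕ Fin 2) F₀)
    (hsq : ∀ c : F, c ^ 2 ∈ F₀ → c ∈ F₀) (h2 : (2 : F) = 0) :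
    M ≤ H1 (Fin 2 ⊕ Fin 2) F₀ := by
  have hf := sympForm_symp (F := F) 2
  have hb := hf.bilinear
  have key : ∀ p : Fin 2, ∀ t : GL (Fin 2 ⊕ Fin 2) F,
      (t : Matrix (Fin 2 ⊕ Fin 2) (Fin 2 ⊕ Fin 2) F) =
        tv (Pi.single (Sum.inl p) 1) (Pi.single (Sum.inr p) 1) → t ∈ M := by
    intro p t ht
    obtain ⟨g, hgM, hgx⟩ := act_hs_rat hf D (ratV_single F₀ (Sum.inl p) F₀.one_mem)
      (ratV_zero F₀) F₀.one_mem (form_zero_right hb _)
    have e : t = g := by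
      apply Units.ext
      apply ext_mulVec_single
      intro k
      rw [hgx, ht, tv_mulVec, hs_tv hb, sympForm_single, single_dotProduct, one_mul, one_mul]
      simp [stau, sbar]
    rw [e]
    exact hgM
  exact le_H1_two_gen4 (Sum.inl 0) (Sum.inr 0) (Sum.inl 1) (Sum.inr 1) (by decide)
    (key _) (key _) hGPl hsq h2

/-- The subfield group in standard position is maximal in `Sp_2m`. -/
theorem sp4_subfield_max_aux (h2 : (2 : F) = 0) (F₀ : Subfield F) (r : ℕ) (hr : r.Prime)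
    (hcard : Fintype.card F = Nat.card F₀ ^ r) :
    Cfsg.Geo.IsMaximalIn (Cfsg.spGL 2 F) (H1 (Fin 2 ⊕ Fin 2) F₀ ⊓ Cfsg.spGL 2 F) := by
  have hf := sympForm_symp (F := F) 2
  have hb := hf.bilinear
  refine ⟨lt_of_le_of_ne inf_le_right ?_, fun M hHM hMK => ?_⟩
  · intro heq
    have hex : ∃ c : F, c ∉ F₀ := by
      by_contra hcon
      push Not at hcon
      have h1 : Nat.card F₀ = Fintype.card F := by
        rw [← Nat.card_eq_fintype_card]
        exact Nat.card_congr (Equiv.subtypeUnivEquiv hcon)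
      have h4 : 1 < Nat.card F₀ := by rw [h1]; exact Fintype.one_lt_card
      rw [← h1] at hcard
      have h5 : Nat.card F₀ ^ 1 = Nat.card F₀ ^ r := by rw [pow_one]; exact hcard
      have h6 := Nat.pow_right_injective h4 h5
      exact hr.one_lt.ne h6
    obtain ⟨c, hc⟩ := hex
    obtain ⟨o, ho⟩ : ∃ o : Fin 2 ⊕ Fin 2, o = Sum.inl 0 := ⟨_, rfl⟩
    have hdot := symp_dot0 hf (Pi.single o 1 : Fin 2 ⊕ Fin 2 → F) c
    obtain ⟨t, ht_def⟩ : ∃ t : GL (Fin 2 ⊕ Fin 2) F,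
        t = tvG (Pi.single o 1 : Fin 2 ⊕ Fin 2 → F) (c • rho sf (Pi.single o 1)) hdot := ⟨_, rfl⟩
    have htx : ∀ x : Fin 2 ⊕ Fin 2 → F, (t : Matrix (Fin 2 ⊕ Fin 2) (Fin 2 ⊕ Fin 2) F) *ᵥ x =
        x + (c * sf x (Pi.single o 1)) • Pi.single o 1 := by
      intro x
      rw [ht_def]
      exact stv_mulVec hf _ c x
    have hmem : t ∈ Cfsg.spGL 2 F := by
      rw [mem_spGL_iff, ht_def]
      exact fun x y => stv_pres hf _ c x y
    have ht : t ∈ H1 (Fin 2 ⊕ Fin 2) F₀ ⊓ Cfsg.spGL 2 F := by rw [heq]; exact hmem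
    obtain ⟨c', hc'0, A, hA, htA⟩ := exists_of_mem_H1 F₀ _ ht.1
    have e00 := congrFun (congrArg (fun B : Matrix (Fin 2 ⊕ Fin 2) (Fin 2 ⊕ Fin 2) F =>
      B *ᵥ Pi.single o 1) htA) o
    have e01 := congrFun (congrArg (fun B : Matrix (Fin 2 ⊕ Fin 2) (Fin 2 ⊕ Fin 2) F =>
      B *ᵥ Pi.single (sbar o) 1) htA) o
    simp only [htx, Matrix.mulVec_single_one, Matrix.col_apply, Matrix.smul_apply,
      Pi.add_apply, hf.alternating, mul_zero, zero_smul, add_zero, Pi.zero_apply,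
      Pi.single_eq_same, smul_eq_mul] at e00
    simp only [htx, Matrix.mulVec_single_one, Matrix.col_apply, Matrix.smul_apply,
      Pi.add_apply, Pi.smul_apply, Pi.single_eq_same, smul_eq_mul, sympForm_single,
      Pi.single_eq_of_ne (sbar_ne o).symm, zero_add, mul_one] at e01
    have hτ : stau F o = 1 := by rw [ho]; rfl
    rw [hτ, mul_one] at e01
    have hc'mem : c' ∈ F₀ := by
      have h7 : c' = (A o o)⁻¹ := eq_inv_of_mul_eq_one_left e00.symm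
      rw [h7]; exact F₀.inv_mem (hA o o)
    apply hc
    rw [e01]
    exact F₀.mul_mem hc'mem (hA o (sbar o))
  · have D := subfData_of hHM hMK
    have hdich := dich h2 (F₀ := F₀) (InL M) (fun c hc => inL_of_mem D hc)
      (fun a b ha hb => inL_add ha hb) (fun l hl c hc => inL_smul h2 D hl hc)
      (fun s t hs ht => inL_K1 h2 D hs ht) r hr hcard
    rcases hdich with hA | hall
    · left
      have hGPl : ∀ g ∈ M, ¬ GP F₀ g → g ∈ H1 (Fin 2 ⊕ Fin 2) F₀ :=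
        fun g hg h => sp_mem_H1_of_not_GP2 h2 D r hr hcard hA g hg h
      have hle : M ≤ H1 (Fin 2 ⊕ Fin 2) F₀ :=
        sp_le_H1_two4 D hGPl (mem_of_sq_mem F₀ r hcard (Or.inl h2)) h2
      exact le_antisymm (fun g hg => ⟨hle hg, hMK hg⟩) hHM
    · right
      exact le_antisymm hMK (spGL_le_of_InS 2 M (inS_all_of_inL h2 D hall))


/-- Every subfield subgroup of `Sp_4(F)`, `F` of characteristic two and of prime degree over
`F₀`, is maximal. -/
theorem sp4_subfield_isMaximalIn (h2 : (2 : F) = 0) (F₀ : Subfield F) (r : ℕ) (hr : r.Prime)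
    (hcard : Fintype.card F = Nat.card F₀ ^ r) (P : GL (Fin 2 ⊕ Fin 2) F) (ζ : F) (hζ : ζ ≠ 0)
    (hP : Cfsg.Geo.IsFormRationalStructure (Cfsg.sympForm 2 F) F₀ ζ P) :
    Cfsg.Geo.IsMaximalIn (Cfsg.spGL 2 F) (Cfsg.Geo.subfieldSubgroup F₀ P ⊓ Cfsg.spGL 2 F) :=
  sp_subfield_transfer 2 F₀ (sp4_subfield_max_aux h2 F₀ r hr hcard) P ζ hζ hP

end Cfsg.Agent.Lib.Helper97.Sp4E
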