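import Mathlib
import Cfsg.Prelude.Def_GeometricClasses
import Cfsg.Agent.Lib.Helper97.SpPair

/-!
# Pairs of complementary totally isotropic subspaces: basic lemmas

Helper library (helper97): `LagPair f A B` (complementary totally isotropic subspaces) and
`PairData f A B M` (in addition `M` consists of isometries and contains every isometry
stabilising both `A` and `B`).
-/

set_option autoImplicit false

namespace Cfsg.Agent.Lib.Helper97

open Matrix

variable {ι : Type} [Fintype ι] [DecidableEq ι] {F : Type*} [Field F]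
variable {f : (ι → F) → (ι → F) → F}

/-- A pair of complementary totally isotropic subspaces. -/
structure LagPair (f : (ι → F) → (ι → F) → F) (A B : Submodule F (ι → F)) : Prop where
  isoA : ∀ u ∈ A, ∀ v ∈ A, f u v = 0
  isoB : ∀ u ∈ B, ∀ v ∈ B, f u v = 0
  sup : A ⊔ B = ⊤
  inf : A ⊓ B = ⊥

/-- A pair of complementary totally isotropic subspaces and a group of isometries containing
every isometry stabilising both. -/
structure PairData (f : (ι → F) → (ι → F) → F) (A B : Submodule F (ι → F))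
    (M : Subgroup (GL ι F)) : Prop where
  pair : LagPair f A B
  isom : ∀ g ∈ M, ∀ x y, f ((g : Matrix ι ι F) *ᵥ x) ((g : Matrix ι ι F) *ᵥ y) = f x y
  stab : ∀ t : GL ι F,
    (∀ x y, f ((t : Matrix ι ι F) *ᵥ x) ((t : Matrix ι ι F) *ᵥ y) = f x y) →
    (∀ x ∈ A, (t : Matrix ι ι F) *ᵥ x ∈ A) → (∀ x ∈ B, (t : Matrix ι ι F) *ᵥ x ∈ B) → t ∈ M

variable {A B : Submodule F (ι → F)} {M : Subgroup (GL ι F)}

omit [Fintype ι] [DecidableEq ι] in
lemma LagPair.symm (hP : LagPair f A B) : LagPair f B A :=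
  ⟨hP.isoB, hP.isoA, by rw [sup_comm]; exact hP.sup, by rw [inf_comm]; exact hP.inf⟩

lemma PairData.symm (hP : PairData f A B M) : PairData f B A M :=
  ⟨hP.pair.symm, hP.isom, fun t h1 h2 h3 => hP.stab t h1 h3 h2⟩

omit [Fintype ι] [DecidableEq ι] in
lemma LagPair.decomp (hP : LagPair f A B) (x : ι → F) : ∃ a ∈ A, ∃ b ∈ B, x = a + b := by
  have hx : x ∈ A ⊔ B := by rw [hP.sup]; exact Submodule.mem_top
  obtain ⟨a, ha, b, hb, hab⟩ := Submodule.mem_sup.mp hx
  exact ⟨a, ha, b, hb, hab.symm⟩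

omit [Fintype ι] [DecidableEq ι] in
lemma LagPair.eq_zero (hP : LagPair f A B) {x : ι → F} (hA : x ∈ A) (hB : x ∈ B) : x = 0 := by
  have h : x ∈ A ⊓ B := ⟨hA, hB⟩
  rw [hP.inf] at h
  exact (Submodule.mem_bot F).mp h

omit [Fintype ι] [DecidableEq ι] in
lemma LagPair.isCompl (hP : LagPair f A B) : IsCompl A B :=
  IsCompl.of_eq hP.inf hP.sup

omit [Fintype ι] [DecidableEq ι] in
/-- The product of two functionals `f(·, p)`, `f(·, q)` vanishes on `A` only if one does. -/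
lemma fun_prod_zero (hb : Cfsg.Geo.IsBilinearForm f) {A : Submodule F (ι → F)} {p q : ι → F}
    (h : ∀ u ∈ A, f u p * f u q = 0) {u₁ : ι → F} (hu₁ : u₁ ∈ A) (h1 : f u₁ q ≠ 0) :
    ∀ u ∈ A, f u p = 0 := by
  have h0 : f u₁ p = 0 := (mul_eq_zero.mp (h u₁ hu₁)).resolve_right h1
  intro u hu
  by_cases h2 : f u q = 0
  · have h3 := h (u + u₁) (A.add_mem hu hu₁)
    rw [hb.add_left, hb.add_left, h0, h2, add_zero, zero_add] at h3
    exact (mul_eq_zero.mp h3).resolve_right h1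
  · exact (mul_eq_zero.mp (h u hu)).resolve_right h2

omit [DecidableEq ι] in
/-- A subspace of dimension at least four has a non-zero vector orthogonal to three given
vectors. -/
lemma exists_perp3 (hb : Cfsg.Geo.IsBilinearForm f) {A : Submodule F (ι → F)}
    (hA : 4 ≤ Module.finrank F A) (p₁ p₂ p₃ : ι → F) :
    ∃ a ∈ A, a ≠ 0 ∧ f a p₁ = 0 ∧ f a p₂ = 0 ∧ f a p₃ = 0 := by
  let L : A →ₗ[F] F × F × F :=
    (((bil hb).flip p₁).prod (((bil hb).flip p₂).prod ((bil hb).flip p₃))).comp A.subtype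
  have hker : LinearMap.ker L ≠ ⊥ := by
    apply LinearMap.ker_ne_bot_of_finrank_lt
    rw [Module.finrank_prod, Module.finrank_prod, Module.finrank_self]
    omega
  obtain ⟨a, ha, ha0⟩ := Submodule.exists_mem_ne_zero_of_ne_bot hker
  rw [LinearMap.mem_ker] at ha
  have h1 : L a = (f a p₁, f a p₂, f a p₃) := rfl
  rw [h1] at ha
  simp only [Prod.mk_eq_zero] at ha
  exact ⟨a, a.2, fun h => ha0 (Subtype.ext h), ha.1, ha.2.1, ha.2.2⟩

section symp

variable (hf : Cfsg.Geo.IsSymplecticForm f)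
include hf

omit [Fintype ι] [DecidableEq ι] in
lemma LagPair.pair_nd (hP : LagPair f A B) {w : ι → F} (hw : w ∈ B) (hw0 : w ≠ 0) :
    ∃ u ∈ A, f u w ≠ 0 := by
  obtain ⟨z, hz⟩ := (hf.nondegenerate w hw0).1
  obtain ⟨a, ha, b, hb, rfl⟩ := hP.decomp z
  refine ⟨a, ha, ?_⟩
  rw [hf.bilinear.add_left, hP.isoB b hb w hw, add_zero] at hz
  exact hz

omit [Fintype ι] [DecidableEq ι] in
lemma LagPair.pair_nd' (hP : LagPair f A B) {a : ι → F} (ha : a ∈ A) (ha0 : a ≠ 0) :
    ∃ v ∈ B, f a v ≠ 0 := by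
  obtain ⟨v, hv, h⟩ := hP.symm.pair_nd hf ha ha0
  exact ⟨v, hv, by rw [hf.skew]; exact neg_ne_zero.mpr h⟩

omit [Fintype ι] [DecidableEq ι] in
/-- A vector orthogonal to `A` lies in `A`. -/
lemma LagPair.perp_mem (hP : LagPair f A B) {y : ι → F} (h : ∀ a ∈ A, f a y = 0) : y ∈ A := by
  obtain ⟨a, ha, b, hb, rfl⟩ := hP.decomp y
  have hb0 : b = 0 := by
    by_contra hb0
    obtain ⟨u, hu, hub⟩ := hP.pair_nd hf hb hb0
    apply hub
    have h1 := h u hu
    rw [hf.bilinear.add_right, hP.isoA u hu a ha, zero_add] at h1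
    exact h1
  rw [hb0, add_zero]
  exact ha

omit [Fintype ι] [DecidableEq ι] in
lemma LagPair.exists_both_pair (hP : LagPair f A B) {a a' : ι → F} (ha : a ∈ A) (ha0 : a ≠ 0)
    (ha' : a' ∈ A) (ha'0 : a' ≠ 0) : ∃ v ∈ B, f a v ≠ 0 ∧ f a' v ≠ 0 := by
  have hb := hf.bilinear
  obtain ⟨v₁, hv₁, h1⟩ := hP.pair_nd' hf ha ha0
  obtain ⟨v₂, hv₂, h2⟩ := hP.pair_nd' hf ha' ha'0
  by_cases h3 : f a' v₁ = 0
  · by_cases h4 : f a v₂ = 0
    · refine ⟨v₁ + v₂, B.add_mem hv₁ hv₂, ?_, ?_⟩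
      · rw [hb.add_right, h4, add_zero]
        exact h1
      · rw [hb.add_right, h3, zero_add]
        exact h2
    · exact ⟨v₂, hv₂, h4, h2⟩
  · exact ⟨v₁, hv₁, h1, h3⟩

lemma PairData.sm_act (hP : PairData f A B M) {u v : ι → F} (hu : u ∈ A) (hv : v ∈ B)
    (huv : f u v = 0) : Act M (sm f u v) := by
  obtain ⟨s, hs1, hs2⟩ := exists_sm hf huv
  refine ⟨s, hP.stab s hs2 (fun x hx => ?_) (fun x hx => ?_), hs1⟩
  · rw [hs1, sm_apply, hP.pair.isoA x hx u hu, zero_smul, add_zero]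
    exact A.add_mem hx (A.smul_mem _ hu)
  · rw [hs1, sm_apply, hP.pair.isoB x hx v hv, zero_smul, add_zero]
    exact B.add_mem hx (B.smul_mem _ hv)

omit hf in
/-- Conjugating `sm f u v` by an isometry `k ∈ M`. -/
lemma sm_conj {k : GL ι F} (hk : k ∈ M)
    (hiso : ∀ x y, f ((k : Matrix ι ι F) *ᵥ x) ((k : Matrix ι ι F) *ᵥ y) = f x y)
    {u v : ι → F} (h : Act M (sm f u v)) :
    Act M (sm f ((k : Matrix ι ι F) *ᵥ u) ((k : Matrix ι ι F) *ᵥ v)) := by
  refine (Act.conj hk h).congr (fun x => ?_)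
  have e1 : ∀ z, f (((k⁻¹ : GL ι F) : Matrix ι ι F) *ᵥ x) z = f x ((k : Matrix ι ι F) *ᵥ z) := by
    intro z
    have h1 := hiso (((k⁻¹ : GL ι F) : Matrix ι ι F) *ᵥ x) z
    rw [gl_mulVec_inv] at h1
    exact h1.symm
  rw [sm_apply, sm_apply, Matrix.mulVec_add, Matrix.mulVec_add, Matrix.mulVec_smul,
    Matrix.mulVec_smul, gl_mulVec_inv, e1, e1]

/-- Inside the abelian group of the maps `sm f X y` with `y` in a fixed totally isotropic
subspace orthogonal to `X`. -/
lemma sm_quot {X y d : ι → F} (hXy : f X y = 0) (hXd : f X d = 0) (hyd : f y d = 0)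
    (h1 : Act M (sm f X (y + d))) (h2 : Act M (sm f X y)) : Act M (sm f X d) := by
  have hb := hf.bilinear
  have hyX : f y X = 0 := by rw [hf.skew, hXy, neg_zero]
  have h3 : Act M (sm f X (-y)) := by
    apply h2.inv
    intro x
    simp only [sm_apply, hb.add_left, hb.smul_left, form_neg_right hb, form_neg_left hb, hXy, hyX,
      hf.alternating]
    module
  refine (h1.comp h3).congr (fun x => ?_)
  simp only [sm_apply, hb.add_left, hb.smul_left, hb.add_right, form_neg_right hb,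
    form_neg_left hb, hXy, hyX, hXd, hyd, hf.alternating]
  module

end symp

end Cfsg.Agent.Lib.Helper97
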