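import Mathlib
import Cfsg.Prelude.Def_GeometricClasses
import Cfsg.Agent.Lib.Helper97.SpPair2

/-!
# Overgroups of the stabiliser of a pair of complementary totally isotropic subspaces

Helper library (helper97): the three steps of the overgroup argument (characteristic not two).
-/

set_option autoImplicit false

namespace Cfsg.Agent.Lib.Helper97

open Matrix

variable {ι : Type} [Fintype ι] [DecidableEq ι] {F : Type*} [Field F]
variable {f : (ι → F) → (ι → F) → F}
variable {A B : Submodule F (ι → F)} {M : Subgroup (GL ι F)}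

section symp

variable (hf : Cfsg.Geo.IsSymplecticForm f)
include hf

/-- If `sm f (e + w) a` lies in `M` with `a ∈ A` orthogonal to `w` and `f e w ≠ 0`, then `a` is
a transvection centre of `M`. -/
lemma PairData.centre_of_sm (hP : PairData f A B M) (h2 : (2 : F) ≠ 0) {e w a : ι → F}
    (he : e ∈ A) (hw : w ∈ B) (ha : a ∈ A) (hc : f e w ≠ 0) (haw : f a w = 0)
    (hact : Act M (sm f (e + w) a)) : InS f M a := by
  have hb := hf.bilinear
  apply InS_of_Act hf
  intro c
  have hwa : f w a = 0 := by rw [hf.skew, haw, neg_zero]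
  have hea : f e a = 0 := hP.pair.isoA e he a ha
  have hXa : f (e + w) a = 0 := by rw [hb.add_left, hea, hwa, add_zero]
  have haX : f a (e + w) = 0 := by rw [hf.skew, hXa, neg_zero]
  have haa : f a a = 0 := hf.alternating _
  have h1 : f a ((c / 2 / f e w) • w) = 0 := by rw [hb.smul_right, haw, mul_zero]
  obtain ⟨k, hkM, hk⟩ := hP.sm_act hf ha (B.smul_mem (c / 2 / f e w) hw) h1
  have hkx : (k : Matrix ι ι F) *ᵥ (e + w) = (e + w) + (c / 2) • a := by
    rw [hk, sm_apply, hXa, zero_smul, add_zero, hb.smul_right, hb.add_left,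
      hP.pair.isoB w hw w hw, add_zero, div_mul_cancel₀ _ hc]
  have hka : (k : Matrix ι ι F) *ᵥ a = a := by
    rw [hk, sm_apply, haa, zero_smul, add_zero, h1, zero_smul, add_zero]
  have h3 := sm_conj hkM (hP.isom k hkM) hact
  rw [hkx, hka] at h3
  have h4 : Act M (sm f a (e + w + (c / 2) • a)) := h3.congr (fun x => sm_comm _ _ x)
  have h5 : Act M (sm f a (e + w)) := hact.congr (fun x => sm_comm _ _ x)
  have h6 := sm_quot hf haX (by rw [hb.smul_right, haa, mul_zero])
    (by rw [hb.smul_right, hXa, mul_zero]) h4 h5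
  refine h6.congr (fun x => ?_)
  rw [sm_apply, hb.smul_right, smul_smul, add_assoc, ← add_smul]
  have h7 : c / 2 * f x a + f x a * (c / 2) = c * f x a := by
    field_simp
    ring
  rw [h7]

/-- **Step B**: from an element of `M` mapping a vector of `A` to `e + w` with `f e w ≠ 0`, a
non-zero transvection centre of `M` in `A ∪ B`. -/
theorem PairData.exists_centre (hP : PairData f A B M) (h2 : (2 : F) ≠ 0)
    (hA : 4 ≤ Module.finrank F A) (hB : 4 ≤ Module.finrank F B)
    {g : GL ι F} (hg : g ∈ M) {u₀ e w : ι → F} (hu₀ : u₀ ∈ A) (he : e ∈ A) (hw : w ∈ B)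
    (hgu : (g : Matrix ι ι F) *ᵥ u₀ = e + w) (hc : f e w ≠ 0) :
    ∃ p, p ≠ 0 ∧ (p ∈ A ∨ p ∈ B) ∧ InS f M p := by
  have hb := hf.bilinear
  have hiso := hP.isom g hg
  obtain ⟨v₀, hv₀, hv₀0, hv₀u, hv₀w, -⟩ :=
    exists_perp3 hb hB u₀ (((g⁻¹ : GL ι F) : Matrix ι ι F) *ᵥ w) 0
  have huv : f u₀ v₀ = 0 := by rw [hf.skew, hv₀u, neg_zero]
  have hy0 : (g : Matrix ι ι F) *ᵥ v₀ ≠ 0 := by
    intro h
    apply hv₀0
    apply gl_mulVec_injective g
    rw [h, Matrix.mulVec_zero]
  have hXy : f (e + w) ((g : Matrix ι ι F) *ᵥ v₀) = 0 := by rw [← hgu, hiso, huv]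
  have hyw : f ((g : Matrix ι ι F) *ᵥ v₀) w = 0 := by
    have h1 := hiso v₀ (((g⁻¹ : GL ι F) : Matrix ι ι F) *ᵥ w)
    rw [gl_mulVec_inv] at h1
    rw [h1, hv₀w]
  have hact : Act M (sm f (e + w) ((g : Matrix ι ι F) *ᵥ v₀)) := by
    have h1 := sm_conj hg hiso (hP.sm_act hf hu₀ hv₀ huv)
    rwa [hgu] at h1
  obtain ⟨a, ha, b, hbB, hy⟩ := hP.pair.decomp ((g : Matrix ι ι F) *ᵥ v₀)
  rw [hy] at hXy hyw hact hy0
  have haw : f a w = 0 := by
    rw [hb.add_left, hP.pair.isoB b hbB w hw, add_zero] at hyw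
    exact hyw
  have hwa : f w a = 0 := by rw [hf.skew, haw, neg_zero]
  have heb : f e b = 0 := by
    rw [hb.add_left, hb.add_right, hb.add_right, hP.pair.isoA e he a ha, hwa,
      hP.pair.isoB w hw b hbB, zero_add, add_zero, add_zero] at hXy
    exact hXy
  by_cases hb0 : b = 0
  · rw [hb0, add_zero] at hact hy0
    exact ⟨a, hy0, Or.inl ha, hP.centre_of_sm hf h2 he hw ha hc haw hact⟩
  by_cases ha0 : a = 0
  · rw [ha0, zero_add] at hact hy0
    refine ⟨b, hy0, Or.inr hbB, hP.symm.centre_of_sm hf h2 hw he hbB ?_ ?_ ?_⟩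
    · rw [hf.skew]
      exact neg_ne_zero.mpr hc
    · rw [hf.skew, heb, neg_zero]
    · rwa [add_comm] at hact
  -- mixed case
  obtain ⟨b₁, hb₁, hab₁⟩ := hP.pair.pair_nd' hf ha ha0
  have hb'' : b₁ - (f e b₁ / f e w) • w ∈ B := B.sub_mem hb₁ (B.smul_mem _ hw)
  have heb'' : f e (b₁ - (f e b₁ / f e w) • w) = 0 := by
    rw [form_sub_smul_right hb, div_mul_cancel₀ _ hc, sub_self]
  have hab'' : f a (b₁ - (f e b₁ / f e w) • w) ≠ 0 := by
    rw [form_sub_smul_right hb, haw, mul_zero, sub_zero]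
    exact hab₁
  obtain ⟨a'', ha'', ha''0, ha''w, ha''b, ha''b''⟩ :=
    exists_perp3 hb hA w b (b₁ - (f e b₁ / f e w) • w)
  obtain ⟨k, hkM, hk⟩ := hP.sm_act hf ha'' hb'' ha''b''
  have hwa'' : f w a'' = 0 := by rw [hf.skew, ha''w, neg_zero]
  have hba'' : f b a'' = 0 := by rw [hf.skew, ha''b, neg_zero]
  have hXa'' : f (e + w) a'' = 0 := by
    rw [hb.add_left, hP.pair.isoA e he a'' ha'', hwa'', add_zero]
  have hya'' : f (a + b) a'' = 0 := by
    rw [hb.add_left, hP.pair.isoA a ha a'' ha'', hba'', add_zero]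
  have hkX : (k : Matrix ι ι F) *ᵥ (e + w) = e + w := by
    rw [hk, sm_apply, hXa'', zero_smul, add_zero, hb.add_left, heb'',
      hP.pair.isoB w hw _ hb'', add_zero, zero_smul, add_zero]
  have hky : (k : Matrix ι ι F) *ᵥ (a + b) =
      (a + b) + f a (b₁ - (f e b₁ / f e w) • w) • a'' := by
    rw [hk, sm_apply, hya'', zero_smul, add_zero, hb.add_left (v := b₁ - (f e b₁ / f e w) • w),
      hP.pair.isoB b hbB _ hb'', add_zero]
  have h5 := sm_conj hkM (hP.isom k hkM) hact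
  rw [hkX, hky] at h5
  have h6 := sm_quot hf hXy (by rw [hb.smul_right, hXa'', mul_zero])
    (by rw [hb.smul_right, hya'', mul_zero]) h5 hact
  refine ⟨f a (b₁ - (f e b₁ / f e w) • w) • a'', smul_ne_zero hab'' ha''0,
    Or.inl (A.smul_mem _ ha''), hP.centre_of_sm hf h2 he hw (A.smul_mem _ ha'') hc ?_ h6⟩
  rw [hb.smul_left, ha''w, mul_zero]

end symp

end Cfsg.Agent.Lib.Helper97
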