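import Mathlib
import Cfsg.Prelude.Def_GeometricClasses
import Cfsg.Agent.Lib.Helper97.SpPair3

/-!
# Overgroups of the stabiliser of a pair of complementary totally isotropic subspaces, II

Helper library (helper97): step A (some element of `M` moves a vector of `A ∪ B` to a vector
`e + w` with `f e w ≠ 0`), step C (one centre in `A ∪ B` gives all centres), the swap of the
pair, and the final overgroup theorem `PairData.overgroup`.
-/

set_option autoImplicit false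

namespace Cfsg.Agent.Lib.Helper97

open Matrix

variable {ι : Type} [Fintype ι] [DecidableEq ι] {F : Type*} [Field F]
variable {f : (ι → F) → (ι → F) → F}
variable {A B : Submodule F (ι → F)} {M : Subgroup (GL ι F)}

section symp

variable (hf : Cfsg.Geo.IsSymplecticForm f)
include hf

/-- Key computation for step A. -/
lemma PairData.prod_zero (hP : PairData f A B M) (h2 : (2 : F) ≠ 0)
    (hcon : ∀ g' ∈ M, ∀ u, (u ∈ A ∨ u ∈ B) → ∀ e' ∈ A, ∀ w' ∈ B,
      (g' : Matrix ι ι F) *ᵥ u = e' + w' → f e' w' = 0)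
    {e w a b : ι → F} (he : e ∈ A) (hw : w ∈ B) (ha : a ∈ A) (hbB : b ∈ B)
    (hew : f e w = 0) (hab : f a b = 0)
    (hact : ∀ t : F, Act M (sm f (e + w) (t • (a + b)))) :
    ∀ u ∈ A, f u b * f u w = 0 := by
  have hb := hf.bilinear
  intro u hu
  have key : ∀ t : F, t * (f u b * f u w) * (2 + t * (f e b + f a w)) = 0 := by
    intro t
    obtain ⟨k, hkM, hk⟩ := hact t
    have h1 := hcon k hkM u (Or.inl hu) (u + (t * f u b) • e + (t * f u w) • a)
      (A.add_mem (A.add_mem hu (A.smul_mem _ he)) (A.smul_mem _ ha))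
      ((t * f u b) • w + (t * f u w) • b) (B.add_mem (B.smul_mem _ hw) (B.smul_mem _ hbB)) (by
        rw [hk, sm_apply]
        simp only [hb.add_right, hb.smul_right, hP.pair.isoA u hu a ha, hP.pair.isoA u hu e he]
        module)
    simp only [hb.add_left, hb.add_right, hb.smul_left, hb.smul_right, hew, hab] at h1
    linear_combination h1
  have h4 : 4 * (f u b * f u w) = 0 := by linear_combination 4 * key 1 - key 2
  have h4' : (4 : F) ≠ 0 := by
    have h5 : (4 : F) = 2 * 2 := by norm_num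
    rw [h5]
    exact mul_ne_zero h2 h2
  exact (mul_eq_zero.mp h4).resolve_left h4'

/-- **Step A**: if some element of `M` maps a vector of `A` outside `A ∪ B`, then some element
of `M` maps a vector of `A ∪ B` to `e' + w'` with `f e' w' ≠ 0`. -/
theorem PairData.exists_nonsingular (hP : PairData f A B M) (h2 : (2 : F) ≠ 0)
    (hB : 4 ≤ Module.finrank F B)
    {g : GL ι F} (hg : g ∈ M) {u₀ e w : ι → F} (hu₀ : u₀ ∈ A) (he : e ∈ A) (hw : w ∈ B)
    (hgu : (g : Matrix ι ι F) *ᵥ u₀ = e + w) (he0 : e ≠ 0) (hw0 : w ≠ 0) :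
    ∃ g' ∈ M, ∃ u, (u ∈ A ∨ u ∈ B) ∧ ∃ e' ∈ A, ∃ w' ∈ B,
      (g' : Matrix ι ι F) *ᵥ u = e' + w' ∧ f e' w' ≠ 0 := by
  have hb := hf.bilinear
  by_contra hcon0
  have hcon : ∀ g' ∈ M, ∀ u, (u ∈ A ∨ u ∈ B) → ∀ e' ∈ A, ∀ w' ∈ B,
      (g' : Matrix ι ι F) *ᵥ u = e' + w' → f e' w' = 0 := by
    intro g' hg' u hu e' he' w' hw' h
    by_contra h1
    exact hcon0 ⟨g', hg', u, hu, e', he', w', hw', h, h1⟩
  have hiso := hP.isom g hg
  have hew : f e w = 0 := hcon g hg u₀ (Or.inl hu₀) e he w hw hgu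
  obtain ⟨v₀, hv₀, hv₀0, hv₀u, -, -⟩ := exists_perp3 hb hB u₀ 0 0
  have huv : f u₀ v₀ = 0 := by rw [hf.skew, hv₀u, neg_zero]
  obtain ⟨a, ha, b, hbB, hy⟩ := hP.pair.decomp ((g : Matrix ι ι F) *ᵥ v₀)
  have hab : f a b = 0 := hcon g hg v₀ (Or.inr hv₀) a ha b hbB hy
  have hact : ∀ t : F, Act M (sm f (e + w) (t • (a + b))) := by
    intro t
    have h1 := sm_conj hg hiso (hP.sm_act hf hu₀ (B.smul_mem t hv₀)
      (by rw [hb.smul_right, huv, mul_zero]))
    rwa [hgu, Matrix.mulVec_smul, hy] at h1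
  have hb0 : b = 0 := by
    by_contra hb0
    obtain ⟨u₁, hu₁, h1⟩ := hP.pair.pair_nd hf hw hw0
    obtain ⟨u₂, hu₂, h3⟩ := hP.pair.pair_nd hf hbB hb0
    exact h3 (fun_prod_zero hb (hP.prod_zero hf h2 hcon he hw ha hbB hew hab hact) hu₁ h1 u₂ hu₂)
  have ha0 : a = 0 := by
    by_contra ha0
    obtain ⟨u₁, hu₁, h1⟩ := hP.pair.symm.pair_nd hf he he0
    obtain ⟨u₂, hu₂, h3⟩ := hP.pair.symm.pair_nd hf ha ha0
    have hcon2 : ∀ g' ∈ M, ∀ u, (u ∈ B ∨ u ∈ A) → ∀ e' ∈ B, ∀ w' ∈ A,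
        (g' : Matrix ι ι F) *ᵥ u = e' + w' → f e' w' = 0 := by
      intro g' hg' u hu e' he' w' hw' h
      rw [hf.skew, hcon g' hg' u hu.symm w' hw' e' he' (by rw [h, add_comm]), neg_zero]
    have hact2 : ∀ t : F, Act M (sm f (w + e) (t • (b + a))) := by
      intro t
      have h4 := hact t
      rwa [add_comm e w, add_comm a b] at h4
    exact h3 (fun_prod_zero hb (hP.symm.prod_zero hf h2 hcon2 hw he hbB ha
      (by rw [hf.skew, hew, neg_zero]) (by rw [hf.skew, hab, neg_zero]) hact2) hu₁ h1 u₂ hu₂)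
  rw [ha0, hb0, add_zero] at hy
  apply hv₀0
  apply gl_mulVec_injective g
  rw [hy, Matrix.mulVec_zero]

/-- The stabiliser of the pair moves a centre in `A` to a multiple of any other vector of
`A`. -/
lemma PairData.move (hP : PairData f A B M) {a a' : ι → F} (ha : a ∈ A) (ha0 : a ≠ 0)
    (ha' : a' ∈ A) (hS : InS f M a) : InS f M a' := by
  have hb := hf.bilinear
  by_cases ha'0 : a' = 0
  · rw [ha'0]
    exact InS_zero hf M
  obtain ⟨v, hv, h1, h2⟩ := hP.pair.exists_both_pair hf ha ha0 ha' ha'0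
  have hκ0 : f a v / f a' v ≠ 0 := div_ne_zero h1 h2
  have hu : (f a v)⁻¹ • ((f a v / f a' v) • a' - a) ∈ A :=
    A.smul_mem _ (A.sub_mem (A.smul_mem _ ha') ha)
  have huv : f ((f a v)⁻¹ • ((f a v / f a' v) • a' - a)) v = 0 := by
    rw [hb.smul_left, form_sub_left hb, hb.smul_left, div_mul_cancel₀ _ h2, sub_self, mul_zero]
  obtain ⟨k, hkM, hk⟩ := hP.sm_act hf hu hv huv
  have hka : (k : Matrix ι ι F) *ᵥ a = (f a v / f a' v) • a' := by
    rw [hk, sm_apply, hP.pair.isoA a ha _ hu, zero_smul, add_zero, smul_smul,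
      mul_inv_cancel₀ h1, one_smul]
    abel
  have h3 := InS_conj hf hkM (hP.isom k hkM) hS
  rw [hka] at h3
  have h4 := InS_smul hf h3 (f a v / f a' v)⁻¹
  rwa [smul_smul, inv_mul_cancel₀ hκ0, one_smul] at h4

/-- **Step C**: one non-zero centre in `A ∪ B` and an element of `M` swapping `A` and `B` make
every vector a centre. -/
theorem PairData.all_of_centre (hP : PairData f A B M) {τ : GL ι F} (hτM : τ ∈ M)
    (hτA : ∀ x ∈ A, (τ : Matrix ι ι F) *ᵥ x ∈ B) (hτB : ∀ x ∈ B, (τ : Matrix ι ι F) *ᵥ x ∈ A)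
    {p : ι → F} (hp0 : p ≠ 0) (hpAB : p ∈ A ∨ p ∈ B) (hp : InS f M p) : ∀ v, InS f M v := by
  have hb := hf.bilinear
  have hτ0 : (τ : Matrix ι ι F) *ᵥ p ≠ 0 := by
    intro h
    apply hp0
    apply gl_mulVec_injective τ
    rw [h, Matrix.mulVec_zero]
  have hτp := InS_conj hf hτM (hP.isom τ hτM) hp
  have hAll : (∀ a ∈ A, InS f M a) ∧ (∀ b ∈ B, InS f M b) := by
    rcases hpAB with hpA | hpB
    · exact ⟨fun a ha => hP.move hf hpA hp0 ha hp,
        fun b hb' => hP.symm.move hf (hτA p hpA) hτ0 hb' hτp⟩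
    · exact ⟨fun a ha => hP.move hf (hτB p hpB) hτ0 ha hτp,
        fun b hb' => hP.symm.move hf hpB hp0 hb' hp⟩
  obtain ⟨hAa, hBb⟩ := hAll
  intro v
  obtain ⟨e, he, w, hw, rfl⟩ := hP.pair.decomp v
  by_cases h : f e w = 0
  · by_cases he0 : e = 0
    · rw [he0, zero_add]
      exact hBb w hw
    · obtain ⟨w₁, hw₁, h1⟩ := hP.pair.pair_nd' hf he he0
      have h3 : InS f M (e + w₁) := InS_add hf (hBb w₁ hw₁) (hAa e he) h1
      have h4 : InS f M (w - w₁) := hBb _ (B.sub_mem hw hw₁)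
      have h5 : f (e + w₁) (w - w₁) ≠ 0 := by
        rw [form_sub_right hb, hb.add_left, hb.add_left, h, hP.pair.isoB w₁ hw₁ w hw,
          hP.pair.isoB w₁ hw₁ w₁ hw₁, add_zero, add_zero, zero_sub]
        exact neg_ne_zero.mpr h1
      have h6 := InS_add hf h4 h3 h5
      have h7 : e + w₁ + (w - w₁) = e + w := by abel
      rwa [h7] at h6
  · exact InS_add hf (hBb w hw) (hAa e he) h

/-- An isometry which maps `A` neither into `A` nor into `B`. -/
theorem LagPair.exists_isometry_moving (hP : LagPair f A B) (hA : 4 ≤ Module.finrank F A) :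
    ∃ s : GL ι F, (∀ x y, f ((s : Matrix ι ι F) *ᵥ x) ((s : Matrix ι ι F) *ᵥ y) = f x y) ∧
      (∃ x ∈ A, (s : Matrix ι ι F) *ᵥ x ∉ A) ∧ (∃ x ∈ A, (s : Matrix ι ι F) *ᵥ x ∉ B) := by
  have hb := hf.bilinear
  obtain ⟨e, he, he0, -, -, -⟩ := exists_perp3 hb hA 0 0 0
  obtain ⟨w, hw, hew⟩ := hP.pair_nd' hf he he0
  obtain ⟨x', hx', hx'0, hx'w, -, -⟩ := exists_perp3 hb hA w 0 0
  refine ⟨tvG (e + w) ((1 : F) • rho f (e + w)) (symp_dot0 hf _ _), stv_pres hf _ _,
    ⟨e, he, ?_⟩, ⟨x', hx', ?_⟩⟩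
  · rw [stv_mulVec hf, one_mul, hb.add_right, hf.alternating, zero_add]
    intro h
    have h2 : f e w • w ∈ A := by
      have h3 : f e w • w = (e + f e w • (e + w)) - e - f e w • e := by
        rw [smul_add]
        abel
      rw [h3]
      exact A.sub_mem (A.sub_mem h he) (A.smul_mem _ he)
    have h3 := hP.eq_zero h2 (B.smul_mem _ hw)
    rcases smul_eq_zero.mp h3 with h4 | h4
    · exact hew h4
    · apply hew
      rw [h4]
      exact form_zero_right hb e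
  · rw [stv_mulVec hf, one_mul, hb.add_right, hP.isoA x' hx' e he, hx'w, add_zero, zero_smul,
      add_zero]
    intro h
    exact hx'0 (hP.eq_zero hx' h)

omit hf in
/-- An invertible matrix which neither stabilises nor swaps the pair moves some vector of
`A ∪ B` outside `A ∪ B`. -/
theorem LagPair.exists_moved (hP : LagPair f A B) (hA0 : A ≠ ⊥) (hB0 : B ≠ ⊥) (g : GL ι F)
    (h : ¬ ((∀ x ∈ A, (g : Matrix ι ι F) *ᵥ x ∈ A) ∧ (∀ x ∈ B, (g : Matrix ι ι F) *ᵥ x ∈ B)))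
    (h' : ¬ ((∀ x ∈ A, (g : Matrix ι ι F) *ᵥ x ∈ B) ∧ (∀ x ∈ B, (g : Matrix ι ι F) *ᵥ x ∈ A))) :
    ∃ u, (u ∈ A ∨ u ∈ B) ∧ (g : Matrix ι ι F) *ᵥ u ∉ A ∧ (g : Matrix ι ι F) *ᵥ u ∉ B := by
  by_contra hcon0
  have hcon : ∀ u, (u ∈ A ∨ u ∈ B) → (g : Matrix ι ι F) *ᵥ u ∈ A ∨ (g : Matrix ι ι F) *ᵥ u ∈ B := by
    intro u hu
    by_contra h1
    push Not at h1
    exact hcon0 ⟨u, hu, h1.1, h1.2⟩
  have hadd : ∀ x y : ι → F, (g : Matrix ι ι F) *ᵥ (x + y) =
      (g : Matrix ι ι F) *ᵥ x + (g : Matrix ι ι F) *ᵥ y := fun x y => Matrix.mulVec_add _ x y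
  have h1 : (∀ v ∈ A, (g : Matrix ι ι F) *ᵥ v ∈ A) ∨ (∀ v ∈ A, (g : Matrix ι ι F) *ᵥ v ∈ B) :=
    two_cover (fun v => (g : Matrix ι ι F) *ᵥ v) hadd (fun v hv => hcon v (Or.inl hv))
  have h2 : (∀ v ∈ B, (g : Matrix ι ι F) *ᵥ v ∈ A) ∨ (∀ v ∈ B, (g : Matrix ι ι F) *ᵥ v ∈ B) :=
    two_cover (fun v => (g : Matrix ι ι F) *ᵥ v) hadd (fun v hv => hcon v (Or.inr hv))
  rcases h1 with h1 | h1 <;> rcases h2 with h2 | h2
  · obtain ⟨b, hb, hb0⟩ := Submodule.exists_mem_ne_zero_of_ne_bot hB0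
    have hmap := map_eq_of_le_of_finrank g A A h1 rfl
    have h3 : (g : Matrix ι ι F) *ᵥ b ∈ A.map (Matrix.toLin' (g : Matrix ι ι F)) := by
      rw [hmap]
      exact h2 b hb
    obtain ⟨a, ha, hab⟩ := h3
    rw [Matrix.toLin'_apply] at hab
    have h4 := gl_mulVec_injective g hab
    rw [h4] at ha
    exact hb0 (hP.eq_zero ha hb)
  · exact h ⟨h1, h2⟩
  · exact h' ⟨h1, h2⟩
  · obtain ⟨a, ha, ha0⟩ := Submodule.exists_mem_ne_zero_of_ne_bot hA0
    have hmap := map_eq_of_le_of_finrank g B B h2 rfl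
    have h3 : (g : Matrix ι ι F) *ᵥ a ∈ B.map (Matrix.toLin' (g : Matrix ι ι F)) := by
      rw [hmap]
      exact h1 a ha
    obtain ⟨b, hb, hba⟩ := h3
    rw [Matrix.toLin'_apply] at hba
    have h4 := gl_mulVec_injective g hba
    rw [h4] at hb
    exact ha0 (hP.eq_zero ha hb)

/-- Every linear functional is `f(·, w)` for some `w`. -/
lemma riesz_lin (φ : (ι → F) →ₗ[F] F) : ∃ w, ∀ x, f x w = φ x := by
  obtain ⟨w, hw⟩ := riesz hf (fun j => φ (fun k => if j = k then 1 else 0))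
  refine ⟨w, fun x => ?_⟩
  rw [← rho_dot hf.bilinear, hw]
  have h := LinearMap.pi_apply_eq_sum_univ φ x
  rw [h]
  unfold dotProduct
  apply Finset.sum_congr rfl
  intro j _
  rw [smul_eq_mul, mul_comm]

/-- An isometry swapping the two members of a pair of complementary totally isotropic
subspaces. -/
theorem LagPair.exists_swap (hP : LagPair f A B) : ∃ τ : GL ι F,
    (∀ x y, f ((τ : Matrix ι ι F) *ᵥ x) ((τ : Matrix ι ι F) *ᵥ y) = f x y) ∧
    (∀ x ∈ A, (τ : Matrix ι ι F) *ᵥ x ∈ B) ∧ (∀ x ∈ B, (τ : Matrix ι ι F) *ᵥ x ∈ A) := by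
  classical
  have hb := hf.bilinear
  have hB : LinearMap.BilinForm.IsAlt (bil hb) := fun x => hf.alternating x
  let bs := Module.finBasisOfFinrankEq F A rfl
  have hc := hP.isCompl
  choose w hw using fun i => riesz_lin hf ((bs.coord i).comp (A.projectionOnto B hc))
  have h1 : ∀ i j, bil hb (bs i : ι → F) (w j) = if i = j then 1 else 0 := by
    intro i j
    rw [bil_apply, hw j, LinearMap.comp_apply, Submodule.projectionOnto_apply_left,
      Module.Basis.coord_apply, Module.Basis.repr_self, Finsupp.single_apply]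
  have hwB : ∀ j, w j ∈ B := by
    intro j
    apply hP.symm.perp_mem hf
    intro x hx
    rw [hw j, LinearMap.comp_apply, Submodule.projectionOnto_apply_of_mem_right hc hx, map_zero]
  have h2 : ∀ i j, bil hb (bs i : ι → F) (bs j : ι → F) = 0 :=
    fun i j => hP.isoA _ (bs i).2 _ (bs j).2
  have h3 : ∀ i j, bil hb (w i) (w j) = 0 := fun i j => hP.isoB _ (hwB i) _ (hwB j)
  have h1' : ∀ i j, bil hb (w i) (-(bs j : ι → F)) = if i = j then 1 else 0 := by
    intro i j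
    rw [bil_apply, form_neg_right hb, hf.skew, neg_neg, ← bil_apply hb, h1 j i]
    by_cases hij : i = j
    · rw [if_pos hij, if_pos hij.symm]
    · rw [if_neg hij, if_neg (fun h => hij h.symm)]
  have h3' : ∀ i j, bil hb (-(bs i : ι → F)) (-(bs j : ι → F)) = 0 := by
    intro i j
    rw [bil_apply, form_neg_right hb, form_neg_left hb, neg_neg]
    exact h2 i j
  obtain ⟨g, hg, hgS⟩ := Cfsg.Agent.S2166.witt_family hB (fun i => (bs i : ι → F)) w w
    (fun i => -(bs i : ι → F)) h1 h2 h3 h1' h3 h3' Finset.univ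
  have hiso := Cfsg.Agent.Lib.Helper18.TP_isometry hB hg
  obtain ⟨g', -, hg'1, hg'2⟩ := Cfsg.Agent.Lib.Helper18.TP_inv hB hg
  have hval : ∀ x, LinearMap.toMatrix' g *ᵥ x = g x := fun x => LinearMap.toMatrix'_mulVec g x
  have hge : ∀ i, g (bs i : ι → F) = w i := fun i => (hgS i (Finset.mem_univ _)).1
  have hgw : ∀ i, g (w i) = -(bs i : ι → F) := fun i => (hgS i (Finset.mem_univ _)).2
  have hsum : ∀ x (hx : x ∈ A), x = ∑ i, (bs.repr ⟨x, hx⟩ i) • (bs i : ι → F) := by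
    intro x hx
    have h4 : ((∑ i, (bs.repr ⟨x, hx⟩ i) • bs i : A) : ι → F) = x := by rw [bs.sum_repr]
    refine h4.symm.trans ?_
    rw [Submodule.coe_sum]
    rfl
  refine ⟨⟨LinearMap.toMatrix' g, LinearMap.toMatrix' g',
    by rw [← LinearMap.toMatrix'_mul, hg'2, LinearMap.toMatrix'_one],
    by rw [← LinearMap.toMatrix'_mul, hg'1, LinearMap.toMatrix'_one]⟩, ?_, ?_, ?_⟩
  · intro x y
    show f (LinearMap.toMatrix' g *ᵥ x) (LinearMap.toMatrix' g *ᵥ y) = f x y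
    rw [hval, hval]
    exact hiso x y
  · intro x hx
    show LinearMap.toMatrix' g *ᵥ x ∈ B
    rw [hval, hsum x hx, map_sum]
    refine Submodule.sum_mem _ (fun i _ => ?_)
    rw [map_smul, hge]
    exact B.smul_mem _ (hwB i)
  · intro x hx
    show LinearMap.toMatrix' g *ᵥ x ∈ A
    rw [hval]
    apply hP.perp_mem hf
    intro a ha
    have key : ∀ i, f (bs i : ι → F) (g x) = 0 := by
      intro i
      have h5 := hiso (-(w i)) x
      rw [map_neg, hgw, neg_neg] at h5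
      rw [← bil_apply hb, h5, bil_apply, form_neg_left hb, hP.isoB _ (hwB i) x hx, neg_zero]
    rw [hsum a ha, ← bil_apply hb, map_sum, LinearMap.sum_apply]
    apply Finset.sum_eq_zero
    intro i _
    rw [map_smul, LinearMap.smul_apply, bil_apply, key, smul_zero]

end symp

end Cfsg.Agent.Lib.Helper97
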