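import Mathlib

set_option autoImplicit false

namespace Cfsg.Agent.Lib.Helper99.T2

open scoped commutatorElement

theorem t2cnt_range (n : ℕ) (P : ℕ → Bool) :
    ((Finset.range n).filter (fun i => P i = true)).card = (List.range n).countP P := by
  induction n with
  | zero => simp
  | succ k ih =>
    rw [Finset.range_add_one, Finset.filter_insert, List.range_succ, List.countP_append]
    by_cases h : P k = true
    · rw [if_pos h, Finset.card_insert_of_notMem (by simp), ih]
      simp [h]
    · rw [if_neg h, ih]
      simp [h]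

theorem t2_card_filter_eq_count (n r : ℕ) (f : ℕ → ℕ) (c : Fin n → Fin r)
    (hc : ∀ i : Fin n, (c i : ℕ) = f i) (q : Fin r) :
    (Finset.univ.filter (fun i => c i = q)).card =
      (List.range n).countP (fun i => f i == (q : ℕ)) := by
  rw [← t2cnt_range]
  refine Finset.card_bij (fun i _ => (i : ℕ)) ?_ ?_ ?_
  · intro i hi
    simp only [Finset.mem_filter, Finset.mem_univ, true_and] at hi
    simp only [Finset.mem_filter, Finset.mem_range, beq_iff_eq]
    refine ⟨i.isLt, ?_⟩
    rw [← hc i, hi]
  · intro i _ j _ hij
    exact Fin.ext hij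
  · intro b hb
    simp only [Finset.mem_filter, Finset.mem_range, beq_iff_eq] at hb
    refine ⟨⟨b, hb.1⟩, ?_, rfl⟩
    simp only [Finset.mem_filter, Finset.mem_univ, true_and]
    apply Fin.ext
    rw [hc ⟨b, hb.1⟩]
    exact hb.2

end Cfsg.Agent.Lib.Helper99.T2
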