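import Mathlib

set_option autoImplicit false

namespace Cfsg.Agent.Lib.Helper99.T2

open scoped commutatorElement

theorem t2_conj_mem_commutator_self {Γ : Type*} [Group Γ] (H : Subgroup Γ) (g : Γ)
    (hg : ∀ x ∈ H, g * x * g⁻¹ ∈ H) : ∀ y ∈ ⁅H, H⁆, g * y * g⁻¹ ∈ ⁅H, H⁆ := by
  intro y hy
  rw [Subgroup.commutator_def] at hy
  induction hy using Subgroup.closure_induction with
  | mem z hz =>
    obtain ⟨a, ha, b, hb, rfl⟩ := hz
    have h : g * ⁅a, b⁆ * g⁻¹ = ⁅g * a * g⁻¹, g * b * g⁻¹⁆ := by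
      simp only [commutatorElement_def]
      group
    rw [h]
    exact Subgroup.commutator_mem_commutator (hg a ha) (hg b hb)
  | one =>
    simp
  | mul y z _ _ ihy ihz =>
    have h : g * (y * z) * g⁻¹ = (g * y * g⁻¹) * (g * z * g⁻¹) := by group
    rw [h]
    exact mul_mem ihy ihz
  | inv y _ ihy =>
    have h : g * y⁻¹ * g⁻¹ = (g * y * g⁻¹)⁻¹ := by group
    rw [h]
    exact inv_mem ihy

end Cfsg.Agent.Lib.Helper99.T2
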